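import Cfsg.Agent.Lib.Cls.DSet
import Cfsg.Agent.Lib.SLn.ProdGen

/-!
A presentation of the orthogonal groups of plus type.
-/

set_option autoImplicit false

namespace Cfsg.Agent.Cls

open Forms Forms.Form Subgroup Pres Monoid
open scoped commutatorElement

theorem presN_add_one.{u} {G : Type u} [Group G] {L E : Subgroup G} {g r : ℕ} (hL : PresN L g r)
    (n : G) (hE : closure (insert n (L : Set G)) = E)
    (R : List (Coprod L (FreeGroup Unit) × Set (Coprod L (FreeGroup Unit))))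
    (hR : ∀ x ∈ R, ∃ s ∈ x.2, Coprod.lift L.subtype (FreeGroup.lift fun _ => n) x.1 =
      Coprod.lift L.subtype (FreeGroup.lift fun _ => n) s)
    (hJ : ∀ (J : Type u) [Group J] (ψ : Coprod L (FreeGroup Unit) →* J) (φ : J →* G),
      Box φ (ψ.comp Coprod.inl).range L → (∀ x, φ (ψ (Coprod.inl x)) = x) →
      φ (ψ (Coprod.inr (.of ()))) = n →
      closure (insert (ψ (Coprod.inr (.of ()))) ((ψ.comp Coprod.inl).range : Set J)) = ⊤ →
      (∀ x ∈ R, ∃ s ∈ x.2, ψ x.1 = ψ s) → Function.Injective φ) :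
    PresN E (g + 1) (r + R.length) := by
  obtain ⟨π, hπ⟩ := hL
  have top : ∀ {J : Type u} [Group J] (ψ : Coprod L (FreeGroup Unit) →* J),
      closure (insert (ψ (Coprod.inr (.of ()))) ((ψ.comp Coprod.inl).range : Set J)) = ψ.range := by
    intro J _ ψ
    refine le_antisymm ((closure_le _).2 ?_) ?_
    · rintro _ (rfl | ⟨x, rfl⟩) <;> exact ⟨_, rfl⟩
    rw [MonoidHom.range_eq_map, ← Coprod.range_inl_sup_range_inr, Subgroup.map_sup,
      ← MonoidHom.range_comp, ← MonoidHom.range_comp, MonoidHom.range_eq_map (ψ.comp Coprod.inr),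
      ← FreeGroup.closure_range_of, MonoidHom.map_closure]
    exact sup_le (fun x hx => subset_closure (.inr hx))
      (closure_mono (by rintro _ ⟨_, ⟨_, rfl⟩, rfl⟩; exact .inl rfl))
  have e : (Coprod.lift L.subtype (FreeGroup.lift fun _ : Unit => n)).range = E := by
    rw [← top, ← hE]; simp
  refine ((hπ.coprod (hasPres_free Unit)).cover
    ((Coprod.lift L.subtype (FreeGroup.lift fun _ => n)).codRestrict E fun x => e ▸ ⟨x, rfl⟩)
    (fun y => let ⟨x, hx⟩ := (e ▸ y.2 : y.1 ∈ MonoidHom.range _); ⟨x, Subtype.ext hx⟩) R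
    (fun x hx => let ⟨s, h1, h2⟩ := hR x hx; ⟨s, h1, Subtype.ext h2⟩)
    fun J _ ψ φ h1 h2 h3 => ?_).pres (by simp) (by simp)
  have h4 : ∀ x, E.subtype.comp φ (ψ x) = Coprod.lift L.subtype (FreeGroup.lift fun _ => n) x :=
    fun x => congrArg Subtype.val (h2 x)
  exact .of_comp (f := E.subtype) (hJ J ψ (E.subtype.comp φ) (.of_range fun x => h4 _)
    (fun x => h4 _) ((h4 _).trans (by simp)) ((top ψ).trans (MonoidHom.range_eq_top.2 h1)) h3)

variable {F : Type*} [Field F] {V : Type*} [AddCommGroup V] [Module F V] {I : Type*}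
  [InvolutiveNeg I]

theorem Frame.exists_gen_prod {P : Param F} {f : Form P V} [Finite I] [Finite F] (fr : Frame f I)
    {S : Set I} (S1 : ∀ i ∈ S, -i ∉ S) {i j : I} (hi : i ∈ S) (hj : j ∈ S) (e : j ≠ i)
    (h : 4 ≤ S.ncard) : ∃ Γ : List f.Isom, Γ.length = (if S.ncard = 4 then 3 else 2) ∧
      closure {x | x ∈ Γ} = fr.Levi {i, j} ⊔ fr.Levi (S \ {i, j}) := by
  have s : ({i, j} : Set I) ⊆ S := by rintro _ (rfl | rfl) <;> assumption
  have c := Set.ncard_pair e.symm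
  have c' := Set.ncard_sdiff s
  obtain ⟨e1⟩ := fr.exists_equiv_levi le_rfl c fun a ha h => S1 a (s ha) (s h)
  obtain ⟨e2⟩ := fr.exists_equiv_levi (S := S \ {i, j}) (by omega) rfl fun a ha h => S1 a ha.1 h.1
  obtain ⟨Γ, h1, h2⟩ := SLn.prod_gen (K := F) (m := (S \ {i, j}).ncard) (by omega)
  let θ := MonoidHom.noncommCoprod ((fr.Levi _).subtype.comp e1.toMonoidHom)
    ((fr.Levi _).subtype.comp e2.toMonoidHom) fun a b => fr.Levi_commute'
      (fun a ha => ⟨ha.2, fun h => S1 a ha.1 (s h)⟩) (e2 b).2 (e1 a).2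
  refine ⟨Γ.map θ, by rw [List.length_map, h1]; exact if_congr (by omega) rfl rfl, ?_⟩
  have := congrArg (Subgroup.map θ) h2
  rw [MonoidHom.map_closure, ← MonoidHom.range_eq_map, MonoidHom.noncommCoprod_range,
    MonoidHom.range_comp, MonoidHom.range_comp, MonoidHom.range_eq_top.2 e1.surjective,
    MonoidHom.range_eq_top.2 e2.surjective, ← MonoidHom.range_eq_map, ← MonoidHom.range_eq_map,
    range_subtype, range_subtype] at this
  rw [← this]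
  congr 1
  ext; simp

theorem Frame.ext_pos {P : Param F} {f : Form P V} [Finite I] (fr : Frame f I) {S : Set I}
    (S2 : ∀ i, i ∈ S ∨ -i ∈ S) {g g' : f.Isom} (hg : g ∈ fr.Mon) (hg' : g' ∈ fr.Mon)
    (h1 : ∀ a ∈ S, g.1 (fr.e a) = g'.1 (fr.e a)) (h2 : ∀ v ∈ fr.V0, g.1 v = g'.1 v) : g = g' := by
  have k : ∀ a ∈ S, (g'⁻¹ * g).1 (fr.e a) = fr.e a := fun a ha => by
    rw [Isom.mul_apply, h1 a ha, Isom.inv_apply]
  refine fr.ext (fun a => (S2 a).elim (h1 a) fun ha => ?_) h2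
  have := fr.apply_neg (t := 1) (by rw [k _ ha, one_smul])
    ((Frame.Mv.of_eq (k _ ha)).neg' (mul_mem (inv_mem hg') hg))
  rw [neg_neg, map_one, inv_one, one_smul, Isom.mul_apply] at this
  conv_rhs => rw [← this, Isom.apply_inv]

theorem Box.id {G : Type*} [Group G] (H : Subgroup G) : Box (MonoidHom.id G) H H :=
  ⟨fun _ _ h => h, fun _ h => h, fun g hg => ⟨g, hg, rfl⟩⟩

theorem plus_presN {f : Form (Param.orth F) V} [Finite I] [Finite F] (fr : Frame f I)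
    (V0 : ∀ v ∈ fr.V0, v = 0) {S : Set I} (S1 : ∀ i ∈ S, -i ∉ S)
    (S2 : ∀ i, i ∈ S ∨ -i ∈ S) (hS : 4 ≤ S.ncard)
    (h4 : ∀ a b c : I, ∃ l, l ≠ a ∧ l ≠ -a ∧ l ≠ b ∧ l ≠ -b ∧ l ≠ c ∧ l ≠ -c) {g r : ℕ}
    (hL : PresN (fr.Levi S) g r) : PresN fr.EG (g + 1) (r + if S.ncard = 4 then 8 else 6) := by
  obtain ⟨i, hi, j, hj, k, hk, ij, ik, jk⟩ := (Set.two_lt_ncard (Set.toFinite S)).1 (by omega)
  have ne : ∀ {a b}, a ∈ S → b ∈ S → b ≠ -a := fun ha hb e => S1 _ ha (e ▸ hb)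
  obtain ⟨Γ, Γ1, Γ2⟩ := fr.exists_gen_prod S1 hi hj ij.symm hS
  obtain ⟨c, c0, cM, c2, c3, c4⟩ := fr.exists_swap hj hk (ne hj hk)
  have c1 := Frame.Mv.of_eq (c4 i ij (ne hj hi) ik (ne hk hi))
  obtain ⟨x, x1, x0⟩ := fr.exists_RX_ne_one (Or.inl (neg_ne_of (ne hj hk))) (neg_ne_neg_of jk.symm)
  rw [fr.RX_of_ne (neg_ne_of (ne hj hk))] at x1
  have x2 := fr.mem_Levi hj hk jk.symm x1
  obtain ⟨u, hu⟩ := fr.exists_RA (ne hi hj) 1
  obtain ⟨y, hy⟩ := fr.exists_RA (neg_ne_neg_of (ne hi hj)) _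
  obtain ⟨w1, w2, w3, w4⟩ := fr.W1_apply ij.symm (ne hi hj) one_ne_zero hu hy
  have y1 : y ∈ XR fr (MonoidHom.id _) fr.U (-i) (-j) :=
    (mem_XR_of_ne (neg_ne_neg_of ij.symm)).2 ⟨fr.RA_subset_U ⟨_, hy⟩, _, hy⟩
  have nW : y * u * y ∈ WR fr (MonoidHom.id _) fr.U i j :=
    ⟨fr.mon_of_W1 ⟨_, w3⟩ ⟨_, w1⟩ ⟨_, w4⟩ ⟨_, w2⟩ fun a => fr.W1_fix ⟨_, hu⟩ ⟨_, hy⟩ ⟨_, hy⟩, u,
      (mem_XR_of_ne ij.symm).2 ⟨fr.RA_subset_U ⟨_, hu⟩, _, hu⟩, fun e => by
        have := hu.app (fr.e (-i))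
        rw [e] at this
        simpa [fr.B_eq' (neg_ne_neg_of ij), fr.B_ne', fr.e_ne_zero] using this, y, y1, y, y1, rfl⟩
  have nl : y * u * y ∈ fr.Levi {j, -i} :=
    have := SetD1.mem_levi (.inl ⟨rfl, rfl⟩) ij.symm (ne hi hj) (.inr ⟨_, hy⟩)
    mul_mem (mul_mem this (SetD1.mem_levi (.inl ⟨rfl, rfl⟩) ij.symm (ne hi hj) (.inl ⟨_, hu⟩))) this
  have n4 : (y * u * y * (y * u * y)).1 (fr.e i) = -fr.e i := by
    rw [Isom.mul_apply, w3, map_smul, w2, smul_smul]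
    simp [fr.B_ne']
  have n5 : (y * u * y * (y * u * y)).1 (fr.e j) = -fr.e j := by
    rw [Isom.mul_apply, w4, map_smul, w1, smul_smul]
    simp [fr.B_ne']
  have hC : ¬ fr.HasC := fun ⟨v, hv, l, h1, h2⟩ =>
    h2 (by rw [f.orth_isLam_iff.1 h1, V0 v hv, f.Q_zero])
  generalize y * u * y = n at nW nl n4 n5
  have cen : ∀ l ∈ fr.Levi {i, j} ⊔ fr.Levi (S \ {i, j}), ∀ y ∈ fr.Levi {j, -i}, Commute l y := by
    intro l hl y hy
    have R : ∀ a b, b ≠ a → b ≠ -a → ∀ x ∈ fr.RA a b, ∀ y ∈ fr.RA a (-b), Commute x y :=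
      fun a b h1 h2 x hx y hy => commutatorElement_eq_one_iff_commute.1
        (mem_bot.1 (fr.RC_eq_bot hC a ▸ fr.rgd.R2 a b h1 h2 x hx y hy))
    have e := ne hi hj
    have e' := ne hj hi
    refine (sup_le (fr.Levi_le ?_) (fun l hl => mem_centralizer_singleton_iff.2 (fr.Levi_commute'
      ?_ hy hl)) : _ ≤ centralizer {y}) hl y rfl |>.symm
    · intro a ha b hb ab x hx
      refine mem_centralizer_singleton_iff.2 (fr.Levi_le (N := centralizer {x}) ?_ hy x rfl)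
      intro a' ha' b' hb' ab' y hz
      refine mem_centralizer_singleton_iff.2 (Commute.symm ?_)
      rcases ha with rfl | rfl <;> rcases hb with rfl | rfl <;> rcases ha' with rfl | rfl <;>
        rcases hb' with rfl | rfl <;> try contradiction
      · exact R _ _ (neg_ne_of e) (neg_ne_neg_of ab) x hx y
          (by rw [neg_neg] at hz ⊢; exact fr.RA_swap e' hz)
      · exact R _ _ e' (by rw [neg_neg]; exact ij) x (fr.RA_swap (neg_ne_neg_of ab) hx) y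
          (fr.RA_swap (neg_ne_neg_of e) hz)
      · exact R _ _ (neg_ne_of e') (neg_ne_neg_of ab) x hx y hz
      · exact R _ _ e (by rw [neg_neg]; exact ij.symm) x (fr.RA_swap (neg_ne_neg_of ab) hx) y hz
    · rintro _ (rfl | rfl)
      · exact ⟨fun h => h.2 (by simp), fun h => S1 _ hj h.1⟩
      · exact ⟨fun h => S1 _ hi h.1, fun h => h.2 (by simp)⟩
  have nM : n ∈ fr.Mon := nW.1
  have n2 : n * n ∈ fr.Levi S := by
    obtain ⟨g, g1, g2, g3, g4, g5, -⟩ := fr.exists_torus_A ij.symm (ne hi hj) (v := -1) (by simp)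
    refine fr.ext_pos S2 (fr.mem_Mon fun k => ⟨k, g4 k⟩) (mul_mem nM nM) (fun a ha => ?_)
      (fun v hv => by simp [V0 v hv]) ▸ g1 S hi hj
    by_cases a1 : a = i
    · rw [a1, g2, n4, neg_one_smul]
    by_cases a2 : a = j
    · rw [a2, g3, n5, inv_neg, inv_one, neg_one_smul]
    have : n.1 _ = _ := W_fix (φ := MonoidHom.id _) nW a1 (ne hi ha) a2 (ne hj ha)
    rw [g5 a a1 (ne hi ha) a2 (ne hj ha), Isom.mul_apply, this, this]
  have D : SetD1 fr (MonoidHom.id _) S i j k (fr.Levi S) n c :=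
    ⟨S1, S2, hi, hj, hk, ij.symm, ik.symm, jk.symm, h4, .id _, nW, c0, cM, c1, c2, c3⟩
  have sub : ∀ {a b}, a ∈ S → b ∈ S → fr.Levi {a, b} ≤ fr.Levi S := fun ha hb =>
    fr.Levi_mono (by rintro _ (rfl | rfl) <;> assumption)
  have nK := sub hj hk (D.levi_jk nl)
  have hΓ : ∀ γ ∈ Γ, γ ∈ fr.Levi {i, j} ⊔ fr.Levi (S \ {i, j}) := fun γ h => Γ2 ▸ subset_closure h
  have hΓ' := fun γ h => sup_le (sub hi hj) (fr.Levi_mono Set.sdiff_subset) (hΓ γ h)
  let A : ∀ {a}, a ∈ fr.Levi S → Coprod (fr.Levi S) (FreeGroup Unit) := fun h => Coprod.inl ⟨_, h⟩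
  let N : Coprod (fr.Levi S) (FreeGroup Unit) := Coprod.inr (.of ())
  let L' : Set (Coprod (fr.Levi S) (FreeGroup Unit)) := Set.range Coprod.inl
  refine (presN_add_one hL n ?_ ([((A c0 * N * (A c0)⁻¹)⁻¹ * N * (A c0 * N * (A c0)⁻¹), L'),
    (N * N, L')] ++ Γ.attach.map (fun γ => (⁅A (hΓ' _ γ.2), N⁆, {1})) ++ Γ.attach.map fun γ =>
      (⁅A (hΓ' _ γ.2), A c0 * N * (A c0)⁻¹ * A x2 * (A c0 * N * (A c0)⁻¹)⁻¹⁆, {1})) ?_ ?_).mono
      le_rfl (by simp only [List.length_append, List.length_map, List.length_attach, Γ1]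
                 split_ifs <;> simp)
  · refine le_antisymm ((closure_le _).2 ?_) ?_
    · rintro _ (rfl | h)
      · exact fr.Levi_le (fun a _ b _ _ g hg => fr.RS_le_EG _ _ hg) nl
      · exact fr.Levi_le (fun a _ b _ _ g hg => fr.RS_le_EG _ _ hg) h
    have D' := (⟨D, mem_KD0.2 ⟨nK, nl⟩, n2, fun l _ h => cen l h n nl⟩ :
      SetD0 _ _ _ _ _ _ _ _ _).setD x2 x1 x0 fun l _ h => cen l h _ (SetD1.mem_levi (.inr ⟨rfl, rfl⟩)
        ij.symm (ne hi hj) (.inl (D.n'_mv.2.2.1.conj_RA (by simpa using D.n'_mv.2.1.neg' D.n'_mv.1) x1)))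
    have B := D'.base (fr.RC_eq_bot hC i)
    refine fr.EG_le (fun a b h1 h2 g hg => ?_) fun a => fr.RC_eq_bot hC a ▸ bot_le
    obtain ⟨m, hm, m1, m2⟩ := B.trans h1 h2
    have m3 := closure_mono (Set.insert_subset_insert (fun _ h => h.1 : _ ⊆ (fr.Levi S : Set _))) hm
    simpa [mul_assoc] using mul_mem (mul_mem (inv_mem m3) (subset_closure (.inr
      (fr.mem_Levi hi hj ij.symm (m1.conj_RA m2 hg))))) m3
  · simp only [List.forall_mem_append, List.forall_mem_cons, List.forall_mem_map,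
      Set.mem_singleton_iff, exists_eq_left, map_one, map_commutatorElement,
      commutatorElement_eq_one_iff_commute]
    exact ⟨⟨⟨⟨A nK, ⟨_, rfl⟩, rfl⟩, ⟨A n2, ⟨_, rfl⟩, rfl⟩, by simp⟩, fun γ _ => cen _ (hΓ _ γ.2) n nl⟩,
      fun γ _ => cen _ (hΓ _ γ.2) _ (SetD1.mem_levi (.inr ⟨rfl, rfl⟩) ij.symm (ne hi hj)
        (.inl (D.n'_mv.2.2.1.conj_RA (by simpa using D.n'_mv.2.1.neg' D.n'_mv.1) x1)))⟩
  intro J _ ψ φ box eA eN gen hR
  simp only [List.forall_mem_append, List.forall_mem_cons, List.forall_mem_map,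
    Set.mem_singleton_iff, exists_eq_left, map_one, map_commutatorElement,
    commutatorElement_eq_one_iff_commute, map_mul, map_inv] at hR
  obtain ⟨⟨⟨r1, r2, -⟩, r3⟩, r4⟩ := hR
  have mL : ∀ {x : J}, (∃ s ∈ L', x = ψ s) → x ∈ (ψ.comp Coprod.inl).range := by
    rintro _ ⟨_, ⟨s, rfl⟩, rfl⟩; exact ⟨s, rfl⟩
  have cm : ∀ {y}, (∀ γ ∈ Γ.attach, Commute (ψ (A (hΓ' _ γ.2))) y) → ∀ l ∈ (ψ.comp Coprod.inl).range,
      φ l ∈ fr.Levi {i, j} ⊔ fr.Levi (S \ {i, j}) → Commute l y := fun {y} h l l1 l2 =>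
    commute_of_closure (s := Set.range fun γ : {x // x ∈ Γ} => ψ (A (hΓ' _ γ.2))) (t := {y})
      (by rintro _ ⟨γ, rfl⟩ _ rfl; exact h γ (List.mem_attach _ _))
      (box.mem_closure (by rintro _ ⟨γ, rfl⟩; exact ⟨_, rfl⟩) l1
        (Subgroup.closure_mono (by exact fun γ h => ⟨_, ⟨⟨γ, h⟩, rfl⟩, eA _⟩) (Γ2.ge l2))) (subset_closure rfl)
  refine SetD.injective (SetD0.setD (n := ψ N) (c := ψ (A c0)) ⟨⟨S1, S2, hi, hj, hk, ij.symm, ik.symm,
    jk.symm, h4, box, by rwa [eN], ⟨_, rfl⟩, by rwa [eA], by rwa [eA], by rwa [eA], by rwa [eA]⟩,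
    mem_KD0.2 ⟨mL r1, by rwa [eN]⟩, mL r2, cm r3⟩ (x := ψ (A x2)) ⟨_, rfl⟩ (by rwa [eA])
    (fun e => x0 ((eA ⟨x, x2⟩).symm.trans (by rw [e, map_one]))) (cm r4)) hC (by rwa [map_mul, eN]) gen

end Cfsg.Agent.Cls
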