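import Cfsg.Agent.Lib.Cls.MOFin

/-!
The monomial group generated by the monomial elements of a linear subgroup and one further
reflection.
-/

set_option autoImplicit false

namespace Cfsg.Agent.Cls

open Forms Forms.Form Subgroup
open scoped commutatorElement

variable {F : Type*} [Field F] {P : Param F} {V : Type*} [AddCommGroup V] [Module F V]
  {f : Form P V} {I : Type*} [InvolutiveNeg I] {J : Type*} [Group J]

namespace Frame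

variable (fr : Frame f I)

theorem conj_Levi {g : f.Isom} (hg : g ∈ fr.Mon) {S T : Set I} (h : ∀ a ∈ S, ∃ b ∈ T, fr.Mv g a b)
    {x : f.Isom} (hx : x ∈ fr.Levi S) : g * x * g⁻¹ ∈ fr.Levi T :=
  fr.Levi_le (N := (fr.Levi T).comap (MulAut.conj g).toMonoidHom) (fun a ha b hb e y hy => by
    obtain ⟨a', a1, a2⟩ := h a ha
    obtain ⟨b', b1, b2⟩ := h b hb
    exact fr.mem_Levi a1 b1 (fun e' => e (b2.inj (e' ▸ a2))) (a2.conj_RA (b2.neg' hg) hy)) hx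

theorem Levi_fix {S : Set I} {x : f.Isom} (hx : x ∈ fr.Levi S) {k : I} (h1 : k ∉ S) (h2 : -k ∉ S) :
    x.1 (fr.e k) = fr.e k :=
  fr.Levi_le (N := FixV fr (MonoidHom.id _) {k}ᶜ) (fun a ha b hb _ y hy l hl => by
    obtain rfl : l = k := by simpa using hl
    exact fr.RA_apply hy (fun e => h2 (by rwa [e, neg_neg])) fun e => h1 (by rwa [e, neg_neg]))
    hx k (by simp)

theorem Levi_commute {S : Set I} {g x : f.Isom}
    (h : ∀ a ∈ S, g.1 (fr.e a) = fr.e a ∧ g.1 (fr.e (-a)) = fr.e (-a)) (hx : x ∈ fr.Levi S) :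
    Commute g x :=
  fr.Levi_le (N := centralizer {g}) (fun a ha b hb _ _ hy => mem_centralizer_singleton_iff.2
    (fr.commute_RA hy (h a ha).1 (h b hb).2).symm) hx g rfl

theorem Levi_commute' {S T : Set I} (h : ∀ a ∈ S, a ∉ T ∧ -a ∉ T) {x y : f.Isom}
    (hx : x ∈ fr.Levi S) (hy : y ∈ fr.Levi T) : Commute y x :=
  fr.Levi_commute (fun a ha => ⟨fr.Levi_fix hy (h a ha).1 (h a ha).2,
    fr.Levi_fix hy (h a ha).2 (by rw [neg_neg]; exact (h a ha).1)⟩) hx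

end Frame

section defs

variable (fr : Frame f I) (φ : J →* f.Isom) (i j : I) (L : Subgroup J) (n c : J)

/-- the conjugate of a linear subgroup of rank one belonging to the root `i + j` -/
def KD0 : Subgroup J :=
  L.comap (MulAut.conj (c * n * c⁻¹)⁻¹).toMonoidHom ⊓ (fr.Levi {j, -i}).comap φ

/-- its conjugates -/
def KP (a b : I) : Subgroup J where
  carrier := {x | ∀ l ∈ NL fr φ L, fr.Mv (φ l) a i → fr.Mv (φ l) b j →
    l * x * l⁻¹ ∈ KD0 fr φ i j L n c}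
  one_mem' := fun m _ _ _ => by simp
  mul_mem' := fun {x y} hx hy m hm h1 h2 => by
    simpa [mul_assoc] using mul_mem (hx m hm h1 h2) (hy m hm h1 h2)
  inv_mem' := fun {x} hx m hm h1 h2 => by simpa [mul_assoc] using inv_mem (hx m hm h1 h2)

/-- root elements -/
structure PD (S : Set I) (a b : I) (x : J) : Prop where
  mem : φ x ∈ fr.RA a b
  l1 : a ∈ S → -b ∈ S → x ∈ L
  l2 : -a ∈ S → b ∈ S → x ∈ L
  k1 : a ∈ S → b ∈ S → x ∈ KP fr φ i j L n c a b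
  k2 : -a ∈ S → -b ∈ S → x ∈ KP fr φ i j L n c (-a) (-b)

end defs

/-- A linear subgroup and a further reflection. -/
structure SetD1 (fr : Frame f I) (φ : J →* f.Isom) (S : Set I) (i j k : I) (L : Subgroup J)
    (n c : J) : Prop where
  S1 : ∀ i ∈ S, -i ∉ S
  S2 : ∀ i, i ∈ S ∨ -i ∈ S
  hi : i ∈ S
  hj : j ∈ S
  hk : k ∈ S
  ji : j ≠ i
  ki : k ≠ i
  kj : k ≠ j
  h4 : ∀ a b c : I, ∃ l, l ≠ a ∧ l ≠ -a ∧ l ≠ b ∧ l ≠ -b ∧ l ≠ c ∧ l ≠ -c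
  box : Box φ L (fr.Levi S)
  nW : φ n ∈ WR fr (MonoidHom.id _) fr.U i j
  cL : c ∈ L
  cM : φ c ∈ fr.Mon
  c1 : fr.Mv (φ c) i i
  c2 : fr.Mv (φ c) j k
  c3 : fr.Mv (φ c) k j

/-- the same, with relations -/
structure SetD0 (fr : Frame f I) (φ : J →* f.Isom) (S : Set I) (i j k : I) (L : Subgroup J)
    (n c : J) : Prop extends SetD1 fr φ S i j k L n c where
  nK : n ∈ KD0 fr φ i j L n c
  n2 : n * n ∈ L
  comm : ∀ l ∈ L, φ l ∈ fr.Levi {i, j} ⊔ fr.Levi (S \ {i, j}) → Commute l n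

/-- the same, with the commutation of the new root subgroups -/
structure SetD (fr : Frame f I) (φ : J →* f.Isom) (S : Set I) (i j k : I) (L : Subgroup J)
    (n c : J) : Prop extends SetD0 fr φ S i j k L n c where
  commK : ∀ l ∈ L, φ l ∈ fr.Levi {i, j} ⊔ fr.Levi (S \ {i, j}) →
    ∀ y ∈ KD0 fr φ i j L n c, Commute l y

variable {fr : Frame f I} {φ : J →* f.Isom} {S : Set I} {i j k : I} {L : Subgroup J} {n c : J}

theorem mem_KD0 {x : J} : x ∈ KD0 fr φ i j L n c ↔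
    (c * n * c⁻¹)⁻¹ * x * (c * n * c⁻¹) ∈ L ∧ φ x ∈ fr.Levi {j, -i} := by
  rw [← inv_inv (c * n * c⁻¹), inv_inv (c * n * c⁻¹)⁻¹]; rfl

theorem conj_KP {l x : J} (hl : l ∈ NL fr φ L) {a b a' b' : I} (h1 : fr.Mv (φ l) a a')
    (h2 : fr.Mv (φ l) b b') (hx : x ∈ KP fr φ i j L n c a b) :
    l * x * l⁻¹ ∈ KP fr φ i j L n c a' b' := fun m hm h3 h4 => by
  simpa [mul_assoc] using hx _ (mul_mem hm hl) (Base.mv_mul h3 h1) (Base.mv_mul h4 h2)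

theorem map_conj (g x : J) : φ (g * x * g⁻¹) = φ g * φ x * (φ g)⁻¹ := by simp

namespace SetD1

variable (h : SetD1 fr φ S i j k L n c)
include h

theorem ne' {a b : I} (ha : a ∈ S) (hb : b ∈ S) : b ≠ -a := fun e => h.S1 _ ha (e ▸ hb)

theorem mv_mem {l : J} (hl : l ∈ L) {a b : I} (ha : a ∈ S) (e : fr.Mv (φ l) a b) : b ∈ S :=
  fr.mv_mem_of_Levi h.S1 h.S2 (h.box.mem l hl) ha e

theorem mv_iff {l : J} (hl : l ∈ L) {a b : I} (e : fr.Mv (φ l) a b) : a ∈ S ↔ b ∈ S :=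
  ⟨fun ha => h.mv_mem hl ha e, fun hb => h.mv_mem (inv_mem hl) hb (Base.mv_inv e)⟩

variable [Finite I]

theorem n_mv : fr.Mv (φ n) i (-j) ∧ fr.Mv (φ n) j (-i) ∧ fr.Mv (φ n) (-i) j ∧ fr.Mv (φ n) (-j) i :=
  have := fr.pSt1.toPSt0
  have e := h.ne' h.hi h.hj
  ⟨this.W_mv2 e h.nW, this.W_mv4 e h.nW, this.W_mv1 e h.nW, this.W_mv3 e h.nW⟩

omit [Finite I] in
theorem n_fix {a : I} (h1 : a ≠ i) (h2 : a ≠ -i) (h3 : a ≠ j) (h4 : a ≠ -j) : fr.Mv (φ n) a a :=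
  .of_eq (W_fix (φ := MonoidHom.id _) h.nW h1 h2 h3 h4)

theorem n'_mv : φ (c * n * c⁻¹) ∈ fr.Mon ∧ fr.Mv (φ (c * n * c⁻¹)) k (-i) ∧
    fr.Mv (φ (c * n * c⁻¹)) j j ∧ fr.Mv (φ (c * n * c⁻¹)) i (-k) :=
  ⟨by rw [map_conj]; exact mul_mem (mul_mem h.cM h.nW.1) (inv_mem h.cM),
    Base.mv_mul (Base.mv_mul (h.c1.neg' h.cM) h.n_mv.2.1) (Base.mv_inv h.c2),
    Base.mv_mul (Base.mv_mul h.c3 (h.n_fix h.ki (h.ne' h.hi h.hk) h.kj (h.ne' h.hj h.hk)))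
      (Base.mv_inv h.c3),
    Base.mv_mul (Base.mv_mul (h.c2.neg' h.cM) h.n_mv.1) (Base.mv_inv h.c1)⟩

theorem levi_jk {g : f.Isom} (hg : g ∈ fr.Levi {j, -i}) :
    (φ (c * n * c⁻¹))⁻¹ * g * φ (c * n * c⁻¹) ∈ fr.Levi {j, k} := by
  simpa using fr.conj_Levi (T := {j, k}) (inv_mem h.n'_mv.1) (by
    rintro _ (rfl | rfl)
    exacts [⟨_, by simp, h.n'_mv.2.2.1.inv⟩, ⟨_, by simp, h.n'_mv.2.1.inv⟩]) hg

theorem boxK : Box φ (KD0 fr φ i j L n c) (fr.Levi {j, -i}) := by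
  refine ⟨fun x hx e => ?_, fun x hx => hx.2, fun g hg => ?_⟩
  · have := h.box.inj _ (mem_KD0.1 hx).1 (by rw [map_mul, map_mul, e, map_inv]; group)
    rwa [mul_assoc, inv_mul_eq_one, right_eq_mul] at this
  · obtain ⟨x, hx, e⟩ := h.box.surj _ (fr.Levi_mono (by
      rintro _ (rfl | rfl); exacts [h.hj, h.hk]) (h.levi_jk hg))
    have : φ (c * n * c⁻¹ * x * (c * n * c⁻¹)⁻¹) = g := by rw [map_conj, e]; group
    exact ⟨_, mem_KD0.2 ⟨by simpa [mul_assoc] using hx, this ▸ hg⟩, this⟩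

omit h [Finite I] in
theorem mem_levi {a b : I} (hu : a = i ∧ b = j ∨ a = j ∧ b = i) (e1 : j ≠ i) (e2 : j ≠ -i)
    {g : f.Isom} (hg : g ∈ fr.RA a b ∨ g ∈ fr.RA (-a) (-b)) : g ∈ fr.Levi {j, -i} := by
  have k1 : ∀ g ∈ fr.RA j i, g ∈ fr.Levi {j, -i} := fun g hg =>
    fr.mem_Levi (i := j) (j := -i) (by simp) (by simp) e2.symm (by rwa [neg_neg])
  have k2 : ∀ g ∈ fr.RA (-i) (-j), g ∈ fr.Levi {j, -i} := fun g hg =>
    fr.mem_Levi (by simp) (by simp) e2 hg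
  rcases hu with ⟨rfl, rfl⟩ | ⟨rfl, rfl⟩ <;> rcases hg with hg | hg
  exacts [k1 _ (fr.RA_swap e2 hg), k2 _ hg, k1 _ hg,
    k2 _ (fr.RA_swap (neg_ne_neg_of (ne_neg_swap e2)) hg)]

/-- elements of the centralizer moving three indices to the standard position -/
theorem exists_cen {u u' a : I} (hu : u = i ∧ u' = j ∨ u = j ∧ u' = i) (ha : a ∈ S \ {i, j}) :
    ∃ g ∈ NL fr φ L, φ g ∈ fr.Levi {i, j} ⊔ fr.Levi (S \ {i, j}) ∧ fr.Mv (φ g) u i ∧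
      fr.Mv (φ g) u' j ∧ fr.Mv (φ g) a k := by
  have a1 : a ≠ i ∧ a ≠ j := by simpa [not_or] using ha.2
  obtain ⟨g, g1, g2, g3, -, g4⟩ := fr.exists_swap ha (⟨h.hk, by simp [h.ki, h.kj]⟩ : k ∈ S \ {i, j})
    (h.ne' ha.1 h.hk)
  have b1 := Frame.Mv.of_eq (g4 i a1.1.symm (h.ne' ha.1 h.hi) h.ki.symm (h.ne' h.hk h.hi))
  have b2 := Frame.Mv.of_eq (g4 j a1.2.symm (h.ne' ha.1 h.hj) h.kj.symm (h.ne' h.hk h.hj))
  obtain ⟨g, hg, rfl⟩ := h.box.surj g (fr.Levi_mono Set.sdiff_subset g1)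
  rcases hu with ⟨rfl, rfl⟩ | ⟨rfl, rfl⟩
  · exact ⟨g, ⟨hg, g2⟩, mem_sup_right g1, b1, b2, g3⟩
  obtain ⟨w, w1, w2, w3, w4, w5⟩ := fr.exists_swap (S := {u', u}) (a := u') (b := u) (by simp)
    (by simp) (h.ne' h.hi h.hj)
  obtain ⟨w, hw, rfl⟩ := h.box.surj w (fr.Levi_mono (by
    rintro _ (rfl | rfl); exacts [h.hi, h.hj]) w1)
  exact ⟨w * g, mul_mem ⟨hw, w2⟩ ⟨hg, g2⟩, by
    rw [map_mul]; exact mul_mem (mem_sup_left w1) (mem_sup_right g1), Base.mv_mul w4 b2,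
    Base.mv_mul w3 b1,
    Base.mv_mul (.of_eq (w5 k h.ki (h.ne' h.hi h.hk) h.kj (h.ne' h.hj h.hk))) g3⟩

end SetD1

open SetD1 in
theorem SetD0.setD [Finite I] [Finite F] (h : SetD0 fr φ S i j k L n c) {x : J} (x1 : x ∈ L) (x2 : φ x ∈ fr.RA j (-k)) (x0 : x ≠ 1)
    (hx : ∀ l ∈ L, φ l ∈ fr.Levi {i, j} ⊔ fr.Levi (S \ {i, j}) →
      Commute l (c * n * c⁻¹ * x * (c * n * c⁻¹)⁻¹)) : SetD fr φ S i j k L n c := by
  have e := h.ne' h.hi h.hj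
  obtain ⟨m0, m1, m2, m3⟩ := h.n'_mv
  let H := L ⊓ (fr.Levi {i, j} ⊔ fr.Levi (S \ {i, j})).comap φ
  have b1 := h.boxK.inf (H' := fr.RS j i) fun g hg => mem_levi (.inr ⟨rfl, rfl⟩) h.ji e (.inl hg)
  have m4 : fr.Mv (φ (c * n * c⁻¹)) (-k) i := by simpa using m1.neg' m0
  have kk : ∀ {x}, x ∈ L → φ x ∈ fr.RA j (-k) → c * n * c⁻¹ * x * (c * n * c⁻¹)⁻¹ ∈
      KD0 fr φ i j L n c ⊓ (fr.RS j i).comap φ := fun {x} x1 x2 => by
    have : φ (c * n * c⁻¹ * x * (c * n * c⁻¹)⁻¹) ∈ fr.RA j i := by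
      rw [map_conj]; exact m2.conj_RA m4 x2
    exact ⟨mem_KD0.2 ⟨by simpa [mul_assoc] using x1, mem_levi (.inr ⟨rfl, rfl⟩) h.ji e (.inl this)⟩,
      this⟩
  obtain ⟨d, hd, d1, d2, d3⟩ : ∃ d ∈ S, d ≠ i ∧ d ≠ j ∧ d ≠ k := by
    obtain ⟨d, d1, d2, d3, d4, d5, d6⟩ := h.h4 i j k
    exact (h.S2 d).elim (fun e => ⟨d, e, d1, d3, d5⟩) fun e =>
      ⟨-d, e, neg_ne_of d2, neg_ne_of d4, neg_ne_of d6⟩
  have b2 := b1.le_of_span (N := centralizer H) (kk x1 x2) (conj_ne_one x0 _) span_sq (by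
    rintro _ ⟨t, ht, rfl⟩
    obtain ⟨g, g1, g2, -, g4, g5, -⟩ := fr.exists_torus_A d2 (h.ne' h.hj hd)
      (P.σ_ne_zero (pow_ne_zero 2 ht))
    obtain ⟨g, hg, rfl⟩ := h.box.surj g (g1 S h.hj hd)
    have gM := fr.mem_Mon fun k => ⟨k, g4 k⟩
    obtain ⟨d', hd'⟩ := h.cM.2 d
    have c4 : Commute (c⁻¹ * g * c⁻¹⁻¹) n := h.comm _ (mul_mem (mul_mem (inv_mem h.cL) hg)
      (inv_mem (inv_mem h.cL))) (mem_sup_right (by
        rw [map_conj, map_inv]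
        refine fr.conj_Levi (S := {j, d}) (inv_mem h.cM) ?_ (g1 _ (by simp) (by simp))
        rintro a (ha | ha) <;> rw [ha]
        · exact ⟨k, ⟨h.hk, by simp [h.ki, h.kj]⟩, h.c3.inv⟩
        · exact ⟨d', ⟨(h.mv_iff h.cL hd').2 hd, by
            rintro (rfl | rfl); exacts [d1 (hd'.unique h.c1), d3 (hd'.unique h.c2)]⟩, hd'.inv⟩))
    have c5 : Commute g (c * n * c⁻¹) := by simpa [mul_assoc] using c4.conj c
    refine ⟨g, _, 1, g2, by rw [one_smul, g5 i h.ji.symm (h.ne' h.hj h.hi) d1.symm (h.ne' hd h.hi)],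
      by simp [P.σσ], ?_, fun l hl => ?_⟩
    · rw [show g * (c * n * c⁻¹ * x * (c * n * c⁻¹)⁻¹) * g⁻¹ =
        g * (c * n * c⁻¹) * x * (g * (c * n * c⁻¹))⁻¹ by group, c5.eq]
      simpa [mul_assoc] using kk (mul_mem (mul_mem hg x1) (inv_mem hg)) (by
        rw [map_conj]; exact (g4 _).conj_RA (g4 _) x2)
    · have := hx (g⁻¹ * l * g⁻¹⁻¹) (mul_mem (mul_mem (inv_mem hg) hl.1) (inv_mem (inv_mem hg))) (by
        rw [map_conj, map_inv]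
        exact (sup_le (fun y hy => mem_sup_left (fr.conj_Levi (inv_mem gM)
          (fun a ha => ⟨a, ha, (g4 a).inv⟩) hy)) (fun y hy => mem_sup_right (fr.conj_Levi (inv_mem gM)
          (fun a ha => ⟨a, ha, (g4 a).inv⟩) hy)) : _ ≤ Subgroup.comap
            (MulAut.conj (φ g)⁻¹).toMonoidHom (fr.Levi {i, j} ⊔ fr.Levi (S \ {i, j}))) hl.2)
      simpa [mul_assoc] using (this.conj g).eq)
  refine ⟨h, fun l l1 l2 y hy => h.boxK.mem_of_le (N := centralizer H) (fr.Levi_le ?_) hy hy.2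
    l ⟨l1, l2⟩⟩
  rintro _ (rfl | rfl) _ (rfl | rfl) e' g hg
  · exact absurd rfl e'
  · obtain ⟨y, hy, rfl⟩ := b1.surj g (by rwa [neg_neg] at hg)
    exact ⟨y, ⟨hy.1, b2 hy⟩, rfl⟩
  · obtain ⟨y, hy, e⟩ := b1.surj _ (h.n_mv.2.2.1.conj_RA h.n_mv.2.2.2 hg)
    refine ⟨n⁻¹ * y * n, ⟨mul_mem (mul_mem (Subgroup.inv_mem _ h.nK) hy.1) h.nK, fun l hl => ?_⟩,
      by simp [e, mul_assoc]⟩
    have := (h.comm l hl.1 hl.2)
    exact ((this.inv_right.mul_right (b2 hy l hl)).mul_right this).eq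
  · exact absurd rfl e'

namespace SetD

variable (h : SetD fr φ S i j k L n c) [Finite I] [Finite F]
include h

theorem stab0 {l : J} (hl : l ∈ NL fr φ L) (h1 : fr.Mv (φ l) i i) (h2 : fr.Mv (φ l) j j) {x : J}
    (hx : x ∈ KD0 fr φ i j L n c) : l * x * l⁻¹ ∈ KD0 fr φ i j L n c := by
  obtain ⟨s, hs⟩ := h1
  obtain ⟨t, ht⟩ := h2
  have s0 := fr.smul_ne_zero hs
  have t0 := fr.smul_ne_zero ht
  obtain ⟨a, a1, a2, a3, a4, -⟩ := fr.exists_torus_A h.ji (h.ne' h.hi h.hj) (inv_ne_zero t0)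
  obtain ⟨b, b1, b2, -, b4, b5, -⟩ := fr.exists_torus_A h.ki (h.ne' h.hi h.hk) (mul_ne_zero s0 t0)
  obtain ⟨a, ha, rfl⟩ := h.box.surj a (a1 S h.hi h.hj)
  obtain ⟨b, hb, rfl⟩ := h.box.surj b (b1 S h.hi h.hk)
  have mon : ∀ {g : f.Isom}, (∀ k, fr.Mv g k k) → g ∈ fr.Mon := fun h => fr.mem_Mon fun k => ⟨k, h k⟩
  have c1 : (b * a)⁻¹ * l ∈ L := mul_mem (inv_mem (mul_mem hb ha)) hl.1
  have c2 := h.commK _ c1 (mem_sup_right (fr.Levi_stab h.S1 h.S2 (by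
    rintro _ (rfl | rfl); exacts [h.hi, h.hj]) (h.box.mem _ c1) (by
      rw [map_mul, map_inv, map_mul]; exact mul_mem (inv_mem (mul_mem (mon b4) (mon a4))) hl.2) (by
      have e1 : (φ (b * a)).1 (fr.e i) = s • fr.e i := by
        rw [map_mul, Isom.mul_apply, a2, map_smul, b2, smul_smul]; congr 1; field_simp
      have e2 : (φ (b * a)).1 (fr.e j) = t • fr.e j := by
        rw [map_mul, Isom.mul_apply, a3, map_smul, inv_inv,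
          b5 j h.ji (h.ne' h.hi h.hj) h.kj.symm (h.ne' h.hk h.hj)]
      rintro _ (rfl | rfl) <;> rw [map_mul, map_inv, Isom.mul_apply]
      · rw [hs, ← e1, Isom.inv_apply]
      · rw [ht, ← e2, Isom.inv_apply]))) x hx
  have c3 := h.commK a ha (mem_sup_left (a1 _ (by simp) (by simp))) x hx
  have c4 : Commute (c⁻¹ * b * c⁻¹⁻¹) n := h.comm _ (mul_mem (mul_mem (inv_mem h.cL) hb)
    (inv_mem (inv_mem h.cL))) (mem_sup_left (by
      rw [map_conj, map_inv]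
      exact fr.conj_Levi (S := {i, k}) (inv_mem h.cM) (by
        rintro _ (rfl | rfl)
        exacts [⟨_, by simp, h.c1.inv⟩, ⟨_, by simp, h.c2.inv⟩]) (b1 _ (by simp) (by simp))))
  have c5 : Commute b (c * n * c⁻¹) := by simpa [mul_assoc] using c4.conj c
  rw [show l * x * l⁻¹ = b * (a * ((b * a)⁻¹ * l * x * ((b * a)⁻¹ * l)⁻¹) * a⁻¹) * b⁻¹ by group,
    c2.eq, mul_inv_cancel_right, c3.eq, mul_inv_cancel_right]
  refine mem_KD0.2 ⟨?_, ?_⟩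
  · convert mul_mem (mul_mem hb (mem_KD0.1 hx).1) (inv_mem hb) using 1
    generalize c * n * c⁻¹ = m at c5 ⊢
    calc _ = m⁻¹ * b * x * (m⁻¹ * b)⁻¹ := by group
      _ = _ := by rw [← c5.inv_right.eq]; group
  · rw [map_conj]
    exact fr.conj_Levi (mon b4) (fun a ha => ⟨a, ha, b4 a⟩) hx.2

theorem mem_KP_of {l x : J} (hl : l ∈ NL fr φ L) {u u' a b : I}
    (hu : u = i ∧ u' = j ∨ u = j ∧ u' = i) (h1 : fr.Mv (φ l) a u) (h2 : fr.Mv (φ l) b u')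
    (hx : l * x * l⁻¹ ∈ KD0 fr φ i j L n c) : x ∈ KP fr φ i j L n c a b := fun m hm m1 m2 => by
  obtain ⟨g, g1, g2, g3, g4, -⟩ := h.exists_cen hu (⟨h.hk, by simp [h.ki, h.kj]⟩ : k ∈ S \ {i, j})
  simpa [mul_assoc] using h.stab0 (mul_mem hm (inv_mem (mul_mem g1 hl)))
    (Base.mv_mul m1 (Base.mv_inv (Base.mv_mul g3 h1)))
    (Base.mv_mul m2 (Base.mv_inv (Base.mv_mul g4 h2)))
    (conj_mem_of_commute (h.commK g g1.1 g2 _ hx) hx)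

omit [Finite F] in
theorem two_trans {a b : I} (ha : a ∈ S) (hb : b ∈ S) (e : b ≠ a) :
    ∃ m ∈ NL fr φ L, fr.Mv (φ m) a i ∧ fr.Mv (φ m) b j := by
  obtain ⟨g, hg, h1, h2⟩ := fr.exists_two_trans h.S1 h.S2 ha hb h.hi h.hj e h.ji
  obtain ⟨m, hm, rfl⟩ := h.box.surj g hg
  exact ⟨m, ⟨hm, h1⟩, h2⟩

theorem KP_symm {a b : I} (ha : a ∈ S) (hb : b ∈ S) (e : b ≠ a) {x : J}
    (hx : x ∈ KP fr φ i j L n c a b) : x ∈ KP fr φ i j L n c b a :=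
  let ⟨m, hm, h1, h2⟩ := h.two_trans ha hb e
  h.mem_KP_of hm (.inr ⟨rfl, rfl⟩) h2 h1 (hx m hm h1 h2)

theorem mem_KP_iff {u u' : I} (hu : u = i ∧ u' = j ∨ u = j ∧ u' = i) {x : J} :
    x ∈ KP fr φ i j L n c u u' ↔ x ∈ KD0 fr φ i j L n c := by
  have o : ∀ a, fr.Mv (φ 1) a a := fun a => by rw [map_one]; exact .one
  refine ⟨fun hx => ?_, fun hx => h.mem_KP_of (one_mem _) hu (o _) (o _) (by simpa using hx)⟩
  rcases hu with ⟨rfl, rfl⟩ | ⟨rfl, rfl⟩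
  · simpa using hx 1 (one_mem _) (o _) (o _)
  · simpa using h.KP_symm h.hj h.hi h.ji.symm hx 1 (one_mem _) (o _) (o _)

theorem KP_iff {u u' a : I} (hu : u = i ∧ u' = j ∨ u = j ∧ u' = i) (ha : a ∈ S \ {i, j}) {x : J}
    (hx : φ x ∈ fr.RA u a ∨ φ x ∈ fr.RA (-u) (-a)) :
    x ∈ KP fr φ i j L n c u a ↔ n⁻¹ * x * n ∈ L := by
  obtain ⟨g, g1, g2, g3, -, g5⟩ := h.exists_cen hu ha
  have a1 : c * g ∈ NL fr φ L := mul_mem ⟨h.cL, h.cM⟩ g1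
  have a2 := Base.mv_mul h.c1 g3
  have a3 := Base.mv_mul h.c3 g5
  have a4 : (c * n * c⁻¹)⁻¹ * (c * g * x * (c * g)⁻¹) * (c * n * c⁻¹) =
      c * g * (n⁻¹ * x * n) * (c * g)⁻¹ :=
    calc _ = c * (n⁻¹ * g) * x * (n⁻¹ * g)⁻¹ * c⁻¹ := by group
      _ = _ := by rw [← (h.comm g g1.1 g2).inv_right.eq]; group
  refine ⟨fun hx => ?_, fun hy => h.mem_KP_of a1 (.inl ⟨rfl, rfl⟩) a2 a3 (mem_KD0.2 ⟨?_, ?_⟩)⟩
  · have := (mem_KD0.1 (hx _ a1 a2 a3)).1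
    rwa [a4, L.mul_mem_cancel_right (L.inv_mem a1.1), L.mul_mem_cancel_left a1.1] at this
  · rw [a4]; exact L.mul_mem (L.mul_mem a1.1 hy) (L.inv_mem a1.1)
  · rw [map_conj]
    exact SetD1.mem_levi (.inl ⟨rfl, rfl⟩) h.ji (h.ne' h.hi h.hj) (hx.imp (a2.conj_RA a3)
      ((a2.neg' a1.2).conj_RA (a3.neg' a1.2)))

theorem KP_far {a b : I} (ha : a ∈ S \ {i, j}) (hb : b ∈ S \ {i, j}) (e : b ≠ a) {x : J}
    (hx : φ x ∈ fr.RA a b ∨ φ x ∈ fr.RA (-a) (-b)) (hx' : x ∈ KP fr φ i j L n c a b) :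
    Commute n x := by
  obtain ⟨g, g1, g2, g3, g4, g5⟩ := h.exists_cen (.inl ⟨rfl, rfl⟩) ha
  have b1 : b ≠ i ∧ b ≠ j := by simpa [not_or] using hb.2
  have cN : c⁻¹ * g ∈ NL fr φ L := mul_mem (inv_mem (⟨h.cL, h.cM⟩ : c ∈ NL fr φ L)) g1
  obtain ⟨d, hd⟩ := cN.2.1 b
  have a1 := Base.mv_mul (Base.mv_inv h.c1) g3
  have a2 := Base.mv_mul (Base.mv_inv h.c3) g4
  have a3 := Base.mv_mul (Base.mv_inv h.c2) g5
  have d1 : d ∈ S := h.mv_mem cN.1 hb.1 hd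
  have d2 : d ≠ i := fun e' => b1.1 (hd.inj (e' ▸ a1))
  have d3 : d ≠ j := fun e' => e (hd.inj (e' ▸ a3))
  have d4 : d ≠ k := fun e' => b1.2 (hd.inj (e' ▸ a2))
  have y1 : φ (c⁻¹ * g * x * (c⁻¹ * g)⁻¹) ∈ fr.RA j d ∨
      φ (c⁻¹ * g * x * (c⁻¹ * g)⁻¹) ∈ fr.RA (-j) (-d) := by
    rw [map_conj]; exact hx.imp (a3.conj_RA hd) ((a3.neg' cN.2).conj_RA (hd.neg' cN.2))
  have y2 := (h.KP_iff (.inr ⟨rfl, rfl⟩) ⟨d1, by simp [d2, d3]⟩ y1).1 (conj_KP cN a3 hd hx')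
  generalize hy : c⁻¹ * g * x * (c⁻¹ * g)⁻¹ = y at y1 y2
  have n1 := (h.n_fix d2 (h.ne' h.hi d1) d3 (h.ne' h.hj d1)).inv
  have y3 : φ (n⁻¹ * y * n) ∈ fr.Levi {i, d} := by
    rw [← inv_inv n, inv_inv n⁻¹, map_conj, map_inv]
    rcases y1 with y1 | y1
    · exact fr.mem_Levi (i := d) (j := i) (by simp) (by simp) d2.symm
        (fr.RA_swap (by rwa [neg_neg]) (h.n_mv.2.2.1.inv.conj_RA n1 y1))
    · exact fr.mem_Levi (by simp) (by simp) d2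
        (h.n_mv.1.inv.conj_RA (n1.neg' (inv_mem h.nW.1)) y1)
  have z1 := mem_KD0.1 h.nK
  have z2 := h.levi_jk z1.2
  rw [← map_inv, ← map_mul, ← map_mul] at z2
  have z3 : Commute (c⁻¹ * ((c * n * c⁻¹)⁻¹ * n * (c * n * c⁻¹)) * c⁻¹⁻¹) (n⁻¹ * y * n) := by
    refine h.box.commute (mul_mem (mul_mem (inv_mem h.cL) z1.1) (inv_mem (inv_mem h.cL))) y2
      (fr.Levi_commute' (T := {j, k}) ?_ y3 ?_)
    · rintro _ (rfl | rfl)
      · simp [h.ji.symm, h.ki.symm, (h.ne' h.hi h.hj).symm, (h.ne' h.hi h.hk).symm]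
      · simp [d3, d4, (h.ne' d1 h.hj).symm, (h.ne' d1 h.hk).symm]
    · rw [map_conj, map_inv]
      exact fr.conj_Levi (inv_mem h.cM) (by
        rintro _ (rfl | rfl)
        exacts [⟨_, by simp, h.c3.inv⟩, ⟨_, by simp, h.c2.inv⟩]) z2
  have z4 : Commute (g⁻¹ * n * g) x := by simpa [← hy, mul_assoc] using z3.conj (g⁻¹ * c * n)
  rwa [mul_assoc, ← (h.comm g g1.1 g2).eq, inv_mul_cancel_left] at z4

theorem PD_symm {a b : I} (h1 : b ≠ a) (h2 : b ≠ -a) {x : J} (hx : PD fr φ i j L n c S a b x) :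
    PD fr φ i j L n c S b a x :=
  ⟨fr.RA_swap h2 hx.mem, fun a1 a2 => hx.l2 a2 a1, fun a1 a2 => hx.l1 a2 a1,
    fun a1 a2 => h.KP_symm a2 a1 h1 (hx.k1 a2 a1),
    fun a1 a2 => h.KP_symm a2 a1 (fun e => h1 (neg_inj.1 e)) (hx.k2 a2 a1)⟩

omit [Finite I] [Finite F] in
theorem PD_L {l : J} (hl : l ∈ NL fr φ L) {a b a' b' : I} (h1 : fr.Mv (φ l) a a')
    (h2 : fr.Mv (φ l) b b') {x : J} (hx : PD fr φ i j L n c S a b x) :
    PD fr φ i j L n c S a' b' (l * x * l⁻¹) := by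
  have c1 : x ∈ L → l * x * l⁻¹ ∈ L := fun hx => L.mul_mem (L.mul_mem hl.1 hx) (L.inv_mem hl.1)
  have h3 := h1.neg' hl.2
  have h4 := h2.neg' hl.2
  exact ⟨by rw [map_conj]; exact h1.conj_RA h2 hx.mem,
    fun a1 a2 => c1 (hx.l1 ((h.mv_iff hl.1 h1).2 a1) ((h.mv_iff hl.1 h4).2 a2)),
    fun a1 a2 => c1 (hx.l2 ((h.mv_iff hl.1 h3).2 a1) ((h.mv_iff hl.1 h2).2 a2)),
    fun a1 a2 => conj_KP hl h1 h2 (hx.k1 ((h.mv_iff hl.1 h1).2 a1) ((h.mv_iff hl.1 h2).2 a2)),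
    fun a1 a2 => conj_KP hl h3 h4 (hx.k2 ((h.mv_iff hl.1 h3).2 a1) ((h.mv_iff hl.1 h4).2 a2))⟩

theorem PD_n {a b a' b' : I} (h1 : b ≠ a) (h2 : b ≠ -a) (m1 : fr.Mv (φ n) a a')
    (m2 : fr.Mv (φ n) b b') {x : J} (hx : PD fr φ i j L n c S a b x) :
    PD fr φ i j L n c S a' b' (n * x * n⁻¹) := by
  have near : ∀ a, (a ≠ i ∧ a ≠ -i ∧ a ≠ j ∧ a ≠ -j) ∨ ∃ u u', (u = i ∧ u' = j ∨ u = j ∧ u' = i) ∧
      u ∈ S ∧ u' ∈ S ∧ (a = u ∧ fr.Mv (φ n) a (-u') ∨ a = -u ∧ fr.Mv (φ n) a u') := fun a => by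
    obtain ⟨n1, n2, n3, n4⟩ := h.n_mv
    by_contra e
    push Not at e
    have e1 := e.2 i j (.inl ⟨rfl, rfl⟩) h.hi h.hj
    have e2 := e.2 j i (.inr ⟨rfl, rfl⟩) h.hj h.hi
    exact e2.2 (e.1 (fun e => e1.1 e (e ▸ n1)) (fun e => e1.2 e (e ▸ n3)) fun e => e2.1 e (e ▸ n2))
      (e.1 (fun e => e1.1 e (e ▸ n1)) (fun e => e1.2 e (e ▸ n3)) (fun e => e2.1 e (e ▸ n2)) ▸ n4)
  have mem : φ (n * x * n⁻¹) ∈ fr.RA a' b' := by rw [map_conj]; exact m1.conj_RA m2 hx.mem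
  have cL : ∀ {x}, n⁻¹ * x * n ∈ L → n * x * n⁻¹ ∈ L := fun hx => by
    simpa [mul_assoc] using mul_mem (mul_mem h.n2 hx) (inv_mem h.n2)
  have mixed : ∀ {a b a' b' : I}, fr.Mv (φ n) a a' → fr.Mv (φ n) b b' →
      PD fr φ i j L n c S a b x → (b ≠ i ∧ b ≠ -i ∧ b ≠ j ∧ b ≠ -j) → ∀ u u',
      (u = i ∧ u' = j ∨ u = j ∧ u' = i) → u ∈ S → u' ∈ S →
      (a = u ∧ fr.Mv (φ n) a (-u') ∨ a = -u ∧ fr.Mv (φ n) a u') →
      PD fr φ i j L n c S a' b' (n * x * n⁻¹) := by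
    intro a b a' b' m1 m2 hx hb u u' hu u1 u2 ha
    have mem : φ (n * x * n⁻¹) ∈ fr.RA a' b' := by rw [map_conj]; exact m1.conj_RA m2 hx.mem
    obtain rfl := (h.n_fix hb.1 hb.2.1 hb.2.2.1 hb.2.2.2).unique m2
    have hu' : u' = i ∧ u = j ∨ u' = j ∧ u = i := by tauto
    have p1 : b ∈ S → b ∈ S \ {i, j} := fun e => ⟨e, by simp [hb]⟩
    have p2 : -b ∈ S → -b ∈ S \ {i, j} := fun e => ⟨e, by
      simp [neg_ne_of hb.2.1, neg_ne_of hb.2.2.2]⟩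
    rcases ha with ⟨rfl, ha⟩ | ⟨rfl, ha⟩ <;> obtain rfl := ha.unique m1
    · refine ⟨mem, fun a1 => (h.S1 _ u2 a1).elim, fun _ a2 =>
        cL ((h.KP_iff hu (p1 a2) (.inl hx.mem)).1 (hx.k1 u1 a2)), fun a1 => (h.S1 _ u2 a1).elim,
        fun _ a2 => ?_⟩
      rw [neg_neg]
      exact (h.KP_iff hu' (p2 a2) (.inr (by rwa [neg_neg]))).2 (by simpa [mul_assoc] using hx.l1 u1 a2)
    · refine ⟨mem, fun _ a2 => cL ((h.KP_iff hu (p2 a2) (.inr (by rw [neg_neg]; exact hx.mem))).1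
        (by simpa using hx.k2 (by rwa [neg_neg]) a2)), fun a1 => (h.S1 _ u2 a1).elim, fun _ a2 =>
        (h.KP_iff hu' (p1 a2) (.inl mem)).2 (by simpa [mul_assoc] using hx.l2 (by rwa [neg_neg]) a2),
        fun a1 => (h.S1 _ u2 a1).elim⟩
  have v := Frame.Mv.valid m1 m2 (m1.neg' h.nW.1) h1 h2
  rcases near a with ha | ⟨u, u', hu, u1, u2, ha⟩ <;> rcases near b with hb | ⟨t, t', ht, t1, t2, hb⟩
  · obtain rfl := (h.n_fix ha.1 ha.2.1 ha.2.2.1 ha.2.2.2).unique m1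
    obtain rfl := (h.n_fix hb.1 hb.2.1 hb.2.2.1 hb.2.2.2).unique m2
    have p1 : ∀ {b}, (b ≠ i ∧ b ≠ -i ∧ b ≠ j ∧ b ≠ -j) → (b ∈ S → b ∈ S \ {i, j}) ∧
        (-b ∈ S → -b ∈ S \ {i, j}) := fun hb => ⟨fun e => ⟨e, by simp [hb]⟩, fun e => ⟨e, by
      simp [neg_ne_of hb.2.1, neg_ne_of hb.2.2.2]⟩⟩
    have : Commute n x := by
      rcases h.S2 a with a1 | a1 <;> rcases h.S2 b with b1 | b1
      · exact h.KP_far ((p1 ha).1 a1) ((p1 hb).1 b1) h1 (.inl hx.mem) (hx.k1 a1 b1)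
      · exact (h.comm x (hx.l1 a1 b1) (mem_sup_right (fr.mem_Levi ((p1 ha).1 a1) ((p1 hb).2 b1)
          (neg_ne_of h2) (by rw [neg_neg]; exact hx.mem)))).symm
      · exact (h.comm x (hx.l2 a1 b1) (mem_sup_right (fr.mem_Levi ((p1 hb).1 b1) ((p1 ha).2 a1)
          h2.symm (by rw [neg_neg]; exact fr.RA_swap h2 hx.mem)))).symm
      · exact h.KP_far ((p1 ha).2 a1) ((p1 hb).2 b1) (fun e => h1 (neg_inj.1 e))
          (.inr (by rw [neg_neg, neg_neg]; exact hx.mem)) (hx.k2 a1 b1)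
    rwa [this.eq, mul_inv_cancel_right]
  · exact h.PD_symm v.1.symm (ne_neg_swap v.2)
      (mixed m2 m1 (h.PD_symm h1 h2 hx) ha t t' ht t1 t2 hb)
  · exact mixed m1 m2 hx hb u u' hu u1 u2 ha
  have e : t ≠ u := by
    rintro rfl
    rcases ha with ⟨rfl, -⟩ | ⟨rfl, -⟩ <;> rcases hb with ⟨rfl, -⟩ | ⟨rfl, -⟩ <;> simp_all
  obtain ⟨rfl, rfl⟩ : t = u' ∧ t' = u := by
    rcases hu with ⟨rfl, rfl⟩ | ⟨rfl, rfl⟩ <;> rcases ht with ⟨rfl, rfl⟩ | ⟨rfl, rfl⟩ <;> simp_all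
  have cK : x ∈ KP fr φ i j L n c t' t → n * x * n⁻¹ ∈ KP fr φ i j L n c t t' := fun hx =>
    (h.mem_KP_iff ht).2 (mul_mem (mul_mem h.nK ((h.mem_KP_iff hu).1 hx)) (inv_mem h.nK))
  have lv : ∀ {u u'}, (u = i ∧ u' = j ∨ u = j ∧ u' = i) → x ∈ L → φ x ∈ fr.RA u (-u') →
      n * x * n⁻¹ = x := by
    rintro _ _ (⟨rfl, rfl⟩ | ⟨rfl, rfl⟩) h1 h2
    · rw [← (h.comm x h1 (mem_sup_left (fr.mem_Levi (by simp) (by simp) h.ji h2))).eq,
        mul_inv_cancel_right]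
    · rw [← (h.comm x h1 (mem_sup_left (fr.mem_Levi (by simp) (by simp) h.ji.symm h2))).eq,
        mul_inv_cancel_right]
  rcases ha with ⟨rfl, ha⟩ | ⟨rfl, ha⟩ <;> obtain rfl := ha.unique m1 <;>
    rcases hb with ⟨rfl, hb⟩ | ⟨rfl, hb⟩ <;> obtain rfl := hb.unique m2
  · exact ⟨mem, fun a1 => (h.S1 _ t1 a1).elim, fun _ a1 => (h.S1 _ u1 a1).elim,
      fun a1 => (h.S1 _ t1 a1).elim, fun _ _ => by simpa using cK (hx.k1 u1 t1)⟩
  · rw [lv hu (hx.l1 u1 (by rwa [neg_neg])) hx.mem]; exact h.PD_symm h1 h2 hx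
  · rw [lv ht (hx.l2 (by rwa [neg_neg]) t1) (fr.RA_swap h2 hx.mem)]; exact h.PD_symm h1 h2 hx
  · exact ⟨mem, fun _ a1 => (h.S1 _ u1 a1).elim, fun a1 => (h.S1 _ t1 a1).elim,
      fun _ _ => cK (by simpa using hx.k2 (by rwa [neg_neg]) (by rwa [neg_neg])),
      fun a1 => (h.S1 _ t1 a1).elim⟩

theorem PD_M {m : J} (hm : m ∈ closure (insert n (NL fr φ L : Set J))) : φ m ∈ fr.Mon ∧
    ∀ a b a' b' : I, b ≠ a → b ≠ -a → fr.Mv (φ m) a a' → fr.Mv (φ m) b b' → ∀ x,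
      PD fr φ i j L n c S a b x → PD fr φ i j L n c S a' b' (m * x * m⁻¹) := by
  let Q : J → Prop := fun m => φ m ∈ fr.Mon ∧
    ∀ a b a' b' : I, b ≠ a → b ≠ -a → fr.Mv (φ m) a a' → fr.Mv (φ m) b b' → ∀ x,
      PD fr φ i j L n c S a b x → PD fr φ i j L n c S a' b' (m * x * m⁻¹)
  have q1 : ∀ l ∈ NL fr φ L, Q l := fun l hl => ⟨hl.2, fun _ _ _ _ _ _ a1 a2 _ => h.PD_L hl a1 a2⟩
  have q2 : Q n := ⟨h.nW.1, fun _ _ _ _ a1 a2 a3 a4 _ => h.PD_n a1 a2 a3 a4⟩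
  have q3 : ∀ m m', Q m → Q m' → Q (m * m') := fun m m' hm hm' =>
    ⟨by rw [map_mul]; exact mul_mem hm.1 hm'.1, fun a b a' b' a1 a2 a3 a4 x hx => by
      obtain ⟨s, hs⟩ := hm'.1.1 a
      obtain ⟨t, ht⟩ := hm'.1.1 b
      have v := Frame.Mv.valid hs ht (hs.neg' hm'.1) a1 a2
      simpa [mul_assoc] using hm.2 s t a' b' v.1 v.2 (by simpa using Base.mv_mul a3 (Base.mv_inv hs))
        (by simpa using Base.mv_mul a4 (Base.mv_inv ht)) _ (hm'.2 a b s t a1 a2 hs ht x hx)⟩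
  change Q m
  induction hm using closure_induction'' with
  | one => exact q1 1 (one_mem _)
  | mem x hx => exact hx.elim (fun e => e ▸ q2) (q1 x)
  | inv_mem x hx =>
    rcases hx with rfl | hx
    · simpa using q3 _ _ q2 (q1 _ (inv_mem (⟨h.n2, by
        change φ _ ∈ fr.Mon; rw [map_mul]; exact mul_mem q2.1 q2.1⟩ : x * x ∈ NL fr φ L)))
    · exact q1 _ (inv_mem hx)
  | mul _ _ _ _ h1 h2 => exact q3 _ _ h1 h2

omit [Finite F] in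
theorem sign {a d : I} (ha : a ∈ S) (hd : d ∈ S) (e : d ≠ a) :
    ∃ s ∈ closure (insert n (NL fr φ L : Set J)), fr.Mv (φ s) (-a) a ∧ fr.Mv (φ s) a (-a) ∧
      ∀ b, b ≠ a → b ≠ -a → b ≠ d → b ≠ -d → fr.Mv (φ s) b b := by
  obtain ⟨l, hl, l1, l2⟩ := h.two_trans ha hd e
  obtain ⟨w, w1, w2, w3, w4, w5⟩ := fr.exists_swap h.hi h.hj (h.ne' h.hi h.hj)
  obtain ⟨w, hw, rfl⟩ := h.box.surj w w1
  have l0 : l ∈ closure (insert n (NL fr φ L : Set J)) := subset_closure (.inr hl)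
  refine ⟨l⁻¹ * (w * n) * l, mul_mem (mul_mem (inv_mem l0) (mul_mem (subset_closure (.inr ⟨hw, w2⟩))
    (subset_closure (.inl rfl)))) l0, Base.mv_mul (Base.mv_mul (Base.mv_inv l1)
      (Base.mv_mul w4 h.n_mv.2.2.1)) (l1.neg' hl.2), Base.mv_mul (Base.mv_mul
      (Base.mv_inv (l1.neg' hl.2)) (Base.mv_mul (w4.neg' w2) h.n_mv.1)) l1, fun b b1 b2 b3 b4 => ?_⟩
  obtain ⟨t, ht⟩ := hl.2.1 b
  have t1 : t ≠ i := fun e => b1 (ht.inj (e ▸ l1))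
  have t2 : t ≠ -i := fun e => b2 (ht.inj (e ▸ l1.neg' hl.2))
  have t3 : t ≠ j := fun e => b3 (ht.inj (e ▸ l2))
  have t4 : t ≠ -j := fun e => b4 (ht.inj (e ▸ l2.neg' hl.2))
  exact Base.mv_mul (Base.mv_mul (Base.mv_inv ht)
    (Base.mv_mul (.of_eq (w5 t t1 t2 t3 t4)) (h.n_fix t1 t2 t3 t4))) ht

theorem pos {d : I} (hd : d ∈ S) (T : Set I) (hT : ∀ a ∈ T, -a ∉ T) (hT' : d ∉ T ∧ -d ∉ T) :
    ∃ m ∈ closure (insert n (NL fr φ L : Set J)), ∀ a, a ≠ d → a ≠ -d →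
      ∃ a', (a' = a ∨ a' = -a) ∧ fr.Mv (φ m) a a' ∧ (a ∈ T → a' ∈ S) := by
  induction T, Set.toFinite T using Set.Finite.induction_on with
  | empty => exact ⟨1, one_mem _, fun a _ _ => ⟨a, .inl rfl, by rw [map_one]; exact .one, by simp⟩⟩
  | @insert r T hr _ ih =>
    obtain ⟨m, hm, e⟩ := ih (fun a ha e => hT a (Or.inr ha) (Or.inr e))
      ⟨fun e => hT'.1 (.inr e), fun e => hT'.2 (.inr e)⟩
    have r1 : r ≠ d := fun e => hT'.1 (.inl e.symm)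
    have r2 : r ≠ -d := fun e => hT'.2 (.inl e.symm)
    obtain ⟨b, b1, b2, -⟩ := e r r1 r2
    rcases h.S2 b with b3 | b3
    · refine ⟨m, hm, fun a a1 a2 => ?_⟩
      obtain ⟨a', c1, c2, c3⟩ := e a a1 a2
      exact ⟨a', c1, c2, fun ha => ha.elim (fun e => c2.unique (e ▸ b2) ▸ b3) c3⟩
    obtain ⟨s, hs, s1, s2, s3⟩ := h.sign b3 hd (by
      rcases b1 with rfl | rfl
      exacts [ne_neg_swap r2, by rw [neg_neg]; exact r1.symm])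
    rw [neg_neg] at s1 s2 s3
    refine ⟨s * m, mul_mem hs hm, fun a a1 a2 => ?_⟩
    obtain ⟨a', c1, c2, c3⟩ := e a a1 a2
    by_cases e1 : a' = b
    · exact ⟨-b, by rcases c1 with rfl | rfl <;> simp [← e1], Base.mv_mul s1 (e1 ▸ c2), fun _ => b3⟩
    by_cases e2 : a' = -b
    · refine ⟨b, c1.symm.imp (fun e => neg_inj.1 (e2.symm.trans e)) fun e => by
        rw [← e, e2, neg_neg], Base.mv_mul s2 (e2 ▸ c2), fun ha => ?_⟩
      have : a = -r := c2.inj (e2 ▸ b2.neg' (h.PD_M hm).1)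
      exact (hT r (.inl rfl) (this ▸ ha)).elim
    refine ⟨a', c1, Base.mv_mul (s3 a' e2 e1 ?_ ?_) c2,
      fun ha => ha.elim (fun e => (e1 (c2.unique (e ▸ b2))).elim) c3⟩ <;> rcases c1 with rfl | rfl
    exacts [a1, neg_ne_of a2, a2, neg_ne_neg_of a1]

theorem base (hC : fr.RC i = ⊥) :
    Base fr φ S i j L (closure (insert n (NL fr φ L : Set J))) ⊥ where
  S1 := h.S1
  S2 := h.S2
  hi := h.hi
  hj := h.hj
  ne := h.ji
  box := h.box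
  mon _ hm := (h.PD_M hm).1
  NL _ h1 h2 := subset_closure (.inr ⟨h1, h2⟩)
  pos a b c h1 h2 h3 := by
    obtain ⟨d, hd, e⟩ : ∃ d ∈ S, d ≠ a ∧ d ≠ -a ∧ d ≠ b ∧ d ≠ -b ∧ d ≠ c ∧ d ≠ -c := by
      obtain ⟨d, d1, d2, d3, d4, d5, d6⟩ := h.h4 a b c
      exact (h.S2 d).elim (fun e => ⟨d, e, d1, d2, d3, d4, d5, d6⟩) fun e => ⟨-d, e, neg_ne_of d2,
        neg_ne_neg_of d1, neg_ne_of d4, neg_ne_neg_of d3, neg_ne_of d6, neg_ne_neg_of d5⟩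
    obtain ⟨m, hm, e'⟩ := h.pos hd {a, b, c} (by
      simp [fr.ne, h1.symm, h2.symm, h3.symm, neg_ne_of h1, neg_ne_of h2, neg_ne_of h3])
      (by simp [e, neg_ne_of])
    obtain ⟨a', -, a1, a2⟩ := e' a e.1.symm (ne_neg_swap e.2.1)
    obtain ⟨b', -, b1, b2⟩ := e' b e.2.2.1.symm (ne_neg_swap e.2.2.2.1)
    obtain ⟨c', -, c1, c2⟩ := e' c e.2.2.2.2.1.symm (ne_neg_swap e.2.2.2.2.2)
    exact ⟨m, hm, a', a2 (by simp), b', b2 (by simp), c', c2 (by simp), a1, b1, c1⟩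
  boxC := hC ▸ ⟨fun _ h _ => h, fun x hx => by rw [mem_bot.1 hx, map_one]; exact one_mem _,
    fun g hg => ⟨1, one_mem _, by rw [mem_bot.1 hg, map_one]⟩⟩
  sC m _ _ x hx := by rw [mem_bot.1 hx]; simp
  sA m hm e1 e2 x hx hx' := ((h.PD_M hm).2 i (-j) i (-j) (neg_ne_of (h.ne' h.hi h.hj))
    (neg_ne_neg_of h.ji) e1 (e2.neg' (h.PD_M hm).1) x ⟨hx', fun _ _ => hx, fun _ _ => hx,
      fun _ e => (h.S1 _ h.hj e).elim, fun e => (h.S1 _ h.hi e).elim⟩).l1 h.hi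
      (by rw [neg_neg]; exact h.hj)

end SetD

theorem SetD.injective {f : Form (Param.orth F) V} {fr : Frame f I} {φ : J →* f.Isom} [Finite I]
    [Finite F] (h : SetD fr φ S i j k L n c) (hC : ¬ fr.HasC)
    (n4 : (φ (n * n)).1 (fr.e i) = -fr.e i) (gen : closure (insert n (L : Set J)) = ⊤) :
    Function.Injective φ := by
  have B := h.base (fr.RC_eq_bot hC i)
  set M := closure (insert n (NL fr φ L : Set J))
  have e1 := h.ji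
  have e2 := h.ne' h.hi h.hj
  have nM : n ∈ M := subset_closure (.inl rfl)
  have cM : c * n * c⁻¹ ∈ M := mul_mem (mul_mem (B.NL c h.cL h.cM) nM) (inv_mem (B.NL c h.cL h.cM))
  have cA := fun {m x : J} (hm : m ∈ M) {a b a' b' : I} =>
    Base.conj_A (i := i) (j := j) (L := L) (x := x) hm (B.mon m hm) (a := a) (b := b) (a' := a')
      (b' := b')
  have bot : ∀ a, ∀ y ∈ CF fr φ i M ⊥ a, y = 1 := fun a y hy => (B.boxC' a).inj y hy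
    (mem_bot.1 (fr.RC_eq_bot hC a ▸ (B.boxC' a).mem y hy))
  have cX : ∀ x ∈ AF fr φ i j L M i (-j), x ∈ L ∧ φ x ∈ fr.Levi {i, j} ⊔ fr.Levi (S \ {i, j}) :=
    fun x hx => ⟨((B.mem_A h.hi h.hj e1).1 hx).1,
      mem_sup_left (fr.mem_Levi (by simp) (by simp) e1 hx.1)⟩
  have sym : AF fr φ i j L M i (-j) ≤ AF fr φ i j L M (-j) i := fun x hx => by
    have := cA nM h.n_mv.1 h.n_mv.2.2.2 hx
    rwa [← (h.comm x (cX x hx).1 (cX x hx).2).eq, mul_inv_cancel_right] at this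
  obtain ⟨m0, m1, m2, m3⟩ := h.n'_mv
  have K1 : AF fr φ i j L M i j ≤ KD0 fr φ i j L n c := fun x hx => mem_KD0.2
    ⟨by simpa using (B.conj_mem_L (inv_mem cM) h.hj h.hk (ne_neg_swap e2) (Base.mv_inv m2)
      (Base.mv_inv m1) (B.sym_all sym e1 e2 hx)),
    SetD1.mem_levi (.inl ⟨rfl, rfl⟩) e1 e2 (.inl hx.1)⟩
  have K2 : AF fr φ i j L M (-i) (-j) ≤ KD0 fr φ i j L n c := fun x hx => mem_KD0.2
    ⟨by simpa using (B.conj_mem_L (inv_mem cM) h.hk h.hj (neg_ne_neg_of e2) (Base.mv_inv m1)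
      (by rw [neg_neg]; exact Base.mv_inv m2) hx),
    SetD1.mem_levi (.inl ⟨rfl, rfl⟩) e1 e2 (.inr hx.1)⟩
  have rgd := B.rgd sym (fun a b c d h1 h2 h3 h4 h5 h6 h7 h8 h9 h10 h11 h12 x hx y hy => by
      obtain ⟨m, hm, a', ha, b', hb, c', hc, a1, a2, a3⟩ := B.pos a (-b) c (neg_ne_neg_of h1) h5
        (by rwa [neg_neg])
      obtain ⟨d', a4⟩ := (B.mon m hm).1 (-d)
      have x1 := B.conj_mem_L hm ha hb h2 a1 a2 hx
      rcases h.S2 d' with hd | hd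
      · refine commute_of_conj m (h.box.commute x1 (B.conj_mem_L hm hc hd h4 a3 a4 hy) ?_)
        simp only [map_mul, map_inv]
        exact (fr.rgd.R1 a b c d h1 h2 h3 h4 h5 h6 h7 h8 _ hx.1 _ hy.1).conj _
      have a5 : fr.Mv (φ m) d (-d') := by simpa using B.mv_neg hm a4
      obtain ⟨l, hl, l0, l1, l2⟩ := B.two_trans hc hd h.hi h.hj (fun e => h3 (a5.inj (e ▸ a3))) e1
      obtain ⟨s, hs⟩ := (B.mon l l0).1 a'
      obtain ⟨t, ht⟩ := (B.mon l l0).1 b'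
      have b1 := Base.mv_mul hs a1
      have b2 := Base.mv_mul ht a2
      have b3 := Base.mv_mul l1 a3
      have b4 := Base.mv_mul l2 a5
      refine commute_of_conj (l * m) (h.commK _ (by
        simpa [mul_assoc] using mul_mem (mul_mem hl x1) (inv_mem hl)) (mem_sup_right ?_) _
        (K1 (cA (mul_mem l0 hm) b3 b4 hy)))
      refine fr.mem_Levi (S := S \ {i, j}) (i := s) (j := t) ⟨h.mv_mem hl ha hs, ?_⟩ ⟨h.mv_mem hl hb ht, ?_⟩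
        (fun e => neg_ne_of h2 (b2.inj (e ▸ b1))) (by
          rw [map_conj]; exact b1.conj_RA (by simpa using B.mv_neg (mul_mem l0 hm) b2) hx.1)
      · rintro (rfl | rfl); exacts [h9 (b3.inj b1), h11 (b4.inj b1)]
      · rintro (rfl | rfl); exacts [h6 (b3.inj b2), h8 (b4.inj b2)])
    (fun x hx y hy => mem_bot.2 (commutatorElement_eq_one_iff_commute.2
      (h.commK x (cX x hx).1 (cX x hx).2 y (K1 hy)))) (fun x _ y hy => by simp [mem_bot.1 hy])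
    (fun a _ _ _ _ x _ y hy => by simp [bot a y hy]) (fun x _ y hy => by simp [bot _ y hy])
    (fun x _ y hy => by simp [bot _ y hy])
  have P1 := rgd.pSt0.pSt1 (Or.inl fun a b => let ⟨l, l1, l2, l3, l4, _⟩ := h.h4 a b a
    ⟨l, l1, l2, l3, l4⟩) fun a => let ⟨l, l1, l2, _⟩ := h.h4 a a a; ⟨l, l1, l2⟩
  generalize hU : (fun a => UT (AF fr φ i j L M) (CF fr φ i M ⊥) a Set.univ) = U at P1
  have X : ∀ {a b}, b ≠ a → b ≠ -a → XR fr φ U a b ≤ AF fr φ i j L M a b := fun h1 h2 x hx =>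
    rgd.mem_A h1 h2 (by subst hU; exact hx.1) ((mem_XR_of_ne h1).1 hx).2
  have X' : ∀ {a b}, b ≠ a → b ≠ -a → AF fr φ i j L M a b ≤ U a := fun h1 h2 => by
    subst hU; exact A_le_UT (Set.mem_univ _) h1 h2
  have nW : n ∈ WR fr φ U i j := by
    obtain ⟨w0, x, hx, x0, y, hy, y', hy', e⟩ := h.nW
    obtain ⟨x, x1, rfl⟩ := P1.toPSt0.exists_X (g := x) hx.2
    obtain ⟨y, y1, rfl⟩ := P1.toPSt0.exists_X (g := y) hy.2
    obtain ⟨y', y2, rfl⟩ := P1.toPSt0.exists_X (g := y') hy'.2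
    have := neg_ne_neg_of e1
    have := neg_ne_neg_of e2
    exact ⟨w0, x, x1, fun e => x0 (by rw [e, map_one]), y, y1, y', y2, h.boxK.eq h.nK
      (mul_mem (mul_mem (K2 (X ‹_› ‹_› y1)) (K1 (X e1 e2 x1))) (K2 (X ‹_› ‹_› y2)))
      (by rw [e, map_mul, map_mul])⟩
  refine (injective_iff_map_eq_one φ).2 fun g hg => ?_
  obtain ⟨b, hb⟩ := P1.exists_Tq (neg_ne_of e2) (neg_ne_neg_of e1) (t := -1) (by simp)
  refine (P1.ker_plus e1 e2 hC (a := n * n) ⟨mul_mem_HR nW nW, by simpa using n4⟩ hb ?_ hg).elim id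
    fun e => h.box.inj g (e ▸ mul_mem h.n2 (HR_le (N := L) (fun r hr r' hr' => ?_) hb.1)) hg
  · refine (closure_le _).2 ?_ (gen ▸ mem_top g)
    rintro _ (rfl | hx)
    · obtain ⟨-, x, hx, -, y, hy, y', hy', rfl⟩ := nW
      exact mul_mem (mul_mem (le_iSup U _ hy.1) (le_iSup U _ hx.1)) (le_iSup U _ hy'.1)
    · exact B.L_le (fun a ha b hb e => le_iSup_of_le a
        (X' (neg_ne_of (h.ne' ha hb)) (neg_ne_neg_of e))) hx
  · have : ∀ r ∈ WR fr φ U i (-j), r ∈ L := by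
      rintro _ ⟨-, x, hx, -, y, hy, y', hy', rfl⟩
      rw [neg_neg] at hy hy'
      have k : XR fr φ U (-i) j ≤ L := fun y hy => ((B.mem_A h.hj h.hi e1.symm).1
        (B.sym_all sym e2 (by rwa [neg_neg]) (X e2 (by rwa [neg_neg]) hy))).1
      exact mul_mem (mul_mem (k hy) (cX x (X (neg_ne_of e2) (neg_ne_neg_of e1) hx)).1) (k hy')
    exact mul_mem (this r hr) (inv_mem (this r' hr'))

end Cfsg.Agent.Cls
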