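import Cfsg.Agent.Lib.Cls.MGood

/-!
Central extensions of classical groups: large rank.
-/

set_option autoImplicit false

namespace Cfsg.Agent.Cls

open Forms Forms.Form Subgroup
open scoped commutatorElement

variable {F : Type*} [Field F] {P : Param F} {V : Type*} [AddCommGroup V] [Module F V]
  {f : Form P V} {I : Type*} [InvolutiveNeg I] {J : Type*} [Group J]

namespace Frame

variable (fr : Frame f I)

theorem mem_Wp_two {i j : I} {v : V} : v ∈ fr.Wp (rm (rm Set.univ i) j) ↔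
    (f.B v (fr.e i) = 0 ∧ f.B v (fr.e (-i)) = 0) ∧ f.B v (fr.e j) = 0 ∧ f.B v (fr.e (-j)) = 0 := by
  rw [mem_Wp_rm, mem_Wp_one]

/-- the subgroup of the Eichler group fixing a second frame vector -/
def T2 (i j : I) : Subgroup f.Isom := fr.U i ⊓ MulAction.stabilizer f.Isom (fr.e j)

/-- the Eichler group of `e j` in the Levi factor -/
abbrev D2 (i j : I) : Subgroup f.Isom := fr.U j ⊓ fr.Fx (rm Set.univ i)

variable {i j : I}

theorem exists_isE_D {y : f.Isom} (hy : y ∈ fr.D2 i j) (h1 : j ≠ i) (h2 : j ≠ -i) :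
    ∃ u ∈ fr.Wp (rm (rm Set.univ i) j), ∃ l, IsE y (fr.e j) u l := by
  obtain ⟨⟨u, l, h⟩, h'⟩ := hy
  obtain ⟨u, hu, l, h, -⟩ := fr.exists_isE_Wp h
  have key : ∀ k, k ≠ -j → y.1 (fr.e k) = fr.e k → f.B u (fr.e k) = 0 := fun k hk e => by
    rw [h.app, fr.B_eq' hk, zero_smul, add_zero, mul_zero, zero_smul, sub_zero, sub_eq_self] at e
    exact f.B_eq_zero_symm ((mul_eq_zero.1 ((smul_eq_zero.1 e).resolve_right
      (fr.e_ne_zero j))).resolve_left P.ε_ne_zero)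
  exact ⟨u, fr.mem_Wp_two.2 ⟨⟨key i (ne_neg_swap h2) (fr.mem_Fx_one.1 h').1, key _
    (neg_ne_neg_of h1.symm) (fr.mem_Fx_one.1 h').2⟩, fr.mem_Wp_one.1 hu⟩, l, h⟩

theorem mem_D {y : f.Isom} {u : V} {l : F} (h1 : j ≠ i) (h2 : j ≠ -i)
    (hu : u ∈ fr.Wp (rm (rm Set.univ i) j)) (hy : IsE y (fr.e j) u l) : y ∈ fr.D2 i j :=
  ⟨⟨_, _, hy⟩, fr.isE_mem_Fx (S := rm Set.univ i) ⟨trivial, neg_ne_of h2, neg_ne_neg_of h1⟩
    (fr.mem_Wp_rm.1 hu).1 hy⟩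

theorem mem_T {x : f.Isom} {v : V} {l : F} (h2 : j ≠ -i) (hx : IsE x (fr.e i) v l)
    (hv : f.B v (fr.e j) = 0) : x ∈ fr.T2 i j :=
  ⟨⟨_, _, hx⟩, hx.apply_of_orth (fr.B_eq' h2) (f.B_eq_zero_symm hv)⟩

theorem exists_isE_T {x : f.Isom} (hx : x ∈ fr.T2 i j) (h1 : j ≠ i) (h2 : j ≠ -i) :
    ∃ w ∈ fr.Wp (rm (rm Set.univ i) j), ∃ (c l : F), IsE x (fr.e i) (w + c • fr.e j) l := by
  obtain ⟨⟨u, l, h⟩, h'⟩ := hx
  obtain ⟨u, hu, l, h, -⟩ := fr.exists_isE_Wp h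
  have e : x.1 (fr.e j) = fr.e j := h'
  rw [h.app, fr.B_eq' h2, zero_smul, add_zero, mul_zero, zero_smul, sub_zero, sub_eq_self] at e
  have a1 := f.B_eq_zero_symm ((mul_eq_zero.1 ((smul_eq_zero.1 e).resolve_right
      (fr.e_ne_zero i))).resolve_left P.ε_ne_zero)
  obtain ⟨a2, a3⟩ := fr.mem_Wp_one.1 hu
  have := fr.B_ne j
  refine ⟨u - (f.B u (fr.e (-j)) / f.B (fr.e j) (fr.e (-j))) • fr.e j, fr.mem_Wp_two.2 ?_, _, l,
    h.congr (sub_add_cancel _ _).symm rfl⟩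
  simp only [B_sub_left, B_smul_left, a1, a2, a3, fr.B_eq' h2, fr.B_neg h1,
    f.B_self_of_Q (fr.Qe j)]
  simp [this]

theorem RZ_le_T (h2 : j ≠ -i) : fr.RZ i ≤ fr.T2 i j := fun _ ⟨_, h⟩ =>
  fr.mem_T h2 h (f.B_zero_left _)

theorem RA_mem_T (h2 : j ≠ -i) {x : f.Isom} (hx : x ∈ fr.RA i j) : x ∈ fr.T2 i j :=
  let ⟨_, h⟩ := hx; fr.mem_T h2 h (by rw [B_smul_left, f.B_self_of_Q (fr.Qe j), mul_zero])

theorem A2_le {N : Subgroup f.Isom} (h1 : fr.U i ≤ N) (h2 : fr.D2 i j ≤ N)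
    (h3 : fr.ES (rm (rm Set.univ i) j) ≤ N) : fr.A2 i j ≤ N := sup_le h1 (sup_le h2 h3)

theorem A2_le_EG : fr.A2 i j ≤ fr.EG :=
  fr.A2_le (fr.U_le_EG i) (inf_le_left.trans (fr.U_le_EG j)) (fr.ES_le_EG _)

theorem conj_mem_T {g x : f.Isom} (h1 : g.1 (fr.e i) = fr.e i) (h2 : g.1 (fr.e j) = fr.e j)
    (hx : x ∈ fr.T2 i j) : g * x * g⁻¹ ∈ fr.T2 i j :=
  let N := MulAction.stabilizer f.Isom (fr.e j)
  ⟨fr.conj_mem_U h1 hx.1, N.mul_mem (N.mul_mem h2 hx.2) (N.inv_mem h2)⟩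

theorem A2_conj_T (h2 : j ≠ -i) : ∀ a ∈ fr.A2 i j, ∀ x ∈ fr.T2 i j, a * x * a⁻¹ ∈ fr.T2 i j :=
  le_normalizer_iff.1 (fr.A2_le (le_normalizer_iff.2 fun _ ha _ hx =>
      conj_mem_of_comm (fr.RZ_le_T h2 (fr.comm_mem_RZ ha hx.1)) hx)
    (le_normalizer_iff.2 fun _ ha _ hx =>
      fr.conj_mem_T (fr.mem_Fx_one.1 ha.2).1 (apply_self_of_mem_Eu ha.1) hx)
    (le_normalizer_iff.2 fun _ ha _ hx => let h := fr.mem_Fx_rm.1 (fr.ES_le_Fx _ ha)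
      fr.conj_mem_T (fr.mem_Fx_one.1 h.1).1 h.2.1 hx))

theorem isE_comm_beta {x y : f.Isom} {u u' : V} {l l' : F} (h2 : j ≠ -i)
    (hu : u ∈ fr.Wp (rm (rm Set.univ i) j)) (hu' : u' ∈ fr.Wp (rm (rm Set.univ i) j))
    (hy : IsE y (fr.e j) u l) (hx : IsE x (fr.e i) u' l') :
    IsE ⁅y, x⁆ (fr.e i) ((-(P.ε * f.B u' u)) • fr.e j) 0 := by
  have a1 := (fr.mem_Wp_two.1 hu').2.1
  have a0 := hy.apply_of_orth (fr.B_eq _ _ h2) (f.B_eq_zero_symm (fr.mem_Wp_two.1 hu).1.1)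
  refine (hx.comm_left (fr.Qe i) (a0.trans (one_smul F _).symm) one_ne_zero).congr ?_ ?_ <;> rw [hy.app, a1]
  · rw [map_one]; module
  · simp [a1, ← hx.lam.2]

theorem isE_comm_S {x y : f.Isom} {u : V} {l b : F} (h2 : j ≠ -i)
    (hu : u ∈ fr.Wp (rm (rm Set.univ i) j)) (hy : IsE y (fr.e j) u l)
    (hx : IsE x (fr.e i) (b • fr.e (-j)) 0) :
    IsE ⁅y, x⁆ (fr.e i) ((b * f.B (fr.e (-j)) (fr.e j)) • u +
      (-(P.ε * l * (b * f.B (fr.e (-j)) (fr.e j)))) • fr.e j) (P.ε * P.σ l *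
        (b * f.B (fr.e (-j)) (fr.e j) * P.σ (b * f.B (fr.e (-j)) (fr.e j)))) := by
  have a1 := f.B_eq_zero_symm (fr.mem_Wp_two.1 hu).2.2
  have a0 := hy.apply_of_orth (fr.B_eq _ _ h2) (f.B_eq_zero_symm (fr.mem_Wp_two.1 hu).1.1)
  refine (hx.comm_left (fr.Qe i) (a0.trans (one_smul F _).symm) one_ne_zero).congr ?_ ?_ <;>
    rw [hy.app, B_smul_left _ b _ u, B_smul_left _ b _ (fr.e j), a1]
  · rw [map_one]; module
  · simp [a1, f.B_self_of_Q (fr.Qe _), P.σε]; ring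

end Frame

/-- lifts of short root elements commute with the complementary Levi factor -/
def LTwo (fr : Frame f I) (φ : J →* f.Isom) : Prop := ∀ i j, j ≠ i → j ≠ -i → ∀ x, φ x ∈ fr.RA i j →
  fr.ES (rm (rm Set.univ i) j) ≤ LCs φ x

/-- commutators between two Eichler groups -/
structure BI (fr : Frame f I) (φ : J →* f.Isom) (i j : I) (ψ : F → J) : Prop where
  add : ∀ a b, ψ (a + b) = ψ a * ψ b
  isE : ∀ a, IsE (φ (ψ a)) (fr.e i) ((-(P.ε * a)) • fr.e j) 0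
  eq : ∀ {y x u u' l l'} {c : F}, u ∈ fr.Wp (rm (rm Set.univ i) j) →
    u' ∈ fr.Wp (rm (rm Set.univ i) j) → IsE (φ y) (fr.e j) u l →
    IsE (φ x) (fr.e i) (u' + c • fr.e j) l' → ⁅y, x⁆ = ψ (f.B u' u)

namespace CE

variable {fr : Frame f I} {φ : J →* f.Isom} (h : CE fr φ) (R : RCm fr φ)
  (hI : ∀ i, ∃ ψ, CI fr φ i ψ) (L : LTwo fr φ) {i j : I} (h1 : j ≠ i) (h2 : j ≠ -i)

include hI h1 h2 in
theorem commute_T {x s : J} (hx : φ x ∈ fr.T2 i j) (hs : φ s ∈ fr.RA i j) : Commute x s := by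
  obtain ⟨ψ, hψ⟩ := hI i
  obtain ⟨w, hw, c, l, hx⟩ := fr.exists_isE_T hx h1 h2
  obtain ⟨a, hs⟩ := hs
  exact hψ.commute hx hs (by
    simp [f.B_eq_zero_symm (fr.mem_Wp_two.1 hw).2.1, f.B_self_of_Q (fr.Qe j)])

include hI h1 h2 in
theorem commute_D {x s : J} (hx : φ x ∈ fr.D2 i j) (hs : φ s ∈ fr.RA i j) : Commute x s := by
  obtain ⟨ψ, hψ⟩ := hI j
  obtain ⟨w, hw, l, hx⟩ := fr.exists_isE_D hx h1 h2
  obtain ⟨a, hs⟩ := fr.RA_swap h2 hs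
  exact hψ.commute hx hs (by simp [f.B_eq_zero_symm (fr.mem_Wp_two.1 hw).1.1])

include h R hI L h1 h2

theorem exists_bi {k : I} (hk : k ∈ rm (rm Set.univ i) j)
    (nd : (∃ l ∈ rm (rm Set.univ i) j, l ≠ k ∧ l ≠ -k) ∨ ∃ u ∈ fr.V0, ∃ u' ∈ fr.V0, f.B u u' ≠ 0) :
    ∃ ψ, BI fr φ i j ψ := by
  set W := fr.Wp (rm (rm Set.univ i) j)
  have hS := rm_closed (rm_closed (S := Set.univ) (fun _ _ => trivial) i) j
  have xi := fun u (hu : u ∈ W) => h.X_spec (fr.mem_Wp_two.1 hu).1.1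
  have xj := fun u (hu : u ∈ W) => h.X_spec (fr.mem_Wp_two.1 hu).2.1
  have mA : ∀ {y x u u' l l'}, u ∈ W → u' ∈ W → IsE (φ y) (fr.e j) u l → IsE (φ x) (fr.e i) u' l' →
      IsE (φ ⁅y, x⁆) (fr.e i) ((-(P.ε * f.B u' u)) • fr.e j) 0 := fun hu hu' hy hx => by
    rw [map_commutatorElement]; exact fr.isE_comm_beta h2 hu hu' hy hx
  have ind : ∀ {y x u u' l l'}, u ∈ W → u' ∈ W → IsE (φ y) (fr.e j) u l → IsE (φ x) (fr.e i) u' l' →
      ⁅y, x⁆ = ⁅h.X j u, h.X i u'⁆ := fun {y x u u' l l'} hu hu' hy hx => by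
    obtain ⟨_, a1⟩ := xj u hu
    obtain ⟨_, a2⟩ := xi u' hu'
    have w := fr.mem_Wp_two.1 hu'
    rw [h.comm_eq_left hy a1 fun r hr => (R j r hr).2 i h1.symm (ne_neg_swap h2)
      (fr.mem_D h1.symm (ne_neg_swap h2) (fr.mem_Wp_two.2 w.symm) hx),
      h.comm_eq_right hx a2 fun r hr => (R i r hr).2 j h1 h2 (fr.mem_D h1 h2 hu a1)]
  have hb : BiW W fun u u' => ⁅h.X j u, h.X i u'⁆ := by
    constructor <;> intro u hu v hv w hw
    · obtain ⟨_, a1⟩ := xj u hu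
      obtain ⟨_, a2⟩ := xj v hv
      obtain ⟨_, a3⟩ := xi w hw
      rw [← ind (add_mem hu hv) hw (map_mul φ _ _ ▸ a1.mul (fr.Qe j) a2) a3, comm_mul_left',
        (commute_D hI h1 h2 (fr.mem_D h1 h2 hu a1) ⟨_, mA hv hw a2 a3⟩).eq, mul_inv_cancel_right,
        (commute_T hI h1 h2 (fr.RA_mem_T h2 ⟨_, mA hv hw a2 a3⟩) ⟨_, mA hu hw a1 a3⟩).eq]
    · obtain ⟨_, a1⟩ := xj u hu
      obtain ⟨_, a2⟩ := xi v hv
      obtain ⟨_, a3⟩ := xi w hw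
      rw [← ind hu (add_mem hv hw) a1 (map_mul φ _ _ ▸ a2.mul (fr.Qe i) a3), comm_mul_right',
        (commute_T hI h1 h2 (fr.mem_T h2 a2 (fr.mem_Wp_two.1 hv).2.1) ⟨_, mA hu hw a1 a3⟩).eq,
        mul_inv_cancel_right]
  have inv : ∀ s ∈ rm (rm Set.univ i) j, ∀ s',
      InvE f W (fun u u' => ⁅h.X j u, h.X i u'⁆) (fr.e s) s' := by
    intro s hs s' y u l hu _ hy v hv w hw
    have y1 := fr.isE_mem_Fx (hS s hs) hu hy
    obtain ⟨y, rfl⟩ := h.surj (fr.U_le_EG s ⟨_, _, hy⟩)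
    obtain ⟨_, a1⟩ := xj v hv
    obtain ⟨_, a2⟩ := xi w hw
    have y2 := fr.mem_Fx_rm.1 y1
    beta_reduce
    rw [← ind (fr.apply_mem_Wp y1 hv) (fr.apply_mem_Wp y1 hw) (isE_conj' a1 y2.2.1)
      (isE_conj' a2 (fr.mem_Fx_one.1 y2.1).1), ← conj_comm, (h.cen.commute_of_mem
        (L i j h1 h2 _ ⟨_, mA hv hw a1 a2⟩ (fr.le_ES hs ⟨⟨_, _, hy⟩, y1⟩))).eq, mul_inv_cancel_right]
  have m1 : fr.e k ∈ W := fr.e_mem_Wp (hS k hk)
  have m2 : fr.e (-k) ∈ W := fr.e_mem_Wp (by rwa [neg_neg])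
  obtain ⟨c, -, hc⟩ := hb.exists_psi m1 m2 (fr.Qe k) (fr.B_ne' k) (inv k hk _) (fr.Qe _)
    (inv _ (hS k hk) _) (fr.exists_nd hS k nd)
  have n1 := fun c : F => W.smul_mem c m1
  refine ⟨fun a => ⁅h.X j (fr.e (-k)), h.X i ((c * a) • fr.e k)⁆, fun a b => ?_, fun a => ?_,
    fun {y x u u' l l' d} hu hu' hy hx => ?_⟩
  · rw [mul_add, add_smul]
    exact hb.right _ m2 _ (n1 _) _ (n1 _)
  · obtain ⟨_, a1⟩ := xj _ m2
    obtain ⟨_, a2⟩ := xi _ (n1 (a / f.B (fr.e k) (fr.e (-k))))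
    have := mA m2 (n1 _) a1 a2
    rwa [hc _ m2 _ (n1 _), B_smul_left, div_mul_cancel₀ _ (fr.B_ne k)] at this
  obtain ⟨_, a1⟩ := xi _ hu'
  obtain ⟨s, a2⟩ := h.exists_liftA h2 d
  have y1 := fr.mem_D h1 h2 hu hy
  rw [h.comm_eq_right hx (map_mul φ _ _ ▸ a1.mul (fr.Qe i) a2) fun r hr => (R i r hr).2 j h1 h2 y1,
    comm_mul_right', commutatorElement_eq_one_iff_commute.2 (commute_D hI h1 h2 y1 ⟨_, a2⟩),
    mul_one, mul_inv_cancel, mul_one, ind hu hu' hy a1]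
  exact hc _ hu _ hu'

omit h R hI L h1 in
theorem cocycle {ψ : F → J} (hψ : BI fr φ i j ψ) {x y y' : J} {b l l' : F} {u u' : V}
    (hx : IsE (φ x) (fr.e i) (b • fr.e (-j)) 0) (hu : u ∈ fr.Wp (rm (rm Set.univ i) j))
    (hu' : u' ∈ fr.Wp (rm (rm Set.univ i) j)) (hy : IsE (φ y) (fr.e j) u l)
    (hy' : IsE (φ y') (fr.e j) u' l') :
    ⁅y * y', x⁆ = ψ (b * f.B (fr.e (-j)) (fr.e j) * f.B u' u) * ⁅y', x⁆ * ⁅y, x⁆ := by
  rw [comm_mul_left', ← B_smul_left, ← hψ.eq hu (Submodule.smul_mem _ _ hu') hy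
    (map_commutatorElement φ _ _ ▸ fr.isE_comm_S h2 hu' hy' hx), commutatorElement_def y ⁅y', x⁆]
  group

omit R L in
theorem nk_sym {ψ : F → J} (hψ : BI fr φ i j ψ) {k : I} (hk : k ∈ rm (rm Set.univ i) j)
    (hs : ∀ v w, f.B v w = f.B w v) : NK φ (fr.U i) (fr.U i) := by
  obtain ⟨χ, hχ⟩ := hI i
  refine h.nk_of_ci h1 h2 hχ fun a _ => ?_
  have hS := rm_closed (rm_closed (S := Set.univ) (fun _ _ => trivial) i) j
  set b := f.B (fr.e (-j)) (fr.e j)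
  have m1 := Submodule.smul_mem _ (a / (b * P.σ b * f.B (fr.e k) (fr.e (-k))))
    (fr.e_mem_Wp (hS k hk))
  have m2 := fr.e_mem_Wp (j := -k) (by rwa [neg_neg])
  obtain ⟨x, hx⟩ := h.exists_liftA (neg_ne_neg_of h1) 1
  obtain ⟨_, hy⟩ := h.X_spec (fr.mem_Wp_two.1 m1).2.1
  obtain ⟨_, hy'⟩ := h.X_spec (fr.mem_Wp_two.1 m2).2.1
  have e1 := cocycle h2 hψ hx m1 m2 hy hy'
  have e2 := cocycle h2 hψ hx m2 m1 hy' hy
  have e3 := ((hy.comm (fr.Qe j) hy').congr rfl (by rw [hs, sub_self])).eq_one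
  rw [commutatorElement_eq_one_iff_mul_comm, ← map_mul, ← map_mul] at e3
  rw [h.cen.comm_congr e3 rfl, e2, hs (fr.e (-k)), mul_assoc (ψ _), mul_assoc (ψ _), mul_right_inj,
    eq_comm, ← commutatorElement_eq_one_iff_mul_comm, hχ.eq
      (map_commutatorElement φ _ _ ▸ fr.isE_comm_S h2 m2 hy' hx)
      (map_commutatorElement φ _ _ ▸ fr.isE_comm_S h2 m1 hy hx)] at e1
  rw [← e1]
  have := fr.B_ne k
  have b0 : b ≠ 0 := fr.B_ne' j
  have := P.σ_ne_zero b0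
  simp only [B_add_left, B_add_right, B_smul_left, B_smul_right, f.B_self_of_Q (fr.Qe j),
    fr.B_eq' hk.2.2, fr.B_neg hk.2.1.symm, one_mul]
  congr 1; field_simp; ring

theorem exists_K {ψ : F → J} (hψ : BI fr φ i j ψ) (n1 : NK φ (fr.U i) (fr.U i)) :
    ∃ K : Subgroup J, InjOnS φ K ∧ ⁅(fr.U i).comap φ, (fr.U i).comap φ⁆ ≤ K ∧ (∀ a, ψ a ∈ K) ∧
      (∀ k ∈ K, ∃ (a l : F), IsE (φ k) (fr.e i) (a • fr.e j) l ∧
        ((∀ v w, f.B v w = f.B w v) → l = 0)) ∧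
      ∀ k ∈ K, ∀ x, (φ x ∈ fr.T2 i j ∨ φ x ∈ fr.D2 i j ∨ φ x ∈ fr.ES (rm (rm Set.univ i) j)) →
        Commute x k := by
  set N := ⁅(fr.U i).comap φ, (fr.U i).comap φ⁆
  have nR : N ≤ (fr.RZ i).comap φ := commutator_le.2 fun x hx y hy => by
    rw [mem_comap, map_commutatorElement]; exact fr.comm_mem_RZ hx hy
  have mA : ∀ a, φ (ψ a) ∈ fr.RA i j := fun a => ⟨_, hψ.isE a⟩
  have c0 : ∀ a, ∀ n ∈ N, Commute (ψ a) n := fun a n hn =>
    h.commute_R R (fr.RA_subset_U (mA a)) (nR hn)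
  let K : Subgroup J :=
    { carrier := {k | ∃ n ∈ N, ∃ a, k = n * ψ a}
      one_mem' := ⟨1, one_mem _, 0, by rw [add_hom_zero hψ.add, one_mul]⟩
      mul_mem' := by
        rintro _ _ ⟨n, hn, a, rfl⟩ ⟨n', hn', a', rfl⟩
        exact ⟨_, mul_mem hn hn', a + a', by
          rw [hψ.add, mul_assoc, ← mul_assoc (ψ a), (c0 a n' hn').eq]; group⟩
      inv_mem' := by
        rintro _ ⟨n, hn, a, rfl⟩
        exact ⟨_, inv_mem hn, -a, by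
          rw [add_hom_neg hψ.add, ← (c0 a n hn).eq, mul_inv_rev]⟩ }
  refine ⟨K, ?_, fun n hn => ⟨n, hn, 0, by rw [add_hom_zero hψ.add, mul_one]⟩,
    fun a => ⟨1, one_mem _, a, (one_mul _).symm⟩, ?_, ?_⟩
  · rintro _ ⟨n, hn, a, rfl⟩ e
    obtain ⟨l, hl⟩ := nR hn
    have := (IsE.unique (fr.B_ne i) (fr.Qe _) (by simp [fr.B_neg h1]) (f.B_zero_left _)
      (hl.mul (fr.Qe i) (hψ.isE a)) (by rw [← map_mul, e]; exact isE_one _)).1
    rw [zero_add, smul_eq_zero, neg_eq_zero, mul_eq_zero] at this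
    obtain rfl := (this.resolve_right (fr.e_ne_zero j)).resolve_left P.ε_ne_zero
    rw [add_hom_zero hψ.add, mul_one] at e ⊢
    exact n1 n hn e
  · rintro _ ⟨n, hn, a, rfl⟩
    obtain ⟨l, hl⟩ := nR hn
    refine ⟨_, l, map_mul φ _ _ ▸ (hl.mul (fr.Qe i) (hψ.isE a)).congr (zero_add _) (by simp),
      fun hs => fr.isE_zero_eq hl ?_⟩
    have : N ≤ φ.ker := commutator_le.2 fun x ⟨_, _, hx⟩ y ⟨_, _, hy⟩ => by
      rw [MonoidHom.mem_ker, map_commutatorElement]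
      exact ((hx.comm (fr.Qe i) hy).congr rfl (by rw [hs, sub_self])).eq_one
    exact this hn
  rintro _ ⟨n, hn, a, rfl⟩ x (hx | hx | hx)
  · exact (h.commute_R R hx.1 (nR hn)).mul_right (commute_T hI h1 h2 hx (mA a))
  · exact (h.cen.commute_of_mem ((R i n (nR hn)).2 j h1 h2 hx)).mul_right
      (commute_D hI h1 h2 hx (mA a))
  · refine (h.cen.commute_of_mem (?_ : φ x ∈ _)).mul_right
      (h.cen.commute_of_mem (L i j h1 h2 _ (mA a) hx))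
    exact (iSup₂_le fun k hk => (inf_le_inf_left _ (fr.Fx_mono (Frame.rm_subset _ _))).trans
      ((R i n (nR hn)).2 k hk.1.2.1 hk.1.2.2) : fr.ES _ ≤ _) hx

theorem exists_Y {ψ : F → J} (hψ : BI fr φ i j ψ) (n1 : NK φ (fr.U i) (fr.U i)) {k : I}
    (hk : k ∈ rm (rm Set.univ i) j) (alt : (∀ l, f.IsLam 0 l → ∃ a, l = a - P.ε * P.σ a) ∨
      ∀ v w, f.B v w = f.B w v) {x : J} {b : F} (b0 : b ≠ 0)
    (hx : IsE (φ x) (fr.e i) (b • fr.e (-j)) 0) :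
    ∃ Y : Subgroup J, InjOnS φ Y ∧ ⁅(fr.U i).comap φ, (fr.U i).comap φ⁆ ≤ Y ∧
      (∀ y, φ y ∈ fr.D2 i j → ⁅y, x⁆ ∈ Y) ∧ Y.map φ = fr.T2 i j ∧
      (fr.A2 i j).comap φ ≤ normalizer (Y : Set J) := by
  obtain ⟨K, k1, k2, k3, k4, k5⟩ := h.exists_K R hI L h1 h2 hψ n1
  set c := b * f.B (fr.e (-j)) (fr.e j)
  have c0 : c ≠ 0 := mul_ne_zero b0 (fr.B_ne' j)
  set D := (fr.D2 i j).comap φ
  have sE : ∀ {y u l}, u ∈ fr.Wp (rm (rm Set.univ i) j) → IsE (φ y) (fr.e j) u l →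
      IsE (φ ⁅y, x⁆) (fr.e i) (c • u + (-(P.ε * l * c)) • fr.e j) (P.ε * P.σ l * (c * P.σ c)) :=
    fun hu hy => map_commutatorElement φ _ _ ▸ fr.isE_comm_S h2 hu hy hx
  have sT : ∀ y ∈ D, φ ⁅y, x⁆ ∈ fr.T2 i j := fun y hy => by
    obtain ⟨u, hu, l, hy⟩ := fr.exists_isE_D hy h1 h2
    exact fr.mem_T h2 (sE hu hy) (by simp [(fr.mem_Wp_two.1 hu).2.1, f.B_self_of_Q (fr.Qe j)])
  have kT : ∀ k ∈ K, φ k ∈ fr.T2 i j := fun k hk =>
    let ⟨_, _, h, _⟩ := k4 k hk; fr.mem_T h2 h (by simp [f.B_self_of_Q (fr.Qe j)])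
  have co : ∀ y ∈ D, ∀ y' ∈ D, ∃ k ∈ K, ⁅y * y', x⁆ = k * ⁅y', x⁆ * ⁅y, x⁆ := fun y hy y' hy' => by
    obtain ⟨u, hu, l, hy⟩ := fr.exists_isE_D hy h1 h2
    obtain ⟨u', hu', l', hy'⟩ := fr.exists_isE_D hy' h1 h2
    exact ⟨_, k3 _, cocycle h2 hψ hx hu hu' hy hy'⟩
  have cS : ∀ y ∈ D, ∀ k ∈ K, Commute ⁅y, x⁆ k := fun y hy k hk => k5 k hk _ (Or.inl (sT y hy))
  let Y : Subgroup J :=
    { carrier := {a | ∃ k ∈ K, ∃ y ∈ D, a = k * ⁅y, x⁆}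
      one_mem' := ⟨1, one_mem _, 1, one_mem _, by simp⟩
      mul_mem' := by
        rintro _ _ ⟨k, hk, y, hy, rfl⟩ ⟨k', hk', y', hy', rfl⟩
        obtain ⟨p, hp, e⟩ := co y' hy' y hy
        exact ⟨_, mul_mem (mul_mem hk hk') (inv_mem hp), _, mul_mem hy' hy, by
          rw [e, mul_assoc, ← mul_assoc ⁅y, x⁆, (cS y hy k' hk').eq]; group⟩
      inv_mem' := by
        rintro _ ⟨k, hk, y, hy, rfl⟩
        obtain ⟨p, hp, e⟩ := co y hy _ (inv_mem hy)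
        refine ⟨_, mul_mem (inv_mem hk) hp, _, inv_mem hy, ?_⟩
        rw [mul_inv_cancel, commutatorElement_one_left] at e
        rw [← (cS y hy k hk).eq, mul_inv_rev, mul_assoc, eq_inv_of_mul_eq_one_left e.symm] }
  have Y1 : K ≤ Y := fun k hk => ⟨k, hk, 1, one_mem _, by simp⟩
  have Y2 : ∀ y ∈ D, ⁅y, x⁆ ∈ Y := fun y hy => ⟨1, one_mem _, y, hy, (one_mul _).symm⟩
  have YT : Y.map φ ≤ fr.T2 i j := by
    rintro _ ⟨_, ⟨k, hk, y, hy, rfl⟩, rfl⟩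
    rw [map_mul]; exact mul_mem (kT k hk) (sT y hy)
  have hS := rm_closed (rm_closed (S := Set.univ) (fun _ _ => trivial) i) j
  refine ⟨Y, ?_, k2.trans Y1, Y2, le_antisymm YT fun t ht => ?_, ?_⟩
  · rintro _ ⟨p, hp, y, hy, rfl⟩ e
    refine k1 _ (mul_mem hp ?_) e
    obtain ⟨u, hu, l, hy'⟩ := fr.exists_isE_D hy h1 h2
    obtain ⟨a, l', a1, a2⟩ := k4 p hp
    have w := fr.mem_Wp_two.1 hu
    obtain ⟨a3, a4⟩ := IsE.unique (fr.B_ne i) (fr.Qe _) (by simp [fr.B_neg h1, w.1.2])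
      (f.B_zero_left _) (a1.mul (fr.Qe i) (sE hu hy')) (by rw [← map_mul, e]; exact isE_one _)
    have a5 := congrArg (f.B · (fr.e (-j))) a3
    simp only [B_add_left, B_smul_left, w.2.2, B_zero_left, mul_zero, zero_add, ← add_mul] at a5
    obtain rfl : u = 0 := by
      rwa [add_left_comm, ← add_smul, (mul_eq_zero.1 a5).resolve_right (fr.B_ne j), zero_smul,
        add_zero, smul_eq_zero, or_iff_right c0] at a3
    rcases alt with alt | alt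
    · have m1 := fr.e_mem_Wp (hS k hk)
      have m2 := fr.e_mem_Wp (j := -k) (by rwa [neg_neg])
      obtain ⟨d, y₁, l₁, y₂, l₂, b1, b2, e'⟩ := fr.exists_comm_Z alt (fr.mem_Wp_two.1 m1).2.1
        (fr.mem_Wp_two.1 m2).2.1 (fr.B_ne k) ⟨_, hy'⟩
      obtain ⟨y₁, rfl⟩ := h.surj (fr.U_le_EG j ⟨_, _, b1⟩)
      obtain ⟨y₂, rfl⟩ := h.surj (fr.U_le_EG j ⟨_, _, b2⟩)
      have d1 : y₁ ∈ D := fr.mem_D h1 h2 m2 b1
      have d2 : y₂ ∈ D := fr.mem_D h1 h2 (Submodule.smul_mem _ _ m1) b2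
      obtain ⟨p₁, q₁, e₁⟩ := co _ d1 _ d2
      obtain ⟨p₂, q₂, e₂⟩ := co _ hy _ (mul_mem d2 d1)
      obtain ⟨p₃, q₃, e₃⟩ := co _ d2 _ d1
      rw [h.cen.comm_congr (b := y₁ * y₂) (by
        rw [map_mul, e', commutatorElement_def]; simp) rfl, e₁, e₃] at e₂
      have : ⁅y, x⁆ = ⁅⁅y₂, x⁆⁻¹, ⁅y₁, x⁆⁻¹⁆ * ((p₂ * p₃)⁻¹ * p₁) := by
        have q := mul_mem (inv_mem (mul_mem q₂ q₃)) q₁
        rw [commutatorElement_def _⁻¹, inv_inv, inv_inv, mul_assoc, (cS _ d1 _ q).eq, ← mul_assoc,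
          mul_assoc _ ⁅y₂, x⁆, (cS _ d2 _ q).eq]
        simp only [mul_assoc] at e₂ ⊢
        rw [e₂]; group
      rw [this]
      refine mul_mem (k2 (commutator_mem_commutator (inv_mem ?_) (inv_mem ?_)))
        (mul_mem (inv_mem (mul_mem q₂ q₃)) q₁)
      exacts [(sT _ d2).1, (sT _ d1).1]
    · have : l = 0 := by
        simpa [a2 alt, f.B_self_of_Q (fr.Qe j), P.ε_ne_zero, c0, P.σ_eq_zero] using a4
      rw [commutatorElement_eq_one_iff_commute.2 (h.cen y (this ▸ hy').eq_one x).symm]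
      exact one_mem _
  · have a1 : ∀ (g : f.Isom) (d l : F), IsE g (fr.e i) (d • fr.e j) l → g ∈ Y.map φ := by
      intro g d l hg
      have hl : f.IsLam 0 l := ⟨by rw [hg.lam.1, f.Q_smul, fr.Qe, mul_zero, f.Q_zero],
        by simp [hg.lam.2, f.B_self_of_Q (fr.Qe j)]⟩
      obtain ⟨r, hr⟩ := h.exists_lift (i := j) (f.B_zero_left _)
        (smul_zero (A := V) c⁻¹ ▸ (hl.smul c⁻¹).conj)
      have a2 := hg.mul (fr.Qe i) ((sE (zero_mem _) hr).inv (fr.Qe i))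
      have σ0 := P.σ_ne_zero c0
      have a3 := (a2.congr (v' := (-(P.ε * -(P.ε * (d + P.ε * (P.ε * P.σ (c⁻¹ * P.σ c⁻¹ * l)) *
        c)))) • fr.e j) (l' := 0) (by
          rcases P.ε_eq with e | e <;> simp only [e] <;> module) (by
          simp only [map_mul, P.σσ, P.σε, map_inv₀, smul_zero, zero_add, B_neg_left, B_smul_left,
            B_smul_right, f.B_self_of_Q (fr.Qe j)]
          have := IsE.lam_zero hl
          rcases P.ε_eq with e | e <;> simp only [e] at this ⊢ <;> field_simp <;>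
            linear_combination P.σ c * this)).eq (hψ.isE _)
      rw [mul_inv_eq_iff_eq_mul.1 a3, ← map_mul]
      exact mem_map_of_mem _ (mul_mem (Y1 (k3 _)) (Y2 r (fr.mem_D h1 h2 (zero_mem _) hr)))
    obtain ⟨w, hw, d, l, ht⟩ := fr.exists_isE_T ht h1 h2
    have hw' := Submodule.smul_mem _ c⁻¹ hw
    obtain ⟨l', hy⟩ := h.X_spec (fr.mem_Wp_two.1 hw').2.1
    have a2 := a1 _ (d + P.ε * l' * c) _ ((ht.mul (fr.Qe i) ((sE hw' hy).inv (fr.Qe i))).congr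
      (by rw [smul_inv_smul₀ c0]; module) rfl)
    simpa only [inv_mul_cancel_right] using mul_mem a2 (mem_map_of_mem φ (Y2 _ (fr.mem_D h1 h2 hw' hy)))
  have r : ∀ {A : Subgroup f.Isom}, A ≤ fr.A2 i j → A ≤ φ.range := fun hA =>
    hA.trans (fr.A2_le_EG.trans h.surj)
  rw [Frame.A2, ← comap_sup_eq_of_le_range φ (r le_sup_left) (r le_sup_right),
    ← comap_sup_eq_of_le_range φ (r (le_sup_left.trans le_sup_right))
      (r (le_sup_right.trans le_sup_right))]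
  refine sup_le (le_normalizer_iff.2 fun a ha y hy => conj_mem_of_comm (Y1 (k2
    (commutator_mem_commutator ha (YT (mem_map_of_mem _ hy)).1))) hy) (sup_le
    (le_normalizer_iff.2 ?_) (le_normalizer_iff.2 ?_))
  · rintro a ha _ ⟨p, hp, y, hy, rfl⟩
    have := mul_mem (mul_mem (Y1 hp) (Y2 _ (mul_mem ha hy))) (inv_mem (Y2 _ ha))
    rw [comm_mul_left', mul_assoc, mul_inv_cancel_right] at this
    rw [← mul_assoc a, (k5 p hp a (Or.inr (Or.inl ha))).eq]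
    simpa only [mul_assoc] using this
  · rintro a ha _ ⟨p, hp, y, hy, rfl⟩
    have a1 := fr.mem_Fx_rm.1 (fr.ES_le_Fx _ ha)
    have a2 := h.cen.commute_of_mem (L i (-j) (neg_ne_of h2) (neg_ne_neg_of h1) x ⟨_, hx⟩
      (by rwa [rm_neg]))
    have := mul_mem (Y1 hp) (Y2 (a * y * a⁻¹) (by
      rw [mem_comap, map_mul, map_mul, map_inv]
      exact ⟨fr.conj_mem_U a1.2.1 hy.1, (fr.Fx _).mul_mem ((fr.Fx _).mul_mem a1.1 hy.2)
        ((fr.Fx _).inv_mem a1.1)⟩))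
    rw [conj_comm_fix (by rw [a2.eq, mul_inv_cancel_right])] at this
    rw [← mul_assoc a, (k5 p hp a (Or.inr (Or.inr ha))).eq]
    simpa only [mul_assoc] using this

theorem nk_big {ψ : F → J} (hψ : BI fr φ i j ψ) (n1 : NK φ (fr.U i) (fr.U i)) {k : I}
    (hk : k ∈ rm (rm Set.univ i) j) (alt : (∀ l, f.IsLam 0 l → ∃ a, l = a - P.ε * P.σ a) ∨
      ∀ v w, f.B v w = f.B w v) (hT : fr.T2 i j ≤ ⁅fr.T2 i j, fr.A2 i j⁆) :
    NK φ (fr.U i) (fr.A2 i j) := by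
  set A := (fr.A2 i j).comap φ
  set T := (fr.T2 i j).comap φ
  have r1 : fr.A2 i j ≤ φ.range := fr.A2_le_EG.trans h.surj
  have r2 : fr.U i ≤ φ.range := le_sup_left.trans r1
  have key : ∀ (b : F) x, b ≠ 0 → IsE (φ x) (fr.e i) (b • fr.e (-j)) 0 → InjOnS φ ⁅T, A⁆ ∧
      ⁅(fr.U i).comap φ, (fr.U i).comap φ⁆ ≤ ⁅T, A⁆ ∧ ∀ y, φ y ∈ fr.D2 i j → ⁅y, x⁆ ∈ ⁅T, A⁆ := by
    intro b x b0 hx
    obtain ⟨Y, y1, y2, y3, y4, y5⟩ := h.exists_Y R hI L h1 h2 hψ n1 hk alt b0 hx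
    have a1 : ⁅T, A⁆ ≤ Y := commutator_le.2 fun t ht a ha => by
      obtain ⟨y, hy, e⟩ : φ t ∈ Y.map φ := y4 ▸ ht
      rw [← h.cen.comm_congr e rfl]
      simpa only [commutatorElement_def, mul_assoc] using
        mul_mem hy (le_normalizer_iff.1 y5 a ha _ (inv_mem hy))
    have a2 : Y ≤ ⁅T, A⁆ := fun y hy => by
      have := hT (y4 ▸ mem_map_of_mem φ hy)
      rw [← map_comap_eq_self r1, ← map_comap_eq_self (H := fr.T2 i j) (inf_le_left.trans r2),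
        ← map_commutator] at this
      obtain ⟨n, hn, e⟩ := this
      exact y1.eq (a1 hn) hy e ▸ hn
    exact ⟨y1.mono a1, y2.trans a2, fun y hy => a2 (y3 y hy)⟩
  obtain ⟨x₀, hx₀⟩ := h.exists_liftA (neg_ne_neg_of h1) 1
  obtain ⟨k1, k2, -⟩ := key 1 x₀ one_ne_zero hx₀
  have nA : ∀ a ∈ A, ∀ n ∈ ⁅T, A⁆, a * n * a⁻¹ ∈ ⁅T, A⁆ := fun a ha n hn =>
    conj_mem_commutator (fun t ht => by simpa [T] using fr.A2_conj_T h2 _ ha _ ht)
      (fun b hb => mul_mem (mul_mem ha hb) (inv_mem ha)) hn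
  refine k1.mono (commutator_le.2 fun q hq a ha => ?_)
  obtain ⟨s, ⟨b, hs⟩, e⟩ := fr.exists_split (neg_ne_of h2) (neg_ne_neg_of h1) hq
  obtain ⟨s, rfl⟩ := h.surj (fr.RA_mem_EG ⟨_, hs⟩)
  have s1 : φ s ∈ fr.U i := ⟨_, _, hs⟩
  have t1 : q * s⁻¹ ∈ T := by
    rw [mem_comap, map_mul, map_inv]
    exact ⟨(fr.U i).mul_mem hq ((fr.U i).inv_mem s1), by rwa [neg_neg] at e⟩
  rw [← inv_mul_cancel_right q s, comm_mul_left']
  refine mul_mem (nA _ (mem_sup_left (T := _ ⊔ _) t1.1) _ (comm_swap_mem ?_))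
    (commutator_mem_commutator t1 ha)
  by_cases b0 : b = 0
  · rw [b0, zero_smul] at hs
    rw [commutatorElement_eq_one_iff_commute.2 (h.cen s hs.eq_one a)]
    exact one_mem _
  have : A ≤ commSub A {s} _ nA := by
    have r : ∀ {A : Subgroup f.Isom}, A ≤ fr.A2 i j → A ≤ φ.range := fun hA => hA.trans r1
    refine le_trans (le_of_eq (by
      rw [show A = (fr.U i ⊔ (fr.D2 i j ⊔ fr.ES (rm (rm Set.univ i) j))).comap φ from rfl,
        ← comap_sup_eq_of_le_range φ (r le_sup_left) (r le_sup_right),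
        ← comap_sup_eq_of_le_range φ (r (le_sup_left.trans le_sup_right))
        (r (le_sup_right.trans le_sup_right))])) ?_
    refine sup_le (fun a ha => ⟨mem_sup_left (T := _ ⊔ _) ha, ?_⟩) (sup_le
      (fun a ha => ⟨mem_sup_right (mem_sup_left ha), ?_⟩)
      fun a ha => ⟨mem_sup_right (mem_sup_right ha), ?_⟩) <;> rintro _ rfl
    · exact k2 (commutator_mem_commutator ha s1)
    · exact (key b _ b0 hs).2.2 a ha
    · rw [commutatorElement_eq_one_iff_commute.2 (h.cen.commute_of_mem (L i (-j) (neg_ne_of h2)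
        (neg_ne_neg_of h1) _ ⟨_, hs⟩ (by rwa [rm_neg])))]
      exact one_mem _
  exact (this ha).2 s rfl

end CE

end Cfsg.Agent.Cls
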