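import Cfsg.Agent.Lib.Cls.Conc
import Cfsg.Agent.Lib.CExt.Split
import Cfsg.Agent.Lib.CExt.PLift

/-!
Homomorphisms with central kernel: commutators of lifts.
-/

set_option autoImplicit false

namespace Cfsg.Agent.Cls

open Subgroup
open scoped commutatorElement

variable {J G : Type*} [Group J] [Group G] {φ : J →* G}

/-- The kernel of `φ` is central. -/
def Cen (φ : J →* G) : Prop := ∀ z, φ z = 1 → ∀ x, Commute x z

/-- Elements of `G` with a lift commuting with `c`. -/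
def LCs (φ : J →* G) (c : J) : Subgroup G := (centralizer {c}).map φ

/-- The kernel meets the commutator group of the preimage trivially. -/
def NK (φ : J →* G) (A B : Subgroup G) : Prop := InjOnS φ ⁅A.comap φ, B.comap φ⁆

theorem mem_LCs_of_commute {x c : J} (h : Commute x c) : φ x ∈ LCs φ c :=
  ⟨x, mem_centralizer_singleton_iff.2 h.eq, rfl⟩

theorem NK.mono {A B A' B' : Subgroup G} (h : NK φ A B) (h1 : A' ≤ A) (h2 : B' ≤ B) : NK φ A' B' :=
  InjOnS.mono h (commutator_mono (comap_mono h1) (comap_mono h2))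

theorem comm_mul_left' (a b c : J) : ⁅a * b, c⁆ = a * ⁅b, c⁆ * a⁻¹ * ⁅a, c⁆ := by
  simp only [commutatorElement_def]; group

theorem comm_mul_right' (a b c : J) : ⁅a, b * c⁆ = ⁅a, b⁆ * (b * ⁅a, c⁆ * b⁻¹) := by
  simp only [commutatorElement_def]; group

theorem conj_mem_commutator {A B : Subgroup J} {g : J} (hA : ∀ a ∈ A, g * a * g⁻¹ ∈ A)
    (hB : ∀ a ∈ B, g * a * g⁻¹ ∈ B) {x : J} (hx : x ∈ ⁅A, B⁆) : g * x * g⁻¹ ∈ ⁅A, B⁆ := by
  have : ⁅A, B⁆ ≤ ⁅A, B⁆.comap (MulAut.conj g).toMonoidHom :=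
    commutator_le.2 fun a ha b hb => by
      rw [mem_comap, map_commutatorElement]
      exact commutator_mem_commutator (hA a ha) (hB b hb)
  exact this hx

namespace Cen

variable (h : Cen φ)
include h

omit h in
theorem exists_eq {a b : J} (e : φ a = φ b) : ∃ z, φ z = 1 ∧ a = b * z :=
  ⟨b⁻¹ * a, by rw [map_mul, map_inv, e, inv_mul_cancel], by group⟩

theorem conj_congr {a b : J} (e : φ a = φ b) (x : J) : a * x * a⁻¹ = b * x * b⁻¹ := by
  obtain ⟨z, hz, rfl⟩ := exists_eq e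
  rw [mul_assoc b, ← (h z hz x).eq]; group

theorem comm_congr {a b c d : J} (e : φ a = φ b) (e' : φ c = φ d) : ⁅a, c⁆ = ⁅b, d⁆ := by
  have h1 := h.conj_congr e c
  have h2 := h.conj_congr e' b⁻¹
  rw [commutatorElement_def, h1, mul_assoc, mul_assoc, ← mul_assoc c, h2, commutatorElement_def]
  group

theorem commute_congr {a b c d : J} (e : φ a = φ b) (e' : φ c = φ d) (hc : Commute b d) :
    Commute a c := by
  rw [← commutatorElement_eq_one_iff_commute] at hc ⊢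
  rw [h.comm_congr e e', hc]

theorem commute_of_mem {x c : J} (hx : φ x ∈ LCs φ c) : Commute x c := by
  obtain ⟨y, hy, e⟩ := hx
  exact h.commute_congr e.symm rfl (mem_centralizer_singleton_iff.1 hy)

omit h in
theorem map_comm_eq_one {a b : J} (e : Commute (φ a) (φ b)) : φ ⁅a, b⁆ = 1 := by
  rw [map_commutatorElement, commutatorElement_eq_one_iff_commute]; exact e

theorem commute_comm {a b c : J} (ha : Commute (φ a) (φ c)) (hb : Commute (φ b) (φ c)) :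
    Commute ⁅a, b⁆ c := by
  have e1 : φ (c * a * c⁻¹) = φ a := by rw [map_mul, map_mul, ← ha.eq, map_inv]; group
  have e2 : φ (c * b * c⁻¹) = φ b := by rw [map_mul, map_mul, ← hb.eq, map_inv]; group
  have := h.comm_congr e1 e2
  rw [← conj_comm] at this
  exact (mul_inv_eq_iff_eq_mul.1 this).symm

theorem comm_mem_LCs {c : J} {a b : G} (ha : a ∈ φ.range) (hb : b ∈ φ.range)
    (h1 : Commute a (φ c)) (h2 : Commute b (φ c)) : ⁅a, b⁆ ∈ LCs φ c := by
  obtain ⟨a, rfl⟩ := ha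
  obtain ⟨b, rfl⟩ := hb
  rw [← map_commutatorElement]
  exact mem_LCs_of_commute (h.commute_comm h1 h2)

/-- conjugation of a commutator only depends on the images -/
theorem conj_comm_eq {g a b a' b' : J} (e : φ a' = φ g * φ a * (φ g)⁻¹)
    (e' : φ b' = φ g * φ b * (φ g)⁻¹) : ⁅a', b'⁆ = g * ⁅a, b⁆ * g⁻¹ := by
  rw [conj_comm]
  exact h.comm_congr (by simp [e]) (by simp [e'])

theorem comm_pow_left {a b : J} (e : Commute (φ a) (φ b)) (n : ℕ) : ⁅a ^ n, b⁆ = ⁅a, b⁆ ^ n := by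
  induction n with
  | zero => simp
  | succ n ih =>
    rw [pow_succ', comm_mul_left', ih, (h _ (by rw [map_pow, map_comm_eq_one e, one_pow]) a).eq,
      mul_inv_cancel_right, pow_succ]

theorem exchange {a b g : J} (e : Commute (φ a) (φ b)) {m : ℕ} (hm : Odd m) (ha : φ a ^ m = 1)
    (h1 : φ b = φ g * φ a * (φ g)⁻¹) (h2 : φ a = φ g * φ b * (φ g)⁻¹) : Commute a b := by
  have h3 := h.conj_comm_eq h1 h2
  rw [(h _ (map_comm_eq_one e) g).eq, mul_inv_cancel_right, ← commutatorElement_inv,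
    inv_eq_iff_mul_eq_one, ← pow_two] at h3
  have h4 := h.comm_pow_left e m
  rw [commutatorElement_eq_one_iff_commute.2 (h _ (by rw [map_pow, ha]) b).symm] at h4
  obtain ⟨k, rfl⟩ := hm
  rw [pow_succ, pow_mul, h3, one_pow, one_mul] at h4
  exact commutatorElement_eq_one_iff_commute.1 h4.symm

theorem nk_bot (B : Subgroup G) : NK φ ⊥ B := by
  intro n hn _
  have : ⁅(⊥ : Subgroup G).comap φ, B.comap φ⁆ ≤ ⊥ := commutator_le.2 fun a ha b _ =>
    mem_bot.2 (commutatorElement_eq_one_iff_commute.2 (h a ha b).symm)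
  exact this hn

omit h in
theorem nk_conj {A A' : Subgroup G} {t : G} (ht : t ∈ φ.range) (hA : ∀ g ∈ A, t * g * t⁻¹ ∈ A')
    (hN : NK φ A' A') : NK φ A A := by
  obtain ⟨t, rfl⟩ := ht
  intro n hn e
  have : ⁅A.comap φ, A.comap φ⁆ ≤ ⁅A'.comap φ, A'.comap φ⁆.comap (MulAut.conj t).toMonoidHom :=
    commutator_le.2 fun a ha b hb => by
      rw [mem_comap, map_commutatorElement]
      exact commutator_mem_commutator (by simpa using hA _ ha) (by simpa using hA _ hb)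
  have h1 := hN _ (this hn) (by simp [e])
  simpa using h1

omit h in
/-- splitting over a semidirect product -/
theorem nk_of_prod {Q K A S : Subgroup G} (hQ : Q ≤ φ.range) (h1 : Q ≤ A) (h2 : K ≤ A)
    (h3 : ∀ a ∈ A, ∀ q ∈ Q, a * q * a⁻¹ ∈ Q) (h4 : ∀ q ∈ Q, q ∈ K → q = 1)
    (hS : ∀ s ∈ S, ∃ q ∈ Q, ∃ k ∈ K, s = q * k) (n1 : NK φ Q A) (n2 : NK φ K K) : NK φ S S := by
  set N := ⁅Q.comap φ, A.comap φ⁆
  set C := ⁅K.comap φ, K.comap φ⁆
  have hC : C ≤ K.comap φ := commutator_self_le _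
  have hN : ∀ a, φ a ∈ A → ∀ n ∈ N, a * n * a⁻¹ ∈ N := fun a ha n hn =>
    conj_mem_commutator (fun q hq => by simpa using h3 _ ha _ hq)
      (fun b hb => by simpa using mul_mem (mul_mem ha hb) (inv_mem ha)) hn
  have hNQ : N ≤ Q.comap φ := commutator_le.2 fun q hq a ha => by
    have := Q.mul_mem hq (h3 _ ha _ (Q.inv_mem hq))
    simpa [commutatorElement_def, mul_assoc] using this
  have split : ∀ s, φ s ∈ S → ∃ q, φ q ∈ Q ∧ ∃ k, φ k ∈ K ∧ s = q * k := fun s hs => by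
    obtain ⟨q, hq, k, hk, e⟩ := hS _ hs
    obtain ⟨q, rfl⟩ := hQ hq
    exact ⟨q, hq, q⁻¹ * s, by simpa [e] using hk, by group⟩
  have c1 : ∀ q, φ q ∈ Q → ∀ a, φ a ∈ A → ⁅q, a⁆ ∈ N ⊔ C := fun q hq a ha =>
    mem_sup_left (commutator_mem_commutator hq ha)
  have key : ⁅S.comap φ, S.comap φ⁆ ≤ N ⊔ C := commutator_le.2 fun x hx y hy => by
    obtain ⟨q, hq, k, hk, rfl⟩ := split x hx
    obtain ⟨q', hq', k', hk', rfl⟩ := split y hy
    have hy' : φ (q' * k') ∈ A := by rw [map_mul]; exact mul_mem (h1 hq') (h2 hk')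
    have c2 : ⁅k, k'⁆ ∈ C := commutator_mem_commutator hk hk'
    have c3 : ⁅k, q' * k'⁆ ∈ N ⊔ C := by
      rw [comm_mul_right']
      exact mul_mem (comm_swap_mem (c1 _ hq' _ (h2 hk)))
        (conj_mem_of_comm (c1 _ hq' _ (h2 (hC c2))) (mem_sup_right c2))
    rw [comm_mul_left']
    refine mul_mem (conj_mem_of_comm (c1 _ hq _ ?_) c3) (c1 _ hq _ hy')
    rw [map_commutatorElement]
    exact mul_mem (mul_mem (mul_mem (h2 hk) hy') (inv_mem (h2 hk))) (inv_mem hy')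
  intro z hz e
  have hn : C ≤ normalizer (N : Set J) := le_normalizer_iff.2 fun x hx y hy =>
    hN x (h2 (hC hx)) y hy
  have h5 := key hz
  rw [← SetLike.mem_coe, coe_mul_of_right_le_normalizer_left _ _ hn] at h5
  obtain ⟨n, hn, c, hc, rfl⟩ := h5
  simp only [map_mul] at e
  have h6 : φ n = 1 := h4 _ (hNQ hn) (by rw [eq_inv_of_mul_eq_one_left e]; exact inv_mem (hC hc))
  rw [h6, one_mul] at e
  simp only [n1 n hn h6, n2 c hc e, one_mul]

/-- a complement from a fixed-point-free element -/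
theorem nk_of_fpf {Q L : Subgroup G} (n1 : NK φ Q Q) {g : G} (hg : g ∈ φ.range)
    (g1 : ∀ q ∈ Q, g * q * g⁻¹ ∈ Q) (hL : ∀ a ∈ L, ∀ q ∈ Q, a * q * a⁻¹ ∈ Q)
    (hc : ∀ a ∈ L, Commute a g)
    (inj : ∀ q ∈ Q, ⁅g, q⁆ ∈ ⁅Q, Q⁆ → q ∈ ⁅Q, Q⁆)
    (surj : Q ≤ closure {c | ∃ q ∈ Q, c = ⁅g, q⁆} ⊔ ⁅Q, Q⁆) (hQ : Q ≤ φ.range)
    (hL' : L ≤ φ.range) : NK φ Q (Q ⊔ L) := by
  obtain ⟨g, rfl⟩ := hg
  set T := Q.comap φ
  have hT : T.map φ = Q := map_comap_eq_self hQ
  have g2 : ∀ q ∈ T, g * q * g⁻¹ ∈ T := fun q hq => by simpa [T] using g1 _ hq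
  let κ : T →* T := ((MulAut.conj g).toMonoidHom.comp T.subtype).codRestrict T fun q => g2 _ q.2
  let ab := Abelianization.of (G := T)
  let δ : T →* Abelianization T := ab.comp κ / ab
  have hδ : ∀ q : T, ∀ h', δ q = ab ⟨⁅g, q⁆, h'⟩ := fun q h' => by
    rw [MonoidHom.div_apply, div_eq_mul_inv, MonoidHom.comp_apply, ← map_inv, ← map_mul]; rfl
  have hm : ∀ q ∈ T, ⁅g, q⁆ ∈ T := fun q hq => mul_mem (g2 q hq) (inv_mem hq)
  have hab : ∀ q : T, ab q = 1 ↔ (q : J) ∈ ⁅T, T⁆ := fun q => by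
    rw [← MonoidHom.mem_ker, Abelianization.ker_of, ← map_subtype_commutator]
    exact (mem_map_iff_mem T.subtype_injective).symm
  let Y : Subgroup J := (δ.range.comap ab).map T.subtype
  have hY : ∀ a, a ∈ Y ↔ ∃ q ∈ T, (⁅g, q⁆)⁻¹ * a ∈ ⁅T, T⁆ := fun a => by
    constructor
    · rintro ⟨a, ⟨q, hq⟩, rfl⟩
      refine ⟨q, q.2, (hab (⟨_, hm _ q.2⟩⁻¹ * a)).1 ?_⟩
      rw [map_mul, map_inv, ← hδ, hq, inv_mul_cancel]
    · rintro ⟨q, hq, e⟩
      have ha : a ∈ T := by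
        simpa only [mul_inv_cancel_left] using mul_mem (hm q hq) (commutator_self_le _ e)
      refine ⟨⟨a, ha⟩, ⟨⟨q, hq⟩, ?_⟩, rfl⟩
      have := (hab (⟨_, hm _ hq⟩⁻¹ * ⟨a, ha⟩)).2 e
      rw [map_mul, map_inv, inv_mul_eq_one] at this
      rw [hδ _ (hm _ hq), this]
  have Y1 : ⁅T, T⁆ ≤ Y := fun a ha => (hY a).2 ⟨1, one_mem _, by simpa using ha⟩
  have Y2 : ∀ q ∈ T, ⁅g, q⁆ ∈ Y := fun q hq => (hY _).2 ⟨q, hq, by rw [inv_mul_cancel]; exact one_mem _⟩
  have hTT : ⁅T, T⁆.map φ = ⁅Q, Q⁆ := by rw [map_commutator, hT]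
  have Yinj : InjOnS φ Y := fun a ha e => by
    obtain ⟨q, hq, h1⟩ := (hY a).1 ha
    have h2 : φ q ∈ ⁅T, T⁆.map φ := by
      rw [hTT]
      refine inj _ hq ?_
      have := mem_map_of_mem φ (inv_mem h1)
      simpa [hTT, e] using this
    obtain ⟨q', hq', e'⟩ := h2
    rw [← h.comm_congr rfl e'] at h1
    have h3 : ⁅g, q'⁆ ∈ ⁅T, T⁆ := mul_mem (conj_mem_commutator g2 g2 hq') (inv_mem hq')
    exact n1 a (by simpa only [mul_inv_cancel_left] using mul_mem h3 h1) e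
  have Ysurj : ∀ q ∈ T, ∃ y ∈ Y, φ y = φ q := fun q hq => by
    have : closure {c | ∃ q ∈ Q, c = ⁅φ g, q⁆} ⊔ ⁅Q, Q⁆ ≤ Y.map φ := by
      refine sup_le ((closure_le _).2 ?_) (hTT ▸ map_mono Y1)
      rintro _ ⟨q, hq, rfl⟩
      obtain ⟨q, rfl⟩ := hQ hq
      exact ⟨_, Y2 q hq, map_commutatorElement _ _ _⟩
    exact this (surj hq)
  have YT : Y ≤ T := map_subtype_le _
  have hn : (Q ⊔ L).comap φ ≤ normalizer (Y : Set J) := by
    rw [← comap_sup_eq_of_le_range φ hQ hL']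
    refine sup_le (le_normalizer_iff.2 fun x hx y hy =>
      conj_mem_of_comm (Y1 (commutator_mem_commutator hx (YT hy))) hy)
      (le_normalizer_iff.2 fun x hx y hy => ?_)
    have x2 : ∀ q ∈ T, x * q * x⁻¹ ∈ T := fun q hq => by simpa [T] using hL _ hx _ hq
    obtain ⟨q, hq, e⟩ := (hY y).1 hy
    refine (hY _).2 ⟨_, x2 q hq, ?_⟩
    rw [h.conj_comm_eq (g := x) (a := g) (b := q) (by rw [(hc _ hx).eq]; group) (by simp)]
    convert conj_mem_commutator x2 x2 e using 1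
    group
  refine Yinj.mono (commutator_le.2 fun q hq a ha => ?_)
  obtain ⟨y, hy, e⟩ := Ysurj q hq
  rw [← h.comm_congr e rfl]
  have := mul_mem hy (le_normalizer_iff.1 hn a ha _ (inv_mem hy))
  simpa only [commutatorElement_def, mul_assoc] using this

end Cen

end Cfsg.Agent.Cls
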