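import Cfsg.Agent.Lib.Cls.MKer
import Cfsg.Agent.Lib.Forms.OClass

/-!
The centre of the spin group.
-/

set_option autoImplicit false

namespace Cfsg.Agent.Cls

open Forms Forms.Form Subgroup Module

universe u

section
variable {F : Type*} [Field F] {V : Type*} [AddCommGroup V] [Module F V]
  {I : Type*} [InvolutiveNeg I] {J : Type*} [Group J]

theorem IsE.vec_eq {P : Param F} {f : Form P V} {x : f.Isom} {u e v v' : V} {l l' : F}
    (h : IsE x u v l) (h' : IsE x u v' l') (h0 : f.B e u ≠ 0) (h1 : f.B v e = 0)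
    (h2 : f.B v' e = 0) : v = v' ∧ l = l' := by
  have a1 := (h.app e).symm.trans (h'.app e)
  rw [f.B_eq_zero_symm h1, f.B_eq_zero_symm h2] at a1
  have a2 : f.B e u • (v - v') = (P.ε * (l - l') * f.B e u) • u := by
    rw [← sub_eq_zero, ← sub_eq_zero.2 a1]; module
  have a3 := congrArg (fun w => f.B w e) a2
  have a4 : f.B u e ≠ 0 := fun e => h0 (f.B_eq_zero_symm e)
  simp only [B_smul_left, B_sub_left, h1, h2] at a3
  have a5 : l - l' = 0 := by simpa [h0, a4, P.ε_ne_zero] using a3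
  rw [a5] at a2
  exact ⟨sub_eq_zero.1 (by simpa [h0] using a2), sub_eq_zero.1 a5⟩

theorem Frame.eq_of_commute {f : Form (Param.orth F) V} (fr : Frame f I) [Finite I] [Nonempty I]
    (h3 : ∀ i j : I, ∃ k, k ≠ i ∧ k ≠ -i ∧ k ≠ j ∧ k ≠ -j) {g : f.Isom}
    (hg : ∀ x ∈ fr.EG, Commute g x) : g = 1 ∨ g = f.negOne := by
  have a0 : ∀ {i x v l}, IsE x (fr.e i) v l → IsE x (g.1 (fr.e i)) (g.1 v) l := fun h => by
    simpa [(hg _ (fr.mem_EG_of_isE (fr.Qe _) h)).eq] using h.conj g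
  have a1 : ∀ i, fr.Mv g i i := fun i => by
    have b1 : ∀ k, k ≠ i → k ≠ -i → f.B (g.1 (fr.e i)) (fr.e i) = 0 ∧
        f.B (g.1 (fr.e i)) (fr.e (-k)) = 0 := fun k h1 h2 => by
      obtain ⟨x, hx⟩ := fr.exists_RA (neg_ne_neg_of h1) 1
      have b2 := (a0 hx).apply_self (by rw [Isom.map_Q, fr.Qe])
      rw [hx.app, one_smul] at b2
      have b3 : f.B (g.1 (fr.e i)) (fr.e i) • fr.e (-k) =
          f.B (g.1 (fr.e i)) (fr.e (-k)) • fr.e i := by
        rw [← sub_eq_zero, ← sub_eq_zero.2 b2]; simp; abel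
      exact ⟨by_contra fun e => neg_ne_of h2 (fr.eq_of_smul e b3),
        by_contra fun e => neg_ne_of h2 (fr.eq_of_smul e b3.symm).symm⟩
    refine fr.eq_smul_of_B_eq (by rw [Isom.map_Q, fr.Qe]) fun k hk => ?_
    by_cases e : k = -i
    · obtain ⟨l, h1, h2, -⟩ := h3 i i
      rw [e, neg_neg, (b1 l h1 h2).1]
    · exact (b1 k hk e).2
  choose c hc using a1
  have c0 : ∀ i, c i ≠ 0 := fun i => fr.smul_ne_zero (hc i)
  have a2 : ∀ i, ∀ v ∈ fr.Wp (rm Set.univ i), v = c i • g.1 v := fun i v hv => by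
    obtain ⟨h1, h2⟩ := fr.mem_Wp_one.1 hv
    obtain ⟨x, hx⟩ := exists_isE (fr.Qe i) h1 (f.orth_isLam v)
    refine (hx.vec_eq ((hc i ▸ a0 hx).smul_left (c0 i)) (fr.B_ne' i) h2 ?_).1
    have := Isom.map_B g v (fr.e (-i))
    rw [hc, orth_B_smul_right, h2] at this
    rw [B_smul_left, (mul_eq_zero.1 this).resolve_left (c0 _), mul_zero]
  have a3 : ∀ i j, j ≠ i → j ≠ -i → c i * c j = 1 := fun i j h1 h2 => by
    have := a2 i _ (fr.e_mem_Wp ⟨trivial, neg_ne_of h2, neg_ne_neg_of h1⟩)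
    rw [hc, smul_smul] at this
    exact (smul_left_injective F (fr.e_ne_zero j) ((one_smul _ _).trans this)).symm
  have a4 : ∀ i j, c j = c i := fun i j => by
    obtain ⟨k, h1, h2, h3, h4⟩ := h3 i j
    exact mul_right_cancel₀ (c0 k) ((a3 j k h3 h4).trans (a3 i k h1 h2).symm)
  obtain ⟨i⟩ := ‹Nonempty I›
  obtain ⟨j, h1, h2, -⟩ := h3 i i
  have a5 := a3 i j h1 h2
  rw [a4 i j] at a5
  have a6 : ∀ v ∈ fr.V0, g.1 v = c i • v := fun v hv => by
    conv_rhs => rw [a2 i v (fr.V0_le_Wp _ hv), smul_smul, a5, one_smul]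
  refine (mul_self_eq_one_iff.1 a5).imp (fun e => ?_) fun e => ?_ <;>
    exact fr.ext (fun k => by simp [hc, a4 i k, e, negOne_apply])
      fun v hv => by simp [a6 v hv, e, negOne_apply]

theorem card_le_two_of {K : Subgroup J} {z : J} (h : ∀ g ∈ K, g = 1 ∨ g = z) : Nat.card K ≤ 2 :=
  (Set.ncard_le_ncard (s := (K : Set J)) (t := {1, z}) h).trans
    ((Set.ncard_insert_le _ _).trans (by simp))

theorem hasSchur_congr {G : Type u} [Group G] {A B : Type*} [CommGroup A] [CommGroup B]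
    (e : A ≃* B) (h : HasSchurMultiplier G A) : HasSchurMultiplier G B :=
  ⟨let ⟨Γ, a, b, σ, h1, ⟨e'⟩⟩ := h.1; ⟨Γ, a, b, σ, h1, ⟨e'.trans e⟩⟩, fun Γ _ _ σ hσ =>
    let ⟨π, hπ⟩ := h.2 Γ σ hσ; ⟨π.comp e.symm.toMonoidHom, hπ.comp e.symm.surjective⟩⟩

theorem card_comap {E G : Type*} [Group E] [Group G] [Finite E] {τ : E →* G}
    (h : Function.Surjective τ) (H : Subgroup G) :
    Nat.card (H.comap τ) = Nat.card τ.ker * Nat.card H := by
  have := Finite.of_surjective τ h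
  have a1 := card_mul_index (H.comap τ)
  have a2 := card_mul_index τ.ker
  rw [index_ker, MonoidHom.range_eq_top.2 h, card_top, ← card_mul_index H, ← a1,
    index_comap_of_surjective _ h, ← mul_assoc] at a2
  exact (mul_right_cancel₀ index_ne_zero_of_finite a2).symm

end

variable {F V : Type u} [Field F] [AddCommGroup V] [Module F V] {I : Type*} [InvolutiveNeg I]
  {f : Form (Param.orth F) V}

/-- a double cover of the elementary group -/
structure Dbl (fr : Frame f I) {E : Type u} [Group E] (j : E →* f.Isom) : Prop where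
  perf : commutator E = ⊤
  cen : Cen j
  range : j.range = fr.EG
  ex : ∃ z, z ≠ 1 ∧ j z = 1

namespace Dbl

variable {fr : Frame f I} {E : Type u} [Group E] [Finite E] {j : E →* f.Isom} (d : Dbl fr j)
include d

omit [Finite E] in
theorem ce : CE fr j := ⟨d.cen, d.range.ge⟩

omit [Finite E] in
theorem mem (x : E) : j x ∈ fr.EG := d.range.le ⟨x, rfl⟩

variable (hK : Frame.KB.{u} fr 2)
include hK

theorem card_ker : Nat.card j.ker = 2 := by
  obtain ⟨z, z1, z2⟩ := d.ex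
  have : Nontrivial j.ker := ⟨⟨z, z2⟩, 1, fun e => z1 (congrArg Subtype.val e)⟩
  have := Finite.one_lt_card (α := j.ker)
  have := hK E j d.ce d.mem d.perf
  omega

variable [Finite I] [Nonempty I] (h3 : ∀ i j : I, ∃ k, k ≠ i ∧ k ≠ -i ∧ k ≠ j ∧ k ≠ -j)
  (h2 : (2 : F) ≠ 0) {G : Type u} [Group G] (ω : G →* f.Isom) (w1 : Function.Injective ω)
  (w2 : ω.range = fr.EG)
include h3 h2 w1 w2

theorem exists_K : ∃ K : Subgroup E, (∀ x, x ∈ K ↔ j x = 1 ∨ j x = f.negOne) ∧
    (f.negOne ∈ fr.EG → Nat.card K = 4) ∧ ∀ (A : Type) [CommGroup A], Nonempty (K ≃* A) →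
      HasSchurMultiplier (G ⧸ center G) A := by
  let τ : E →* G := (MonoidHom.ofInjective w1).symm.toMonoidHom.comp
    (j.codRestrict _ fun x => w2 ▸ d.mem x)
  have t1 : ∀ x, ω (τ x) = j x := fun x => MonoidHom.apply_ofInjective_symm w1 _
  have t2 : Function.Surjective τ := fun g => by
    obtain ⟨x, e⟩ : ω g ∈ j.range := d.range ▸ w2 ▸ ⟨g, rfl⟩
    exact ⟨x, w1 ((t1 x).trans e)⟩
  have t3 : τ.ker = j.ker := by
    ext x
    rw [MonoidHom.mem_ker, MonoidHom.mem_ker, ← t1, map_eq_one_iff ω w1]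
  have t4 : ∀ g, g ∈ center G ↔ ω g = 1 ∨ ω g = f.negOne := fun g =>
    ⟨fun h => fr.eq_of_commute h3 fun x hx => by
      obtain ⟨x, rfl⟩ : x ∈ ω.range := w2 ▸ hx
      exact Commute.map (mem_center_iff.1 h x).symm ω,
    fun h => mem_center_iff.2 fun x => w1 (by
      rw [map_mul, map_mul]
      rcases h with h | h <;> rw [h]
      exacts [by simp, (f.scalar_commute _ _ _).symm])⟩
  have hk : ((QuotientGroup.mk' (center G)).comp τ).ker = (center G).comap τ := by
    rw [← MonoidHom.comap_ker, QuotientGroup.ker_mk']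
  refine ⟨(center G).comap τ, fun x => by rw [mem_comap, t4, t1], fun h => ?_, fun A _ ⟨e⟩ => ?_⟩
  · rw [card_comap t2, t3, d.card_ker hK]
    obtain ⟨n, hn⟩ : f.negOne ∈ ω.range := w2 ▸ h
    obtain ⟨i⟩ := ‹Nonempty I›
    have n1 : n ≠ 1 := fun e => by
      have := f.negOne_apply (fr.e i)
      rw [← hn, e, map_one, eq_neg_iff_add_eq_zero] at this
      exact (smul_eq_zero.1 ((two_smul F _).trans this)).elim h2 (fr.e_ne_zero i)
    have : ((center G : Subgroup G) : Set G) = {1, n} := Set.ext fun g => by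
      simp only [SetLike.mem_coe, t4, ← hn, w1.eq_iff, map_eq_one_iff ω w1, Set.mem_insert_iff,
        Set.mem_singleton_iff]
    rw [← SetLike.coe_sort_coe, this, Nat.card_coe_set_eq, Set.ncard_pair n1.symm]
  · refine fr.hasSchur d.perf j d.cen d.range (d.card_ker hK ▸ hK)
      ((QuotientGroup.mk' (center G)).comp τ)
      ((QuotientGroup.mk'_surjective _).comp t2) (fun z hz => mem_center_iff.2 fun x => ?_)
      ((MulEquiv.subgroupCongr hk).trans e)
    refine (Cen.comp (τ := τ) (fun z hz => d.cen z (by rw [← t1, hz, map_one])) ?_ d.perf z hz x).eq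
    exact cen_of_le (QuotientGroup.ker_mk' _).le

theorem two (h : f.negOne ∉ fr.EG) : HasCyclicSchurMultiplier (G ⧸ center G) 2 := by
  obtain ⟨K, k1, -, k2⟩ := d.exists_K hK h3 h2 ω w1 w2
  have : K = j.ker := Subgroup.ext fun x => (k1 x).trans
    ⟨fun e => e.resolve_right fun e => h (e ▸ d.mem x), Or.inl⟩
  have h4 := d.card_ker hK
  rw [← this] at h4
  exact k2 _ ⟨h4 ▸ (zmodCyclicMulEquiv (isCyclic_of_prime_card h4)).symm⟩

theorem four {s : E} (s1 : j s = f.negOne) (s2 : s * s ≠ 1) :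
    HasCyclicSchurMultiplier (G ⧸ center G) 4 := by
  obtain ⟨K, k1, h4, k2⟩ := d.exists_K hK h3 h2 ω w1 w2
  replace h4 := h4 (s1 ▸ d.mem s)
  have : IsCyclic K := isCyclic_of_orderOf_eq_card ⟨s, (k1 s).2 (Or.inr s1)⟩ (by
    rw [h4]
    exact orderOf_eq_prime_pow (p := 2) (n := 1)
      (fun e => s2 (by simpa [sq] using congrArg Subtype.val e)) (h4 ▸ pow_card_eq_one' :))
  exact k2 _ ⟨h4 ▸ (zmodCyclicMulEquiv this).symm⟩

theorem klein {s : E} (s1 : j s = f.negOne) (s2 : s * s = 1) :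
    HasSchurMultiplier (G ⧸ center G) (Multiplicative (ZMod 2 × ZMod 2)) := by
  obtain ⟨K, k1, h4, k2⟩ := d.exists_K hK h3 h2 ω w1 w2
  replace h4 := h4 (s1 ▸ d.mem s)
  have a1 : ∀ x, j x = 1 → x * x = 1 := fun x hx => by
    have := pow_card_eq_one' (x := (⟨x, hx⟩ : j.ker))
    rw [d.card_ker hK, sq] at this
    exact congrArg Subtype.val this
  have : Nontrivial K := Finite.one_lt_card_iff_nontrivial.1 (by omega)
  have : IsKleinFour K := ⟨h4, (Monoid.exponent_eq_prime_iff Nat.prime_two).2 fun x hx =>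
    orderOf_eq_prime (Subtype.ext (by
      rw [sq]
      change x.1 * x.1 = 1
      rcases (k1 x).1 x.2 with e | e
      · exact a1 _ e
      obtain ⟨z, hz, e⟩ := Cen.exists_eq (e.trans s1.symm)
      rw [e, (d.cen z hz s).symm.mul_mul_mul_comm, s2, a1 z hz, one_mul])) hx⟩
  exact k2 _ IsKleinFour.nonempty_mulEquiv

end Dbl

end Cfsg.Agent.Cls
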