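import Cfsg.Agent.Lib.Cls.MLift
import Cfsg.Agent.Lib.Cls.Frames
import Cfsg.Agent.Lib.Forms.Gram

/-!
From a bound for central extensions of the elementary group to the Schur multiplier.
-/

set_option autoImplicit false

namespace Cfsg.Agent.Cls

open Forms Forms.Form Subgroup CExt

universe u v

variable {F : Type*} [Field F] {P : Param F} {V : Type*} [AddCommGroup V] [Module F V]
  {f : Form P V} {I : Type*} [InvolutiveNeg I]

theorem commutator_eq_top_of_stem {Γ E : Type*} [Group Γ] [Group E] {τ : Γ →* E}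
    (h : IsStemExtension τ) (hE : commutator E = ⊤) : commutator Γ = ⊤ := by
  rw [eq_top_iff]
  intro x _
  have : τ x ∈ (commutator Γ).map τ := by
    rw [commutator_def, map_commutator, map_top_of_surjective _ h.1, ← commutator_def, hE]; trivial
  obtain ⟨y, hy, e⟩ := this
  simpa using mul_mem hy (h.2.2 (show τ (y⁻¹ * x) = 1 by simp [e]))

theorem Cen.comp {Γ E G : Type*} [Group Γ] [Group E] [Group G] {τ : Γ →* E} {j : E →* G}
    (h1 : Cen τ) (h2 : Cen j) (hΓ : commutator Γ = ⊤) : Cen (j.comp τ) := fun z hz x => by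
  have : commutator Γ ≤ centralizer {z} := commutator_le.2 fun a _ b _ =>
    mem_centralizer_singleton_iff.2 (h1.commute_comm (h2 _ hz _) (h2 _ hz _)).eq
  exact mem_centralizer_singleton_iff.1 (this (hΓ ▸ mem_top x))

theorem cen_of_le {Γ E : Type*} [Group Γ] [Group E] {τ : Γ →* E} (h : τ.ker ≤ center Γ) : Cen τ :=
  fun _ hz x => mem_center_iff.1 (h hz) x

theorem cen_of_injective {Γ E : Type*} [Group Γ] [Group E] {τ : Γ →* E}
    (h : Function.Injective τ) : Cen τ := fun z hz x => by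
  rw [(injective_iff_map_eq_one τ).1 h z hz]; exact Commute.one_right x

theorem commutator_eq_top_of_injective {E G : Type*} [Group E] [Group G] {j : E →* G}
    (hj : Function.Injective j) (h : j.range ≤ ⁅j.range, j.range⁆) : commutator E = ⊤ := by
  rw [eq_top_iff]
  intro x _
  have := h ⟨x, rfl⟩
  rw [MonoidHom.range_eq_map, ← map_commutator] at this
  obtain ⟨y, hy, e⟩ := this
  exact hj e ▸ hy

namespace Frame

variable (fr : Frame f I)

/-- all perfect central extensions of the elementary group have kernel of order at most `d` -/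
def KB (d : ℕ) : Prop := ∀ (J : Type u) [Group J] [Finite J] (φ : J →* f.Isom), CE fr φ →
  (∀ x, φ x ∈ fr.EG) → commutator J = ⊤ → Nat.card φ.ker ≤ d

theorem ker_eq_bot {E : Type v} [Group E] [Finite E] (hE : commutator E = ⊤) (j : E →* f.Isom)
    (hj : Cen j) (hr : j.range = fr.EG) (h : KB.{u} fr (Nat.card j.ker)) (Γ : Type u) [Group Γ]
    [Finite Γ] (τ : Γ →* E) (hτ : IsStemExtension τ) : τ.ker = ⊥ := by
  have hΓ := commutator_eq_top_of_stem hτ hE
  have h1 := h Γ (j.comp τ) ⟨(cen_of_le hτ.2.1).comp hj hΓ, fun g hg => by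
    obtain ⟨x, rfl⟩ : g ∈ j.range := hr ▸ hg
    obtain ⟨y, rfl⟩ := hτ.1 x
    exact ⟨y, rfl⟩⟩ (fun x => hr ▸ ⟨τ x, rfl⟩) hΓ
  let ρ : (j.comp τ).ker →* j.ker := (τ.comp (Subgroup.subtype _)).codRestrict _ fun x => x.2
  have h2 : Function.Surjective ρ := fun z => by
    obtain ⟨y, e⟩ := hτ.1 z.1
    exact ⟨⟨y, by rw [MonoidHom.mem_ker, MonoidHom.comp_apply, e]; exact z.2⟩, Subtype.ext e⟩
  have h3 := (h2.bijective_of_nat_card_le h1).1
  rw [eq_bot_iff]
  intro z hz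
  have : (⟨z, by rw [MonoidHom.mem_ker, MonoidHom.comp_apply, hz, map_one]⟩ :
    (j.comp τ).ker) = 1 := (injective_iff_map_eq_one ρ).1 h3 _ (Subtype.ext hz)
  exact congrArg Subtype.val this

theorem hasSchur {E : Type v} {G : Type u} [Group E] [Finite E] [Group G] (hE : commutator E = ⊤)
    (j : E →* f.Isom) (hj : Cen j) (hr : j.range = fr.EG)
    (h : KB.{max u v} fr (Nat.card j.ker)) (π : E →* G) (hπ : Function.Surjective π)
    (hc : π.ker ≤ center E) {A : Type*} [CommGroup A] (e : π.ker ≃* A) : HasSchurMultiplier G A :=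
  SL2.hasSchurMultiplier_of_perfect hE (fun Γ _ _ τ hτ => fr.ker_eq_bot hE j hj hr h Γ τ hτ)
    π hπ hc e

theorem hasSchur_center {E : Type u} [Group E] [Finite E] (j : E →* f.Isom)
    (hj : Function.Injective j) (hr : j.range = fr.EG) (hP : fr.EG ≤ ⁅fr.EG, fr.EG⁆)
    (h : KB.{u} fr 1) [IsCyclic (center E)] {d : ℕ} (hd : Nat.card (center E) = d) :
    HasCyclicSchurMultiplier (E ⧸ center E) d := by
  have hk : (QuotientGroup.mk' (center E)).ker = center E := QuotientGroup.ker_mk' _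
  have : IsCyclic (QuotientGroup.mk' (center E)).ker := by rw [hk]; infer_instance
  refine fr.hasSchur (commutator_eq_top_of_injective hj (hr ▸ hP)) j (cen_of_injective hj) hr
    (by rwa [(MonoidHom.ker_eq_bot_iff j).2 hj, card_bot]) (QuotientGroup.mk' _)
    (QuotientGroup.mk'_surjective _) hk.le ?_
  rw [← hd, ← congrArg (fun H : Subgroup E => Nat.card H) hk]
  exact (zmodCyclicMulEquiv this).symm

theorem kb_one (h : ∀ (J : Type u) [Group J] [Finite J] (φ : J →* f.Isom), CE fr φ →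
    (∀ x, φ x ∈ fr.EG) → commutator J = ⊤ → ∀ x, φ x = 1 → x = 1) : KB.{u} fr 1 :=
  fun J _ _ φ h1 h2 h3 => by
    rw [(MonoidHom.ker_eq_bot_iff φ).2 ((injective_iff_map_eq_one φ).2 (h J φ h1 h2 h3)), card_bot]

variable [Finite I] {p n : ℕ}

theorem term_of_C (hC : fr.HasC) (h : ∀ g ∈ fr.EG, IsPElt p g → (∀ k, g.1 (fr.e k) = fr.e k) →
    ∀ v ∈ fr.V0, g.1 v = v) : fr.Term p := fun _ _ hS g hg hp hx =>
  have h1 : ∀ k, g.1 (fr.e k) = fr.e k := fun k => hx k fun hk => hS ⟨k, hk, Or.inl hC⟩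
  fr.ext h1 (h g hg hp h1)

theorem eq_one_of_isPElt [Fact p.Prime] [Finite F] (hF : Nat.card F = p ^ n) {g : f.Isom}
    (hp : IsPElt p g) {v : V} {c : F} (h : g.1 v = c • v) : g.1 v = v := by
  have := Fintype.ofFinite F
  have : CharP F p := by
    have := ringChar.charP F
    obtain ⟨m, h1, h2⟩ := FiniteField.card F (ringChar F)
    rw [Nat.card_eq_fintype_card, h2] at hF
    have := (Nat.prime_dvd_prime_iff_eq h1 Fact.out).1
      (h1.dvd_of_dvd_pow (hF ▸ dvd_pow_self _ m.ne_zero))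
    rwa [← this]
  obtain ⟨k, hk⟩ := hp
  have h1 : ∀ m : ℕ, (g ^ m).1 v = c ^ m • v := fun m => by
    induction m with
    | zero => simp
    | succ m ih => rw [pow_succ', Isom.mul_apply, ih, map_smul, h, smul_smul, pow_succ]
  have h2 := h1 (p ^ k)
  rw [hk] at h2
  have h3 : (c - 1) ^ p ^ k • v = 0 := by
    rw [sub_pow_char_pow, one_pow, sub_smul, ← h2]; simp
  rcases smul_eq_zero.1 h3 with h3 | rfl
  · rw [h, sub_eq_zero.1 (pow_eq_zero_iff (pow_ne_zero _ (Fact.out : p.Prime).ne_zero) |>.1 h3),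
      one_smul]
  · exact map_zero _

theorem term_of_line [Fact p.Prime] [Finite F] (hF : Nat.card F = p ^ n) (hC : fr.HasC) {v : V}
    (hv : v ∈ fr.V0) (hV : ∀ u ∈ fr.V0, ∃ c : F, u = c • v) : fr.Term p :=
  fr.term_of_C hC fun g _ hp h u hu => by
    obtain ⟨c, rfl⟩ := hV u hu
    obtain ⟨d, e⟩ := hV _ (fr.mem_V0_of_mon (fr.mem_Mon fun k => ⟨k, .of_eq (h k)⟩) hv)
    rw [map_smul, eq_one_of_isPElt hF hp e]

theorem perfect_of (hA : ∀ a b, b ≠ a → b ≠ -a → fr.RS a b ≤ ⁅fr.EG, fr.EG⁆)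
    (h2 : ∀ a : I, ∃ b, b ≠ a ∧ b ≠ -a) : fr.EG ≤ ⁅fr.EG, fr.EG⁆ :=
  fr.EG_le hA fun a s hs => by
    obtain ⟨b, h1, h2⟩ := h2 a
    obtain ⟨x, hx, y, hy, t, ht, rfl⟩ := fr.exists_comm_C h1 h2 hs
    exact mul_mem (commutator_mem_commutator (fr.RA_mem_EG hx) (fr.RC_le_EG _ hy))
      (hA a (-b) (neg_ne_of h2) (neg_ne_neg_of h1) ht)

theorem perfect_three (h3 : ∀ i j : I, ∃ k, k ≠ i ∧ k ≠ -i ∧ k ≠ j ∧ k ≠ -j) :
    fr.EG ≤ ⁅fr.EG, fr.EG⁆ :=
  fr.perfect_of (fun a b _ h2 s hs => by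
    obtain ⟨l, a1, a2, a3, a4⟩ := h3 a b
    obtain ⟨x, hx, y, hy, rfl⟩ := fr.exists_comm_A a1 a2 a3 a4 h2 hs
    exact commutator_mem_commutator (fr.RA_mem_EG hx) (fr.RA_mem_EG hy))
    fun a => let ⟨b, h1, h2, _⟩ := h3 a a; ⟨b, h1, h2⟩

theorem perfect_tor (hT : ∀ k, ∃ g ∈ fr.EG, ∃ t : F, t ≠ 1 ∧ g.1 (fr.e k) = t • fr.e k ∧
      ∀ l, l ≠ k → l ≠ -k → g.1 (fr.e l) = fr.e l) (h2 : ∀ a : I, ∃ b, b ≠ a ∧ b ≠ -a) :
    fr.EG ≤ ⁅fr.EG, fr.EG⁆ :=
  fr.perfect_of (fun a b h1 h2 s hs => by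
    obtain ⟨g, hg, t, t1, g1, g2⟩ := hT b
    obtain ⟨x, hx, rfl⟩ := fr.weight_A h2 (t := 1) (by rw [one_smul, g2 a h1.symm (ne_neg_swap h2)])
      g1 (by simpa) hs
    exact commutator_mem_commutator hg (fr.RA_mem_EG hx)) h2

end Frame

theorem card_center_of_scalar [Finite F] {E : Type*} [Group E] (j : E →* f.Isom)
    (hj : Function.Injective j) {u u' : V} (hu : f.B u u' ≠ 0) {d : ℕ} (hd : d ≠ 0)
    (h1 : ∀ z, z ∈ center E ↔ ∃ c : F, ∀ v, (j z).1 v = c • v)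
    (h2 : ∀ c : F, c ^ d = 1 ↔ ∃ hc : c * P.σ c = 1, f.scalar c hc ∈ j.range) :
    Nat.card (center E) = Nat.gcd d (Nat.card F - 1) := by
  rw [← Nat.card_units, Nat.gcd_comm, ← IsCyclic.card_powMonoidHom_ker]
  have h3 : ∀ c : (powMonoidHom d : Fˣ →* Fˣ).ker, ∃ z : center E, ∀ v, (j z).1 v = (c.1 : F) • v :=
    fun c => by
      obtain ⟨hc, z, e⟩ := (h2 c.1).1 (by simpa using congrArg Units.val c.2)
      exact ⟨⟨z, (h1 z).2 ⟨_, fun v => by rw [e]; rfl⟩⟩, fun v => by rw [e]; rfl⟩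
  choose g hg using h3
  have u0 : u ≠ 0 := fun e => hu (by rw [e, B_zero_left])
  refine (Nat.card_congr (Equiv.ofBijective g ⟨fun a b e => ?_, fun z => ?_⟩)).symm
  · have := (hg a u).symm.trans (e ▸ hg b u)
    exact Subtype.ext (Units.ext (smul_left_injective F u0 this))
  · obtain ⟨c, hc⟩ := (h1 z).1 z.2
    have h4 : c * P.σ c = 1 := by
      have := Isom.map_B (j z) u u'
      rw [hc, hc, B_smul_left, B_smul_right, ← mul_assoc] at this
      exact mul_right_cancel₀ hu (by rw [this, one_mul])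
    have h5 := (h2 c).2 ⟨h4, z, Isom.ext hc⟩
    refine ⟨⟨Units.mk0 c (left_ne_zero_of_mul_eq_one h4), Units.ext (by simpa using h5)⟩,
      Subtype.ext (hj (Isom.ext fun v => by rw [hg, hc]; rfl))⟩

theorem exists_card_eq_pow (F : Type*) [Field F] [Finite F] :
    ∃ p n : ℕ, p.Prime ∧ Nat.card F = p ^ n := by
  have := Fintype.ofFinite F
  have := ringChar.charP F
  obtain ⟨m, h1, h2⟩ := FiniteField.card F (ringChar F)
  exact ⟨_, m, h1, by rw [Nat.card_eq_fintype_card, h2]⟩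

theorem PM.four {m : ℕ} (h : 4 ≤ m) (i j k : PM m) :
    ∃ l, l ≠ i ∧ l ≠ -i ∧ l ≠ j ∧ l ≠ -j ∧ l ≠ k ∧ l ≠ -k := by
  obtain ⟨l, -, hl⟩ := PM.exists_ne {i, j, k} (lt_of_le_of_lt Finset.card_le_three (by omega))
  simp only [Finset.mem_insert, Finset.mem_singleton, forall_eq_or_imp, forall_eq] at hl
  exact ⟨l, hl.1.1, hl.1.2, hl.2.1.1, hl.2.1.2, hl.2.2.1, hl.2.2.2⟩

theorem PM.three {m : ℕ} (h : 3 ≤ m) (i j : PM m) : ∃ l, l ≠ i ∧ l ≠ -i ∧ l ≠ j ∧ l ≠ -j := by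
  obtain ⟨l, -, hl⟩ := PM.exists_ne {i, j} (lt_of_le_of_lt Finset.card_le_two (by omega))
  simp only [Finset.mem_insert, Finset.mem_singleton, forall_eq_or_imp, forall_eq] at hl
  exact ⟨l, hl.1.1, hl.1.2, hl.2.1, hl.2.2⟩

theorem PM.two {m : ℕ} (h : 2 ≤ m) (i : PM m) : ∃ l, l ≠ i ∧ l ≠ -i := by
  obtain ⟨l, -, hl⟩ := PM.exists_ne {i} (by simp; omega)
  exact ⟨l, hl i (by simp)⟩

theorem PM.cases_two {i j : PM 2} (h1 : j ≠ i) (h2 : j ≠ -i) (k : PM 2) :
    k = i ∨ k = -i ∨ k = j ∨ k = -j := by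
  revert i j k; decide

theorem PM.cases_one (i k : PM 1) : k = i ∨ k = -i := by
  revert i k; decide

end Cfsg.Agent.Cls
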