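import Cfsg.Agent.Lib.Cls.MQ

/-!
Central extensions of classical groups: small rank, using torus elements.
-/

set_option autoImplicit false

namespace Cfsg.Agent.Cls

open Forms Forms.Form Subgroup
open scoped commutatorElement

variable {F : Type*} [Field F] {P : Param F} {V : Type*} [AddCommGroup V] [Module F V]
  {f : Form P V} {I : Type*} [InvolutiveNeg I] {J : Type*} [Group J]

theorem biAdd_scale {K E : Type*} [Field K] [Group E] {G : K → K → E} (hF : BiAdd G) {v : K}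
    (h0 : v ≠ 0) (h1 : v ≠ 1) (h2 : v ^ 2 - v + 1 ≠ 0) (h : ∀ t u, G (v * t) (v * u) = G t u)
    (h' : ∀ t u, G ((1 - v) * t) ((1 - v) * u) = G t u) (t u : K) : G t u = 1 := by
  have h3 : 1 - v ≠ 0 := sub_ne_zero.mpr h1.symm
  refine hF.eq_one_of_right (c := 1 + (1 - v) / v + (v / (1 - v) + 1)) (fun h4 => h2 ?_)
    (fun t u => ?_) t u
  · field_simp at h4
    linear_combination h4
  · have e1 := h t u
    have e2 := h t ((1 - v) / v * u)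
    have e3 := h' t (v / (1 - v) * u)
    have e4 := h' t u
    rw [show v * ((1 - v) / v * u) = (1 - v) * u by field_simp] at e2
    rw [show (1 - v) * (v / (1 - v) * u) = v * u by field_simp] at e3
    have e5 : G t u = G (v * t + (1 - v) * t) (v * u + (1 - v) * u) := by congr 1 <;> ring
    rw [e5, hF.left, hF.right, hF.right, e1, e2, e3, e4, ← hF.right, ← hF.right, ← hF.right]
    congr 1
    ring

theorem Frame.ext_one (fr : Frame f I) (i : I) {g g' : f.Isom}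
    (h1 : g.1 (fr.e i) = g'.1 (fr.e i)) (h2 : g.1 (fr.e (-i)) = g'.1 (fr.e (-i)))
    (h3 : ∀ v ∈ fr.Wp (rm Set.univ i), g.1 v = g'.1 v) : g = g' := by
  refine Isom.ext fun v => ?_
  have a1 := fr.B_ne i
  have a2 := fr.B_ne' i
  have := h3 (v - (f.B v (fr.e (-i)) / f.B (fr.e i) (fr.e (-i))) • fr.e i -
    (f.B v (fr.e i) / f.B (fr.e (-i)) (fr.e i)) • fr.e (-i)) (fr.mem_Wp_one.2 (by
      constructor <;> simp only [B_sub_left, B_smul_left, f.B_self_of_Q (fr.Qe _)] <;>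
        field_simp <;> ring))
  simpa only [map_sub, map_smul, h1, h2, sub_left_inj] using this

namespace CE

variable {fr : Frame f I} {φ : J →* f.Isom} (h : CE fr φ)
include h

theorem nk_good [Finite F] {i : I} (n1 : NK φ (fr.U i) (fr.U i)) {g : f.Isom} (hg : g ∈ fr.EG)
    {t s : F} (g1 : g.1 (fr.e i) = t • fr.e i) (g2 : fr.Mv g (-i) (-i))
    (g3 : ∀ w ∈ fr.Wp (rm Set.univ i), g.1 w = s • w) (hw : P.σ t * s ≠ 1)
    (hR : fr.RZ i ≤ ⁅fr.U i, fr.U i⁆ ∨ ⁅fr.U i, fr.U i⁆ = ⊥ ∧ t * P.σ t ≠ 1) (j : I) (h1 : j ≠ i)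
    (h2 : j ≠ -i) : NK φ (fr.U i) (fr.A2 i j) := by
  have c0 := sub_ne_zero.2 hw
  have t0 := fr.smul_ne_zero g1
  refine (h.cen.nk_of_fpf (L := fr.Fx (rm Set.univ i) ⊓ fr.EG) n1 (h.surj hg)
    (fun q hq => Frame.Mv.conj_U ⟨t, g1⟩ hq) (fun a ha q hq => fr.conj_U_of_rm ha.1 hq)
    (fun a ha => ?_) ?_ ?_ ((fr.U_le_EG i).trans h.surj) (inf_le_right.trans h.surj)).mono le_rfl
    (sup_le_sup_left (sup_le (le_inf inf_le_right (inf_le_left.trans (fr.U_le_EG j))) (le_inf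
      ((fr.ES_le_Fx _).trans (fr.Fx_mono (Frame.rm_subset _ _))) (fr.ES_le_EG _))) _)
  · obtain ⟨a1, a2⟩ := fr.mem_Fx_one.1 ha.1
    obtain ⟨c, g2⟩ := g2
    refine fr.ext_one i ?_ ?_ fun v hv => ?_ <;> simp only [Isom.mul_apply]
    · rw [g1, map_smul, a1, g1]
    · rw [g2, map_smul, a2, g2]
    · rw [g3 v hv, map_smul, g3 _ (fr.apply_mem_Wp ha.1 hv)]
  · rintro q ⟨v, l, hq⟩ e
    obtain ⟨v, hv, l, hq, -⟩ := fr.exists_isE_Wp hq
    have a1 := hq.comm_left (fr.Qe i) g1 t0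
    obtain ⟨l', a2⟩ : ⁅g, q⁆ ∈ fr.RZ i := commutator_le.2 (fun _ => by
      exact fun ha _ hb => fr.comm_mem_RZ ha hb) e
    rw [g3 v hv, smul_smul, show (P.σ t * s) • v - v = (P.σ t * s - 1) • v by module] at a1
    obtain rfl : v = 0 := (smul_eq_zero.1 (IsE.unique (fr.B_ne i) (fr.Qe _) (by
      rw [B_smul_left, (fr.mem_Wp_one.1 hv).2, mul_zero]) (f.B_zero_left _) a1 a2).1).resolve_left c0
    rcases hR with hR | ⟨hR, ht⟩
    · exact hR ⟨_, hq⟩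
    rw [hR] at e ⊢
    have := fr.isE_zero_eq (a1.congr (smul_zero _) rfl) e
    rw [IsE.lam_zero hq.lam, B_zero_left] at this
    have l0 : l = 0 := by
      refine (mul_eq_zero.1 (?_ : (t * P.σ t - 1) * l = 0)).resolve_left (sub_ne_zero.2 ht)
      linear_combination this
    exact (l0 ▸ hq).eq_one
  · rintro q ⟨v, l, hq⟩
    obtain ⟨v, hv, l, hq, -⟩ := fr.exists_isE_Wp hq
    have hv' := Submodule.smul_mem _ (P.σ t * s - 1)⁻¹ hv
    obtain ⟨x, l', hx, r, hr, rfl⟩ := fr.weight_U g1 hq (fr.mem_Wp_one.1 hv').1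
      (by rw [g3 _ hv']; match_scalars; field_simp)
    refine mul_mem (mem_sup_left (subset_closure ⟨x, ⟨_, _, hx⟩, rfl⟩)) ?_
    rcases hR with hR | ⟨-, ht⟩
    · exact mem_sup_right (hR hr)
    obtain ⟨r', hr', rfl⟩ := fr.weight_Z g1 ht hr
    exact mem_sup_left (subset_closure ⟨r', fr.RZ_le_U i hr', rfl⟩)

variable (R : RCm fr φ)
include R

theorem comm_two {i j : I} (h1 : j ≠ i) (h2 : j ≠ -i) (hV : ∀ v ∈ fr.V0, v = 0)
    (hI : ∀ k, k = i ∨ k = -i ∨ k = j ∨ k = -j) (hl : ∃ l, l ≠ 0 ∧ f.IsLam 0 l) {v w : V}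
    (hv : v ∈ fr.Wp (rm Set.univ i)) (hw : w ∈ fr.Wp (rm Set.univ i)) : ∃ a b a' b' : F,
      v = a • fr.e j + b • fr.e (-j) ∧ w = a' • fr.e j + b' • fr.e (-j) ∧ ⁅h.X i v, h.X i w⁆ =
        ⁅h.X i (b' • fr.e (-j)), h.X i (a • fr.e j)⁆⁻¹ *
          ⁅h.X i (b • fr.e (-j)), h.X i (a' • fr.e j)⁆ := by
  have hb := h.biW R i fun v hv => (fr.mem_Wp_one.1 hv).1
  have m1 : fr.e j ∈ fr.Wp (rm Set.univ i) := fr.e_mem_Wp ⟨trivial, neg_ne_of h2, neg_ne_neg_of h1⟩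
  have m2 : fr.e (-j) ∈ fr.Wp (rm Set.univ i) :=
    fr.e_mem_Wp (by rw [neg_neg]; exact ⟨trivial, h1, h2⟩)
  have s1 := hb.van_self m1 m2 (fr.Qe j) (fr.B_ne' j) (h.invE R h1 h2) (Or.inl hl)
  have s2 := hb.van_self m2 m1 (fr.Qe _) (fr.B_ne j)
    (by simpa using h.invE R (neg_ne_of h2) (neg_ne_neg_of h1)) (Or.inl hl)
  have dec : ∀ v ∈ fr.Wp (rm Set.univ i), ∃ a b : F, v = a • fr.e j + b • fr.e (-j) := fun v hv => by
    obtain ⟨a, b, u, hu, b1, b2, rfl⟩ := hb.exists_decomp m1 (fr.B_ne' j) (f.B_self_of_Q (fr.Qe _))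
      (f.B_self_of_Q (fr.Qe _)) m2 hv
    refine ⟨a, b, ?_⟩
    rw [hV u (fr.mem_V0.2 fun k => ?_), add_zero]
    rcases hI k with rfl | rfl | rfl | rfl
    exacts [(fr.mem_Wp_one.1 hu).1, (fr.mem_Wp_one.1 hu).2, b1, b2]
  obtain ⟨a, b, rfl⟩ := dec v hv
  obtain ⟨a', b', rfl⟩ := dec w hw
  have n1 := fun c : F => Submodule.smul_mem _ c m1
  have n2 := fun c : F => Submodule.smul_mem _ c m2
  refine ⟨a, b, a', b', rfl, rfl, ?_⟩
  have := hb.left _ (n1 a) _ (n2 b) _ hw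
  rw [hb.right _ (n1 _) _ (n1 _) _ (n2 _), hb.right _ (n2 _) _ (n1 _) _ (n2 _), s1, s2] at this
  rw [this, one_mul, mul_one, commutatorElement_inv]

theorem le_closure_two {i j : I} (h1 : j ≠ i) (h2 : j ≠ -i) (hV : ∀ v ∈ fr.V0, v = 0)
    (hI : ∀ k, k = i ∨ k = -i ∨ k = j ∨ k = -j) (hl : ∃ l, l ≠ 0 ∧ f.IsLam 0 l) :
    ⁅(fr.U i).comap φ, (fr.U i).comap φ⁆ ≤
      closure {c | ∃ x y, φ x ∈ fr.RA i (-j) ∧ φ y ∈ fr.RA i j ∧ c = ⁅x, y⁆} :=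
  commutator_le.2 fun x ⟨v, _, hx⟩ y ⟨w, _, hy⟩ => by
    obtain ⟨v, hv, _, hx, -⟩ := fr.exists_isE_Wp hx
    obtain ⟨w, hw, _, hy, -⟩ := fr.exists_isE_Wp hy
    obtain ⟨_, a1⟩ := h.X_spec hx.orth
    obtain ⟨_, a2⟩ := h.X_spec hy.orth
    obtain ⟨a, b, a', b', -, -, e⟩ := h.comm_two R h1 h2 hV hI hl hv hw
    have : ∀ a b : F, ⁅h.X i (b • fr.e (-j)), h.X i (a • fr.e j)⁆ ∈
        closure {c | ∃ x y, φ x ∈ fr.RA i (-j) ∧ φ y ∈ fr.RA i j ∧ c = ⁅x, y⁆} := fun a b => by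
      obtain ⟨x, hx⟩ := h.exists_liftA (neg_ne_neg_of h1) b
      obtain ⟨y, hy⟩ := h.exists_liftA h2 a
      obtain ⟨_, a1⟩ := h.X_spec hx.orth
      obtain ⟨_, a2⟩ := h.X_spec hy.orth
      exact subset_closure ⟨x, y, ⟨_, hx⟩, ⟨_, hy⟩, h.comm_eq R a1 hx a2 hy⟩
    rw [h.comm_eq R hx a1 hy a2, e]
    exact mul_mem (inv_mem (this _ _)) (this _ _)

theorem exists_ci_three {i j : I} (h1 : j ≠ i) (h2 : j ≠ -i) (hV : ∀ v ∈ fr.V0, v = 0)
    (hI : ∀ k, k = i ∨ k = -i ∨ k = j ∨ k = -j) (hl : ∃ l, l ≠ 0 ∧ f.IsLam 0 l)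
    (hF : ∀ a : F, a = 0 ∨ a = 1 ∨ a = -1) (hε : P.ε = -1) : ∃ ψ, CI fr φ i ψ := by
  have hb := h.biW R i fun v hv => (fr.mem_Wp_one.1 hv).1
  have m1 : fr.e j ∈ fr.Wp (rm Set.univ i) := fr.e_mem_Wp ⟨trivial, neg_ne_of h2, neg_ne_neg_of h1⟩
  have m2 : fr.e (-j) ∈ fr.Wp (rm Set.univ i) :=
    fr.e_mem_Wp (by rw [neg_neg]; exact ⟨trivial, h1, h2⟩)
  have n1 := fun c : F => Submodule.smul_mem _ c m1
  have hσ : ∀ a, P.σ a = a := fun a => by rcases hF a with rfl | rfl | rfl <;> simp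
  have key : ∀ a b : F, ⁅h.X i (b • fr.e (-j)), h.X i (a • fr.e j)⁆ =
      ⁅h.X i (fr.e (-j)), h.X i ((b * a) • fr.e j)⁆ := fun a b => by
    rcases hF b with rfl | rfl | rfl
    · rw [zero_smul, zero_mul, zero_smul]
      exact (hb.zero_left (n1 a)).trans (hb.zero_right m2).symm
    · rw [one_smul, one_mul]
    · rw [neg_one_smul, neg_one_mul, neg_smul]
      exact (hb.neg_left m2 (n1 a)).trans (hb.neg_right m2 (n1 a)).symm
  refine h.ci_of R h1 h2 (c := (f.B (fr.e j) (fr.e (-j)))⁻¹) fun v hv w hw => ?_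
  obtain ⟨a, b, a', b', rfl, rfl, e⟩ := h.comm_two R h1 h2 hV hI hl hv hw
  have := fr.B_ne j
  rw [e, key, key, ← hb.neg_right m2 (n1 _), ← neg_smul, ← hb.right _ m2 _ (n1 _) _ (n1 _),
    ← add_smul]
  simp only [B_add_left, B_add_right, B_smul_left, B_smul_right, f.B_self_of_Q (fr.Qe _),
    f.symm (fr.e j) (fr.e (-j)), hσ, hε]
  congr 3; field_simp; ring

theorem nk_rank_one [Finite F] [Finite I] {i : I} (hI : ∀ k, k = i ∨ k = -i) {v : V}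
    (hv : v ∈ fr.V0) (hV : ∀ u ∈ fr.V0, ∃ c : F, u = c • v)
    (hT : ∀ t, t ≠ 0 → ∃ g ∈ fr.EG, (∀ k, fr.Mv g k k) ∧ g.1 (fr.e i) = t • fr.e i ∧
      g.1 v = (P.σ t / t) • v) {t₀ t₁ t₂ w : F} (a0 : t₀ ≠ 0) (a1 : t₁ ≠ 0) (a2 : t₂ ≠ 0)
    (b0 : t₀ * P.σ t₀ ≠ 1) (b1 : P.σ t₁ * (P.σ t₁ / t₁) = w) (b2 : P.σ t₂ * (P.σ t₂ / t₂) = 1 - w)
    (b3 : w ^ 2 - w + 1 ≠ 0) : NK φ (fr.U i) (fr.U i) := by
  obtain ⟨g, g0, g1, g2, g3⟩ := hT t₀ a0
  obtain ⟨g, rfl⟩ := h.surj g0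
  obtain ⟨N, n1, n2, n3⟩ := h.exists_R1 R g2 b0
  set T := (fr.RZ i).comap φ
  have : (N.subgroupOf T).Normal := ⟨fun n hn x => by
    have : Commute x n := Subtype.ext (h.commute_R R (fr.RZ_le_U i x.2) n.2).eq
    rwa [this.eq, mul_inv_cancel_right]⟩
  have o : ∀ a : F, f.B (a • v) (fr.e i) = 0 := fun a => fr.mem_V0.1 (Submodule.smul_mem _ a hv) i
  have m : ∀ a b : F, ⁅h.X i (a • v), h.X i (b • v)⁆ ∈ T := fun a b => by
    obtain ⟨_, a1⟩ := h.X_spec (o a)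
    obtain ⟨_, a2⟩ := h.X_spec (o b)
    rw [mem_comap, map_commutatorElement]; exact fr.comm_mem_RZ ⟨_, _, a1⟩ ⟨_, _, a2⟩
  let G : F → F → T ⧸ N.subgroupOf T := fun a b => QuotientGroup.mk ⟨_, m a b⟩
  have hb := h.biW R i fun u hu => fr.mem_V0.1 hu i
  have s := fun a : F => Submodule.smul_mem _ a hv
  have hG : BiAdd G := ⟨fun a a' b => congrArg QuotientGroup.mk (Subtype.ext (by
      simp only [add_smul]; exact hb.left _ (s a) _ (s a') _ (s b))),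
    fun a b b' => congrArg QuotientGroup.mk (Subtype.ext (by
      simp only [add_smul]; exact hb.right _ (s a) _ (s b) _ (s b')))⟩
  have sc : ∀ t, t ≠ 0 → ∀ a b, G (P.σ t * (P.σ t / t) * a) (P.σ t * (P.σ t / t) * b) = G a b := by
    intro t t0 a b
    obtain ⟨k, k0, k1, k2, k3⟩ := hT t t0
    obtain ⟨k, rfl⟩ := h.surj k0
    have hc : Commute (φ k) (φ g) := fr.ext (fun l => by
        obtain ⟨c, e⟩ := k1 l
        obtain ⟨d, e'⟩ := g1 l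
        simp only [Isom.mul_apply, e, e', map_smul, smul_comm c d]) fun u hu => by
      obtain ⟨c, rfl⟩ := hV u hu
      simp only [Isom.mul_apply, k3, g3, map_smul, smul_comm (P.σ t / t) (P.σ t₀ / t₀)]
    have e : ∀ a : F, ∃ l, IsE (φ (k * h.X i (a • v) * k⁻¹)) (fr.e i)
        ((P.σ t * (P.σ t / t) * a) • v) l := fun a =>
      let ⟨_, a1⟩ := h.X_spec (o a)
      ⟨_, (isE_conj a1 k2).congr (by rw [map_smul, k3]; module) rfl⟩
    obtain ⟨_, e1⟩ := e a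
    obtain ⟨_, e2⟩ := e b
    obtain ⟨_, e3⟩ := h.X_spec (o (P.σ t * (P.σ t / t) * a))
    obtain ⟨_, e4⟩ := h.X_spec (o (P.σ t * (P.σ t / t) * b))
    refine (QuotientGroup.eq.2 ?_).symm
    have := N.inv_mem (n3 k hc (k1 i) _ (T.inv_mem (m a b)))
    rw [mem_subgroupOf]
    convert this using 1
    change _⁻¹ * ⁅_, _⁆ = _
    rw [h.comm_eq R e3 e1 e4 e2, ← conj_comm, commutatorElement_inv k, commutatorElement_def _ k]
    group
  have w0 : w ≠ 0 := b1 ▸ mul_ne_zero (P.σ_ne_zero a1) (div_ne_zero (P.σ_ne_zero a1) a1)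
  have w1 : w ≠ 1 := fun e => mul_ne_zero (P.σ_ne_zero a2) (div_ne_zero (P.σ_ne_zero a2) a2)
    (by rw [b2, e, sub_self])
  have key := biAdd_scale hG w0 w1 b3 (b1 ▸ sc t₁ a1) (b2 ▸ sc t₂ a2)
  have hU : fr.U i ≤ fr.RC i := fr.U_le (fun j h1 h2 => ((hI j).elim h1 h2).elim) le_rfl
  refine n1.mono (commutator_le.2 fun x hx y hy => ?_)
  obtain ⟨u, hu, _, hx⟩ := hU hx
  obtain ⟨u', hu', _, hy⟩ := hU hy
  obtain ⟨a, rfl⟩ := hV u hu
  obtain ⟨b, rfl⟩ := hV u' hu'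
  obtain ⟨_, e3⟩ := h.X_spec (o a)
  obtain ⟨_, e4⟩ := h.X_spec (o b)
  rw [h.comm_eq R hx e3 hy e4]
  exact (QuotientGroup.eq_one_iff (N := N.subgroupOf T) ⟨_, m a b⟩).1 (key a b)

end CE

end Cfsg.Agent.Cls
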