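import Cfsg.Agent.Lib.Cls.MSylow

/-!
Invariant biadditive maps on a subspace factor through the form.
-/

set_option autoImplicit false

namespace Cfsg.Agent.Cls

open Forms Forms.Form Subgroup
open scoped commutatorElement

variable {F : Type*} [Field F] {P : Param F} {V : Type*} [AddCommGroup V] [Module F V]
  {f : Form P V} {J : Type*} [Group J]

/-- a map which is biadditive on `W` -/
structure BiW (W : Submodule F V) (β : V → V → J) : Prop where
  left : ∀ v ∈ W, ∀ v' ∈ W, ∀ w ∈ W, β (v + v') w = β v w * β v' w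
  right : ∀ v ∈ W, ∀ w ∈ W, ∀ w' ∈ W, β v (w + w') = β v w * β v w'

/-- invariance under the Eichler transformations `E(s, u)`, `u ⊥ e, e'` -/
def InvE (f : Form P V) (W : Submodule F V) (β : V → V → J) (s s' : V) : Prop :=
  ∀ (y : f.Isom) u l, u ∈ W → f.B u s' = 0 → IsE y s u l →
    ∀ v ∈ W, ∀ w ∈ W, β (y.1 v) (y.1 w) = β v w

namespace BiW

variable {W : Submodule F V} {β : V → V → J} (h : BiW W β)
include h

theorem flip : BiW W fun w v => β v w :=
  ⟨fun v hv v' hv' w hw => h.right w hw v hv v' hv', fun v hv w hw w' hw' => h.left w hw w' hw' v hv⟩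

theorem zero_right {v : V} (hv : v ∈ W) : β v 0 = 1 := by
  have := h.right v hv 0 (zero_mem _) 0 (zero_mem _)
  rw [add_zero] at this
  exact mul_eq_left.mp this.symm

theorem zero_left {v : V} (hv : v ∈ W) : β 0 v = 1 := h.flip.zero_right hv

theorem neg_right {v w : V} (hv : v ∈ W) (hw : w ∈ W) : β v (-w) = (β v w)⁻¹ :=
  eq_inv_of_mul_eq_one_left (by rw [← h.right v hv _ (neg_mem hw) _ hw, neg_add_cancel,
    h.zero_right hv])

theorem neg_left {v w : V} (hv : v ∈ W) (hw : w ∈ W) : β (-v) w = (β v w)⁻¹ :=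
  h.flip.neg_right hw hv

omit h in
theorem _root_.Cfsg.Agent.Cls.InvE.flip {s s' : V} (h : InvE f W β s s') :
    InvE f W (fun w v => β v w) s s' := fun y u l a1 a2 a3 v hv w hw => h y u l a1 a2 a3 w hw v hv

variable {e e' : V} (he : e ∈ W) (he' : e' ∈ W) (Qe : f.Q e = 0) (hB : f.B e' e ≠ 0)
  (inv : InvE f W β e e')
include he he' Qe hB inv

theorem van_aux {u : V} {l : F} (hu : u ∈ W) (h1 : f.B u e = 0) (h2 : f.B u e' = 0)
    (hl : f.IsLam u l) (a b : F) :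
    β ((b * f.B e' e) • u - (b * P.ε * l * f.B e' e) • e) (a • e) = 1 := by
  obtain ⟨y, hy⟩ := exists_isE Qe h1 hl
  have := inv y u l hu h2 hy _ (W.smul_mem b he') _ (W.smul_mem a he)
  rw [map_smul, map_smul, hy.apply_self Qe, hy.app, f.B_eq_zero_symm h2,
    show ∀ x y z : V, b • (e' + x - (P.ε * 0) • y - z) = b • e' + (b • x - b • z) by
      intros; module, h.left _ (W.smul_mem _ he') _ (sub_mem (W.smul_mem _ (W.smul_mem _ hu))
      (W.smul_mem _ (W.smul_mem _ he))) _ (W.smul_mem _ he), mul_eq_left] at this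
  convert this using 2
  module

theorem van_self (nd : (∃ l, l ≠ 0 ∧ f.IsLam 0 l) ∨ ∃ u ∈ W, ∃ u' ∈ W, f.B u e = 0 ∧
    f.B u' e = 0 ∧ f.B u' e' = 0 ∧ f.B u u' ≠ 0) (c a : F) : β (c • e) (a • e) = 1 := by
  have ε0 := P.ε_ne_zero
  rcases nd with ⟨l, l0, hl⟩ | ⟨u, hu, u', hu', h1, h2, h3, h4⟩
  · have := h.van_aux he he' Qe hB inv (zero_mem _) (f.B_zero_left _) (f.B_zero_left _) hl a
      (-c / (P.ε * l * f.B e' e))
    convert this using 2
    match_scalars <;> field_simp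
  obtain ⟨l, hl⟩ := f.exists_isLam u'
  obtain ⟨y, hy⟩ := exists_isE Qe h2 hl
  have hw := W.smul_mem (-c / (P.ε * f.B u u')) hu
  have := inv y u' l hu' h3 hy _ hw _ (W.smul_mem a he)
  rw [map_smul y.1 a, hy.apply_self Qe, hy.app, B_smul_left, h1, B_smul_left,
    show ∀ x : V, x + (-c / (P.ε * f.B u u') * 0) • u' - (P.ε * (-c / (P.ε * f.B u u') *
      f.B u u')) • e - (P.ε * l * (-c / (P.ε * f.B u u') * 0)) • e = x + c • e by
      intro; match_scalars <;> field_simp <;> ring, h.left _ hw _ (W.smul_mem _ he) _ (W.smul_mem _ he),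
      mul_eq_left] at this
  exact this

theorem van_left (hs : ∀ c a : F, β (c • e) (a • e) = 1) {u : V} (hu : u ∈ W) (h1 : f.B u e = 0)
    (h2 : f.B u e' = 0) (a : F) : β u (a • e) = 1 := by
  obtain ⟨l, hl⟩ := f.exists_isLam u
  have := h.van_aux he he' Qe hB inv hu h1 h2 hl a (f.B e' e)⁻¹
  rwa [inv_mul_cancel₀ hB, one_smul, sub_eq_add_neg, ← neg_smul,
    h.left _ hu _ (W.smul_mem _ he) _ (W.smul_mem _ he), hs, mul_one] at this

omit inv he' Qe in
theorem exists_decomp (Qe : f.B e e = 0) (Qe' : f.B e' e' = 0) (he' : e' ∈ W) {v : V} (hv : v ∈ W) :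
    ∃ a b : F, ∃ u ∈ W, f.B u e = 0 ∧ f.B u e' = 0 ∧ v = a • e + b • e' + u := by
  have hB' : f.B e e' ≠ 0 := fun h => hB (f.B_eq_zero_symm h)
  refine ⟨f.B v e' / f.B e e', f.B v e / f.B e' e, v - (f.B v e' / f.B e e') • e -
    (f.B v e / f.B e' e) • e', sub_mem (sub_mem hv (W.smul_mem _ he)) (W.smul_mem _ he'), ?_, ?_,
    by abel⟩ <;> simp only [B_sub_left, B_smul_left, Qe, Qe'] <;> field_simp <;> ring

theorem exists_psi (Qe' : f.Q e' = 0) (inv' : InvE f W β e' e)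
    (nd : ∃ u ∈ W, ∃ u' ∈ W, f.B u e = 0 ∧ f.B u e' = 0 ∧ f.B u' e = 0 ∧ f.B u' e' = 0 ∧
      f.B u u' ≠ 0) :
    ∃ c : F, c ≠ 0 ∧ ∀ v ∈ W, ∀ w ∈ W, β v w = β e' ((c * f.B w v) • e) := by
  have ε0 := P.ε_ne_zero
  have hB' : f.B e e' ≠ 0 := fun h => hB (f.B_eq_zero_symm h)
  obtain ⟨u₀, hu₀, u₁, hu₁, a1, a2, a3, a4, a5⟩ := nd
  have s1 := h.van_self he he' Qe hB inv (Or.inr ⟨u₀, hu₀, u₁, hu₁, a1, a3, a4, a5⟩)
  have s2 := h.van_self he' he Qe' hB' inv' (Or.inr ⟨u₀, hu₀, u₁, hu₁, a2, a4, a3, a5⟩)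
  have l1 := @h.van_left _ _ _ _ _ _ f _ _ _ _ _ _ he he' Qe hB inv s1
  have l2 := @h.van_left _ _ _ _ _ _ f _ _ _ _ _ _ he' he Qe' hB' inv' s2
  have r1 := @h.flip.van_left _ _ _ _ _ _ f _ _ _ _ _ _ he he' Qe hB inv.flip fun c a => s1 a c
  have r2 := @h.flip.van_left _ _ _ _ _ _ f _ _ _ _ _ _ he' he Qe' hB' inv'.flip fun c a => s2 a c
  have key : ∀ β : V → V → J, BiW W β → InvE f W β e e' → (∀ c a : F, β (c • e) (a • e) = 1) →
      (∀ u ∈ W, f.B u e = 0 → f.B u e' = 0 → ∀ a : F,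
        β u (a • e) = 1 ∧ β (a • e) u = 1 ∧ β (a • e') u = 1) →
      ∀ u ∈ W, f.B u e = 0 → f.B u e' = 0 → ∀ u' ∈ W, f.B u' e = 0 → f.B u' e' = 0 → ∀ b : F,
        β ((b * f.B e' e) • u') u = β (b • e') ((P.ε * f.B u u') • e) := by
    intro β h inv s1 l u hu b1 b2 u' hu' b3 b4 b
    obtain ⟨l', hl⟩ := f.exists_isLam u'
    obtain ⟨y, hy⟩ := exists_isE Qe b3 hl
    have m1 := W.smul_mem b he'
    have m2 := W.smul_mem (b * f.B e' e) hu'
    have m3 := fun c : F => W.smul_mem c he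
    have := inv y u' l' hu' b4 hy _ m1 _ hu
    rw [map_smul, hy.app, hy.app, f.B_eq_zero_symm b4, b1,
      show b • (e' + f.B e' e • u' - (P.ε * 0) • e - (P.ε * l' * f.B e' e) • e) =
        b • e' + ((b * f.B e' e) • u' + (-(b * P.ε * l' * f.B e' e)) • e) by module,
      show u + (0 : F) • u' - (P.ε * f.B u u') • e - (P.ε * l' * 0) • e =
        u + (-(P.ε * f.B u u')) • e by module,
      h.left _ m1 _ (add_mem m2 (m3 _)) _ (add_mem hu (m3 _)),
      h.left _ m2 _ (m3 _) _ (add_mem hu (m3 _)), h.right _ m1 _ hu _ (m3 _),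
      h.right _ m2 _ hu _ (m3 _), h.right _ (m3 _) _ hu _ (m3 _), s1, (l u hu b1 b2 _).2.1,
      (l u hu b1 b2 _).2.2, (l _ m2 (by rw [B_smul_left, b3, mul_zero])
        (by rw [B_smul_left, b4, mul_zero]) _).1, neg_smul, h.neg_right m1 (m3 _)] at this
    simp only [one_mul, mul_one, inv_mul_eq_one] at this
    exact this.symm
  have k1 := key β h inv s1 fun u hu b1 b2 a => ⟨l1 hu b1 b2 a, r1 hu b1 b2 a, r2 hu b2 b1 a⟩
  have k2 := key _ h.flip inv.flip (fun c a => s1 a c)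
    fun u hu b1 b2 a => ⟨r1 hu b1 b2 a, l1 hu b1 b2 a, l2 hu b2 b1 a⟩
  have σ0 := P.σ_ne_zero hB
  have sm : ∀ (c : F) {u x : V}, f.B u x = 0 → f.B (c • u) x = 0 := fun c u x h => by
    rw [B_smul_left, h, mul_zero]
  have k3 : ∀ u ∈ W, f.B u e = 0 → f.B u e' = 0 → ∀ u' ∈ W, f.B u' e = 0 → f.B u' e' = 0 →
      β u' u = β e' ((P.ε / P.σ (f.B e' e) * f.B u u') • e) := fun u hu b1 b2 u' hu' b3 b4 => by
    have := k1 u hu b1 b2 _ (W.smul_mem (f.B e' e)⁻¹ hu') (sm _ b3) (sm _ b4) 1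
    rw [one_mul, smul_inv_smul₀ hB, one_smul, B_smul_right, map_inv₀] at this
    rw [this]; congr 2; ring
  have k4 : ∀ a b : F, β (b • e') (a • e) =
      β e' ((P.ε / P.σ (f.B e' e) * f.B (a • e) (b • e')) • e) := fun a b => by
    have hu := W.smul_mem (a / (P.ε * f.B u₀ u₁)) hu₀
    have := k1 _ hu (sm _ a1) (sm _ a2) u₁ hu₁ a3 a4 b
    rw [k3 _ hu (sm _ a1) (sm _ a2) _ (W.smul_mem _ hu₁) (sm _ a3) (sm _ a4), B_smul_left,
      B_smul_left, B_smul_right,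
      show P.ε * (a / (P.ε * f.B u₀ u₁) * f.B u₀ u₁) = a by field_simp] at this
    rw [← this, B_smul_left, B_smul_right, f.symm e' e, map_mul]
    congr 2; rcases P.ε_eq with e | e <;> simp only [e] <;> field_simp
  have k5 : ∀ a b : F, β (a • e) (b • e') =
      β e' ((P.ε / P.σ (f.B e' e) * f.B (b • e') (a • e)) • e) := fun a b => by
    have hu := W.smul_mem (a / (P.ε * f.B u₀ u₁)) hu₀
    have := k2 _ hu (sm _ a1) (sm _ a2) u₁ hu₁ a3 a4 b
    rw [k3 _ (W.smul_mem _ hu₁) (sm _ a3) (sm _ a4) _ hu (sm _ a1) (sm _ a2), B_smul_left,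
      B_smul_left, B_smul_right,
      show P.ε * (a / (P.ε * f.B u₀ u₁) * f.B u₀ u₁) = a by field_simp] at this
    rw [← this, B_smul_left, B_smul_right, f.symm u₀ u₁]
    have := P.σ_ne_zero a5
    simp only [map_mul, map_div₀, P.σε]
    congr 2; field_simp
  refine ⟨P.ε / P.σ (f.B e' e), div_ne_zero ε0 σ0, fun v hv w hw => ?_⟩
  have q1 := f.B_self_of_Q Qe
  have q2 := f.B_self_of_Q Qe'
  obtain ⟨a, b, u, hu, b1, b2, rfl⟩ := h.exists_decomp he hB q1 q2 he' hv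
  obtain ⟨a', b', u', hu', b3, b4, rfl⟩ := h.exists_decomp he hB q1 q2 he' hw
  have m1 := fun c : F => W.smul_mem c he
  have m2 := fun c : F => W.smul_mem c he'
  have m3 := fun a b : F => add_mem (m1 a) (m2 b)
  rw [h.left _ (m3 _ _) _ hu _ hw, h.left _ (m1 _) _ (m2 _) _ hw, h.right _ (m1 _) _ (m3 _ _) _ hu',
    h.right _ (m2 _) _ (m3 _ _) _ hu', h.right _ hu _ (m3 _ _) _ hu',
    h.right _ (m1 _) _ (m1 _) _ (m2 _), h.right _ (m2 _) _ (m1 _) _ (m2 _),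
    h.right _ hu _ (m1 _) _ (m2 _), s1, s2, l1 hu b1 b2, l2 hu b2 b1, r1 hu' b3 b4, r2 hu' b4 b3,
    k5, k4, k3 _ hu' b3 b4 _ hu b1 b2]
  simp only [one_mul, mul_one]
  rw [← h.right _ he' _ (m1 _) _ (m1 _), ← add_smul, ← h.right _ he' _ (m1 _) _ (m1 _), ← add_smul]
  simp only [B_add_left, B_add_right, B_smul_left, B_smul_right, q1, q2, b3, b4,
    f.B_eq_zero_symm b1, f.B_eq_zero_symm b2]
  congr 2; ring

end BiW

end Cfsg.Agent.Cls
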