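import Cfsg.Agent.Lib.Cls.MSpin

/-!
The rank one tori attached to short roots of orthogonal groups.
-/

set_option autoImplicit false

namespace Cfsg.Agent.Cls

open Forms Forms.Form Subgroup Module

variable {F : Type*} [Field F] {V : Type*} [AddCommGroup V] [Module F V]
  {f : Form (Param.orth F) V} {I : Type*} [InvolutiveNeg I] {J : Type*} [Group J]

/-- identification of the anisotropic kernel with a field carrying a norm form -/
structure KD (fr : Frame f I) {K : Type*} [Field K] (ρ : F →+* K) (c : K →+* K) (ι : K →+ V) :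
    Prop where
  smul : ∀ a x, ι (ρ a * x) = a • ι x
  mem : ∀ x, ι x ∈ fr.V0
  surj : ∀ v ∈ fr.V0, ∃ x, ι x = v
  cρ : ∀ a, c (ρ a) = ρ a
  cc : ∀ x, c (c x) = x
  Q1 : f.Q (ι 1) ≠ 0
  norm : ∀ x, ρ (f.Q (ι x)) = ρ (f.Q (ι 1)) * (x * c x)

namespace KD

variable {fr : Frame f I} {K : Type*} [Field K] {ρ : F →+* K} {c : K →+* K} {ι : K →+ V}
  (k : KD fr ρ c ι)
include k

theorem B_eq (x y : K) : ρ (f.B (ι x) (ι y)) = ρ (f.Q (ι 1)) * (x * c y + c x * y) := by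
  have := k.norm (x + y)
  rw [map_add, orth_Q_add, map_add, map_add, k.norm x, k.norm y, map_add] at this
  linear_combination this

theorem Q_ne {x : K} (h : x ≠ 0) : f.Q (ι x) ≠ 0 := fun e => by
  have := k.norm x
  rw [e, map_zero] at this
  exact mul_ne_zero ((map_ne_zero ρ).2 k.Q1) (mul_ne_zero h ((map_ne_zero c).2 h)) this.symm

theorem inj {x y : K} (h : ι x = ι y) : x = y := by
  by_contra e
  exact k.Q_ne (sub_ne_zero.2 e) (by rw [map_sub, h, sub_self, Q_zero])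

theorem refl {v : K} (h : v ≠ 0) (x : K) :
    ι x - (f.B (ι x) (ι v) * (f.Q (ι v))⁻¹) • ι v = ι (-(v / c v * c x)) := by
  have h1 := (map_ne_zero ρ).2 k.Q1
  have h2 := (map_ne_zero c).2 h
  rw [← k.smul, ← map_sub, map_mul, map_inv₀, k.B_eq, k.norm v]
  congr 1; field_simp; ring

theorem exists_torus {φ : J →* f.Isom} {U : I → Subgroup J} [Finite I] [Finite K]
    (h : PSt1 fr φ U) (i : I) : ∃ η : K → J, η 1 = 1 ∧
      (∀ t u, t ≠ 0 → u ≠ 0 → η (t * u) = η t * η u) ∧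
      (∀ g ∈ HR fr φ U i i, ∃ t, t ≠ 0 ∧ g = η t) ∧ ∀ t, t ≠ 0 → η t ∈ HR fr φ U i i ∧
        (∃ a, ρ a = (t * c t)⁻¹ ∧ (φ (η t)).1 (fr.e i) = a • fr.e i) ∧
        ∀ x, (φ (η t)).1 (ι x) = ι (c t / t * x) := by
  have h0 := h.toPSt0
  have n1 := fr.B_ne i
  have n2 := f.orth_symm (fr.e i) (fr.e (-i))
  have n3 := (map_ne_zero ρ).2 k.Q1
  have n4 := (map_ne_zero ρ).2 n1
  have hX : ∀ i (a : K), ∃ y ∈ XR fr φ U i i, IsE (φ y) (fr.e i) (ι a) (f.Q (ι a)) := fun i a => by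
    obtain ⟨g, hg⟩ := exists_isE (fr.Qe i) (fr.mem_V0.1 (k.mem a) i) (f.orth_isLam (ι a))
    obtain ⟨y, hy, rfl⟩ := h0.exists_C ⟨_, k.mem a, _, hg⟩
    exact ⟨y, hy, hg⟩
  choose X hX1 hX2 using hX
  have uX : ∀ {i a y l}, y ∈ U i → IsE (φ y) (fr.e i) (ι a) l → y = X i a := fun hy e =>
    h0.eq hy (hX1 _ _).1 (e.eq ((hX2 _ _).congr rfl (f.orth_isLam_iff.1 e.lam).symm))
  have aX : ∀ i a b, X i (a + b) = X i a * X i b := fun i a b =>
    (uX (mul_mem (hX1 _ _).1 (hX1 _ _).1) (by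
      rw [map_mul, map_add]; exact (hX2 i a).mul (fr.Qe i) (hX2 i b))).symm
  set β := f.B (fr.e i) (fr.e (-i))
  set γ := f.Q (ι 1)
  have hN : ∀ t : K, ρ (f.Q (ι (-t⁻¹))) = ρ γ * (t * c t)⁻¹ := fun t =>
    (k.norm _).trans (by rw [map_neg c, map_inv₀ c]; ring)
  set Y : K → J := fun t => X (-i) (-(ρ γ * ρ β)⁻¹ * c t) with hY
  have aY : ∀ a b, Y (a + b) = Y a * Y b := fun a b => by simp only [hY, map_add, mul_add, aX]
  have hφ : ∀ t, φ (SL2.stW Y (X i) t) = φ (Y t) * φ (X i (-t⁻¹)) * φ (Y t) := fun t => by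
    simp [SL2.stW]
  have hv : ∀ t : K, t ≠ 0 → ι (-(ρ γ * ρ β)⁻¹ * c t) = (f.Q (ι (-t⁻¹)) * β)⁻¹ • ι (-t⁻¹) :=
    fun t ht => by
      have := (map_ne_zero c).2 ht
      rw [← k.smul, map_inv₀ ρ, map_mul ρ, hN]
      congr 1; field_simp
  have hE : ∀ t : K, t ≠ 0 → ∀ l, f.IsLam ((f.Q (ι (-t⁻¹)) * β)⁻¹ • ι (-t⁻¹)) l →
      IsE (φ (Y t)) (fr.e (-i)) ((f.Q (ι (-t⁻¹)) * β)⁻¹ • ι (-t⁻¹)) l := fun t ht l hl =>
    (hX2 _ _).congr (hv t ht) (by rw [hv t ht, f.orth_isLam_iff.1 hl])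
  have l0 : ∀ t : K, t ≠ 0 → f.Q (ι (-t⁻¹)) ≠ 0 := fun t ht => k.Q_ne (by simpa)
  have hA := fun t (ht : t ≠ 0) => fr.W2_apply (k.mem _) (l0 t ht) (hX2 i (-t⁻¹))
    ((hE t ht _ (fr.isLam_W2 (f.orth_isLam _) (l0 t ht)).2).congr (by simp [β]) rfl)
    (hE t ht _ (fr.isLam_W2 (f.orth_isLam _) (l0 t ht)).2)
  have hA3 : ∀ t, t ≠ 0 → ∀ x, (φ (SL2.stW Y (X i) t)).1 (ι x) = ι (-(c t / t * c x)) :=
    fun t ht x => by
      have := (map_ne_zero c).2 ht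
      rw [hφ, (hA t ht).2.2 _ (k.mem x), k.refl (by simpa), map_neg c, map_inv₀]
      congr 1; field_simp
  have hW : ∀ t, t ≠ 0 → SL2.stW Y (X i) t ∈ WR fr φ U i i := fun t ht => by
    obtain ⟨a1, a2, -⟩ := hA t ht
    refine ⟨?_, _, hX1 _ _, fun e => ?_, _, hX1 _ _, _, hX1 _ _, rfl⟩
    · rw [hφ]
      exact fr.mon_of_W1 ⟨_, a2⟩ ⟨_, a1⟩ ⟨_, a2⟩ ⟨_, a1⟩ fun l k1 k2 _ _ =>
        fr.W2_fix ⟨_, k.mem _, _, hX2 _ _⟩ ⟨_, k.mem _, _, hX2 _ _⟩ ⟨_, k.mem _, _, hX2 _ _⟩ k1 k2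
    · have := (hX2 i (-t⁻¹)).app (fr.e (-i))
      rw [e, map_one, f.B_eq_zero_symm (fr.mem_V0.1 (k.mem _) _)] at this
      have := congrArg (fun x => f.B x (fr.e (-i))) this
      simp only [B_sub_left, B_add_left, B_smul_left, fr.mem_V0.1 (k.mem _) _, n2] at this
      simp [n1, f.B_self_of_Q (fr.Qe _), l0 t ht, fr.B_ne i, -map_neg] at this
  have hW' : ∀ r ∈ WR fr φ U i i, ∃ t, t ≠ 0 ∧ r = SL2.stW Y (X i) t := by
    intro r hr
    obtain ⟨v, hv', l, l0, x, hx, y, hy, y', hy', rfl, a1, a2, a3⟩ := h0.exists_W2 hr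
    obtain ⟨s, rfl⟩ := k.surj v hv'
    obtain rfl := f.orth_isLam_iff.1 a1.lam
    have s0 : s ≠ 0 := fun e => l0 (by rw [e, map_zero, Q_zero])
    have := hv (-s⁻¹) (by simpa)
    rw [inv_neg, inv_inv, neg_neg] at this
    refine ⟨-s⁻¹, by simpa, ?_⟩
    rw [uX hx a1, uX hy (a2.congr (by rw [this]; simp [β]) rfl), uX hy' (a3.congr this.symm rfl),
      SL2.stW, inv_neg, inv_inv, neg_neg]
  have hw : ∀ t u : K, t ≠ 0 → SL2.stW Y (X i) t * Y u * (SL2.stW Y (X i) t)⁻¹ =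
      X i (-(t⁻¹ ^ 2 * u)) := by
    intro t u ht
    obtain ⟨a1, -⟩ := hA t ht
    rw [← hφ] at a1
    have a2 := (hX2 _ (-(ρ γ * ρ β)⁻¹ * c u)).of_conj a1 (fr.smul_ne_zero a1)
    rw [← map_inv, ← map_mul, ← map_mul] at a2
    refine uX (Mx_conj (h.monoW i i (fr.ne i).symm _ (hW t ht)) ⟨_, a1⟩ (hX1 _ _).1)
      (a2.congr ?_ rfl)
    have := (map_ne_zero c).2 ht
    rw [hA3 t ht, ← k.smul]
    simp only [Param.orth_σ, Param.orth_ε, map_neg ρ, map_neg c, map_mul, map_inv₀, k.cρ, k.cc, n2,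
      map_one, hN]
    congr 1; field_simp
  refine ⟨SL2.stH Y (X i), mul_inv_cancel _, fun t u => stH_mul' aY (aX i) hw,
    fun g => exists_stH aY (aX i) hw hW', fun t ht =>
    ⟨mul_inv_mem_HR (hW t ht) (hW 1 one_ne_zero), ⟨f.Q (ι (-t⁻¹)) / γ, ?_, ?_⟩, fun x => ?_⟩⟩
  · rw [map_div₀, hN]; field_simp
  · have a1 := (hA 1 one_ne_zero).1
    rw [← hφ] at a1
    refine smul_right_injective V (fr.smul_ne_zero a1) ?_
    simp only
    rw [← map_smul, ← a1, SL2.stH, map_mul, map_inv, Isom.mul_apply, Isom.inv_apply, hφ,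
      (hA t ht).1, smul_smul, inv_one, map_neg ι 1, Q_neg]
    have := k.Q1
    congr 1; simp only [γ]; field_simp
  · have a1 := hA3 1 one_ne_zero (-c x)
    rw [map_one, div_one, one_mul, map_neg c, k.cc, neg_neg] at a1
    rw [← a1, SL2.stH, map_mul, map_inv, Isom.mul_apply, Isom.inv_apply, hA3 t ht, map_neg c, k.cc,
      mul_neg, neg_neg]

theorem ker_sq {φ : J →* f.Isom} {i : I} {t : K} (ht : t ≠ 0) {g : J} (e : φ g = 1)
    (h1 : ∃ a, ρ a = (t * c t)⁻¹ ∧ (φ g).1 (fr.e i) = a • fr.e i)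
    (h2 : ∀ x, (φ g).1 (ι x) = ι (c t / t * x)) : t = 1 ∨ t = -1 := by
  obtain ⟨a, a1, a2⟩ := h1
  have a3 := h2 1
  rw [e] at a2 a3
  have a4 : (1 : F) = a := smul_left_injective F (fr.e_ne_zero i) ((one_smul _ _).trans a2)
  have a5 := k.inj a3
  rw [← a4, map_one, eq_comm, inv_eq_one] at a1
  rw [mul_one, eq_div_iff ht, one_mul] at a5
  exact mul_self_eq_one_iff.1 (by rwa [← a5] at a1)

end KD

theorem Frame.kd_line (fr : Frame f I) {v : V} (hv : v ∈ fr.V0) (v0 : v ≠ 0)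
    (hV : ∀ u ∈ fr.V0, ∃ c : F, u = c • v) :
    KD fr (RingHom.id F) (RingHom.id F) (LinearMap.toSpanSingleton F V v).toAddMonoidHom where
  smul a x := mul_smul a x v
  mem x := Submodule.smul_mem _ x hv
  surj u hu := let ⟨c, e⟩ := hV u hu; ⟨c, e.symm⟩
  cρ _ := rfl
  cc _ := rfl
  Q1 := by simpa using fr.Q_ne hv v0
  norm x := by simp [orth_Q_smul, mul_comm]

theorem Frame.exists_kd [Finite I] [Finite F] [FiniteDimensional F V] (fr : Frame f I)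
    (hf : f.Nondeg) (h : finrank F fr.V0 = 2) :
    ∃ (a b : F) (_ : Fact (∀ r : F, r ^ 2 ≠ a + b * r)) (ι : QuadraticAlgebra F a b →+ V),
      KD fr (K := QuadraticAlgebra F a b) (algebraMap F _) (starRingEnd _) ι := by
  obtain ⟨v, hv, u, hu, h1, h2, h3⟩ := fr.exists_basis_V0 hf h
  have q1 := fr.Q_ne hv fun e => by simp [e] at h1
  have hQ : ∀ s t : F, f.Q (s • v + t • u) = s * s * f.Q v + t * t * f.Q u + s * t * f.B v u :=
    fun s t => by rw [orth_Q_add, orth_Q_smul, orth_Q_smul, B_smul_left, orth_B_smul_right]; ring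
  have : Fact (∀ r : F, r ^ 2 ≠ -(f.Q u / f.Q v) + f.B v u / f.Q v * r) := ⟨fun r e => by
    refine fr.Q_ne (add_mem (Submodule.smul_mem _ r hv) (Submodule.smul_mem _ (-1) hu))
      (fun e => by simpa using (h2 _ _ e).2) ?_
    rw [hQ]; field_simp at e; linear_combination e⟩
  refine ⟨_, _, this, ⟨⟨fun z => z.re • v + z.im • u, by simp⟩, fun x y => by simp; module⟩,
    fun a x => by simp; module, fun x => add_mem (Submodule.smul_mem _ _ hv)
      (Submodule.smul_mem _ _ hu), fun w hw => let ⟨s, t, e⟩ := h3 w hw; ⟨⟨s, t⟩, e.symm⟩,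
    fun a => by ext <;> simp [starRingEnd_apply], star_star,
    by simpa [QuadraticAlgebra.re_one, QuadraticAlgebra.im_one], fun x => ?_⟩
  rw [starRingEnd_apply, ← QuadraticAlgebra.algebraMap_norm_eq_mul_star, ← map_mul]
  congr 1
  simp only [AddMonoidHom.coe_mk, ZeroHom.coe_mk, hQ, QuadraticAlgebra.norm_def,
    QuadraticAlgebra.re_one, QuadraticAlgebra.im_one]
  field_simp; ring

end Cfsg.Agent.Cls
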