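import Cfsg.Agent.Lib.Cls.MBig
import Cfsg.Agent.Lib.Mult.Basic
import Cfsg.Agent.Lib.SL2.Mult2

/-!
Central extensions of classical groups: canonical lifts of the Eichler groups.
-/

set_option autoImplicit false

namespace Cfsg.Agent.Cls

open Forms Forms.Form Subgroup
open scoped commutatorElement

variable {F : Type*} [Field F] {P : Param F} {V : Type*} [AddCommGroup V] [Module F V]
  {f : Form P V} {I : Type*} [InvolutiveNeg I] {J : Type*} [Group J]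

namespace Frame

variable (fr : Frame f I) [Finite I]

theorem apply_Wp {S : Set I} (hS : ∀ i ∈ S, -i ∈ S) {g : f.Isom} {s : F}
    (h1 : ∀ k ∈ S, g.1 (fr.e k) = s • fr.e k) (h2 : ∀ v ∈ fr.V0, g.1 v = s • v) :
    ∀ w ∈ fr.Wp S, g.1 w = s • w := by
  intro w hw
  have := Fintype.ofFinite I
  obtain ⟨c, hc⟩ := fr.exists_decomp w
  have h3 : ∀ k, g.1 (c k • fr.e k) = s • c k • fr.e k := fun k => by
    by_cases hk : k ∈ S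
    · rw [map_smul, h1 k hk, smul_comm]
    have := fr.mem_V0.1 hc (-k)
    rw [B_sub_left, hw _ fun e => hk (by simpa using hS _ e), map_sum, LinearMap.sum_apply,
      Finset.sum_eq_single k (fun l _ hl => by rw [B_smul_left, fr.B_neg hl, mul_zero]) (by simp),
      zero_sub, neg_eq_zero, B_smul_left, mul_eq_zero, or_iff_left (fr.B_ne k)] at this
    simp [this]
  rw [← sub_add_cancel w (∑ i, c i • fr.e i), map_add, h2 _ hc, map_sum, smul_add, Finset.smul_sum]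
  simp only [h3]

theorem exists_torus_N [Finite F] {i j : I} (h1 : j ≠ i) (h2 : j ≠ -i) {t : F} (t0 : t ≠ 0) :
    ∃ g ∈ fr.EG, g.1 (fr.e i) = (t * P.σ t) • fr.e i ∧ fr.Mv g (-i) (-i) ∧
      (∀ k, k ≠ i → k ≠ -i → g.1 (fr.e k) = fr.e k) ∧ ∀ w ∈ fr.V0, g.1 w = w := by
  obtain ⟨g, g0, g1, g2, g3, g4, g5⟩ := fr.exists_torus_A h1 h2 t0
  obtain ⟨g', k0, k1, k2, k3, k4, k5⟩ := fr.exists_torus_A (neg_ne_of h2) (neg_ne_neg_of h1)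
    (P.σ_ne_zero t0)
  have g6 := fr.apply_neg g2 (g3 _)
  have k6 := fr.apply_neg k2 (k3 _)
  rw [neg_neg] at k6
  have := P.σ_ne_zero t0
  refine ⟨g * g', mul_mem (fr.Levi_le_EG _ (g0 Set.univ trivial trivial))
    (fr.Levi_le_EG _ (k0 Set.univ trivial trivial)), ?_, (g3 _).mul (k3 _), fun k a1 a2 => ?_,
    fun w hw => by rw [Isom.mul_apply, k5 w hw, g5 w hw]⟩ <;> rw [Isom.mul_apply]
  · rw [k1, map_smul, g1, smul_smul, mul_comm]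
  by_cases a3 : k = j
  · rw [a3, k6, map_smul, g2, smul_smul]; simp [P.σσ, t0]
  by_cases a4 : k = -j
  · rw [a4, k2, map_smul, g6, smul_smul]; simp [this]
  rw [k4 k a1 a2 a4 (by rwa [neg_neg]), g4 k a1 a2 a3 a4]

variable {i j : I}

omit [Finite I] in
theorem RA_mem_ES {S : Set I} (hS : ∀ i ∈ S, -i ∈ S) (hi : i ∈ S) (hj : j ∈ S) {x : f.Isom}
    (hx : x ∈ fr.RA i j) : x ∈ fr.ES S :=
  fr.le_ES hi ⟨fr.RA_subset_U hx, PSt.RA_mem_FixV (φ := MonoidHom.id _) hS hi hj hx⟩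

omit [Finite I] in
theorem RC_le_ES {S : Set I} (hS : ∀ i ∈ S, -i ∈ S) (hi : i ∈ S) : fr.RC i ≤ fr.ES S :=
  fun _ hx => fr.le_ES hi ⟨fr.RC_le_U i hx, PSt.RC_mem_FixV (φ := MonoidHom.id _) hS hi hx⟩

omit [Finite I] in
theorem RA_mem_T' {k : I} (h2 : j ≠ -i) (h3 : j ≠ -k) {x : f.Isom} (hx : x ∈ fr.RA i k) :
    x ∈ fr.T2 i j := ⟨fr.RA_subset_U hx, fr.RA_apply hx h2 h3⟩

omit [Finite I] in
theorem RC_le_T (h2 : j ≠ -i) : fr.RC i ≤ fr.T2 i j :=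
  fun _ hx => ⟨fr.RC_le_U i hx, fr.RC_apply hx h2⟩

omit [Finite I] in
theorem ES_le_A2 : fr.ES (rm (rm Set.univ i) j) ≤ fr.A2 i j := le_sup_right.trans le_sup_right

theorem T2_le (h1 : j ≠ i) (h2 : j ≠ -i) {k : I} (hk : k ∈ rm (rm Set.univ i) j)
    (hA : ∀ k ∈ rm (rm Set.univ i) j, fr.RS i k ≤ ⁅fr.T2 i j, fr.A2 i j⁆) :
    fr.T2 i j ≤ ⁅fr.T2 i j, fr.A2 i j⁆ := by
  have hS := rm_closed (rm_closed (S := Set.univ) (fun _ _ => trivial) i) j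
  refine fun g hg => fr.U_induction {j} (fun l a1 a2 a3 x hx => ?_) (fun s hs => ?_) hg.1
    (by rintro _ rfl; exact hg.2) (fun e => h2 e.symm)
  · by_cases a4 : l = j
    · obtain ⟨y, hy, z, hz, rfl⟩ := fr.exists_comm_A hk.1.2.1 hk.1.2.2 hk.2.1 hk.2.2 h2 (a4 ▸ hx)
      have hz' := fr.RA_swap (by rw [neg_neg]; exact hk.2.1.symm) hz
      exact commutator_mem_commutator (fr.RA_mem_T' h2 (ne_neg_swap hk.2.2) hy)
        (mem_sup_right (mem_sup_left ⟨fr.RA_subset_U hz', PSt.RA_mem_FixV (φ := MonoidHom.id _)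
          (rm_closed (S := Set.univ) (fun _ _ => trivial) i) ⟨trivial, h1, h2⟩ (hS k hk).1 hz'⟩))
    · exact hA l ⟨⟨trivial, a1, a2⟩, a4, fun e => a3 (by simp [e])⟩ hx
  · obtain ⟨x, hx, y, hy, t, ht, rfl⟩ := fr.exists_comm_C hk.1.2.1 hk.1.2.2 hs
    exact mul_mem (commutator_mem_commutator (fr.RA_mem_T' h2 (ne_neg_swap hk.2.2) hx)
      (fr.ES_le_A2 (fr.RC_le_ES hS (hS k hk) hy))) (hA _ (hS k hk) ht)

theorem T2_le_four (h4 : ∀ i j k : I, ∃ l, l ≠ i ∧ l ≠ -i ∧ l ≠ j ∧ l ≠ -j ∧ l ≠ k ∧ l ≠ -k)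
    (h1 : j ≠ i) (h2 : j ≠ -i) : fr.T2 i j ≤ ⁅fr.T2 i j, fr.A2 i j⁆ := by
  have hS := rm_closed (rm_closed (S := Set.univ) (fun _ _ => trivial) i) j
  obtain ⟨k, a1, a2, a3, a4, -⟩ := h4 i j j
  refine fr.T2_le h1 h2 (k := k) ⟨⟨trivial, a1, a2⟩, a3, a4⟩ fun k hk x hx => ?_
  obtain ⟨l, a1, a2, a3, a4, a5, a6⟩ := h4 i j k
  obtain ⟨y, hy, z, hz, rfl⟩ := fr.exists_comm_A a1 a2 a5 a6 hk.1.2.2 hx
  exact commutator_mem_commutator (fr.RA_mem_T' h2 (ne_neg_swap a4) hy)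
    (fr.ES_le_A2 (fr.RA_mem_ES hS (hS l ⟨⟨trivial, a1, a2⟩, a3, a4⟩) hk hz))

/-- a rotation of the anisotropic part -/
def Rot : Prop := fr.HasC ∧ (∀ l, f.IsLam 0 l → l = 0) ∧ ∀ k, ∃ g ∈ fr.RC k ⊔ fr.RC (-k),
  (∀ w ∈ fr.V0, ∃ w' ∈ fr.V0, g.1 w' - w' = w) ∧ ∀ l, g.1 (fr.e l) = fr.e l

theorem T2_le_rot (hR : fr.Rot) (h1 : j ≠ i) (h2 : j ≠ -i) {k : I}
    (hk : k ∈ rm (rm Set.univ i) j) : fr.T2 i j ≤ ⁅fr.T2 i j, fr.A2 i j⁆ := by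
  have hS := rm_closed (rm_closed (S := Set.univ) (fun _ _ => trivial) i) j
  refine fr.T2_le h1 h2 hk fun k hk x hx => ?_
  obtain ⟨y, hy, z, hz, t, ⟨v, hv, l, ht⟩, rfl⟩ := fr.exists_comm_A' hk.1.2.1 hk.1.2.2
    (fr.RC_ne_bot hR.1 k) hx
  refine mul_mem ?_ (commutator_mem_commutator (fr.RA_mem_T' h2 (by
    rw [neg_neg]; exact hk.2.1.symm) hy) (fr.ES_le_A2 (fr.RC_le_ES hS hk hz)))
  obtain ⟨g, g1, g2, g3⟩ := hR.2.2 k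
  obtain ⟨v', hv', e⟩ := g2 v hv
  obtain ⟨x', l', a1, r, ⟨m, a2⟩, rfl⟩ := fr.weight_U (t := 1) (by rw [g3, one_smul]) ht
    (fr.mem_V0.1 hv' i) (by simpa using e)
  rw [(a2.congr rfl (hR.2.1 m a2.lam)).eq_one, mul_one]
  exact comm_swap_mem (commutator_mem_commutator (fr.RC_le_T h2 ⟨_, hv', _, a1⟩)
    (fr.ES_le_A2 (sup_le (fr.RC_le_ES hS hk) (fr.RC_le_ES hS (hS k hk)) g1)))

end Frame

/-- the splitting hypotheses -/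
def Spl (fr : Frame f I) (φ : J →* f.Isom) : Prop :=
  (∀ i, NK φ (fr.U i) (fr.U i)) ∧ ∀ i j, j ≠ i → j ≠ -i → NK φ (fr.U i) (fr.A2 i j)

/-- canonical lifts -/
structure Can (fr : Frame f I) (φ : J →* f.Isom) (U : I → Subgroup J) : Prop
    extends PSt1 fr φ U where
  ce : CE fr φ
  top : ⨆ i, U i = ⊤
  conj : ∀ g i j, fr.Mv (φ g) i j → ∀ x ∈ U i, g * x * g⁻¹ ∈ U j

namespace CE

variable {fr : Frame f I} {φ : J →* f.Isom} (h : CE fr φ) [Finite I]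
include h

omit [Finite I] in
theorem LCs_symm {g : f.Isom} (hg : g ∈ fr.EG) {x : J} (e : ∀ y, φ y = g → φ x ∈ LCs φ y) :
    g ∈ LCs φ x := by
  obtain ⟨y, rfl⟩ := h.surj hg
  exact mem_LCs_of_commute (h.cen.commute_of_mem (e y rfl)).symm

omit h [Finite I] in
theorem cAA {i j k l : I} {x : f.Isom} (hx : x ∈ fr.RA i j) (h1 : k ≠ -i) (h2 : k ≠ -j)
    (h3 : l ≠ -i) (h4 : l ≠ -j) : ∀ y ∈ fr.RA k l, Commute y x := fun _ hy =>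
  (fr.commute_RA hy (fr.RA_apply hx h1 h2) (fr.RA_apply hx h3 h4)).symm

omit h [Finite I] in
theorem cCA {i j k : I} {x : f.Isom} (hx : x ∈ fr.RA i j) (h1 : k ≠ -i) (h2 : k ≠ -j) :
    ∀ y ∈ fr.RC k, Commute y x := fun _ hy =>
  fr.commute_RA hx (fr.RC_apply hy (ne_neg_swap h1)) (fr.RC_apply hy (ne_neg_swap h2))

omit h in
theorem ltwo_of (hC : ∀ i j, j ≠ i → j ≠ -i → ∀ x, φ x ∈ fr.RA i j → ∀ k ∈ rm (rm Set.univ i) j,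
      fr.RC k ≤ LCs φ x)
    (hA : ∀ i j, j ≠ i → j ≠ -i → ∀ x, φ x ∈ fr.RA i j → ∀ k ∈ rm (rm Set.univ i) j,
      ∀ l ∈ rm (rm Set.univ i) j, l ≠ k → l ≠ -k → fr.RS k l ≤ LCs φ x) : LTwo fr φ :=
  fun i j h1 h2 x hx => iSup₂_le fun k hk => fr.U_inf_Fx_le (rm_closed (rm_closed (S := Set.univ)
    (fun _ _ => trivial) i) j) hk (hA i j h1 h2 x hx k hk) (hC i j h1 h2 x hx k hk)

theorem ltwo_of_C (hC : fr.HasC) (h4 : ∀ i j, j ≠ i → j ≠ -i → ∀ x, φ x ∈ fr.RA i j →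
      ∀ k ∈ rm (rm Set.univ i) j, fr.RC k ≤ LCs φ x) : LTwo fr φ :=
  ltwo_of h4 fun i j h1 h2 x hx k hk l hl a1 a2 => h.RS_le_of_C a1 a2 hC
    (cAA hx hk.1.2.2 hk.2.2 (neg_ne_neg_of hl.1.2.1) (neg_ne_neg_of hl.2.1))
    (cCA hx hl.1.2.2 hl.2.2) (h4 i j h1 h2 x hx k hk)

theorem ltwo_four (hC : fr.HasC)
    (h4 : ∀ i j k : I, ∃ l, l ≠ i ∧ l ≠ -i ∧ l ≠ j ∧ l ≠ -j ∧ l ≠ k ∧ l ≠ -k) : LTwo fr φ :=
  h.ltwo_of_C hC fun i j _ h2 x hx k hk g hg => h.LCs_symm (fr.RC_le_EG k hg) fun y e => by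
    obtain ⟨l, a1, a2, a3, a4, a5, a6⟩ := h4 i j k
    subst e
    exact h.RS_le_of_index a1 a2 a3 a4 h2
      (fun z hz => (cCA hz hk.1.2.2 (ne_neg_swap a6) _ hg).symm)
      (fun z hz => (cCA hz (by rw [neg_neg]; exact a5.symm) hk.2.2 _ hg).symm) hx

theorem ltwo_rot (hR : fr.Rot) : LTwo fr φ :=
  h.ltwo_of_C hR.1 fun i j _ h2 x hx k hk => by
    obtain ⟨g, g1, g2, g3⟩ := hR.2.2 k
    refine h.RC_le_of_weight (sup_le (fr.RC_le_EG _) (fr.RC_le_EG _) g1) (t := 1)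
      (by rw [g3, one_smul]) (by simpa using g2) (fr.commute_RA hx (g3 _) (g3 _))
      (cCA hx hk.1.2.2 hk.2.2) ?_
    rintro r ⟨m, a2⟩
    rw [(a2.congr rfl (hR.2.1 m a2.lam)).eq_one]
    exact one_mem _

theorem ltwo_D [Finite F] (hC : ¬ fr.HasC) (h5 : (∀ i j k l : I, ∃ s, s ≠ i ∧ s ≠ -i ∧ s ≠ j ∧
    s ≠ -j ∧ s ≠ k ∧ s ≠ -k ∧ s ≠ l ∧ s ≠ -l) ∨ (∃ t : F, t ≠ 0 ∧ t * t ≠ 1) ∨
    ((∀ a : F, a = 0 ∨ a = 1 ∨ a = -1) ∧ (3 : F) = 0)) : LTwo fr φ := by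
  refine ltwo_of (fun i j _ _ x _ k _ => by rw [fr.RC_eq_bot hC]; exact bot_le)
    fun i j h1 h2 x hx k hk l hl a1 a2 => ?_
  have c0 := cAA hx hk.1.2.2 hk.2.2 hl.1.2.2 hl.2.2
  rcases h5 with h5 | ⟨t, t0, t1⟩ | ⟨hF, h3⟩
  · obtain ⟨s, b1, b2, b3, b4, b5, b6, b7, b8⟩ := h5 i j k l
    exact h.RS_le_of_index b5 b6 b7 b8 a2 (cAA hx hk.1.2.2 hk.2.2 b2 b4)
      (cAA hx (neg_ne_neg_of b1) (neg_ne_neg_of b3) hl.1.2.2 hl.2.2)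
  · obtain ⟨g, g0, g1, g2, g3, g4, -⟩ := fr.exists_torus_A (neg_ne_of a2) (neg_ne_neg_of a1) t0
    have g6 := fr.apply_neg g2 (g3 _)
    rw [neg_neg, map_inv₀, inv_inv] at g6
    refine h.RS_le_of_weight a2 (fr.Levi_le_EG _ (g0 Set.univ trivial trivial)) g1 g6
      (fun e => t1 (P.σ_bijective.1 (by rw [map_mul, e, map_one]))) (fr.commute_RA hx ?_ ?_) c0
    · exact g4 _ hk.1.2.1.symm (ne_neg_swap hk.1.2.2) (ne_neg_swap hl.1.2.2)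
        (by rw [neg_neg]; exact hl.1.2.1.symm)
    · exact g4 _ hk.2.1.symm (ne_neg_swap hk.2.2) (ne_neg_swap hl.2.2)
        (by rw [neg_neg]; exact hl.2.1.symm)
  have hσ : ∀ a, P.σ a = a := fun a => by rcases hF a with rfl | rfl | rfl <;> simp
  have sw : ∀ a b : I, b ≠ a → b ≠ -a → ∃ g ∈ fr.EG, ∃ c : F, c ≠ 0 ∧ g.1 (fr.e a) = c • fr.e b ∧
      g.1 (fr.e b) = (-c⁻¹) • fr.e a ∧
      ∀ m, m ≠ a → m ≠ -a → m ≠ b → m ≠ -b → g.1 (fr.e m) = fr.e m := by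
    intro a b b1 b2
    obtain ⟨x, hx⟩ := fr.exists_RA (neg_ne_neg_of b1) 1
    obtain ⟨y, hy⟩ := fr.exists_RA (i := -a) (j := - -b) (neg_ne_neg_of (neg_ne_neg_of b1))
      (P.σ (P.ε * (f.B (fr.e (-a)) (fr.e a) * 1 * f.B (fr.e (-b)) (fr.e (- -b)))⁻¹))
    obtain ⟨-, c2, c3, -⟩ := fr.W1_apply (neg_ne_of b2) (neg_ne_neg_of b1) one_ne_zero hx hy
    rw [neg_neg] at c2 c3
    refine ⟨_, mul_mem (mul_mem (fr.RA_mem_EG ⟨_, hy⟩) (fr.RA_mem_EG ⟨_, hx⟩))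
      (fr.RA_mem_EG ⟨_, hy⟩), _, fr.smul_ne_zero c3, c3, c2.trans ?_, fun m m1 m2 m3 m4 =>
      fr.W1_fix ⟨_, hx⟩ ⟨_, hy⟩ ⟨_, hy⟩ m1 m2 m4 (by rwa [neg_neg])⟩
    rcases P.ε_eq with e | e <;> simp [e]
  obtain ⟨g, g0, c, c1, g1, g2, g3⟩ := sw i k hk.1.2.1 hk.1.2.2
  obtain ⟨g', k0, d, d1, k1, k2, k3⟩ := sw j l hl.2.1 hl.2.2
  obtain ⟨w, hw⟩ := h.surj (mul_mem g0 k0)
  have w1 : (φ w).1 (fr.e i) = c • fr.e k := by
    rw [hw, Isom.mul_apply, k3 _ h1.symm (ne_neg_swap h2) hl.1.2.1.symm (ne_neg_swap hl.1.2.2), g1]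
  have w2 : (φ w).1 (fr.e k) = (-c⁻¹) • fr.e i := by
    rw [hw, Isom.mul_apply, k3 _ hk.2.1 hk.2.2 a1.symm (ne_neg_swap a2), g2]
  have w3 : (φ w).1 (fr.e j) = d • fr.e l := by
    rw [hw, Isom.mul_apply, k1, map_smul, g3 _ hl.1.2.1 hl.1.2.2 a1 a2]
  have w4 : (φ w).1 (fr.e l) = (-d⁻¹) • fr.e j := by
    rw [hw, Isom.mul_apply, k2, map_smul, g3 _ h1 h2 hk.2.1.symm (ne_neg_swap hk.2.2)]
  obtain ⟨a, ha⟩ := hx
  have b1 := ha.of_conj w1 c1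
  rw [map_smul, w3, smul_smul, smul_smul, mul_zero, hσ] at b1
  have b2 := b1.of_conj w2 (fr.smul_ne_zero w2)
  have b3 := ha.eq (b2.congr (by rw [map_smul, w4, hσ]; match_scalars; field_simp) (mul_zero _))
  obtain ⟨_, b4, b5⟩ := ha.pow (fr.Qe i) 3
  rw [b5 (by simp [f.B_self_of_Q (fr.Qe j)]), mul_zero, Nat.cast_ofNat, h3, zero_smul] at b4
  have b6 : φ w * φ x * (φ w)⁻¹ ∈ LCs φ x := by
    have := h.cen.exchange (a := x) (b := w * x * w⁻¹) (g := w) (by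
      simpa using (c0 _ ⟨_, b1⟩).symm) (by decide : Odd 3) b4.eq_one (by simp) (by simpa using b3)
    simpa using mem_LCs_of_commute (φ := φ) this.symm
  rintro s ⟨b, hb⟩
  by_cases a0 : a = 0
  · rw [a0, zero_smul] at ha
    exact h.le_LCs_one ha.eq_one (fr.RA_mem_EG ⟨_, hb⟩)
  have n0 : c * a * d ≠ 0 := mul_ne_zero (mul_ne_zero c1 a0) d1
  rcases hF (b / (c * a * d)) with e | e | e <;> rw [div_eq_iff n0] at e <;> subst e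
  · rw [(hb.congr (by simp) rfl).eq_one]; exact one_mem _
  · rwa [hb.eq (b1.congr (by simp) rfl)]
  · rw [hb.eq ((b1.inv (fr.Qe k)).congr (by simp) (by simp))]; exact inv_mem b6

theorem spl_big (R : RCm fr φ) (L : LTwo fr φ)
    (h3 : ∀ i j : I, ∃ k, k ≠ i ∧ k ≠ -i ∧ k ≠ j ∧ k ≠ -j)
    (nd : (∀ i j k : I, ∃ l, l ≠ i ∧ l ≠ -i ∧ l ≠ j ∧ l ≠ -j ∧ l ≠ k ∧ l ≠ -k) ∨
      ∃ u ∈ fr.V0, ∃ u' ∈ fr.V0, f.B u u' ≠ 0)
    (alt : ((∀ l, f.IsLam 0 l → ∃ a, l = a - P.ε * P.σ a) ∧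
      ∀ a, a = P.ε * P.σ a → ∃ b, a = b + P.ε * P.σ b) ∨ ∀ v w, f.B v w = f.B w v)
    (hT : ∀ i j, j ≠ i → j ≠ -i → fr.T2 i j ≤ ⁅fr.T2 i j, fr.A2 i j⁆) : Spl fr φ := by
  have hI : ∀ i, ∃ ψ, CI fr φ i ψ := fun i =>
    let ⟨j, h1, h2, _⟩ := h3 i i; h.exists_ci R h1 h2 (Or.inl (h3 i j))
  have hB : ∀ i j, j ≠ i → j ≠ -i → ∃ k ∈ rm (rm Set.univ i) j, ∃ ψ, BI fr φ i j ψ :=
    fun i j h1 h2 => by
      obtain ⟨k, a1, a2, a3, a4⟩ := h3 i j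
      exact ⟨k, ⟨⟨trivial, a1, a2⟩, a3, a4⟩, h.exists_bi R hI L h1 h2 ⟨⟨trivial, a1, a2⟩, a3, a4⟩
        (nd.imp_left fun h4 => let ⟨l, b1, b2, b3, b4, b5⟩ := h4 i j k
          ⟨l, ⟨⟨trivial, b1, b2⟩, b3, b4⟩, b5⟩)⟩
  have n1 : ∀ i, NK φ (fr.U i) (fr.U i) := fun i => by
    obtain ⟨j, h1, h2, -⟩ := h3 i i
    rcases alt with alt | alt
    · obtain ⟨ψ, hψ⟩ := hI i
      exact h.nk_of_ci_tr h1 h2 hψ alt.2
    · obtain ⟨k, hk, ψ, hψ⟩ := hB i j h1 h2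
      exact h.nk_sym hI h1 h2 hψ hk alt
  refine ⟨n1, fun i j h1 h2 => ?_⟩
  obtain ⟨k, hk, ψ, hψ⟩ := hB i j h1 h2
  exact h.nk_big R hI L h1 h2 hψ (n1 i) hk (alt.imp_left And.left) (hT i j h1 h2)

theorem exists_can {p n : ℕ} [hp : Fact p.Prime] [Finite F] [Finite V] [Finite J]
    (hF : Nat.card F = p ^ n) (hT : fr.Term p) (hS : Spl fr φ) (hJ : commutator J = ⊤)
    (hm : ∀ x, φ x ∈ fr.EG) : ∃ U, Can fr φ U := by
  let π : J →* fr.EG := φ.codRestrict _ hm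
  have s1 : Function.Surjective π := fun g => let ⟨x, e⟩ := h.surj g.2; ⟨x, Subtype.ext e⟩
  have s2 : π.ker ≤ center J := fun z hz => mem_center_iff.2 fun x =>
    (h.cen z (congrArg Subtype.val hz) x).eq
  have : Finite fr.EG := Finite.of_surjective π s1
  obtain ⟨S⟩ : Nonempty (Sylow p fr.EG) := inferInstance
  have hπ : PExt p π := ⟨⟨s1, s2⟩, fun z hz => ⟨S.index, (hp.out.coprime_iff_not_dvd.2
      S.not_dvd_index).symm, fr.nk_of_pEl hF hT h.cen h.surj hS.1 hS.2 Set.univ (fun _ _ => trivial)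
      (S.1.map fr.EG.subtype) (fun g _ => fr.mem_Fx_univ g) (map_subtype_le _)
      (PEl.of_isPGroup (S.2.map _)) _ (by
        have := Mult.pow_index_mem ⟨s1, s2, by rw [hJ]; exact le_top⟩ S hz
        refine commutator_mono ?_ ?_ this <;> exact fun x hx => ⟨π x, hx, rfl⟩)
      (by rw [map_pow, show φ z = 1 from congrArg Subtype.val hz, one_pow])⟩⟩
  have hU : ∀ i, IsPGroup p ((fr.U i).subgroupOf fr.EG) := fun i =>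
    (fr.pEl_U hF i).isPGroup.comap_subtype
  have hc : ∀ g i j, fr.Mv (φ g) i j → ∀ x ∈ hπ.up _ (hU i), g * x * g⁻¹ ∈ hπ.up _ (hU j) :=
    fun g i j e x hx => ⟨by
      change φ _ ∈ fr.U j
      rw [map_mul, map_mul, map_inv]; exact e.conj_U hx.1, hx.2.conj g⟩
  have h0 : PSt0 fr φ fun i => hπ.up _ (hU i) :=
    { inj := fun i x hx e => hπ.eq_of_isPElt hx.2 IsPElt.one (Subtype.ext (e.trans (map_one φ).symm))
      mem := fun i x hx => hx.1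
      surj := fun i g hg => ⟨_, hπ.lift_mem_up (hU i) (g := ⟨g, fr.U_le_EG i hg⟩) hg,
        congrArg Subtype.val (hπ.map_lift (IsPElt.of_mem (hU i) (e := ⟨g, fr.U_le_EG i hg⟩) hg))⟩
      norm := fun i _ x _ e => hc x i i (.of_eq e)
      swap := fun i j _ h2 x hx e => ⟨fr.RA_subset_U (fr.RA_swap h2 e), hx.2⟩ }
  refine ⟨_, ⟨h0, fun i j _ r hr => h0.mem_Mx hr.1 (hc r)⟩, h, ?_, hc⟩
  rw [eq_top_iff, ← hJ]
  refine (SL2.commutator_le_of_center_sup fun x => ?_).trans (commutator_self_le _)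
  obtain ⟨y, hy, e⟩ : φ x ∈ (⨆ i, hπ.up _ (hU i)).map φ := (iSup_le fun i g hg =>
    let ⟨x, hx, e⟩ := h0.surj i g hg; mem_map.2 ⟨x, mem_iSup_of_mem i hx, e⟩ : fr.EG ≤ _) (hm x)
  obtain ⟨z, hz, rfl⟩ := Cen.exists_eq e.symm
  exact ⟨y, hy, z, mem_center_iff.2 fun x => (h.cen z hz x).eq, rfl⟩

end CE

end Cfsg.Agent.Cls
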