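import Cfsg.Agent.Lib.Cls.MCover

/-!
Kernels of central extensions of orthogonal groups.
-/

set_option autoImplicit false

namespace Cfsg.Agent.Cls

open Forms Forms.Form Subgroup Module

universe u

section
variable {F : Type*} [Field F] {V : Type*} [AddCommGroup V] [Module F V]
  {I : Type*} [InvolutiveNeg I] {J : Type*} [Group J]

/-- diagonal elements -/
abbrev Dg {P : Param F} {f : Form P V} (fr : Frame f I) (φ : J →* f.Isom) (U : I → Subgroup J) :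
    Subgroup J := Mx fr φ U ⊓ FixP fr φ ∅

/-- central involutions of the diagonal subgroup -/
def Y2 {P : Param F} {f : Form P V} (fr : Frame f I) (φ : J →* f.Isom) (U : I → Subgroup J) :
    Subgroup J where
  carrier := {y | y ∈ Dg fr φ U ∧ y * y = 1 ∧ ∀ m ∈ Dg fr φ U, Commute m y}
  one_mem' := ⟨one_mem _, one_mul _, fun m _ => Commute.one_right m⟩
  mul_mem' := fun {a b} ha hb => ⟨mul_mem ha.1 hb.1, by
    rw [(hb.2.2 a ha.1).symm.mul_mul_mul_comm, ha.2.1, hb.2.1, one_mul],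
    fun m hm => (ha.2.2 m hm).mul_right (hb.2.2 m hm)⟩
  inv_mem' := fun {a} ha => ⟨inv_mem ha.1, by rw [← mul_inv_rev, ha.2.1, inv_one],
    fun m hm => (ha.2.2 m hm).inv_right⟩

theorem PSt1.HR_le_Dg {P : Param F} {f : Form P V} {fr : Frame f I} {φ : J →* f.Isom}
    {U : I → Subgroup J} (h : PSt1 fr φ U) {i j : I} (h2 : j ≠ -i) : HR fr φ U i j ≤ Dg fr φ U :=
  le_inf (h.HR_le_Mx h2) (h.toPSt0.HR_mv h2)

theorem PSt1.commute_HR {P : Param F} {f : Form P V} {fr : Frame f I} {φ : J →* f.Isom}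
    {U : I → Subgroup J} [Finite I] [Finite F] (h : PSt1 fr φ U) {i j : I} (h1 : j ≠ i)
    (h2 : j ≠ -i) {a m : J} (ha : a ∈ HR fr φ U i j) (hm : m ∈ Dg fr φ U) : Commute m a := by
  obtain ⟨t, -, -, e⟩ := h.HR_apply h1 h2 ha
  obtain ⟨c, hc⟩ := (hm.2 i (by simp)).inv
  refine mul_inv_eq_iff_eq_mul.1 (h.HR_eq h1 h2
    (Mx_conj_HR hm.1 (hm.2 i (by simp)) (hm.2 j (by simp)) ha) ha ?_)
  rw [map_mul, map_mul, map_inv, Isom.mul_apply, Isom.mul_apply, hc, map_smul, e, smul_comm, ← hc,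
    map_smul, Isom.apply_inv]

variable {f : Form (Param.orth F) V} {fr : Frame f I} {φ : J →* f.Isom} {U : I → Subgroup J}

/-- the element of a long root torus with given parameter -/
def Tq (fr : Frame f I) (φ : J →* f.Isom) (U : I → Subgroup J) (i j : I) (t : F) (a : J) : Prop :=
  a ∈ HR fr φ U i j ∧ (φ a).1 (fr.e i) = t • fr.e i

theorem Tq.mul {i j : I} {s t : F} {a b : J} (ha : Tq fr φ U i j s a) (hb : Tq fr φ U i j t b) :
    Tq fr φ U i j (s * t) (a * b) :=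
  ⟨mul_mem ha.1 hb.1, by rw [map_mul, Isom.mul_apply, hb.2, map_smul, ha.2, smul_smul, mul_comm]⟩

namespace PSt1

variable [Finite I] [Finite F] (h : PSt1 fr φ U) {i j : I} (h1 : j ≠ i) (h2 : j ≠ -i)
include h h1 h2

theorem exists_Tq {t : F} (ht : t ≠ 0) : ∃ a, Tq fr φ U i j t a :=
  let ⟨a, a1, _, a2⟩ := h.exists_HR h1 h2 ht; ⟨a, a1, a2⟩

theorem Tq_apply {t : F} {a : J} (ha : Tq fr φ U i j t a) : (φ a).1 (fr.e j) = t • fr.e j ∧
    (φ a).1 (fr.e (-i)) = t⁻¹ • fr.e (-i) ∧ (φ a).1 (fr.e (-j)) = t⁻¹ • fr.e (-j) ∧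
    (∀ k, k ≠ i → k ≠ -i → k ≠ j → k ≠ -j → (φ a).1 (fr.e k) = fr.e k) ∧
    ∀ v ∈ fr.V0, (φ a).1 v = v := by
  obtain ⟨s, -, a1, a2⟩ := h.HR_apply h1 h2 ha.1
  obtain rfl : s = t := smul_left_injective F (fr.e_ne_zero i) (a2.symm.trans ha.2)
  refine ⟨a1, fr.apply_neg a2 (h.HR_mv' h2 ha.1 _), fr.apply_neg a1 (h.HR_mv' h2 ha.1 _),
    fun k k1 k2 k3 k4 => HR_le_FixV (S := {i, -i, j, -j}) ?_ (by simp) (by simp) ha.1 k (by simp [*]),
    fun v => HR_apply_V0 h1 ha.1⟩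
  rintro a (rfl | rfl | rfl | rfl) <;> simp

theorem Tq_mem_Y2 {a : J} (ha : Tq fr φ U i j (-1) a) : a ∈ Y2 fr φ U :=
  ⟨h.HR_le_Dg h2 ha.1, h.HR_eq_one h1 h2 (ha.mul ha).1 (by simpa using (ha.mul ha).2),
    fun _ => h.commute_HR h1 h2 ha.1⟩

theorem ker_plus (hC : ¬ fr.HasC) {a b : J} (ha : Tq fr φ U i j (-1) a)
    (hb : Tq fr φ U i (-j) (-1) b) {g : J} (hg : g ∈ ⨆ i, U i) (e : φ g = 1) :
    g = 1 ∨ g = a * b := by
  obtain ⟨t, t1, c, hc, d, hd, rfl, c1, d1⟩ := h.ker_D h1 h2 (h.ker_mem_D hC h1 h2 hg e) e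
  have h3 := neg_ne_of h2
  have h4 := neg_ne_neg_of h1
  refine (mul_self_eq_one_iff.1 t1).imp (fun e => ?_) fun e => ?_ <;> subst e
  · rw [h.HR_eq_one h1 h2 hc (by simpa using c1), h.HR_eq_one h3 h4 hd (by simpa using d1), mul_one]
  · rw [h.HR_eq h1 h2 hc ha.1 (c1.trans ha.2.symm),
      h.HR_eq h3 h4 hd hb.1 (by rw [d1, hb.2, inv_neg, inv_one])]

end PSt1

theorem PSt1.exists_Y2 [Finite F] {m : ℕ} {fr : Frame f (PM m)} {U : PM m → Subgroup J}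
    (h : PSt1 fr φ U) (n : ℕ) (hn : 2 * n ≤ m) : ∃ y ∈ Y2 fr φ U, (∀ v ∈ fr.V0, (φ y).1 v = v) ∧
      ∀ k : PM m, (φ y).1 (fr.e k) = if k.1.1 < 2 * n then -fr.e k else fr.e k := by
  induction n with
  | zero => exact ⟨1, one_mem _, by simp, by simp⟩
  | succ n ih =>
    obtain ⟨y, y1, y2, y3⟩ := ih (by omega)
    let i : PM m := ⟨⟨2 * n, by omega⟩, true⟩
    let j : PM m := ⟨⟨2 * n + 1, by omega⟩, true⟩
    have h1 : j ≠ i := by simp [i, j]
    have h2 : j ≠ -i := by simp [i, j]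
    obtain ⟨a, ha⟩ := h.exists_Tq h1 h2 (t := -1) (by simp)
    obtain ⟨a1, a2, a3, a4, a5⟩ := h.Tq_apply h1 h2 ha
    refine ⟨y * a, mul_mem y1 (h.Tq_mem_Y2 h1 h2 ha), fun v hv => by
      rw [map_mul, Isom.mul_apply, a5 v hv, y2 v hv], fun k => ?_⟩
    rw [map_mul, Isom.mul_apply]
    by_cases b1 : k = i
    · rw [b1, ha.2, map_smul, y3]; simp [i]
    by_cases b2 : k = -i
    · rw [b2, a2, map_smul, y3]; simp [i]
    by_cases b3 : k = j
    · rw [b3, a1, map_smul, y3]; simp [j, mul_add]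
    by_cases b4 : k = -j
    · rw [b4, a3, map_smul, y3]; simp [j, mul_add]
    rw [a4 k b1 b2 b3 b4, y3]
    obtain ⟨⟨k, hk⟩, s⟩ := k
    have : k ≠ 2 * n ∧ k ≠ 2 * n + 1 := by cases s <;> simp_all [i, j]
    exact if_congr (by simp only; omega) rfl rfl

end

variable {F V : Type u} [Field F] [AddCommGroup V] [Module F V] {I : Type*} [InvolutiveNeg I]

/-- canonical lifts exist in all perfect central extensions -/
def Frame.CanE {P : Param F} {f : Form P V} (fr : Frame f I) : Prop :=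
  ∀ (J : Type u) [Group J] [Finite J] (φ : J →* f.Isom), CE fr φ → (∀ x, φ x ∈ fr.EG) →
    commutator J = ⊤ → ∃ U, Can fr φ U

theorem Frame.canE_of {P : Param F} {f : Form P V} (fr : Frame f I) [Finite I] [Finite F]
    [FiniteDimensional F V] (hT : ∀ p n : ℕ, ∀ [Fact p.Prime], Nat.card F = p ^ n → fr.Term p)
    (hS : ∀ (J : Type u) [Group J] (φ : J →* f.Isom), CE fr φ → Spl fr φ) : fr.CanE :=
  fun J _ _ φ h1 h2 h3 => by
    obtain ⟨p, n, hp, hF⟩ := exists_card_eq_pow F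
    have := Fact.mk hp
    have := Module.finite_of_finite F (M := V)
    exact h1.exists_can hF (hT p n hF) (hS J φ h1) h3 h2

variable {f : Form (Param.orth F) V} [Finite F]

namespace Frame

variable {fr : Frame f I} [Finite I]

theorem CanE.plus (h : fr.CanE) (hC : ¬ fr.HasC) {i j : I} (h1 : j ≠ i) (h2 : j ≠ -i) :
    KB.{u} fr 2 ∧ ((2 : F) = 0 → KB.{u} fr 1) := by
  refine ⟨fun J _ _ φ a1 a2 a3 => ?_, fun e => fr.kb_one fun J _ _ φ a1 a2 a3 g hg => ?_⟩ <;>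
    obtain ⟨U, hU⟩ := h J φ a1 a2 a3
  · obtain ⟨a, ha⟩ := hU.exists_Tq h1 h2 (t := -1) (by simp)
    obtain ⟨b, hb⟩ := hU.exists_Tq (neg_ne_of h2) (neg_ne_neg_of h1) (t := -1) (by simp)
    exact card_le_two_of fun g => hU.ker_plus h1 h2 hC ha hb (hU.top ▸ mem_top g)
  · have : (-1 : F) = 1 := by linear_combination -e
    simpa using hU.ker_plus h1 h2 hC (a := 1) (b := 1) ⟨one_mem _, by simp [this]⟩
      ⟨one_mem _, by simp [this]⟩ (hU.top ▸ mem_top g) hg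

theorem CanE.kd (h : fr.CanE) {K : Type*} [Field K] [Finite K] {ρ : F →+* K} {c : K →+* K}
    {ι : K →+ V} (k : KD fr ρ c ι) (i : I) : KB.{u} fr 2 ∧ ((2 : F) = 0 → KB.{u} fr 1) := by
  have hC := fr.orth_hasC (k.mem 1) fun e => k.Q1 (by rw [e, Q_zero])
  refine ⟨fun J _ _ φ a1 a2 a3 => ?_, fun e => fr.kb_one fun J _ _ φ a1 a2 a3 g hg => ?_⟩ <;>
    obtain ⟨U, hU⟩ := h J φ a1 a2 a3 <;>
    obtain ⟨η, b1, -, b2, b3⟩ := k.exists_torus hU.toPSt1 i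
  · refine card_le_two_of (z := η (-1)) fun g hg => ?_
    obtain ⟨t, t0, rfl⟩ := b2 g (hU.ker_mem_HR hC i (hU.top ▸ mem_top g) hg)
    exact (k.ker_sq t0 hg (b3 t t0).2.1 (b3 t t0).2.2).imp (fun e => by rw [e, b1]) (congrArg η)
  · obtain ⟨t, t0, rfl⟩ := b2 g (hU.ker_mem_HR hC i (hU.top ▸ mem_top g) hg)
    have : (-1 : K) = 1 := by
      have := congrArg ρ e
      rw [map_ofNat, map_zero] at this
      linear_combination -this
    exact (k.ker_sq t0 hg (b3 t t0).2.1 (b3 t t0).2.2).elim (fun e => e ▸ b1)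
      fun e => by rw [e, this, b1]

theorem exists_dbl [FiniteDimensional F V] [Nonempty I] (fr : Frame f I) (hf : f.Nondeg)
    (h2 : (2 : F) ≠ 0) (hE : fr.EG = commutator f.Isom)
    (h3 : ∀ i j : I, ∃ k, k ≠ i ∧ k ≠ -i ∧ k ≠ j ∧ k ≠ -j) :
    ∃ (E : Type u) (_ : Group E) (_ : Finite E) (j : E →* f.Isom), Dbl fr j := by
  let a : I → V := fun k => fr.e k + (f.B (fr.e k) (fr.e (-k)))⁻¹ • fr.e (-k)
  have a1 : ∀ k, f.Q (a k) = 1 := fun k => by
    simp only [a]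
    rw [orth_Q_add, orth_Q_smul, fr.Qe, fr.Qe, orth_B_smul_right, inv_mul_cancel₀ (fr.B_ne k)]; simp
  have a2 : ∀ k, f.Q (a k) ≠ 0 := fun k => by rw [a1]; exact one_ne_zero
  have a3 : ∀ {k l}, l ≠ k → l ≠ -k → f.B (a k) (a l) = 0 := fun {k l} h1 h2 => by
    simp [a, fr.B_eq k l h2, fr.B_neg h1.symm, fr.B_eq' (neg_ne_neg_of h1.symm),
      fr.B_neg h2.symm]
  have a4 : ∀ k l, f.refl _ (a2 k) * f.refl _ (a2 l) ∈ fr.EG := fun k l =>
    hE ▸ hf.refl_mul_refl_mem_commutator _ _ (by simp [a1])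
  obtain ⟨i⟩ := ‹Nonempty I›
  obtain ⟨j, h1, h2', -⟩ := h3 i i
  obtain ⟨k, k1, k2, k3, k4⟩ := h3 i j
  obtain ⟨E, _, _, j, b1, b2, b3, b4⟩ := fr.exists_spin h2 (fr.perfect_three h3) (a2 i) (a2 j)
    (a2 k) (a3 h1 h2') (a3 k1 k2) (a3 k3 k4) (a4 _ _) (a4 _ _)
  exact ⟨E, inferInstance, inferInstance, j, b1, b2, b3, b4⟩

theorem orth_two [Nonempty I] (fr : Frame f I) (h2 : (2 : F) = 0) (hK : KB.{u} fr 1)
    (h3 : ∀ i j : I, ∃ k, k ≠ i ∧ k ≠ -i ∧ k ≠ j ∧ k ≠ -j) {G : Type u} [Group G] [Finite G]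
    (ω : G →* f.Isom) (w1 : Function.Injective ω) (w2 : ω.range = fr.EG) :
    HasCyclicSchurMultiplier (G ⧸ center G) 1 := by
  have : center G = ⊥ := eq_bot_iff.2 fun g hg => (injective_iff_map_eq_one ω).1 w1 g
    ((fr.eq_of_commute h3 fun x hx => by
      obtain ⟨x, rfl⟩ : x ∈ ω.range := w2 ▸ hx
      exact Commute.map (mem_center_iff.1 hg x).symm ω).elim id fun e => e.trans
        (Isom.ext fun v => by
          rw [negOne_apply, ← neg_one_smul F, show (-1 : F) = 1 by linear_combination -h2]; simp))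
  have h1 : IsCyclic (center G) := by rw [this]; infer_instance
  exact fr.hasSchur_center ω w1 w2 (fr.perfect_three h3) hK (by rw [this, card_bot])

end Frame

theorem negOne_mem_iff {F V : Type u} [Field F] [Fintype F] [AddCommGroup V] [Module F V]
    [FiniteDimensional F V] {f : Form (Param.orth F) V} (hf : f.Nondeg) (h2 : (2 : F) ≠ 0)
    (he : Even (finrank F V)) : f.negOne ∈ commutator f.Isom ↔ f.disc = 1 := by
  obtain ⟨n, hn⟩ := he
  rw [hf.mem_commutator_iff h2, hf.spin_negOne, hn, ← two_mul, pow_mul, sq, chi_mul_self h2,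
    one_pow, mul_one, and_iff_right]
  exact Units.ext ((f.detHom_scalar _ _).trans (by rw [hn, ← two_mul, pow_mul]; simp))

theorem chi_neg_one {F : Type*} [Field F] [Fintype F] :
    (Fintype.card F % 4 = 3 → chi F (-1) = -1 ∧ ¬ IsSquare (-1 : F)) ∧
    (Fintype.card F % 4 ≠ 3 → chi F (-1) = 1 ∧ IsSquare (-1 : F)) := by
  rw [← FiniteField.isSquare_neg_one_iff, ← chi_eq_one_iff (by simp)]
  refine ⟨fun h => ?_, fun h => ⟨h, h⟩⟩
  have := mt FiniteField.isSquare_neg_one_iff.1 (not_not.2 h)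
  rw [← chi_eq_one_iff (by simp)] at this
  exact ⟨(chi_dichotomy (by simp)).resolve_left this, this⟩

theorem exists_sqrt_quad {F : Type*} [Field F] [Fintype F] {a b : F}
    [Fact (∀ r : F, r ^ 2 ≠ a + b * r)] (h : Fintype.card F % 4 = 3) :
    ∃ t : QuadraticAlgebra F a b, t * t = -1 ∧ starRingEnd _ t = -t := by
  have := Fintype.ofEquiv _ (QuadraticAlgebra.equivProd a b).symm
  obtain ⟨t, ht⟩ : IsSquare (-1 : QuadraticAlgebra F a b) := by
    rw [FiniteField.isSquare_neg_one_iff, Fintype.card_congr (QuadraticAlgebra.equivProd a b),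
      Fintype.card_prod, Nat.mul_mod, h]
    decide
  refine ⟨t, ht.symm, (mul_self_eq_mul_self_iff.1 (by rw [← map_mul, ← ht]; simp)).resolve_left
    fun e => (chi_neg_one.1 h).2 ⟨t.re, ?_⟩⟩
  have h2 := two_ne_zero_of_odd (F := F) (Nat.odd_iff.2 (by omega))
  have h3 : t.im = 0 := by
    have := congrArg QuadraticAlgebra.im e
    rw [starRingEnd_apply, QuadraticAlgebra.im_star] at this
    exact mul_left_cancel₀ h2 (by linear_combination -this)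
  simpa [h3, QuadraticAlgebra.re_one] using congrArg QuadraticAlgebra.re ht

theorem pow_mod_four {q : ℕ} (l : ℕ) : (q % 4 = 1 → q ^ l % 4 = 1) ∧
    (q % 4 = 3 → Even l → q ^ l % 4 = 1) ∧ (q % 4 = 3 → Odd l → q ^ l % 4 = 3) ∧
    (q % 2 = 0 → l ≠ 0 → q ^ l % 2 = 0) := by
  refine ⟨fun h => by simp [Nat.pow_mod, h], ?_, ?_, fun h hl => by simp [Nat.pow_mod, h, hl]⟩
  · rintro h ⟨n, rfl⟩
    rw [← two_mul, pow_mul, Nat.pow_mod, Nat.pow_mod q, h]; simp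
  · rintro h ⟨n, rfl⟩
    rw [pow_succ, pow_mul, Nat.mul_mod, Nat.pow_mod, Nat.pow_mod q, h]; simp

theorem gcd_four (n : ℕ) : (n % 4 = 0 → Nat.gcd 4 n = 4) ∧ (n % 4 = 2 → Nat.gcd 4 n = 2) ∧
    (n % 2 = 1 → Nat.gcd 4 n = 1) := by
  rw [Nat.gcd_rec]
  refine ⟨fun h => by rw [h]; rfl, fun h => by rw [h]; rfl, fun h => ?_⟩
  rcases (by omega : n % 4 = 1 ∨ n % 4 = 3) with h | h <;> rw [h] <;> rfl

theorem two_cases (F : Type*) [Field F] [Fintype F] :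
    (2 : F) = 0 ∧ Fintype.card F % 2 = 0 ∨ (2 : F) ≠ 0 ∧ Fintype.card F % 2 = 1 := by
  rcases Nat.mod_two_eq_zero_or_one (Fintype.card F) with h | h
  · exact Or.inl ⟨by_contra fun e => by have := Nat.odd_iff.1 (odd_card e); omega, h⟩
  · exact Or.inr ⟨two_ne_zero_of_odd (Nat.odd_iff.2 h), h⟩

theorem PM.five {m : ℕ} (h : 5 ≤ m) (i j k l : PM m) :
    ∃ s, s ≠ i ∧ s ≠ -i ∧ s ≠ j ∧ s ≠ -j ∧ s ≠ k ∧ s ≠ -k ∧ s ≠ l ∧ s ≠ -l := by
  obtain ⟨s, -, hl⟩ := PM.exists_ne {i, j, k, l} (lt_of_le_of_lt Finset.card_le_four (by omega))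
  simp only [Finset.mem_insert, Finset.mem_singleton, forall_eq_or_imp, forall_eq] at hl
  tauto

theorem plus_setup {F : Type u} [Field F] [Fintype F] {l : ℕ} (hl : 4 ≤ l)
    (h : 5 ≤ l ∨ 3 ≤ Nat.card F) : ∃ fr : Frame (plusForm l F) (PM l), (∀ v ∈ fr.V0, v = 0) ∧
      fr.EG = commutator _ ∧ fr.CanE ∧ Frame.KB.{u} fr 2 ∧ ((2 : F) = 0 → Frame.KB.{u} fr 1) := by
  obtain ⟨fr, hV⟩ := plus_frame (F := F) l
  have hf := plusForm_nondeg (F := F) l
  obtain ⟨j, h1, h2⟩ := PM.two (m := l) (by omega) ⟨⟨0, by omega⟩, true⟩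
  have h5 : 5 ≤ finrank F (Fin l ⊕ Fin l → F) := by rw [finrank_plus]; omega
  have hE := fr.orth_EG hf h5 h1 h2
  have hC := fr.canE_of (fun p n _ => fr.orth_term hf h5 hE (Or.inl hV))
    fun J _ φ hφ => hφ.orth_plus hV (PM.four hl) (h.imp_left PM.five)
  exact ⟨fr, hV, hE, hC, hC.plus (fr.orth_not_hasC hV) h1 h2⟩

namespace Dbl

variable {m : ℕ} {fr : Frame f (PM m)} {E : Type u} [Group E] [Finite E] {j : E →* f.Isom}
  (d : Dbl fr j) (h : fr.CanE)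
include d h

theorem plus_even (hV : ∀ v ∈ fr.V0, v = 0) (hm : Even m) : ∃ s, j s = f.negOne ∧ s * s = 1 := by
  obtain ⟨U, hU⟩ := h E j d.ce d.mem d.perf
  obtain ⟨n, hn⟩ := hm
  obtain ⟨y, y1, -, y2⟩ := hU.exists_Y2 n (by omega)
  exact ⟨y, fr.ext (fun k => by rw [y2, if_pos (by omega), negOne_apply])
    fun v hv => by simp [hV v hv], y1.2.1⟩

theorem plus_odd (hV : ∀ v ∈ fr.V0, v = 0) (hm : Odd m) (h2 : 2 ≤ m) {t : F} (ht : t * t = -1) :
    ∃ s, j s = f.negOne ∧ s * s ≠ 1 := by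
  obtain ⟨U, hU⟩ := h E j d.ce d.mem d.perf
  obtain ⟨n, hn⟩ := hm
  obtain ⟨y, y1, -, y2⟩ := hU.exists_Y2 n (by omega)
  let i : PM m := ⟨⟨2 * n, by omega⟩, true⟩
  obtain ⟨l, h1, h2⟩ := PM.two h2 i
  have h3 := neg_ne_of h2
  have h4 := neg_ne_neg_of h1
  have t0 : t ≠ 0 := fun e => by simp [e] at ht
  obtain ⟨a, ha⟩ := hU.exists_Tq h1 h2 t0
  obtain ⟨b, hb⟩ := hU.exists_Tq h3 h4 t0
  obtain ⟨a1, a2, a3, a4, -⟩ := hU.Tq_apply h1 h2 ha
  obtain ⟨b1, b2, b3, b4, -⟩ := hU.Tq_apply h3 h4 hb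
  rw [neg_neg] at b3 b4
  have a5 := hU.HR_le_Dg h2 ha.1
  refine ⟨a * b * y, fr.ext (fun k => ?_) fun v hv => by simp [hV v hv], fun e => ?_⟩
  · have : ∀ k, k ≠ i → k ≠ -i → (j (a * b)).1 (fr.e k) = fr.e k := fun k k1 k2 => by
      rw [map_mul, Isom.mul_apply]
      by_cases k3 : k = l
      · rw [k3, b3, map_smul, a1, inv_smul_smul₀ t0]
      by_cases k4 : k = -l
      · rw [k4, b1, map_smul, a3, smul_inv_smul₀ t0]
      rw [b4 k k1 k2 k4 k3, a4 k k1 k2 k3 k4]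
    rw [map_mul, Isom.mul_apply, y2, negOne_apply]
    by_cases k1 : k = i
    · rw [k1, if_neg (by simp [i]), map_mul, Isom.mul_apply, hb.2, map_smul, ha.2, smul_smul, ht,
        neg_one_smul]
    by_cases k2 : k = -i
    · rw [k2, if_neg (by simp [i]), map_mul, Isom.mul_apply, b2, map_smul, a2, smul_smul, ← mul_inv,
        ht, inv_neg, inv_one, neg_one_smul]
    rw [if_pos, map_neg, this k k1 k2]
    obtain ⟨⟨k, hk⟩, s⟩ := k
    have : k ≠ 2 * n := by cases s <;> simp_all [i]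
    simp only; omega
  · rw [(y1.2.2 _ (mul_mem a5 (hU.HR_le_Dg h4 hb.1))).symm.mul_mul_mul_comm, y1.2.1, mul_one,
      (hU.commute_HR h3 h4 hb.1 a5).symm.mul_mul_mul_comm] at e
    obtain ⟨z, z1, z2⟩ := d.ex
    exact (hU.ker_plus h1 h2 (fr.orth_not_hasC hV) (ht ▸ ha.mul ha) (ht ▸ hb.mul hb)
      (hU.top ▸ mem_top z) z2).elim z1 fun e' => z1 (e'.trans e)

theorem minus {K : Type*} [Field K] [Finite K] {ρ : F →+* K} {c : K →+* K} {ι : K →+ V}
    (k : KD fr ρ c ι) (hm : Even m) (i : PM m) {t : K} (ht : t * t = -1) (hc : c t = -t) :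
    ∃ s, j s = f.negOne ∧ s * s ≠ 1 := by
  obtain ⟨U, hU⟩ := h E j d.ce d.mem d.perf
  obtain ⟨n, hn⟩ := hm
  obtain ⟨y, y1, y3, y2⟩ := hU.exists_Y2 n (by omega)
  obtain ⟨η, b1, b4, b2, b3⟩ := k.exists_torus hU.toPSt1 i
  have t0 : t ≠ 0 := fun e => by simp [e] at ht
  obtain ⟨c1, ⟨a, c2, c3⟩, c4⟩ := b3 t t0
  rw [hc, mul_neg, ht, neg_neg, inv_one, map_eq_one_iff ρ ρ.injective] at c2
  subst c2
  refine ⟨η t * y, fr.ext (fun l => ?_) fun v hv => ?_, fun e => ?_⟩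
  · rw [map_mul, Isom.mul_apply, y2, if_pos (by omega), map_neg, negOne_apply, neg_inj]
    by_cases k1 : l = i
    · rw [k1, c3, one_smul]
    by_cases k2 : l = -i
    · rw [k2, fr.apply_neg c3 (hU.HR_mv' (fr.ne i).symm c1 _)]; simp
    exact HR_le_FixV (S := {i, -i}) (by rintro a (rfl | rfl) <;> simp) (by simp) (by simp) c1 l
      (by simp [*])
  · obtain ⟨x, rfl⟩ := k.surj v hv
    rw [map_mul, Isom.mul_apply, y3 _ hv, c4, hc, neg_div_self t0, neg_one_mul, map_neg,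
      negOne_apply]
  · rw [(y1.2.2 _ (hU.HR_le_Dg (fr.ne i).symm c1)).symm.mul_mul_mul_comm, y1.2.1, mul_one,
      ← b4 t t t0 t0, ht] at e
    obtain ⟨z, z1, z2⟩ := d.ex
    obtain ⟨s, s0, rfl⟩ := b2 z (hU.ker_mem_HR (fr.orth_hasC (k.mem 1) fun e => k.Q1
      (by rw [e, Q_zero])) i (hU.top ▸ mem_top z) z2)
    exact (k.ker_sq s0 z2 (b3 s s0).2.1 (b3 s s0).2.2).elim (fun e => z1 (e ▸ b1))
      fun e' => z1 (e' ▸ e)

end Dbl

end Cfsg.Agent.Cls
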