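import Cfsg.Agent.Lib.Cls.MSp
import Cfsg.Agent.Lib.Cls.Conc

/-!
Central extensions of orthogonal groups: splitting over the unipotent subgroups.
-/

set_option autoImplicit false

namespace Cfsg.Agent.Cls

open Forms Forms.Form Subgroup CExt Module

variable {F : Type*} [Field F] {V : Type*} [AddCommGroup V] [Module F V]
  {I : Type*} [InvolutiveNeg I] {J : Type*} [Group J]

theorem charP_of_card [Finite F] {p n : ℕ} [Fact p.Prime] (hF : Nat.card F = p ^ n) :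
    CharP F p := by
  have := Fintype.ofFinite F
  have := ringChar.charP F
  obtain ⟨m, h1, h2⟩ := FiniteField.card F (ringChar F)
  rw [Nat.card_eq_fintype_card, h2] at hF
  have := (Nat.prime_dvd_prime_iff_eq h1 Fact.out).1
    (h1.dvd_of_dvd_pow (hF ▸ dvd_pow_self _ m.ne_zero))
  rwa [← this]

theorem eq_one_of_even {P : Param F} {f : Form P V} [FiniteDimensional F V] {p : ℕ} [Fact p.Prime]
    [CharP F p] {g : f.Isom} (hp : IsPElt p g) (he : Even (finrank F (Isom.res g)))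
    {W : Submodule F V} (h1 : finrank F W ≤ 2) (h2 : ∀ w ∈ W, g.1 w ∈ W)
    (h3 : ∀ v, ∃ w ∈ W, g.1 (v - w) = v - w) : g = 1 := by
  have a1 : Isom.res g = W.map (Isom.N g) := le_antisymm (by
    rintro _ ⟨v, rfl⟩
    obtain ⟨w, hw, e⟩ := h3 v
    refine ⟨w, hw, ?_⟩
    rw [map_sub] at e
    simp only [Isom.N_apply]
    linear_combination (norm := abel1) -e) (LinearMap.map_le_range)
  have a2 : W.map (Isom.N g) ≤ W := by
    rintro _ ⟨w, hw, rfl⟩; exact sub_mem (h2 w hw) hw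
  have a3 : Isom.res g = ⊥ := by
    by_contra hc
    have a4 := Submodule.finrank_mono a2
    have a5 : finrank F (Isom.res g) ≠ 0 := fun e => hc (Submodule.finrank_eq_zero.1 e)
    rw [a1] at he a5 hc
    obtain ⟨k, hk⟩ := he
    have a6 := Submodule.eq_of_le_of_finrank_le a2 (by omega)
    have a7 : ∀ n : ℕ, W.map (Isom.N g ^ n) = W := fun n => by
      induction n with
      | zero => exact Submodule.map_id _
      | succ n ih => rw [pow_succ, Module.End.mul_eq_comp, Submodule.map_comp, a6, ih]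
    obtain ⟨k, hk⟩ := hp
    have : Nontrivial V := by
      by_contra hV
      exact hc (have := not_nontrivial_iff_subsingleton.1 hV; Subsingleton.elim _ _)
    have : CharP (Module.End F V) p := charP_of_injective_algebraMap (algebraMap F _).injective p
    have a8 : Isom.N g ^ p ^ k = 0 := by
      rw [Isom.N, sub_pow_char_pow_of_commute p k (Commute.one_right _), one_pow, ← coe_pow_eq,
        ← Subgroup.coe_pow, hk]
      exact sub_self _
    rw [a6, ← a7 (p ^ k), a8] at hc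
    exact hc (Submodule.map_zero _)
  exact Isom.ext fun v => sub_eq_zero.1 ((Submodule.mem_bot F).1 (a3 ▸ Isom.sub_mem_res g v))

namespace Frame

section
variable {P : Param F} {f : Form P V} (fr : Frame f I) [Finite I]

theorem exists_Wp {S : Set I} (hS : ∀ i ∈ S, -i ∈ S) {g : f.Isom} (hg : g ∈ fr.Fx S) (v : V) :
    ∃ w ∈ fr.Wp S, g.1 (v - w) = v - w := by
  classical
  have := Fintype.ofFinite I
  obtain ⟨c, hc⟩ := fr.exists_decomp v
  refine ⟨v - ∑ i with i ∉ S, c i • fr.e i, ?_, ?_⟩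
  · rw [← Finset.sum_filter_add_sum_filter_not _ (· ∈ S), add_comm, ← sub_sub] at hc
    exact (Submodule.sub_mem_iff_left _ (Submodule.sum_mem _ fun i hi =>
      Submodule.smul_mem _ (c i) (fr.e_mem_Wp (hS i (Finset.mem_filter.1 hi).2)))).1
      (fr.V0_le_Wp S hc)
  · rw [sub_sub_cancel, map_sum]
    exact Finset.sum_congr rfl fun i hi => by rw [map_smul, hg i (Finset.mem_filter.1 hi).2]

theorem Wp_le (hV : ∀ v ∈ fr.V0, v = 0) {S : Set I} {i : I} (hS : ∀ j ∈ S, j = i ∨ j = -i) :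
    fr.Wp S ≤ Submodule.span F {fr.e i, fr.e (-i)} := fun v hv => by
  classical
  have := Fintype.ofFinite I
  obtain ⟨c, hc⟩ := fr.exists_decomp v
  rw [sub_eq_zero.1 (hV _ hc)] at hv ⊢
  refine Submodule.sum_mem _ fun k _ => ?_
  by_cases h1 : k = i
  · exact h1 ▸ Submodule.smul_mem _ _ (Submodule.subset_span (by simp))
  by_cases h2 : k = -i
  · exact h2 ▸ Submodule.smul_mem _ _ (Submodule.subset_span (by simp))
  have := hv (-k) fun h => (hS _ h).elim (fun e => h2 (by rw [← e, neg_neg]))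
    fun e => h1 (neg_injective e)
  rw [map_sum, LinearMap.sum_apply, Finset.sum_eq_single k (fun l _ hl => by
    rw [B_smul_left, fr.B_neg hl, mul_zero]) (by simp), B_smul_left] at this
  rw [(mul_eq_zero.1 this).resolve_right (fr.B_ne k), zero_smul]
  exact zero_mem _

end

variable {f : Form (Param.orth F) V} (fr : Frame f I)

theorem orth_hZ' (l : F) (h : f.IsLam 0 l) : l = 0 := by
  simpa [f.Q_zero] using f.orth_isLam_iff.1 h

theorem orth_not_hasC (hV : ∀ v ∈ fr.V0, v = 0) : ¬ fr.HasC := fun ⟨v, hv, l, hl, l0⟩ =>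
  l0 (orth_hZ' l (hV v hv ▸ hl))

theorem Q_ne {v : V} (hv : v ∈ fr.V0) (v0 : v ≠ 0) : f.Q v ≠ 0 :=
  fun e => v0 (fr.aniso v (fr.mem_V0.1 hv) e)

theorem orth_hasC {v : V} (hv : v ∈ fr.V0) (v0 : v ≠ 0) : fr.HasC :=
  ⟨v, hv, _, f.orth_isLam v, fr.Q_ne hv v0⟩

variable [Finite I] [FiniteDimensional F V] [Finite F]

theorem orth_term (hf : f.Nondeg) (h5 : 5 ≤ finrank F V) (hE : fr.EG = commutator f.Isom)
    (h : (∀ v ∈ fr.V0, v = 0) ∨ fr.HasC ∧ finrank F fr.V0 ≤ 2) {p n : ℕ} [Fact p.Prime]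
    (hF : Nat.card F = p ^ n) : fr.Term p := fun S hS hB g hg hp hx => by
  have := charP_of_card hF
  refine eq_one_of_even hp (hf.even_res_of_mem_commutator (Or.inr h5) (hE ▸ hg)) (W := fr.Wp S) ?_
    (fun w => fr.apply_mem_Wp hx) (fr.exists_Wp hS hx)
  rcases h with h | h
  · rcases S.eq_empty_or_nonempty with rfl | ⟨i, hi⟩
    · rw [Submodule.finrank_eq_zero.2 (eq_bot_iff.2 fun v (hv : v ∈ fr.Wp ∅) =>
        h v (fr.mem_V0.2 fun k => hv k (by simp)))]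
      omega
    · exact (Submodule.finrank_mono (fr.Wp_le h fun j hj => by
        by_contra hc
        push Not at hc
        exact hB ⟨i, hi, Or.inr ⟨j, hj, hc⟩⟩)).trans (finrank_span_pair_le _ _)
  · exact (Submodule.finrank_mono (fun v hv => fr.mem_V0.2 fun k => hv k fun hk =>
      hB ⟨k, hk, Or.inl h.1⟩ : fr.Wp S ≤ fr.V0)).trans h.2

omit [Finite F] in
theorem exists_basis_V0 (hf : f.Nondeg) (h : finrank F fr.V0 = 2) : ∃ v ∈ fr.V0, ∃ u ∈ fr.V0,
    f.B v u ≠ 0 ∧ (∀ s t : F, s • v + t • u = 0 → s = 0 ∧ t = 0) ∧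
      ∀ w ∈ fr.V0, ∃ s t : F, w = s • v + t • u := by
  let b := Module.finBasisOfFinrankEq F fr.V0 h
  have h1 : ∀ w ∈ fr.V0, ∃ s t : F, w = s • (b 0).1 + t • (b 1).1 := fun w hw =>
    ⟨b.repr ⟨w, hw⟩ 0, b.repr ⟨w, hw⟩ 1, by
      have := b.sum_repr ⟨w, hw⟩
      rw [Fin.sum_univ_two] at this
      exact (congrArg Subtype.val this).symm⟩
  have h2 : ∀ s t : F, s • (b 0).1 + t • (b 1).1 = 0 → s = 0 ∧ t = 0 := fun s t e => by
    have := Fintype.linearIndependent_iff.1 b.linearIndependent ![s, t] (Subtype.ext (by simpa))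
    exact ⟨this 0, this 1⟩
  by_cases h3 : f.B (b 0) (b 1) = 0
  swap
  · exact ⟨_, (b 0).2, _, (b 1).2, h3, h2, h1⟩
  refine ⟨_, (b 0).2, b 0 + b 1, add_mem (b 0).2 (b 1).2, fun e => ?_, fun s t e => ?_,
    fun w hw => ?_⟩
  · refine b.ne_zero 0 (fr.V0_nondeg hf _ fun y => ?_)
    obtain ⟨s, t, e'⟩ := h1 y y.2
    rw [B_add_right, h3, add_zero] at e
    simp [e', e, h3]
  · have := h2 (s + t) t (by rw [← e]; module)
    exact ⟨by simpa [this.2] using this.1, this.2⟩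
  · obtain ⟨s, t, rfl⟩ := h1 w hw
    exact ⟨s - t, t, by module⟩

theorem orth_rot (hf : f.Nondeg) (h : finrank F fr.V0 = 2) : fr.Rot := by
  obtain ⟨v, hv, u, hu, h1, h2, h3⟩ := fr.exists_basis_V0 hf h
  have v0 : v ≠ 0 := fun e => by simp [e] at h1
  have u0 : u ≠ 0 := fun e => by simp [e] at h1
  have q1 := fr.Q_ne hv v0
  have q2 := fr.Q_ne hu u0
  refine ⟨fr.orth_hasC hv v0, orth_hZ', fun k => ?_⟩
  have hv' : (f.refl u q2).1 v ∈ fr.V0 := by
    rw [refl_apply]; exact sub_mem hv (Submodule.smul_mem _ _ hu)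
  obtain ⟨g, hg, g1, g2, g3⟩ := fr.exists_torus_of k hv hv' (f.orth_isLam v)
    ((f.orth_isLam v).map _) q1 q1
  rw [div_self q1, one_smul] at g2
  have g4 : ∀ l, g.1 (fr.e l) = fr.e l := fun l => by
    by_cases b1 : l = k
    · rw [b1, g2]
    by_cases b2 : l = -k
    · rw [b2, fr.apply_neg (t := 1) (by rw [g2, one_smul]) (g1 _)]; simp
    exact fr.RC_sup_fix hg b1 b2
  refine ⟨g, hg, fun w hw => ?_, g4⟩
  let N : fr.V0 →ₗ[F] fr.V0 := (Isom.N g).restrict fun x hx =>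
    sub_mem (fr.mem_V0_of_mon (fr.mem_Mon fun k => ⟨k, g1 k⟩) hx) hx
  have : Function.Injective N := (injective_iff_map_eq_zero N).2 fun x hx => by
    set v' := (f.refl u q2).1 v with e1
    have q3 : f.Q v' ≠ 0 := by rwa [e1, Isom.map_Q]
    have a1 : (f.refl v' q3).1 x ∈ fr.V0 := by
      rw [refl_apply]; exact sub_mem x.2 (Submodule.smul_mem _ _ hv')
    have a2 := g3 _ a1
    have a3 : (f.refl v' q3).1 ((f.refl v' q3).1 x) = x := by
      rw [← Isom.mul_apply, refl_mul_self]; rfl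
    set y := (f.refl v' q3).1 x
    rw [refl_apply, show f.Q v' = f.Q v by rw [e1, Isom.map_Q], mul_comm] at a3
    have a4 : g.1 x = x := sub_eq_zero.1 (congrArg Subtype.val hx)
    rw [a3, a4, ← a3, sub_right_inj] at a2
    have e2 : v' = v - ((f.Q u)⁻¹ * f.B v u) • u := f.refl_apply _ _ _
    nth_rw 2 [e2] at a2
    obtain ⟨a5, a6⟩ := h2 (f.B y v' * (f.Q v)⁻¹ - f.B y v * (f.Q v)⁻¹)
      (-(f.B y v' * (f.Q v)⁻¹ * ((f.Q u)⁻¹ * f.B v u))) (by rw [← sub_eq_zero.2 a2]; module)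
    have a7 : f.B y v' = 0 := by simpa [q1, q2, h1] using a6
    have a8 : f.B y v = 0 := by simpa [q1, a7] using a5
    have a9 : f.B y u = 0 := by
      rw [e1, refl_apply, B_sub_right, a8, orth_B_smul_right] at a7
      simpa [q2, h1] using a7
    have : (⟨y, a1⟩ : fr.V0) = 0 := fr.V0_nondeg hf _ fun z => by
      obtain ⟨s, t, e'⟩ := h3 z z.2
      simp [e', a8, a9]
    have y0 : y = 0 := congrArg Subtype.val this
    exact Subtype.ext (by rw [← a3, y0]; simp)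
  obtain ⟨w', e⟩ := LinearMap.surjective_of_injective this ⟨w, hw⟩
  exact ⟨w', w'.2, congrArg Subtype.val e⟩

end Frame

namespace CE

variable {f : Form (Param.orth F) V} {fr : Frame f I} {φ : J →* f.Isom} (h : CE fr φ) [Finite I]
include h

theorem orth_plus [Finite F] (hV : ∀ v ∈ fr.V0, v = 0)
    (h4 : ∀ i j k : I, ∃ l, l ≠ i ∧ l ≠ -i ∧ l ≠ j ∧ l ≠ -j ∧ l ≠ k ∧ l ≠ -k)
    (h5 : (∀ i j k l : I, ∃ s, s ≠ i ∧ s ≠ -i ∧ s ≠ j ∧ s ≠ -j ∧ s ≠ k ∧ s ≠ -k ∧ s ≠ l ∧ s ≠ -l) ∨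
      3 ≤ Nat.card F) : Spl fr φ :=
  h.spl_big (h.rcm_orth Frame.orth_hZ') (h.ltwo_D (fr.orth_not_hasC hV) (h5.imp_right fun h3 =>
      (field_cases F).imp_right fun h4 => ⟨h4, three_eq_zero h4 fun e => by
        obtain ⟨t, t0, t1⟩ := exists_ne_of_card h3
        rcases h4 t with h | h | h
        exacts [t0 h, t1 h, t1 (by linear_combination h - e)]⟩))
    (fun i j => let ⟨l, a1, a2, a3, a4, _⟩ := h4 i j j; ⟨l, a1, a2, a3, a4⟩) (Or.inl h4)
    (Or.inr fun v w => f.orth_symm w v) fun _ _ => fr.T2_le_four h4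

theorem orth_four (hC : fr.HasC)
    (h4 : ∀ i j k : I, ∃ l, l ≠ i ∧ l ≠ -i ∧ l ≠ j ∧ l ≠ -j ∧ l ≠ k ∧ l ≠ -k) : Spl fr φ :=
  h.spl_big (h.rcm_orth Frame.orth_hZ') (h.ltwo_four hC h4)
    (fun i j => let ⟨l, a1, a2, a3, a4, _⟩ := h4 i j j; ⟨l, a1, a2, a3, a4⟩) (Or.inl h4)
    (Or.inr fun v w => f.orth_symm w v) fun _ _ => fr.T2_le_four h4

theorem orth_minus (hR : fr.Rot) (nd : ∃ u ∈ fr.V0, ∃ u' ∈ fr.V0, f.B u u' ≠ 0)
    (h3 : ∀ i j : I, ∃ k, k ≠ i ∧ k ≠ -i ∧ k ≠ j ∧ k ≠ -j) : Spl fr φ :=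
  h.spl_big (h.rcm_orth Frame.orth_hZ') (h.ltwo_rot hR) h3 (Or.inr nd)
    (Or.inr fun v w => f.orth_symm w v) fun i j h1 h2 =>
      let ⟨_, a1, a2, a3, a4⟩ := h3 i j; fr.T2_le_rot hR h1 h2 ⟨⟨trivial, a1, a2⟩, a3, a4⟩

theorem orth_three [Finite F] (h2 : (2 : F) ≠ 0) {t : F} (t0 : t ≠ 0) (t1 : t * t ≠ 1)
    (h3 : ∀ i j : I, ∃ k, k ≠ i ∧ k ≠ -i ∧ k ≠ j ∧ k ≠ -j) : Spl fr φ := by
  have n1 : ∀ i, NK φ (fr.U i) (fr.U i) := fun i => by
    obtain ⟨j, a1, a2, -⟩ := h3 i i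
    obtain ⟨ψ, hψ⟩ := h.exists_ci (h.rcm_orth Frame.orth_hZ') a1 a2 (Or.inl (h3 i j))
    exact h.nk_of_ci_tr a1 a2 hψ fun a _ => ⟨a / 2, by simp; field_simp; ring⟩
  refine ⟨n1, fun i j a1 a2 => ?_⟩
  obtain ⟨g, hg, g1, g2, g3, g4⟩ := fr.exists_torus_N a1 a2 t0
  exact h.nk_good (n1 i) hg (s := 1) g1 g2
    (fr.apply_Wp (rm_closed (S := Set.univ) (fun _ _ => trivial) i)
      (fun k hk => by rw [one_smul, g3 k hk.2.1 hk.2.2])
      fun v hv => by rw [g4 v hv, one_smul]) (by simpa)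
    (Or.inl (fr.RZ_le_comm' (orth_hZ f) a1 a2)) j a1 a2

end CE

end Cfsg.Agent.Cls
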