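import Cfsg.Agent.Lib.Cls.MRoot

/-!
Central extensions of classical groups: commutators in the preimage of an Eichler group.
-/

set_option autoImplicit false

namespace Cfsg.Agent.Cls

open Forms Forms.Form Subgroup
open scoped commutatorElement

variable {F : Type*} [Field F] {P : Param F} {V : Type*} [AddCommGroup V] [Module F V]
  {f : Form P V} {I : Type*} [InvolutiveNeg I] {J : Type*} [Group J]

namespace Frame

variable (fr : Frame f I)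

/-- vectors supported on `S` -/
def Wp (S : Set I) : Submodule F V where
  carrier := {v | ∀ k ∉ S, f.B v (fr.e k) = 0}
  zero_mem' := fun _ _ => f.B_zero_left _
  add_mem' := fun ha hb k hk => by rw [B_add_left, ha k hk, hb k hk, add_zero]
  smul_mem' := fun c _ ha k hk => by rw [B_smul_left, ha k hk, mul_zero]

theorem mem_Wp_rm {S : Set I} {i : I} {v : V} : v ∈ fr.Wp (rm S i) ↔
    v ∈ fr.Wp S ∧ f.B v (fr.e i) = 0 ∧ f.B v (fr.e (-i)) = 0 := by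
  refine ⟨fun h => ⟨fun k hk => h k fun e => hk e.1, h _ (not_mem_rm S i),
    h _ (neg_not_mem_rm S i)⟩, fun h k hk => ?_⟩
  by_cases h1 : k = i
  · rw [h1, h.2.1]
  by_cases h2 : k = -i
  · rw [h2, h.2.2]
  exact h.1 k fun e => hk ⟨e, h1, h2⟩

theorem mem_Wp_univ (v : V) : v ∈ fr.Wp Set.univ := fun _ h => (h trivial).elim

theorem mem_Wp_one {i : I} {v : V} : v ∈ fr.Wp (rm Set.univ i) ↔
    f.B v (fr.e i) = 0 ∧ f.B v (fr.e (-i)) = 0 := by simp [mem_Wp_rm, mem_Wp_univ]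

theorem mem_Fx_rm {S : Set I} {i : I} {g : f.Isom} : g ∈ fr.Fx (rm S i) ↔
    g ∈ fr.Fx S ∧ g.1 (fr.e i) = fr.e i ∧ g.1 (fr.e (-i)) = fr.e (-i) := by
  refine ⟨fun h => ⟨fun k hk => h k fun e => hk e.1, h _ (not_mem_rm S i),
    h _ (neg_not_mem_rm S i)⟩, fun h k hk => ?_⟩
  by_cases h1 : k = i
  · rw [h1, h.2.1]
  by_cases h2 : k = -i
  · rw [h2, h.2.2]
  exact h.1 k fun e => hk ⟨e, h1, h2⟩

theorem mem_Fx_univ (g : f.Isom) : g ∈ fr.Fx Set.univ := fun _ h => (h trivial).elim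

theorem mem_Fx_one {i : I} {g : f.Isom} : g ∈ fr.Fx (rm Set.univ i) ↔
    g.1 (fr.e i) = fr.e i ∧ g.1 (fr.e (-i)) = fr.e (-i) := by simp [mem_Fx_rm, mem_Fx_univ]

theorem e_mem_Wp {S : Set I} {j : I} (hj : -j ∈ S) : fr.e j ∈ fr.Wp S := fun _ hk =>
  fr.B_eq _ _ fun e => hk (e ▸ hj)

theorem V0_le_Wp (S : Set I) : fr.V0 ≤ fr.Wp S := fun _ hv k _ => fr.mem_V0.1 hv k

theorem isE_mem_Fx {S : Set I} {j : I} (hj : -j ∈ S) {y : f.Isom} {u : V} {l : F}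
    (hu : u ∈ fr.Wp S) (hy : IsE y (fr.e j) u l) : y ∈ fr.Fx S := fun k hk =>
  hy.apply_of_orth (f.B_eq_zero_symm (fr.e_mem_Wp hj k hk)) (f.B_eq_zero_symm (hu k hk))

theorem apply_mem_Wp {S : Set I} {g : f.Isom} (hg : g ∈ fr.Fx S) {v : V} (hv : v ∈ fr.Wp S) :
    g.1 v ∈ fr.Wp S := fun k hk => by rw [← hg k hk, Isom.map_B, hv k hk]

theorem exists_isE_Wp {i : I} {g : f.Isom} {v : V} {l : F} (h : IsE g (fr.e i) v l) :
    ∃ v' ∈ fr.Wp (rm Set.univ i), ∃ l', IsE g (fr.e i) v' l' ∧ ∃ c : F, v = v' + c • fr.e i :=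
  let ⟨v', l', h1, h2, h3⟩ := h.exists_orth (fr.Qe i) (fr.B_ne i)
  ⟨v', fr.mem_Wp_one.2 ⟨h1.orth, h2⟩, l', h1, h3⟩

/-- the complement of the hyperbolic pair `±j` in the space supported on `S` is non-zero -/
theorem exists_nd {S : Set I} (hS : ∀ i ∈ S, -i ∈ S) (j : I)
    (h : (∃ k ∈ S, k ≠ j ∧ k ≠ -j) ∨ ∃ u ∈ fr.V0, ∃ u' ∈ fr.V0, f.B u u' ≠ 0) :
    ∃ u ∈ fr.Wp S, ∃ u' ∈ fr.Wp S, f.B u (fr.e j) = 0 ∧ f.B u (fr.e (-j)) = 0 ∧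
      f.B u' (fr.e j) = 0 ∧ f.B u' (fr.e (-j)) = 0 ∧ f.B u u' ≠ 0 := by
  rcases h with ⟨k, hk, h1, h2⟩ | ⟨u, hu, u', hu', h⟩
  · exact ⟨_, fr.e_mem_Wp (hS k hk), _, fr.e_mem_Wp (by rwa [neg_neg]), fr.B_eq' h2, fr.B_neg h1,
      fr.B_eq' (neg_ne_neg_of h1), fr.B_neg (neg_ne_of h2), fr.B_ne k⟩
  · exact ⟨u, fr.V0_le_Wp _ hu, u', fr.V0_le_Wp _ hu', fr.mem_V0.1 hu _, fr.mem_V0.1 hu _,
      fr.mem_V0.1 hu' _, fr.mem_V0.1 hu' _, h⟩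

theorem isE_zero_eq {i : I} {g : f.Isom} {l : F} (h : IsE g (fr.e i) 0 l) (e : g = 1) : l = 0 :=
  (IsE.unique (fr.B_ne i) (fr.Qe _) (f.B_zero_left _) (f.B_zero_left _) h (e ▸ isE_one _)).2

end Frame

/-- commutators of lifts in the Eichler group only depend on the form -/
structure CI (fr : Frame f I) (φ : J →* f.Isom) (i : I) (ψ : F → J) : Prop where
  add : ∀ a b, ψ (a + b) = ψ a * ψ b
  eq : ∀ {x x' v v' l l'}, IsE (φ x) (fr.e i) v l → IsE (φ x') (fr.e i) v' l' →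
    ⁅x, x'⁆ = ψ (f.B v' v)

theorem add_hom_zero {ψ : F → J} (h : ∀ a b, ψ (a + b) = ψ a * ψ b) : ψ 0 = 1 := by
  have := h 0 0
  rw [add_zero] at this
  exact mul_eq_left.mp this.symm

theorem add_hom_neg {ψ : F → J} (h : ∀ a b, ψ (a + b) = ψ a * ψ b) (a : F) : ψ (-a) = (ψ a)⁻¹ :=
  eq_inv_of_mul_eq_one_left (by rw [← h, neg_add_cancel, add_hom_zero h])

/-- the range of an additive map -/
def addRange {ψ : F → J} (h : ∀ a b, ψ (a + b) = ψ a * ψ b) : Subgroup J where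
  carrier := Set.range ψ
  one_mem' := ⟨0, add_hom_zero h⟩
  mul_mem' := by rintro _ _ ⟨a, rfl⟩ ⟨b, rfl⟩; exact ⟨_, h a b⟩
  inv_mem' := by rintro _ ⟨a, rfl⟩; exact ⟨_, add_hom_neg h a⟩

theorem CI.commute {fr : Frame f I} {φ : J →* f.Isom} {i : I} {ψ : F → J} (h : CI fr φ i ψ)
    {x x' : J} {v v' : V} {l l' : F} (hx : IsE (φ x) (fr.e i) v l)
    (hx' : IsE (φ x') (fr.e i) v' l') (e : f.B v' v = 0) : Commute x x' := by
  rw [← commutatorElement_eq_one_iff_commute, h.eq hx hx', e, add_hom_zero h.add]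

namespace CE

variable {fr : Frame f I} {φ : J →* f.Isom} (h : CE fr φ)
include h

theorem exists_lift {i : I} {v : V} {l : F} (hv : f.B v (fr.e i) = 0) (hl : f.IsLam v l) :
    ∃ x, IsE (φ x) (fr.e i) v l := by
  obtain ⟨g, hg⟩ := exists_isE (fr.Qe i) hv hl
  obtain ⟨x, rfl⟩ := h.surj (fr.U_le_EG i ⟨_, _, hg⟩)
  exact ⟨x, hg⟩

theorem exists_lift' (i : I) (v : V) : ∃ x, f.B v (fr.e i) = 0 → ∃ l, IsE (φ x) (fr.e i) v l := by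
  by_cases hv : f.B v (fr.e i) = 0
  · obtain ⟨l, hl⟩ := f.exists_isLam v
    obtain ⟨x, hx⟩ := h.exists_lift hv hl
    exact ⟨x, fun _ => ⟨l, hx⟩⟩
  · exact ⟨1, fun e => (hv e).elim⟩

theorem exists_liftA {i j : I} (hj : j ≠ -i) (a : F) : ∃ x, IsE (φ x) (fr.e i) (a • fr.e j) 0 :=
  let ⟨_, hg⟩ := fr.exists_RA hj a; h.exists_lift hg.orth hg.lam

/-- chosen lifts of Eichler transformations -/
noncomputable def X (i : I) (v : V) : J := (h.exists_lift' i v).choose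

theorem X_spec {i : I} {v : V} (hv : f.B v (fr.e i) = 0) : ∃ l, IsE (φ (h.X i v)) (fr.e i) v l :=
  (h.exists_lift' i v).choose_spec hv

theorem comm_eq_left {i : I} {x x' y : J} {v : V} {l l' : F} (hx : IsE (φ x) (fr.e i) v l)
    (hx' : IsE (φ x') (fr.e i) v l') (hy : ∀ r, φ r ∈ fr.RZ i → φ y ∈ LCs φ r) :
    ⁅x, y⁆ = ⁅x', y⁆ := by
  have := h.cen.commute_of_mem (hy (x'⁻¹ * x) (by
    rw [map_mul, map_inv]; exact fr.inv_mul_mem_RZ hx' hx))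
  rw [← mul_inv_cancel_left x' x, comm_mul_left', commutatorElement_eq_one_iff_commute.2 this.symm]
  group

theorem comm_eq_right {i : I} {x x' y : J} {v : V} {l l' : F} (hx : IsE (φ x) (fr.e i) v l)
    (hx' : IsE (φ x') (fr.e i) v l') (hy : ∀ r, φ r ∈ fr.RZ i → φ y ∈ LCs φ r) :
    ⁅y, x⁆ = ⁅y, x'⁆ := by
  rw [← commutatorElement_inv x, h.comm_eq_left hx hx' hy, commutatorElement_inv]

variable (R : RCm fr φ)
include R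

theorem comm_eq {i : I} {x x' y y' : J} {v w : V} {l l' m m' : F} (hx : IsE (φ x) (fr.e i) v l)
    (hx' : IsE (φ x') (fr.e i) v l') (hy : IsE (φ y) (fr.e i) w m)
    (hy' : IsE (φ y') (fr.e i) w m') : ⁅x, y⁆ = ⁅x', y'⁆ := by
  rw [h.comm_eq_left hx hx' fun r hr => (R i r hr).1 ⟨_, _, hy⟩,
    h.comm_eq_right hy hy' fun r hr => (R i r hr).1 ⟨_, _, hx'⟩]

theorem commute_R {i : I} {x r : J} (hx : φ x ∈ fr.U i) (hr : φ r ∈ fr.RZ i) : Commute x r :=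
  h.cen.commute_of_mem ((R i r hr).1 hx)

theorem commute_comm_U {i : I} {x y z : J} (hx : φ x ∈ fr.U i) (hy : φ y ∈ fr.U i)
    (hz : φ z ∈ fr.U i) : Commute x ⁅y, z⁆ :=
  h.commute_R R hx (by rw [map_commutatorElement]; exact fr.comm_mem_RZ hy hz)

theorem comm_mul_left_U {i : I} {x y z : J} (hx : φ x ∈ fr.U i) (hy : φ y ∈ fr.U i)
    (hz : φ z ∈ fr.U i) : ⁅x * y, z⁆ = ⁅x, z⁆ * ⁅y, z⁆ := by
  rw [comm_mul_left', (h.commute_comm_U R hx hy hz).eq, mul_inv_cancel_right,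
    (h.commute_comm_U R (fr.RZ_le_U i (by
      rw [map_commutatorElement]; exact fr.comm_mem_RZ hx hz)) hy hz).eq]

theorem comm_mul_right_U {i : I} {x y z : J} (hx : φ x ∈ fr.U i) (hy : φ y ∈ fr.U i)
    (hz : φ z ∈ fr.U i) : ⁅x, y * z⁆ = ⁅x, y⁆ * ⁅x, z⁆ := by
  rw [comm_mul_right', (h.commute_comm_U R hy hx hz).eq, mul_inv_cancel_right]

theorem biW (i : I) {W : Submodule F V} (hW : ∀ v ∈ W, f.B v (fr.e i) = 0) :
    BiW W fun v w => ⁅h.X i v, h.X i w⁆ := by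
  constructor <;> intro u hu v hv w hw <;> obtain ⟨_, a1⟩ := h.X_spec (hW u hu) <;>
    obtain ⟨_, a2⟩ := h.X_spec (hW v hv) <;> obtain ⟨_, a3⟩ := h.X_spec (hW w hw)
  · obtain ⟨_, a4⟩ := h.X_spec (hW _ (add_mem hu hv))
    rw [← h.comm_mul_left_U R ⟨_, _, a1⟩ ⟨_, _, a2⟩ ⟨_, _, a3⟩]
    exact h.comm_eq R a4 (map_mul φ _ _ ▸ a1.mul (fr.Qe i) a2) a3 a3
  · obtain ⟨_, a4⟩ := h.X_spec (hW _ (add_mem hv hw))
    rw [← h.comm_mul_right_U R ⟨_, _, a1⟩ ⟨_, _, a2⟩ ⟨_, _, a3⟩]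
    exact h.comm_eq R a1 a1 a4 (map_mul φ _ _ ▸ a2.mul (fr.Qe i) a3)

omit h R in
theorem isE_conj {i : I} {g x : J} {v : V} {l t : F} (hx : IsE (φ x) (fr.e i) v l)
    (hg : (φ g).1 (fr.e i) = t • fr.e i) :
    IsE (φ (g * x * g⁻¹)) (fr.e i) (P.σ t • (φ g).1 v) (t * P.σ t * l) := by
  rw [map_mul, map_mul, map_inv]
  exact hx.of_conj hg (fr.smul_ne_zero hg)

omit h R in
theorem isE_conj' {i : I} {g x : J} {v : V} {l : F} (hx : IsE (φ x) (fr.e i) v l)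
    (hg : (φ g).1 (fr.e i) = fr.e i) : IsE (φ (g * x * g⁻¹)) (fr.e i) ((φ g).1 v) l := by
  rw [map_mul, map_mul, map_inv]
  simpa only [hg] using hx.conj (φ g)

theorem invE {i j : I} (h1 : j ≠ i) (h2 : j ≠ -i) :
    InvE f (fr.Wp (rm Set.univ i)) (fun v w => ⁅h.X i v, h.X i w⁆) (fr.e j) (fr.e (-j)) := by
  intro y u l hu _ hy v hv w hw
  have y1 := fr.isE_mem_Fx (S := rm Set.univ i) ⟨trivial, neg_ne_of h2, neg_ne_neg_of h1⟩ hu hy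
  obtain ⟨y, rfl⟩ := h.surj (fr.U_le_EG j ⟨_, _, hy⟩)
  have y2 := (fr.mem_Fx_one.1 y1).1
  obtain ⟨_, a1⟩ := h.X_spec (fr.mem_Wp_one.1 hv).1
  obtain ⟨_, a2⟩ := h.X_spec (fr.mem_Wp_one.1 hw).1
  obtain ⟨_, a3⟩ := h.X_spec (fr.mem_Wp_one.1 (fr.apply_mem_Wp y1 hv)).1
  obtain ⟨_, a4⟩ := h.X_spec (fr.mem_Wp_one.1 (fr.apply_mem_Wp y1 hw)).1
  have := h.cen.commute_of_mem ((R i ⁅h.X i v, h.X i w⁆ (by
    rw [map_commutatorElement]; exact fr.comm_mem_RZ ⟨_, _, a1⟩ ⟨_, _, a2⟩)).2 j h1 h2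
      ⟨⟨_, _, hy⟩, y1⟩)
  beta_reduce
  rw [h.comm_eq R a3 (isE_conj' a1 y2) a4 (isE_conj' a2 y2), ← conj_comm, this.eq,
    mul_inv_cancel_right]

theorem ci_of {i j : I} (h1 : j ≠ i) (h2 : j ≠ -i) {c : F}
    (hc : ∀ v ∈ fr.Wp (rm Set.univ i), ∀ w ∈ fr.Wp (rm Set.univ i), ⁅h.X i v, h.X i w⁆ =
      ⁅h.X i (fr.e (-j)), h.X i ((c * f.B w v) • fr.e j)⁆) : ∃ ψ, CI fr φ i ψ := by
  have hb := h.biW R i fun v hv => (fr.mem_Wp_one.1 hv).1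
  have m1 : fr.e j ∈ fr.Wp (rm Set.univ i) := fr.e_mem_Wp ⟨trivial, neg_ne_of h2, neg_ne_neg_of h1⟩
  have m2 : fr.e (-j) ∈ fr.Wp (rm Set.univ i) := fr.e_mem_Wp (by rw [neg_neg]; exact ⟨trivial, h1, h2⟩)
  refine ⟨fun a => ⁅h.X i (fr.e (-j)), h.X i ((c * a) • fr.e j)⁆, fun a b => ?_,
    fun {x x' v v' l l'} hx hx' => ?_⟩
  · rw [mul_add, add_smul]
    exact hb.right _ m2 _ (Submodule.smul_mem _ _ m1) _ (Submodule.smul_mem _ _ m1)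
  obtain ⟨w, hw, _, a1, d, rfl⟩ := fr.exists_isE_Wp hx
  obtain ⟨w', hw', _, a2, d', rfl⟩ := fr.exists_isE_Wp hx'
  obtain ⟨_, a3⟩ := h.X_spec a1.orth
  obtain ⟨_, a4⟩ := h.X_spec a2.orth
  rw [h.comm_eq R a1 a3 a2 a4, hc w hw w' hw']
  simp [a2.orth, f.B_eq_zero_symm a1.orth, f.B_self_of_Q (fr.Qe i)]

theorem exists_ci {i j : I} (h1 : j ≠ i) (h2 : j ≠ -i)
    (nd : (∃ k, k ≠ i ∧ k ≠ -i ∧ k ≠ j ∧ k ≠ -j) ∨ ∃ u ∈ fr.V0, ∃ u' ∈ fr.V0, f.B u u' ≠ 0) :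
    ∃ ψ, CI fr φ i ψ := by
  obtain ⟨c, -, hc⟩ := (h.biW R i fun v hv => (fr.mem_Wp_one.1 hv).1).exists_psi
    (fr.e_mem_Wp ⟨trivial, neg_ne_of h2, neg_ne_neg_of h1⟩)
    (fr.e_mem_Wp (by rw [neg_neg]; exact ⟨trivial, h1, h2⟩)) (fr.Qe j) (fr.B_ne' j)
    (h.invE R h1 h2) (fr.Qe _) (by simpa using h.invE R (neg_ne_of h2) (neg_ne_neg_of h1))
    (fr.exists_nd (rm_closed (S := Set.univ) (fun _ _ => trivial) i) j
      (nd.imp_left fun ⟨k, a1, a2, a3⟩ => ⟨k, ⟨trivial, a1, a2⟩, a3⟩))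
  exact h.ci_of R h1 h2 hc

omit R in
theorem exists_pair {i j : I} (h1 : j ≠ i) (h2 : j ≠ -i) (a : F) : ∃ (x x' : J) (b : F),
    IsE (φ x) (fr.e i) (fr.e (-j)) 0 ∧ IsE (φ x') (fr.e i) (b • fr.e j) 0 ∧
      f.B (b • fr.e j) (fr.e (-j)) = a := by
  obtain ⟨x, hx⟩ := h.exists_liftA (neg_ne_neg_of h1) 1
  obtain ⟨x', hx'⟩ := h.exists_liftA h2 (a / f.B (fr.e j) (fr.e (-j)))
  exact ⟨x, x', _, one_smul F (fr.e (-j)) ▸ hx, hx', by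
    rw [B_smul_left, div_mul_cancel₀ _ (fr.B_ne j)]⟩

omit R in
theorem nk_of_ci {i j : I} (h1 : j ≠ i) (h2 : j ≠ -i) {ψ : F → J} (hψ : CI fr φ i ψ)
    (h0 : ∀ a, a = P.ε * P.σ a → ψ a = 1) : NK φ (fr.U i) (fr.U i) := by
  refine InjOnS.mono (N := addRange hψ.add) ?_ (commutator_le.2 fun x ⟨_, _, hx⟩ y ⟨_, _, hy⟩ =>
    ⟨_, (hψ.eq hx hy).symm⟩)
  rintro _ ⟨a, rfl⟩ e
  obtain ⟨x, x', b, hx, hx', rfl⟩ := h.exists_pair h1 h2 a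
  rw [← hψ.eq hx hx', map_commutatorElement] at e
  exact h0 _ (by rw [← f.symm, ← sub_eq_zero, fr.isE_zero_eq (hx.comm (fr.Qe i) hx') e])

omit R in
theorem nk_of_ci_tr {i j : I} (h1 : j ≠ i) (h2 : j ≠ -i) {ψ : F → J} (hψ : CI fr φ i ψ)
    (h0 : ∀ a, a = P.ε * P.σ a → ∃ b, a = b + P.ε * P.σ b) : NK φ (fr.U i) (fr.U i) :=
  h.nk_of_ci h1 h2 hψ fun a ha => by
    obtain ⟨b, rfl⟩ := h0 a ha
    obtain ⟨x, x', c, hx, hx', rfl⟩ := h.exists_pair h1 h2 b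
    rw [hψ.add, ← f.symm, ← hψ.eq hx hx', ← hψ.eq hx' hx, ← commutatorElement_inv,
      inv_mul_cancel]

/-- the commutators of the preimage of the long root group with a torus element -/
theorem exists_R1 [Finite F] {i : I} {g : J} {t : F} (hg : (φ g).1 (fr.e i) = t • fr.e i)
    (ht : t * P.σ t ≠ 1) : ∃ N : Subgroup J, InjOnS φ N ∧ N ≤ (fr.RZ i).comap φ ∧
      ∀ k, Commute (φ k) (φ g) → fr.Mv (φ k) i i → ∀ r, φ r ∈ fr.RZ i → ⁅k, r⁆ ∈ N := by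
  have m : ∀ k, fr.Mv (φ k) i i → ∀ r, φ r ∈ fr.RZ i → φ (k * r * k⁻¹) ∈ fr.RZ i :=
    fun k hk r hr => by simpa using fr.conj_mem_RZ hk hr
  have m' : ∀ r, φ r ∈ fr.RZ i → φ ⁅g, r⁆ ∈ fr.RZ i := fun r hr => by
    rw [commutatorElement_def, map_mul, map_inv]; exact mul_mem (m g ⟨t, hg⟩ r hr) (inv_mem hr)
  have mul : ∀ r, φ r ∈ fr.RZ i → ∀ r', φ r' ∈ fr.RZ i → ⁅g, r * r'⁆ = ⁅g, r⁆ * ⁅g, r'⁆ :=
    fun r hr r' hr' => by
      rw [comm_mul_right', (h.commute_R R (fr.RZ_le_U i hr) (m' r' hr')).eq, mul_inv_cancel_right]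
  let N : Subgroup J :=
    { carrier := {c | ∃ r, φ r ∈ fr.RZ i ∧ c = ⁅g, r⁆}
      one_mem' := ⟨1, by simp, by simp⟩
      mul_mem' := by
        rintro _ _ ⟨r, hr, rfl⟩ ⟨r', hr', rfl⟩
        exact ⟨r * r', by rw [map_mul]; exact mul_mem hr hr', (mul r hr r' hr').symm⟩
      inv_mem' := by
        rintro _ ⟨r, hr, rfl⟩
        have hr' : φ r⁻¹ ∈ fr.RZ i := by rw [map_inv]; exact inv_mem hr
        exact ⟨r⁻¹, hr', inv_eq_of_mul_eq_one_right (by rw [← mul r hr _ hr']; simp)⟩ }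
  refine ⟨N, ?_, ?_, fun k h1 h2 r hr => ?_⟩
  · rintro _ ⟨r, ⟨l, hr⟩, rfl⟩ e
    rw [map_commutatorElement] at e
    have := fr.isE_zero_eq ((hr.comm_left (fr.Qe i) hg (fr.smul_ne_zero hg)).congr (by simp) rfl) e
    rw [IsE.lam_zero hr.lam, B_zero_left] at this
    have l0 : l = 0 := by
      refine (mul_eq_zero.1 (?_ : (t * P.σ t - 1) * l = 0)).resolve_left (sub_ne_zero.2 ht)
      linear_combination this
    exact commutatorElement_eq_one_iff_commute.2 (h.cen r (l0 ▸ hr).eq_one g)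
  · rintro _ ⟨r, hr, rfl⟩; exact m' r hr
  obtain ⟨r', hr', e⟩ := fr.weight_Z hg ht hr
  obtain ⟨r', rfl⟩ := h.surj (fr.U_le_EG i (fr.RZ_le_U i hr'))
  rw [h.cen.comm_congr rfl (e.trans (map_commutatorElement φ _ _).symm), commutatorElement_def k,
    ← h.cen.conj_comm_eq (a' := g) (b' := k * r' * k⁻¹) (by rw [h1.eq]; group) (by simp)]
  exact N.mul_mem ⟨_, m k h2 r' hr', rfl⟩ (N.inv_mem ⟨_, hr', rfl⟩)

theorem nk_of_weight [Finite F] [Finite I] {i j : I} (h1 : j ≠ i) (h2 : j ≠ -i) {t : F}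
    (t0 : t ≠ 0) (t1 : P.σ t = t) (t2 : t * t ≠ 1)
    (hc : ⁅(fr.U i).comap φ, (fr.U i).comap φ⁆ ≤
      closure {c | ∃ x y, φ x ∈ fr.RA i (-j) ∧ φ y ∈ fr.RA i j ∧ c = ⁅x, y⁆}) :
    NK φ (fr.U i) (fr.U i) := by
  obtain ⟨g, g0, g1, g2, g3, -⟩ := fr.exists_torus_A (neg_ne_of h2) (neg_ne_neg_of h1) t0
  obtain ⟨g, rfl⟩ := h.surj (fr.Levi_le_EG _ (g0 Set.univ trivial trivial))
  have g4 := fr.apply_neg g2 (g3 _)
  rw [neg_neg, map_inv₀, inv_inv, t1] at g4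
  obtain ⟨N, n1, -, n2⟩ := h.exists_R1 R g1 (t1.symm ▸ t2)
  refine n1.mono (hc.trans ((closure_le _).2 ?_))
  rintro _ ⟨x, y, ⟨a, hx⟩, hy, rfl⟩
  obtain ⟨y', ⟨b, hy'⟩, e⟩ := fr.weight_A h2 g1 g4 (t1.symm ▸ t2) hy
  obtain ⟨y', rfl⟩ := h.surj (fr.RA_mem_EG ⟨b, hy'⟩)
  have y1 : φ y' ∈ fr.U i := ⟨_, _, hy'⟩
  have x1 : φ x ∈ fr.U i := ⟨_, _, hx⟩
  have y2 : φ y'⁻¹ ∈ fr.U i := by rw [map_inv]; exact inv_mem y1
  have e1 : ⁅x, y'⁻¹⁆ = ⁅x, y'⁆⁻¹ := eq_inv_of_mul_eq_one_left (by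
    rw [← h.comm_mul_right_U R x1 y2 y1]; simp)
  have e2 : φ x = φ g * φ x * (φ g)⁻¹ := hx.eq ((hx.of_conj g1 t0).congr (by
    rw [map_smul, g2, t1]; match_scalars; field_simp) (mul_zero _))
  rw [h.cen.comm_congr rfl (e.trans (map_commutatorElement φ _ _).symm), commutatorElement_def g,
    h.comm_mul_right_U R x1 ⟨_, _, isE_conj hy' g1⟩ y2, e1,
    h.cen.conj_comm_eq (g := g) (a := x) (b := y') e2 (by simp)]
  exact n2 g rfl ⟨t, g1⟩ _ (by rw [map_commutatorElement]; exact fr.comm_mem_RZ x1 y1)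

omit R in
theorem le_closure_of_ci {i j : I} (h1 : j ≠ i) (h2 : j ≠ -i) {ψ : F → J} (hψ : CI fr φ i ψ) :
    ⁅(fr.U i).comap φ, (fr.U i).comap φ⁆ ≤
      closure {c | ∃ x y, φ x ∈ fr.RA i (-j) ∧ φ y ∈ fr.RA i j ∧ c = ⁅x, y⁆} :=
  commutator_le.2 fun x ⟨v, _, hx⟩ y ⟨w, _, hy⟩ => by
    obtain ⟨x', y', b, hx', hy', e⟩ := h.exists_pair h1 h2 (f.B w v)
    exact subset_closure ⟨x', y', ⟨1, by rwa [one_smul]⟩, ⟨b, hy'⟩, by
      rw [hψ.eq hx hy, hψ.eq hx' hy', e]⟩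

end CE

end Cfsg.Agent.Cls
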