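import Cfsg.Agent.Lib.Cls.MInv

/-!
Central extensions of classical groups: lifts commuting with the long root elements.
-/

set_option autoImplicit false

namespace Cfsg.Agent.Cls

open Forms Forms.Form Subgroup
open scoped commutatorElement

variable {F : Type*} [Field F] {P : Param F} {V : Type*} [AddCommGroup V] [Module F V]
  {f : Form P V} {I : Type*} [InvolutiveNeg I] {J : Type*} [Group J]

theorem IsE.lam_zero {l : F} (h : f.IsLam 0 l) : P.ε * P.σ l = -l := by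
  have := h.2
  rw [B_zero_left] at this
  linear_combination this

theorem IsE.comm_left {h x : f.Isom} {u v : V} {l t : F} (hu : f.Q u = 0) (hh : h.1 u = t • u)
    (t0 : t ≠ 0) (hx : IsE x u v l) : IsE ⁅h, x⁆ u (P.σ t • h.1 v - v)
      (t * P.σ t * l + P.ε * P.σ l - f.B v (P.σ t • h.1 v)) :=
  ((hx.of_conj hh t0).mul hu (hx.inv hu)).congr (sub_eq_add_neg _ _).symm
    (by rw [B_neg_left]; ring)

theorem isLam_zero_div {l c : F} (h : f.IsLam 0 l) {t : F} (hc : c = t * P.σ t - 1) (c0 : c ≠ 0)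
    [Finite F] : f.IsLam 0 (l / c) := by
  let A : AddSubgroup F :=
    { carrier := {l | f.IsLam 0 l}
      zero_mem' := f.isLam_zero_of_Q f.Q_zero
      add_mem' := fun {a b} ha hb => by simpa using ha.add hb
      neg_mem' := fun {a} ha => by rw [← IsE.lam_zero ha]; exact ha.conj }
  have h1 : ∀ a ∈ A, c * a ∈ A := fun a ha => by
    rw [hc, sub_mul, one_mul]
    have h2 : f.IsLam 0 (t * P.σ t * a) := by simpa using IsLam.smul ha t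
    exact sub_mem h2 ha
  obtain ⟨⟨a, ha⟩, e⟩ := Finite.injective_iff_surjective.1
    (fun a b e => Subtype.ext (mul_left_cancel₀ c0 (congrArg Subtype.val e)) :
      Function.Injective fun a : A => (⟨c * a, h1 a a.2⟩ : A)) ⟨l, h⟩
  rw [← show c * a = l from congrArg Subtype.val e, mul_div_cancel_left₀ _ c0]
  exact ha

namespace Frame

variable (fr : Frame f I)

/-- the long root subgroup (the centre of the Eichler group) -/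
def RZ (i : I) : Subgroup f.Isom where
  carrier := {g | ∃ l, IsE g (fr.e i) 0 l}
  one_mem' := ⟨0, isE_one _⟩
  mul_mem' := fun ⟨_, h⟩ ⟨_, h'⟩ => ⟨_, (h.mul (fr.Qe i) h').congr (add_zero _) rfl⟩
  inv_mem' := fun ⟨_, h⟩ => ⟨_, (h.inv (fr.Qe i)).congr neg_zero rfl⟩

theorem RZ_le_RC (i : I) : fr.RZ i ≤ fr.RC i := fun _ ⟨_, h⟩ => ⟨_, zero_mem _, _, h⟩

theorem RZ_le_U (i : I) : fr.RZ i ≤ fr.U i := fun _ ⟨_, h⟩ => ⟨_, _, h⟩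

theorem comm_mem_RZ {i : I} {x y : f.Isom} (hx : x ∈ fr.U i) (hy : y ∈ fr.U i) :
    ⁅x, y⁆ ∈ fr.RZ i :=
  let ⟨_, _, h⟩ := hx; let ⟨_, _, h'⟩ := hy; ⟨_, h.comm (fr.Qe i) h'⟩

theorem inv_mul_mem_RZ {i : I} {x y : f.Isom} {v : V} {l l' : F} (hx : IsE x (fr.e i) v l)
    (hy : IsE y (fr.e i) v l') : x⁻¹ * y ∈ fr.RZ i :=
  ⟨_, ((hx.inv (fr.Qe i)).mul (fr.Qe i) hy).congr (neg_add_cancel _) rfl⟩

theorem conj_mem_RZ {i j : I} {g r : f.Isom} (hg : fr.Mv g i j) (hr : r ∈ fr.RZ i) :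
    g * r * g⁻¹ ∈ fr.RZ j :=
  let ⟨_, h⟩ := hg; let ⟨_, h'⟩ := hr
  ⟨_, (h'.of_conj h (fr.smul_ne_zero h)).congr (by simp) rfl⟩

theorem commute_RZ {i : I} {g r : f.Isom} {t : F} (hg : g.1 (fr.e i) = t • fr.e i)
    (ht : t * P.σ t = 1) (hr : r ∈ fr.RZ i) : Commute g r := by
  obtain ⟨l, h⟩ := hr
  exact mul_inv_eq_iff_eq_mul.1 (((h.of_conj hg (fr.smul_ne_zero hg)).congr (by simp)
    (by rw [ht, one_mul])).eq h)

theorem commute_RZ' {i : I} {g r : f.Isom} (hg : g.1 (fr.e i) = fr.e i) (hr : r ∈ fr.RZ i) :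
    Commute g r := fr.commute_RZ (t := 1) (by rw [hg, one_smul]) (by simp) hr

theorem weight_A {i j : I} (h2 : j ≠ -i) {h x : f.Isom} {t s : F} (a1 : h.1 (fr.e i) = t • fr.e i)
    (a2 : h.1 (fr.e j) = s • fr.e j) (hw : P.σ t * s ≠ 1) (hx : x ∈ fr.RA i j) :
    ∃ x' ∈ fr.RA i j, x = ⁅h, x'⁆ := by
  obtain ⟨a, hx⟩ := hx
  obtain ⟨x', hx'⟩ := fr.exists_RA h2 (a / (P.σ t * s - 1))
  refine ⟨x', ⟨_, hx'⟩, hx.eq ((hx'.comm_left (fr.Qe i) a1 (fr.smul_ne_zero a1)).congr ?_ ?_)⟩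
  · have := sub_ne_zero.2 hw
    rw [map_smul, a2]; match_scalars; field_simp
  · simp [a2, f.B_self_of_Q (fr.Qe j)]

theorem weight_Z [Finite F] {i : I} {h x : f.Isom} {t : F} (a1 : h.1 (fr.e i) = t • fr.e i)
    (hw : t * P.σ t ≠ 1) (hx : x ∈ fr.RZ i) : ∃ x' ∈ fr.RZ i, x = ⁅h, x'⁆ := by
  obtain ⟨l, hx⟩ := hx
  have c0 := sub_ne_zero.2 hw
  have hl := isLam_zero_div hx.lam rfl c0
  obtain ⟨x', hx'⟩ := exists_isE (fr.Qe i) (f.B_zero_left _) hl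
  refine ⟨x', ⟨_, hx'⟩, hx.eq ((hx'.comm_left (fr.Qe i) a1 (fr.smul_ne_zero a1)).congr
    (by simp) ?_)⟩
  rw [IsE.lam_zero hl, B_zero_left]; field_simp; ring

theorem weight_U {i : I} {h x : f.Isom} {t l : F} {v v' : V} (a1 : h.1 (fr.e i) = t • fr.e i)
    (hx : IsE x (fr.e i) v l) (hv : f.B v' (fr.e i) = 0) (e : P.σ t • h.1 v' - v' = v) :
    ∃ x' l', IsE x' (fr.e i) v' l' ∧ ∃ r ∈ fr.RZ i, x = ⁅h, x'⁆ * r := by
  obtain ⟨l', hl⟩ := f.exists_isLam v'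
  obtain ⟨x', hx'⟩ := exists_isE (fr.Qe i) hv hl
  exact ⟨x', l', hx', _, fr.inv_mul_mem_RZ ((hx'.comm_left (fr.Qe i) a1
    (fr.smul_ne_zero a1)).congr e rfl) hx, (mul_inv_cancel_left _ _).symm⟩

theorem exists_comm_Z (hZ : ∀ l, f.IsLam 0 l → ∃ a, l = a - P.ε * P.σ a) {i : I} {u u' : V}
    (h1 : f.B u (fr.e i) = 0) (h2 : f.B u' (fr.e i) = 0) (hu : f.B u u' ≠ 0) {r : f.Isom}
    (hr : r ∈ fr.RZ i) : ∃ (a : F) (x : f.Isom) (l : F) (y : f.Isom) (l' : F),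
      IsE x (fr.e i) u' l ∧ IsE y (fr.e i) (a • u) l' ∧ r = ⁅x, y⁆ := by
  obtain ⟨l, hr⟩ := hr
  obtain ⟨a, rfl⟩ := hZ l hr.lam
  obtain ⟨l, hl⟩ := f.exists_isLam u'
  obtain ⟨x, hx⟩ := exists_isE (fr.Qe i) h2 hl
  obtain ⟨l', hl'⟩ := f.exists_isLam ((a / f.B u u') • u)
  obtain ⟨y, hy⟩ := exists_isE (fr.Qe i) (by rw [B_smul_left, h1, mul_zero]) hl'
  refine ⟨_, x, l, y, l', hx, hy, hr.eq ((hx.comm (fr.Qe i) hy).congr rfl ?_)⟩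
  rw [f.symm (_ • u) u', B_smul_left, div_mul_cancel₀ _ hu]

theorem U_inf_Fx_le [Finite I] {S : Set I} (hS : ∀ i ∈ S, -i ∈ S) {i : I} (hi : i ∈ S)
    {T : Subgroup f.Isom} (hA : ∀ j ∈ S, j ≠ i → j ≠ -i → fr.RS i j ≤ T) (hC : fr.RC i ≤ T) :
    fr.U i ⊓ fr.Fx S ≤ T := fun _ hg =>
  fr.U_induction Sᶜ (fun j h1 h2 h3 => hA j (by simpa using hS _ (not_not.1 h3)) h1 h2) hC hg.1
    hg.2 (not_not.2 (hS i hi))

theorem U_le [Finite I] {i : I} {T : Subgroup f.Isom} (hA : ∀ j, j ≠ i → j ≠ -i → fr.RS i j ≤ T)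
    (hC : fr.RC i ≤ T) : fr.U i ≤ T := fun _ hg =>
  fr.U_inf_Fx_le (S := Set.univ) (fun _ _ => trivial) trivial (fun j _ => hA j) hC
    ⟨hg, fun _ h => (h trivial).elim⟩

theorem RA_mem_EG {i j : I} {g : f.Isom} (h : g ∈ fr.RA i j) : g ∈ fr.EG := fr.RS_le_EG i j h

end Frame

/-- a central extension of the group generated by the Eichler transformations -/
structure CE (fr : Frame f I) (φ : J →* f.Isom) : Prop where
  cen : Cen φ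
  surj : fr.EG ≤ φ.range

/-- lifts of long root elements commute with the unipotent part of their centraliser -/
def RCm (fr : Frame f I) (φ : J →* f.Isom) : Prop := ∀ i r, φ r ∈ fr.RZ i →
  fr.U i ≤ LCs φ r ∧ ∀ j, j ≠ i → j ≠ -i → fr.U j ⊓ fr.Fx (rm Set.univ i) ≤ LCs φ r

namespace CE

variable {fr : Frame f I} {φ : J →* f.Isom} (h : CE fr φ)
include h

theorem comm_mem {c : J} {a b : f.Isom} (ha : a ∈ fr.EG) (hb : b ∈ fr.EG)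
    (h1 : Commute a (φ c)) (h2 : Commute b (φ c)) : ⁅a, b⁆ ∈ LCs φ c :=
  h.cen.comm_mem_LCs (h.surj ha) (h.surj hb) h1 h2

theorem le_LCs_one {c : J} (hc : φ c = 1) : fr.EG ≤ LCs φ c := fun g hg => by
  obtain ⟨x, rfl⟩ := h.surj hg
  exact mem_LCs_of_commute (h.cen c hc x)

/-- via a further index -/
theorem RS_le_of_index {c : J} {a b l : I} (h1 : l ≠ a) (h2 : l ≠ -a) (h3 : l ≠ b) (h4 : l ≠ -b)
    (h5 : b ≠ -a) (c1 : ∀ x ∈ fr.RA a l, Commute x (φ c)) (c2 : ∀ x ∈ fr.RA (-l) b, Commute x (φ c)) :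
    fr.RS a b ≤ LCs φ c := fun s hs => by
  obtain ⟨x, hx, y, hy, rfl⟩ := fr.exists_comm_A h1 h2 h3 h4 h5 hs
  exact h.comm_mem (fr.RA_mem_EG hx) (fr.RA_mem_EG hy) (c1 x hx) (c2 y hy)

theorem RS_le_of_weight {c : J} {a b : I} (h5 : b ≠ -a) {g : f.Isom} (hg : g ∈ fr.EG) {t s : F}
    (a1 : g.1 (fr.e a) = t • fr.e a) (a2 : g.1 (fr.e b) = s • fr.e b) (hw : P.σ t * s ≠ 1)
    (c1 : Commute g (φ c)) (c2 : ∀ x ∈ fr.RA a b, Commute x (φ c)) : fr.RS a b ≤ LCs φ c :=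
  fun s hs => by
    obtain ⟨x, hx, rfl⟩ := fr.weight_A h5 a1 a2 hw hs
    exact h.comm_mem hg (fr.RA_mem_EG hx) c1 (c2 x hx)

theorem RC_le_of_index {c : J} {a b : I} (h1 : b ≠ a) (h2 : b ≠ -a)
    (c1 : ∀ x ∈ fr.RA a b, Commute x (φ c)) (c2 : ∀ x ∈ fr.RC (-b), Commute x (φ c))
    (c3 : fr.RS a (-b) ≤ LCs φ c) : fr.RC a ≤ LCs φ c := fun s hs => by
  obtain ⟨x, hx, y, hy, t, ht, rfl⟩ := fr.exists_comm_C h1 h2 hs
  exact mul_mem (h.comm_mem (fr.RA_mem_EG hx) (fr.RC_le_EG _ hy) (c1 x hx) (c2 y hy)) (c3 ht)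

theorem RS_le_of_C {c : J} {a b : I} (h1 : b ≠ a) (h2 : b ≠ -a) (hC : fr.HasC)
    (c1 : ∀ x ∈ fr.RA a (-b), Commute x (φ c)) (c2 : ∀ x ∈ fr.RC b, Commute x (φ c))
    (c3 : fr.RC a ≤ LCs φ c) : fr.RS a b ≤ LCs φ c := fun s hs => by
  obtain ⟨x, hx, y, hy, t, ht, rfl⟩ := fr.exists_comm_A' h1 h2 (fr.RC_ne_bot hC b) hs
  exact mul_mem (c3 ht) (h.comm_mem (fr.RA_mem_EG hx) (fr.RC_le_EG _ hy) (c1 x hx) (c2 y hy))

theorem RC_le_of_weight {c : J} {a : I} {g : f.Isom} (hg : g ∈ fr.EG) {t : F}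
    (a1 : g.1 (fr.e a) = t • fr.e a) (hw : ∀ v ∈ fr.V0, ∃ v' ∈ fr.V0, P.σ t • g.1 v' - v' = v)
    (c1 : Commute g (φ c)) (c2 : ∀ x ∈ fr.RC a, Commute x (φ c)) (c3 : fr.RZ a ≤ LCs φ c) :
    fr.RC a ≤ LCs φ c := by
  rintro s ⟨v, hv, l, hs⟩
  obtain ⟨v', hv', e⟩ := hw v hv
  obtain ⟨x, l', hx, r, hr, rfl⟩ := fr.weight_U a1 hs (fr.mem_V0.1 hv' a) e
  have : x ∈ fr.RC a := ⟨_, hv', _, hx⟩
  exact mul_mem (h.comm_mem hg (fr.RC_le_EG _ this) c1 (c2 x this)) (c3 hr)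

theorem RZ_le_of_weight [Finite F] {c : J} {a : I} {g : f.Isom} (hg : g ∈ fr.EG) {t : F}
    (a1 : g.1 (fr.e a) = t • fr.e a) (hw : t * P.σ t ≠ 1) (c1 : Commute g (φ c))
    (c2 : ∀ x ∈ fr.RZ a, Commute x (φ c)) : fr.RZ a ≤ LCs φ c := fun s hs => by
  obtain ⟨x, hx, rfl⟩ := fr.weight_Z a1 hw hs
  exact h.comm_mem hg (fr.U_le_EG _ (fr.RZ_le_U _ hx)) c1 (c2 x hx)

theorem RZ_le_of_V0 (hZ : ∀ l, f.IsLam 0 l → ∃ a, l = a - P.ε * P.σ a) {c : J} {a : I} {v : V}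
    (hv : v ∈ fr.V0) (hB : f.B v v ≠ 0) (c2 : ∀ x ∈ fr.RC a, Commute x (φ c)) :
    fr.RZ a ≤ LCs φ c := fun s hs => by
  obtain ⟨b, x, l, y, l', hx, hy, rfl⟩ := fr.exists_comm_Z hZ (fr.mem_V0.1 hv a)
    (fr.mem_V0.1 hv a) hB hs
  have x1 : x ∈ fr.RC a := ⟨_, hv, _, hx⟩
  have y1 : y ∈ fr.RC a := ⟨_, Submodule.smul_mem _ _ hv, _, hy⟩
  exact h.comm_mem (fr.RC_le_EG _ x1) (fr.RC_le_EG _ y1) (c2 x x1) (c2 y y1)

theorem rcm_orth (hZ : ∀ l, f.IsLam 0 l → l = 0) : RCm fr φ := by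
  rintro i r ⟨l, hr⟩
  obtain rfl := hZ l hr.lam
  have := h.le_LCs_one hr.eq_one
  exact ⟨(fr.U_le_EG i).trans this, fun j _ _ => (inf_le_left.trans (fr.U_le_EG j)).trans this⟩

variable [Finite I]

omit h in
theorem rcm_of (a1 : ∀ i r, φ r ∈ fr.RZ i → ∀ j k, j ≠ -i → k ≠ -i → k ≠ j → k ≠ -j →
      fr.RS j k ≤ LCs φ r)
    (a2 : ∀ i r, φ r ∈ fr.RZ i → ∀ j, j ≠ -i → fr.RC j ≤ LCs φ r) : RCm fr φ := fun i r hr =>
  ⟨fr.U_le (fun j h1 h2 => a1 i r hr i j (fr.ne i).symm h2 h1 h2) (a2 i r hr i (fr.ne i).symm),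
    fun j h1 h2 => fr.U_inf_Fx_le (rm_closed (S := Set.univ) (fun _ _ => trivial) i) ⟨trivial, h1, h2⟩
      (fun k hk => a1 i r hr j k h2 hk.2.2) (a2 i r hr j h2)⟩

omit h [Finite I] in
theorem cRA {i j k : I} {r : f.Isom} (hr : r ∈ fr.RZ i) (h1 : j ≠ -i) (h2 : k ≠ -i) :
    ∀ x ∈ fr.RA j k, Commute x r := fun _ hx =>
  fr.commute_RZ' (fr.RA_apply hx (ne_neg_swap h1) (ne_neg_swap h2)) hr

omit h [Finite I] in
theorem cRC {i j : I} {r : f.Isom} (hr : r ∈ fr.RZ i) (h1 : j ≠ -i) :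
    ∀ x ∈ fr.RC j, Commute x r := fun _ hx =>
  fr.commute_RZ' (fr.RC_apply hx (ne_neg_swap h1)) hr

theorem rcm_of_A (a1 : ∀ i r, φ r ∈ fr.RZ i → ∀ j k, j ≠ -i → k ≠ -i → k ≠ j → k ≠ -j →
      fr.RS j k ≤ LCs φ r)
    (a2 : ∀ i j, j ≠ -i → (∃ k, k ≠ i ∧ k ≠ -i ∧ k ≠ j ∧ k ≠ -j) ∨
      ∀ r, φ r ∈ fr.RZ i → fr.RC j ≤ LCs φ r) : RCm fr φ :=
  rcm_of a1 fun i r hr j hj => by
    rcases a2 i j hj with ⟨k, h1, h2, h3, h4⟩ | h1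
    · exact h.RC_le_of_index h3 h4 (cRA hr hj h2) (cRC hr (neg_ne_neg_of h1))
        (a1 i r hr j _ hj (neg_ne_neg_of h1) (neg_ne_of h4) (neg_ne_neg_of h3))
    · exact h1 r hr

theorem rcm_four (h4 : ∀ i j k : I, ∃ l, l ≠ i ∧ l ≠ -i ∧ l ≠ j ∧ l ≠ -j ∧ l ≠ k ∧ l ≠ -k) :
    RCm fr φ :=
  h.rcm_of_A (fun i r hr j k h1 h2 _ h3 => by
    obtain ⟨l, a1, a2, a3, a4, a5, a6⟩ := h4 i j k
    exact h.RS_le_of_index a3 a4 a5 a6 h3 (cRA hr h1 a2) (cRA hr (neg_ne_neg_of a1) h2))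
    fun i j _ => let ⟨l, a1, a2, a3, a4, _⟩ := h4 i j j; Or.inl ⟨l, a1, a2, a3, a4⟩

theorem rcm_tor (hT : ∀ k, ∃ g ∈ fr.EG, ∃ t : F, t ≠ 1 ∧ g.1 (fr.e k) = t • fr.e k ∧
      ∀ l, l ≠ k → l ≠ -k → g.1 (fr.e l) = fr.e l)
    (a2 : ∀ i j, j ≠ -i → (∃ k, k ≠ i ∧ k ≠ -i ∧ k ≠ j ∧ k ≠ -j) ∨
      ∀ r, φ r ∈ fr.RZ i → fr.RC j ≤ LCs φ r) : RCm fr φ := by
  have key : ∀ i r, φ r ∈ fr.RZ i → ∀ j k, j ≠ -i → k ≠ -i → k ≠ j → k ≠ -j → k ≠ i →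
      fr.RS j k ≤ LCs φ r := fun i r hr j k h1 h2 h3 h4 h5 => by
    obtain ⟨g, hg, t, t1, e, e'⟩ := hT k
    exact h.RS_le_of_weight h4 hg (t := 1) (by rw [e' j h3.symm (ne_neg_swap h4), one_smul]) e
      (by simpa using t1) (fr.commute_RZ' (e' i h5.symm (ne_neg_swap h2)) hr) (cRA hr h1 h2)
  refine h.rcm_of_A (fun i r hr j k h1 h2 h3 h4 => ?_) a2
  by_cases h5 : k = i
  · exact fun x hx => key i r hr k j h2 h1 h3.symm (ne_neg_swap h4) (h5 ▸ h3.symm)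
      (fr.RA_swap h4 hx)
  · exact key i r hr j k h1 h2 h3 h4 h5

end CE

end Cfsg.Agent.Cls
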