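import Cfsg.Agent.Lib.Cls.SpPres
import Cfsg.Agent.Lib.Cls.Frames

/-!
Presentations of the symplectic matrix groups.
-/

set_option autoImplicit false

namespace Cfsg.Agent.Cls

open Forms Forms.Form Module Subgroup Pres

variable {F : Type*} [Field F] [Finite F]

theorem sp_frame (m : ℕ) : Nonempty (Frame (spForm m F) (PM m)) :=
  exists_frame_sp (spForm_nondeg m) (by simp [two_mul])

theorem isCyclic_center_sp {m : ℕ} (hm : 1 ≤ m) :
    IsCyclic (center (Matrix.symplecticGroup (Fin m) F)) := by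
  have : Nonempty (Fin m) := ⟨⟨0, hm⟩⟩
  obtain ⟨u, hu⟩ := exists_ne (0 : Fin m ⊕ Fin m → F)
  exact isCyclic_of_scalar (spEquiv m F).toMonoidHom (spEquiv m F).injective hu _ fun z hz =>
    ((spForm_nondeg m).sp_mem_center_iff _).1 ((mem_center_equiv (spEquiv m F) z).1 hz)

theorem sp_pres {m g r : ℕ} (hm : 2 ≤ m) (h : PresN (Matrix.SpecialLinearGroup (Fin m) F) g r) :
    PresN (Matrix.symplecticGroup (Fin m) F) (g + 3) (r + 25) ∧ PresN (PSp m F) (g + 3) (r + 26) := by
  obtain ⟨fr⟩ := sp_frame (F := F) m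
  have := isCyclic_center_sp (F := F) (m := m) (by omega)
  have h1 := (sp_presN fr (fr.sp_EG (spForm_nondeg m)) PM.pos1 PM.pos2 (i := ⟨⟨0, by omega⟩, true⟩)
    (j := ⟨⟨1, by omega⟩, true⟩) rfl rfl (by simp)
    (h.equiv (fr.exists_equiv_levi hm PM.ncard_pos PM.pos1).some)).equiv (spEquiv m F).symm
  exact ⟨h1, h1.center⟩

end Cfsg.Agent.Cls
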