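import Cfsg.Agent.Lib.Cls.MFin
import Cfsg.Agent.Lib.Cls.SpMat

/-!
Central extensions of symplectic groups.
-/

set_option autoImplicit false

namespace Cfsg.Agent.Cls

open Forms Forms.Form Subgroup CExt

universe u

variable {F : Type*} [Field F] {V : Type*} [AddCommGroup V] [Module F V]
  {I : Type*} [InvolutiveNeg I] {J : Type*} [Group J]

theorem field_cases (F : Type*) [Field F] :
    (∃ t : F, t ≠ 0 ∧ t * t ≠ 1) ∨ ∀ a : F, a = 0 ∨ a = 1 ∨ a = -1 := by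
  by_contra h
  push Not at h
  obtain ⟨h, a, h0, h1, h2⟩ := h
  exact (mul_self_eq_one_iff.1 (h a h0)).elim h1 h2

theorem three_eq_zero (hF : ∀ a : F, a = 0 ∨ a = 1 ∨ a = -1) (h2 : (2 : F) ≠ 0) : (3 : F) = 0 := by
  rcases hF 2 with h | h | h
  · exact absurd h h2
  · exact absurd (by linear_combination h) (one_ne_zero (α := F))
  · linear_combination h

theorem exists_ne_of_card [Finite F] (h : 3 ≤ Nat.card F) : ∃ t : F, t ≠ 0 ∧ t ≠ 1 := by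
  classical
  by_contra hc
  push Not at hc
  have := Fintype.ofFinite F
  have : Finset.univ ⊆ ({0, 1} : Finset F) := fun a _ => by
    by_cases h0 : a = 0
    · simp [h0]
    · simp [hc a h0]
  have := (Finset.card_le_card this).trans Finset.card_le_two
  rw [Finset.card_univ, ← Nat.card_eq_fintype_card] at this
  omega

theorem Frame.comm_U_eq_bot {P : Param F} {f : Form P V} (fr : Frame f I)
    (h : ∀ v w, f.B v w = f.B w v) (i : I) : ⁅fr.U i, fr.U i⁆ = ⊥ :=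
  eq_bot_iff.2 (Subgroup.commutator_le.2 fun _ ⟨_, _, hx⟩ _ ⟨_, _, hy⟩ =>
    ((hx.comm (fr.Qe i) hy).congr rfl (by rw [h, sub_self])).eq_one)

theorem Frame.RZ_le_comm {P : Param F} {f : Form P V} (fr : Frame f I)
    (hZ : ∀ l, f.IsLam 0 l → ∃ a, l = a - P.ε * P.σ a) {i : I} {u u' : V}
    (h1 : f.B u (fr.e i) = 0) (h2 : f.B u' (fr.e i) = 0) (hu : f.B u u' ≠ 0) :
    fr.RZ i ≤ ⁅fr.U i, fr.U i⁆ := fun _ hr => by
  obtain ⟨a, x, l, y, l', hx, hy, rfl⟩ := fr.exists_comm_Z hZ h1 h2 hu hr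
  exact commutator_mem_commutator ⟨_, _, hx⟩ ⟨_, _, hy⟩

theorem Frame.RZ_le_comm' {P : Param F} {f : Form P V} (fr : Frame f I)
    (hZ : ∀ l, f.IsLam 0 l → ∃ a, l = a - P.ε * P.σ a) {i j : I} (h1 : j ≠ i) (h2 : j ≠ -i) :
    fr.RZ i ≤ ⁅fr.U i, fr.U i⁆ :=
  fr.RZ_le_comm hZ (fr.B_eq' h2) (fr.B_eq' (neg_ne_neg_of h1)) (fr.B_ne j)

theorem Frame.RC_le_RZ {P : Param F} {f : Form P V} (fr : Frame f I) (hV : ∀ v ∈ fr.V0, v = 0)
    (i : I) : fr.RC i ≤ fr.RZ i := fun _ ⟨v, hv, l, hx⟩ => ⟨l, hx.congr (hV v hv) rfl⟩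

theorem Frame.exists_swap_EG {P : Param F} {f : Form P V} (fr : Frame f I) {i j : I} (h1 : j ≠ i)
    (h2 : j ≠ -i) : ∃ g ∈ fr.EG, fr.Mv g i j ∧ fr.Mv g j i := by
  obtain ⟨x, hx, x0⟩ := fr.exists_RX_ne_one (Or.inl (neg_ne_of h2)) (neg_ne_neg_of h1)
  rw [fr.RX_of_ne (neg_ne_of h2)] at hx
  obtain ⟨y, hy, -, a2, a3, -⟩ := fr.exists_W1 (neg_ne_of h2) (neg_ne_neg_of h1) hx x0
  rw [neg_neg] at a2 a3
  exact ⟨_, mul_mem (mul_mem (fr.RA_mem_EG hy) (fr.RA_mem_EG hx)) (fr.RA_mem_EG hy), a3, a2⟩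

variable {f : Form (Param.sp F) V}

theorem sp_hZ (h2 : (2 : F) ≠ 0) (l : F) : ∃ a, l = a - (Param.sp F).ε * (Param.sp F).σ a :=
  ⟨l / 2, by simp; field_simp; ring⟩

theorem sp_tr (h2 : (2 : F) ≠ 0) (a : F) (h : a = (Param.sp F).ε * (Param.sp F).σ a) :
    ∃ b, a = b + (Param.sp F).ε * (Param.sp F).σ b :=
  ⟨0, by
    simp only [Param.sp_ε, Param.sp_σ] at h ⊢
    exact (mul_left_cancel₀ h2 (by linear_combination h) : a = 0).trans (by ring)⟩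

theorem sp_symm_of_two (h2 : (2 : F) = 0) (v w : V) : f.B v w = f.B w v := by
  rw [f.sp_symm]; linear_combination (-f.B w v) * h2

namespace Frame

variable (fr : Frame f I)

theorem sp_hasC : fr.HasC := ⟨0, zero_mem _, 1, f.sp_isLam _ _, one_ne_zero⟩

theorem sp_torus' [Finite F] (k : I) {t : F} (t0 : t ≠ 0) : ∃ g ∈ fr.EG,
    g.1 (fr.e k) = t • fr.e k ∧ fr.Mv g (-k) (-k) ∧
      ∀ l, l ≠ k → l ≠ -k → g.1 (fr.e l) = fr.e l := by
  obtain ⟨g, hg, g1, g2⟩ := fr.sp_torus k t0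
  exact ⟨g, sup_le (fr.RC_le_EG _) (fr.RC_le_EG _) hg, g1, g2, fun l => fr.RC_sup_fix hg⟩

theorem sp_hT [Finite F] (hF : 3 ≤ Nat.card F) (k : I) : ∃ g ∈ fr.EG, ∃ t : F, t ≠ 1 ∧
    g.1 (fr.e k) = t • fr.e k ∧ ∀ l, l ≠ k → l ≠ -k → g.1 (fr.e l) = fr.e l := by
  obtain ⟨t, t0, t1⟩ := exists_ne_of_card hF
  obtain ⟨g, hg, g1, -, g2⟩ := fr.sp_torus' k t0
  exact ⟨g, hg, t, t1, g1, g2⟩

end Frame

namespace CE

variable {fr : Frame f I} {φ : J →* f.Isom} (h : CE fr φ) [Finite I] [Finite F]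
include h

theorem sp_big (h4 : ∀ i j k : I, ∃ l, l ≠ i ∧ l ≠ -i ∧ l ≠ j ∧ l ≠ -j ∧ l ≠ k ∧ l ≠ -k) :
    Spl fr φ :=
  h.spl_big (h.rcm_four h4) (h.ltwo_four fr.sp_hasC h4)
    (fun i j => let ⟨l, a1, a2, a3, a4, _⟩ := h4 i j j; ⟨l, a1, a2, a3, a4⟩) (Or.inl h4)
    ((eq_or_ne (2 : F) 0).elim (fun h2 => Or.inr (sp_symm_of_two h2))
      fun h2 => Or.inl ⟨fun l _ => sp_hZ h2 l, sp_tr h2⟩)
    fun _ _ => fr.T2_le_four h4

omit [Finite I] in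
theorem sp_RC {i j : I} (h1 : j ≠ i) (h2 : j ≠ -i) (hF : 3 ≤ Nat.card F) {r : J}
    (hr : φ r ∈ fr.RZ i) : fr.RC j ≤ LCs φ r := by
  refine (fr.RC_le_RZ fr.sp_V0 j).trans ?_
  rcases field_cases F with ⟨t, t0, t1⟩ | h3
  · obtain ⟨g, hg, g1, -, g2⟩ := fr.sp_torus' j t0
    exact h.RZ_le_of_weight hg g1 t1 (fr.commute_RZ' (g2 i h1.symm (ne_neg_swap h2)) hr)
      fun x hx => cRC hr h2 x (fr.RZ_le_RC _ hx)
  obtain ⟨t, t0, t1⟩ := exists_ne_of_card hF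
  have e2 : (2 : F) ≠ 0 := fun e => by
    rcases h3 t with h | h | h
    exacts [t0 h, t1 h, t1 (by linear_combination h - e)]
  have e3 := three_eq_zero h3 e2
  obtain ⟨l, hl⟩ := hr
  have key : ∀ x, IsE x (fr.e j) 0 l → x ∈ LCs φ r := fun x hx => by
    obtain ⟨g, hg, ⟨c, g1⟩, ⟨d, g2⟩⟩ := fr.exists_swap_EG h1 h2
    obtain ⟨g, rfl⟩ := h.surj hg
    obtain ⟨x, rfl⟩ := h.surj (fr.mem_EG_of_isE (fr.Qe j) hx)
    have sq : ∀ c : F, c ≠ 0 → c * c * l = l := fun c hc => by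
      rcases h3 c with h | rfl | rfl
      exacts [absurd h hc, by ring, by ring]
    refine mem_LCs_of_commute (h.cen.exchange (g := g) (m := 3)
      (cRC ⟨l, hl⟩ h2 _ (fr.RZ_le_RC _ ⟨l, hx⟩)) (by decide) ?_ ?_ ?_)
    · obtain ⟨l', a1, a2⟩ := hx.pow (fr.Qe j) 3
      exact (a1.congr (smul_zero _) (by rw [a2 (f.sp_B_self _)]; simp [e3])).eq_one
    · exact hl.eq ((hx.of_conj g2 (fr.smul_ne_zero g2)).congr (by simp)
        (sq d (fr.smul_ne_zero g2)))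
    · exact hx.eq ((hl.of_conj g1 (fr.smul_ne_zero g1)).congr (by simp)
        (sq c (fr.smul_ne_zero g1)))
  rintro x ⟨m, hx⟩
  by_cases l0 : l = 0
  · exact h.le_LCs_one (hl.congr rfl l0).eq_one (fr.mem_EG_of_isE (fr.Qe j) hx)
  rcases h3 (m / l) with e | e | e <;> rw [div_eq_iff l0] at e
  · rw [(hx.congr rfl (by simpa using e)).eq_one]; exact one_mem _
  · exact key x (hx.congr rfl (by simpa using e))
  · exact inv_mem_iff.1 (key _ ((hx.inv (fr.Qe j)).congr neg_zero (by simp [e])))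

theorem sp_small (hF : 3 ≤ Nat.card F) (hI : (∀ i j : I, ∃ k, k ≠ i ∧ k ≠ -i ∧ k ≠ j ∧ k ≠ -j) ∨
    (∀ i : I, ∃ j, j ≠ i ∧ j ≠ -i) ∧
      ∀ i j : I, j ≠ i → j ≠ -i → ∀ k, k = i ∨ k = -i ∨ k = j ∨ k = -j) : Spl fr φ := by
  have h2 : ∀ i : I, ∃ j, j ≠ i ∧ j ≠ -i := fun i =>
    hI.elim (fun h3 => let ⟨k, a1, a2, _⟩ := h3 i i; ⟨k, a1, a2⟩) fun h => h.1 i
  have R : RCm fr φ := h.rcm_tor (fr.sp_hT hF) fun i j hj => by
    by_cases e : j = i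
    · obtain ⟨k, a1, a2⟩ := h2 i
      exact Or.inl ⟨k, a1, a2, e ▸ a1, e ▸ a2⟩
    · exact Or.inr fun r hr => h.sp_RC e hj hF hr
  obtain ⟨t, t0, t1⟩ := exists_ne_of_card hF
  have hl : ∃ l, l ≠ 0 ∧ f.IsLam 0 l := ⟨1, one_ne_zero, f.sp_isLam _ _⟩
  have n1 : ∀ i, NK φ (fr.U i) (fr.U i) := fun i => by
    obtain ⟨j, h1, h2⟩ := h2 i
    rcases field_cases F with ⟨s, s0, s1⟩ | h3
    · refine h.nk_of_weight R h1 h2 s0 rfl s1 ?_
      rcases hI with hI | hI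
      · obtain ⟨ψ, hψ⟩ := h.exists_ci R h1 h2 (Or.inl (hI i j))
        exact h.le_closure_of_ci h1 h2 hψ
      · exact h.le_closure_two R h1 h2 fr.sp_V0 (hI.2 i j h1 h2) hl
    have e2 : (2 : F) ≠ 0 := fun e => by
      rcases h3 t with h | h | h
      exacts [t0 h, t1 h, t1 (by linear_combination h - e)]
    obtain ⟨ψ, hψ⟩ : ∃ ψ, CI fr φ i ψ := hI.elim (fun hI => h.exists_ci R h1 h2 (Or.inl (hI i j)))
      fun hI => h.exists_ci_three R h1 h2 fr.sp_V0 (hI.2 i j h1 h2) hl h3 rfl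
    exact h.nk_of_ci_tr h1 h2 hψ (sp_tr e2)
  refine ⟨n1, fun i j a1 a2 => ?_⟩
  obtain ⟨g, hg, g1, g2, g3⟩ := fr.sp_torus' i t0
  refine h.nk_good (n1 i) hg (s := 1) g1 g2
    (fr.apply_Wp (rm_closed (S := Set.univ) (fun _ _ => trivial) i)
      (fun k hk => by rw [one_smul, g3 k hk.2.1 hk.2.2])
      fun v hv => by rw [fr.sp_V0 v hv]; simp) (by simpa) ?_ j a1 a2
  by_cases e : (2 : F) = 0
  · exact Or.inr ⟨fr.comm_U_eq_bot (sp_symm_of_two e) i, fun e' =>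
      (mul_self_eq_one_iff.1 e').elim t1 fun h => t1 (by linear_combination h - e)⟩
  · exact Or.inl (fr.RZ_le_comm' (fun l _ => sp_hZ e l) a1 a2)

end CE

theorem sp_kb [Finite F] [Finite V] {m : ℕ} (fr : Frame f (PM m)) (hm : 2 ≤ m)
    (h : 4 ≤ m ∨ 3 ≤ Nat.card F) : Frame.KB.{u} fr 1 :=
  fr.kb_one fun J _ _ φ h1 h2 h3 x hx => by
    obtain ⟨p, n, hp, hF⟩ := exists_card_eq_pow F
    have := Fact.mk hp
    have hS : Spl fr φ := by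
      rcases h with h | h
      · exact h1.sp_big (PM.four h)
      rcases hm.eq_or_lt with rfl | hm'
      · exact h1.sp_small h (Or.inr ⟨PM.two le_rfl, fun _ _ => PM.cases_two⟩)
      · exact h1.sp_small h (Or.inl (PM.three hm'))
    obtain ⟨U, hU⟩ := h1.exists_can hF (fr.term_of_C fr.sp_hasC fun g _ _ _ v hv => by
      rw [fr.sp_V0 v hv, map_zero]) hS h3 h2
    exact ker_sp hU.toPSt1 (hU.top ▸ mem_top x) hx

theorem sp_perfect [Finite F] {m : ℕ} (fr : Frame f (PM m)) (hm : 2 ≤ m)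
    (h : 3 ≤ m ∨ 3 ≤ Nat.card F) : fr.EG ≤ ⁅fr.EG, fr.EG⁆ :=
  h.elim (fun h => fr.perfect_three (PM.three h)) fun h => fr.perfect_tor (fr.sp_hT h) (PM.two hm)

end Cfsg.Agent.Cls
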