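import Cfsg.Agent.Lib.Cls.MOrth

/-!
The spin group as a perfect central extension of the elementary orthogonal group.
-/

set_option autoImplicit false

namespace Cfsg.Agent.Cls

open Forms Forms.Form Subgroup Module
open scoped commutatorElement

universe u

variable {F V : Type u} [Field F] [AddCommGroup V] [Module F V] {I : Type*} [InvolutiveNeg I]

/-- the quadratic form of an orthogonal space -/
def qf (f : Form (Param.orth F) V) : QuadraticForm F V where
  toFun := f.Q
  toFun_smul := f.orth_Q_smul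
  exists_companion' := ⟨f.B, f.orth_Q_add⟩

theorem finite_clifford [Finite F] [FiniteDimensional F V] (Q : QuadraticForm F V)
    (h2 : (2 : F) ≠ 0) : Finite (CliffordAlgebra Q) := by
  have := invertibleOfNonzero h2
  have := Module.Finite.of_basis (Module.finBasis F V).ExteriorAlgebra
  have := Module.finite_of_finite F (M := ExteriorAlgebra F V)
  exact Finite.of_equiv _ (CliffordAlgebra.equivExterior Q).symm.toEquiv

section alg

variable {f : Form (Param.orth F) V} {A : Type u} [Ring A] [Algebra F A] {γ : V →ₗ[F] A}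
  (hγ : ∀ v, γ v * γ v = algebraMap F A (f.Q v))
include hγ

theorem gam_swap (v w : V) : γ v * γ w = f.B v w • (1 : A) - γ w * γ v := by
  have := hγ (v + w)
  rw [map_add, add_mul, mul_add, mul_add, hγ, hγ, orth_Q_add, map_add, map_add,
    Algebra.algebraMap_eq_smul_one (f.B v w)] at this
  linear_combination (norm := abel1) this

theorem gam_sq (v : V) : γ v * γ v = f.Q v • (1 : A) := by
  rw [hγ, Algebra.algebraMap_eq_smul_one]

variable (f γ) in
omit hγ in
/-- isometries together with a unit inducing them -/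
def Lip : Subgroup (f.Isom × Aˣ) where
  carrier := {x | ∀ w, (x.2 : A) * γ w = γ (x.1.1 w) * x.2}
  one_mem' := fun w => by simp
  mul_mem' := fun {a b} ha hb w => by
    simp only [Prod.snd_mul, Units.val_mul, Prod.fst_mul, Isom.mul_apply]
    rw [mul_assoc, hb, ← mul_assoc, ha, mul_assoc]
  inv_mem' := fun {a} ha w => by
    simp only [Prod.snd_inv, Prod.fst_inv]
    rw [Units.inv_mul_eq_iff_eq_mul, ← mul_assoc, ha, Isom.apply_inv, Units.mul_inv_cancel_right]

theorem exists_lip_isE {g : f.Isom} {u v : V} {l : F} (hu : f.Q u = 0) (h : IsE g u v l) :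
    ∃ s, (g, s) ∈ Lip f γ := by
  have a1 : γ u * γ u = 0 := by rw [gam_sq hγ, hu, zero_smul]
  have a2 : γ u * γ v = -(γ v * γ u) := by
    rw [gam_swap hγ, f.B_eq_zero_symm h.orth, zero_smul, zero_sub]
  have a3 : γ u * (γ v * γ u) = 0 := by rw [← mul_assoc, a2, neg_mul, mul_assoc, a1]; simp
  have a4 : γ v * γ u * (γ v * γ u) = 0 := by rw [mul_assoc, a3, mul_zero]
  refine ⟨⟨1 + γ v * γ u, 1 - γ v * γ u, by noncomm_ring [a4], by noncomm_ring [a4]⟩, fun w => ?_⟩
  have a5 : γ v * (γ v * γ u) = l • γ u := by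
    rw [← mul_assoc, gam_sq hγ, f.orth_isLam_iff.1 h.lam, smul_mul_assoc, one_mul]
  have a6 : γ v * γ u * γ w = f.B w u • γ v - f.B w v • γ u + γ w * (γ v * γ u) := by
    rw [mul_assoc, gam_swap hγ u w, mul_sub, ← mul_assoc, gam_swap hγ v w, f.orth_symm w u,
      f.orth_symm w v]
    simp only [mul_smul_comm, mul_one, sub_mul, smul_mul_assoc, one_mul, mul_assoc]
    abel
  simp only [h.app, map_sub, map_add, map_smul, add_mul, mul_add, sub_mul, smul_mul_assoc, a3, a5,
    a6, one_mul, mul_one, Param.orth_ε]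
  module

theorem exists_lip_refl {a b : V} (ha : f.Q a ≠ 0) (hb : f.Q b ≠ 0) :
    ∃ s : Aˣ, (s : A) = γ a * γ b ∧ (f.refl a ha * f.refl b hb, s) ∈ Lip f γ := by
  have key : ∀ a (ha : f.Q a ≠ 0) w, γ a * γ w = -(γ ((f.refl a ha).1 w) * γ a) := fun a ha w => by
    rw [refl_apply, map_sub, map_smul, sub_mul, smul_mul_assoc, gam_sq hγ, smul_smul,
      gam_swap hγ a w, f.orth_symm w a, mul_right_comm, inv_mul_cancel₀ ha, one_mul, neg_sub]
  have hu : ∀ a, f.Q a ≠ 0 → ∃ s : Aˣ, (s : A) = γ a := fun a ha =>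
    ⟨⟨γ a, (f.Q a)⁻¹ • γ a, by rw [mul_smul_comm, gam_sq hγ, inv_smul_smul₀ ha],
      by rw [smul_mul_assoc, gam_sq hγ, inv_smul_smul₀ ha]⟩, rfl⟩
  obtain ⟨s, hs⟩ := hu a ha
  obtain ⟨t, ht⟩ := hu b hb
  refine ⟨s * t, by rw [Units.val_mul, hs, ht], fun w => ?_⟩
  simp only [Units.val_mul, hs, ht, Isom.mul_apply]
  rw [mul_assoc, key b hb, mul_neg, ← mul_assoc, key a ha, neg_mul, neg_neg, mul_assoc]

end alg

theorem Frame.exists_spin [Finite F] [FiniteDimensional F V] {f : Form (Param.orth F) V}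
    (fr : Frame f I) (h2 : (2 : F) ≠ 0) (hP : fr.EG ≤ ⁅fr.EG, fr.EG⁆) {a b c : V}
    (ha : f.Q a ≠ 0) (hb : f.Q b ≠ 0) (hc : f.Q c ≠ 0) (hab : f.B a b = 0) (hac : f.B a c = 0)
    (hbc : f.B b c = 0) (h1 : f.refl a ha * f.refl b hb ∈ fr.EG)
    (h3 : f.refl b hb * f.refl c hc ∈ fr.EG) :
    ∃ (E : Type u) (_ : Group E) (_ : Finite E) (j : E →* f.Isom), commutator E = ⊤ ∧ Cen j ∧
      j.range = fr.EG ∧ ∃ z, z ≠ 1 ∧ j z = 1 := by
  have := finite_clifford (qf f) h2
  have := Module.finite_of_finite F (M := V)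
  have : Finite f.Isom := Finite.of_injective (fun g : f.Isom => (g.1 : V → V))
    fun _ _ e => Isom.ext (congrFun e)
  have := invertibleOfNonzero h2
  set γ := CliffordAlgebra.ι (qf f)
  have hγ : ∀ v, γ v * γ v = algebraMap F _ (f.Q v) := CliffordAlgebra.ι_sq_scalar (qf f)
  let E := Lip f γ ⊓ fr.EG.comap (MonoidHom.fst _ _)
  let j : E →* f.Isom := (MonoidHom.fst _ _).comp E.subtype
  have j1 : Cen j := fun z hz x => by
    have e : z.1.1 = 1 := hz
    have : ∀ y, Commute y (z.1.2 : CliffordAlgebra (qf f)) := fun y => by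
      induction y using CliffordAlgebra.induction with
      | algebraMap r => exact Algebra.commutes _ _
      | ι w => have := z.2.1 w; rw [e] at this; exact this.symm
      | mul a b ha hb => exact ha.mul_left hb
      | add a b ha hb => exact ha.add_left hb
    exact Subtype.ext (Prod.ext (by simp [e]) (Units.ext (this _)))
  have j2 : j.range = fr.EG := le_antisymm (by rintro _ ⟨x, rfl⟩; exact x.2.2)
    (iSup_le fun i g ⟨v, l, hg⟩ => let ⟨s, hs⟩ := exists_lip_isE hγ (fr.Qe i) hg
      ⟨⟨(g, s), hs, fr.mem_EG_of_isE (fr.Qe i) hg⟩, rfl⟩)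
  have j3 : (commutator E).map j = fr.EG := by
    rw [_root_.commutator_def, map_commutator, ← MonoidHom.range_eq_map, j2]
    exact le_antisymm (commutator_le_left _ _) hP
  have j4 : commutator E ≤ ⁅commutator E, commutator E⁆ :=
    SL2.commutator_le_of_center_sup fun x => by
      obtain ⟨y, hy, e⟩ : j x ∈ (commutator E).map j := j3 ▸ j2 ▸ ⟨x, rfl⟩
      obtain ⟨z, hz, rfl⟩ := Cen.exists_eq e.symm
      exact ⟨y, hy, z, mem_center_iff.2 fun x => (j1 z hz x).eq, rfl⟩
  refine ⟨commutator E, inferInstance, inferInstance, j.comp (Subgroup.subtype _),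
    commutator_eq_top_of_injective (subtype_injective _) (by rwa [range_subtype]),
    fun z hz x => Subtype.ext (j1 z hz x), by rw [MonoidHom.range_comp, range_subtype, j3], ?_⟩
  obtain ⟨s, s1, s2⟩ := exists_lip_refl hγ ha hb
  obtain ⟨t, t1, t2⟩ := exists_lip_refl hγ hb hc
  have sw : ∀ {x y}, f.B x y = 0 → γ x * γ y = -(γ y * γ x) := fun h => by
    rw [gam_swap hγ, h, zero_smul, zero_sub]
  have cm : ∀ {x y} (hx : f.Q x ≠ 0) (hy : f.Q y ≠ 0), f.B x y = 0 →
      Commute (f.refl x hx) (f.refl y hy) := fun {x y} hx hy h => by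
    rw [Commute, SemiconjBy, ← mul_inv_eq_iff_eq_mul, refl_conj]
    exact f.refl_congr _ (f.refl_apply_of_orth x hx (f.B_eq_zero_symm h))
  refine ⟨⟨⁅(⟨_, s2, h1⟩ : E), ⟨_, t2, h3⟩⁆, commutator_mem_commutator (mem_top _) (mem_top _)⟩,
    fun e => ?_, ?_⟩
  · have e1 : s * t = t * s := congrArg (fun x : E => x.1.2)
      (commutatorElement_eq_one_iff_mul_comm.1 (congrArg Subtype.val e))
    have e2 : (s * t : (CliffordAlgebra (qf f))ˣ).1 = -(t * s : (CliffordAlgebra (qf f))ˣ).1 := by
      simp only [Units.val_mul, s1, t1]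
      rw [show γ b * γ c * (γ a * γ b) = γ b * (γ c * γ a) * γ b by noncomm_ring,
        sw (f.B_eq_zero_symm hac),
        show γ b * -(γ a * γ c) * γ b = -(γ b * γ a) * (γ c * γ b) by noncomm_ring, ← sw hab,
        sw (f.B_eq_zero_symm hbc), mul_neg, neg_neg]
    rw [e1, eq_neg_iff_add_eq_zero, ← two_smul F, smul_eq_zero] at e2
    exact e2.elim h2 (Units.ne_zero _)
  · refine (map_commutatorElement j _ _).trans (commutatorElement_eq_one_iff_commute.2 ?_)
    exact ((cm ha hb hab).mul_right (cm ha hc hac)).mul_left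
      ((Commute.refl _).mul_right (cm hb hc hbc))

end Cfsg.Agent.Cls
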