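import Cfsg.Agent.Lib.Cls.MCen

/-!
`p`-subgroups of classical groups in characteristic `p`, and the reduction of the `p`-part of
the Schur multiplier to the stabiliser of a singular vector.
-/

set_option autoImplicit false

namespace Cfsg.Agent.Cls

open Forms Forms.Form Subgroup
open scoped commutatorElement

variable {F : Type*} [Field F] {P : Param F} {V : Type*} [AddCommGroup V] [Module F V]
  {f : Form P V} {I : Type*} [InvolutiveNeg I] {J : Type*} [Group J]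

/-- all elements are `p`-elements -/
def PEl {G : Type*} [Group G] (p : ℕ) (A : Subgroup G) : Prop := ∀ g ∈ A, IsPElt p g

theorem PEl.isPGroup {G : Type*} [Group G] {p : ℕ} {A : Subgroup G} (h : PEl p A) : IsPGroup p A :=
  fun g => let ⟨k, e⟩ := h g g.2; ⟨k, Subtype.ext e⟩

theorem PEl.of_isPGroup {G : Type*} [Group G] {p : ℕ} {A : Subgroup G} (h : IsPGroup p A) :
    PEl p A := fun _ hg => IsPElt.of_mem h hg

namespace Frame

variable (fr : Frame f I)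

/-- isometries fixing the frame vectors outside `S` -/
def Fx (S : Set I) : Subgroup f.Isom where
  carrier := {g | ∀ k ∉ S, g.1 (fr.e k) = fr.e k}
  one_mem' := fun _ _ => rfl
  mul_mem' := fun {a b} ha hb k hk => by rw [Isom.mul_apply, hb k hk, ha k hk]
  inv_mem' := fun {a} ha k hk => inv_apply_of_apply (ha k hk)

theorem mem_Fx {S : Set I} {g : f.Isom} : g ∈ fr.Fx S ↔ ∀ k ∉ S, g.1 (fr.e k) = fr.e k := Iff.rfl

theorem Fx_mono {S T : Set I} (h : S ⊆ T) : fr.Fx S ≤ fr.Fx T :=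
  fun _ hg k hk => hg k fun e => hk (h e)

/-- the group generated by the Eichler transformations supported on `S` -/
def ES (S : Set I) : Subgroup f.Isom := ⨆ k ∈ S, fr.U k ⊓ fr.Fx S

theorem le_ES {S : Set I} {k : I} (h : k ∈ S) : fr.U k ⊓ fr.Fx S ≤ fr.ES S :=
  le_iSup₂_of_le k h le_rfl

theorem ES_le_Fx (S : Set I) : fr.ES S ≤ fr.Fx S := iSup₂_le fun _ _ => inf_le_right

theorem ES_le_EG (S : Set I) : fr.ES S ≤ fr.EG :=
  iSup₂_le fun k _ => inf_le_left.trans (fr.U_le_EG k)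

theorem ES_mono {S T : Set I} (h : S ⊆ T) : fr.ES S ≤ fr.ES T :=
  iSup₂_le fun _ hk => (inf_le_inf_left _ (fr.Fx_mono h)).trans (fr.le_ES (h hk))

theorem rm_subset (S : Set I) (k : I) : rm S k ⊆ S := fun _ h => h.1

/-- singular vectors supported on `S` -/
def XS (S : Set I) (A : Subgroup f.Isom) (h : A ≤ fr.Fx S) : SubMulAction A V where
  carrier := {v | f.Q v = 0 ∧ ∀ k ∉ S, f.B v (fr.e k) = 0}
  smul_mem' g v hv := ⟨(Isom.map_Q g.1 v).trans hv.1, fun k hk => by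
    rw [← h g.2 k hk]; exact (Isom.map_B g.1 v _).trans (hv.2 k hk)⟩

variable {p n : ℕ}

theorem pEl_U [Finite F] (hF : Nat.card F = p ^ n) (i : I) : PEl p (fr.U i) :=
  fun _ ⟨_, _, h⟩ => ⟨n * 2, by rw [pow_mul, ← hF]; exact h.pow_card (fr.Qe i)⟩

/-- `S` supports a non-trivial Eichler group -/
def Big (S : Set I) : Prop := ∃ i ∈ S, fr.HasC ∨ ∃ j ∈ S, j ≠ i ∧ j ≠ -i

theorem exists_fixed [Fact p.Prime] [Finite F] [Finite V] (hF : Nat.card F = p ^ n) {S : Set I}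
    (hS : ∀ i ∈ S, -i ∈ S) (hB : fr.Big S) {A : Subgroup f.Isom} (hA : A ≤ fr.Fx S)
    (hp : PEl p A) : ∃ k ∈ S, ∃ t ∈ fr.ES S, ∀ g ∈ A, (t * g * t⁻¹).1 (fr.e k) = fr.e k := by
  obtain ⟨i, hi, hB⟩ := hB
  have hx : ∃ x ∈ fr.U i ⊓ fr.Fx S, x ≠ 1 := by
    rcases hB with hB | ⟨j, hj, h1, h2⟩
    · obtain ⟨x, hx, h0⟩ := fr.exists_RX_ne_one (i := i) (j := i) (Or.inr hB) (fr.ne i).symm
      rw [fr.RX_self] at hx
      exact ⟨x, ⟨fr.RC_le_U i hx, PSt.RC_mem_FixV (φ := MonoidHom.id _) hS hi hx⟩, h0⟩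
    · obtain ⟨x, hx, h0⟩ := fr.exists_RX_ne_one (Or.inl h1) h2
      rw [fr.RX_of_ne h1] at hx
      exact ⟨x, ⟨fr.RA_subset_U hx, PSt.RA_mem_FixV (φ := MonoidHom.id _) hS hi hj hx⟩, h0⟩
  have hQ : PEl p (fr.U i ⊓ fr.Fx S) := fun g hg => fr.pEl_U hF i g hg.1
  have h1 := hQ.isPGroup.card_modEq_card_fixedPoints (fr.XS S _ (inf_le_right (a := fr.U i)))
  have hc : ∀ c : F, c • fr.e i ∈ fr.XS S _ (inf_le_right (a := fr.U i)) := fun c =>
    ⟨by rw [f.Q_smul, fr.Qe, mul_zero], fun k hk => by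
      rw [B_smul_left, fr.B_eq i k (fun e => hk (e ▸ hS i hi)), mul_zero]⟩
  have h2 : Nat.card (MulAction.fixedPoints ↥(fr.U i ⊓ fr.Fx S) (fr.XS S _ (inf_le_right (a := fr.U i)))) =
      Nat.card F := by
    refine (Nat.card_eq_of_bijective (fun c : F => ⟨⟨_, hc c⟩, fun g => Subtype.ext
      ((map_smul g.1.1 c _).trans (congrArg _ (apply_self_of_mem_Eu g.2.1)))⟩)
      ⟨fun c d e => ?_, fun ⟨⟨z, hz⟩, h⟩ => ?_⟩).symm
    · exact smul_left_injective F (fr.e_ne_zero i) (congrArg Subtype.val (congrArg Subtype.val e))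
    have h3 : ∀ g ∈ fr.U i ⊓ fr.Fx S, g.1 z = z := fun g hg => congrArg Subtype.val (h ⟨g, hg⟩)
    have h4 : f.B z (fr.e i) = 0 := by
      by_contra h0
      obtain ⟨x, hx, x0⟩ := hx
      exact x0 (eq_one_of_mem_Eu (c := 1) (fun e => h0 (f.B_eq_zero_symm e)) hz.1 hx.1
        (by rw [h3 x hx, one_smul]))
    obtain ⟨c, e⟩ := fr.eq_smul_of_B_eq (i := i) hz.1 fun k hk => by
      by_cases h5 : -k ∈ S
      · by_cases h6 : k = -i
        · rw [h6, neg_neg, h4]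
        obtain ⟨x, hx⟩ := fr.exists_RA (neg_ne_neg_of hk) 1
        have h7 := h3 x ⟨⟨_, _, hx⟩, PSt.RA_mem_FixV (φ := MonoidHom.id _) hS hi h5 ⟨_, hx⟩⟩
        rw [hx.app, h4, one_smul, zero_smul, add_zero, mul_zero, zero_smul, sub_zero,
          sub_eq_self] at h7
        exact (mul_eq_zero.1 ((smul_eq_zero.1 h7).resolve_right (fr.e_ne_zero i))).resolve_left
          P.ε_ne_zero
      · exact hz.2 _ h5
    exact ⟨c, Subtype.ext (Subtype.ext e.symm)⟩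
  have hn : n ≠ 0 := by
    rintro rfl
    have := Finite.one_lt_card (α := F)
    simp [hF] at this
  have h3 : p ∣ Nat.card (fr.XS S A hA) := by
    rw [h2, hF] at h1
    exact (Nat.modEq_zero_iff_dvd.1 (h1.trans (Nat.modEq_zero_iff_dvd.2 (dvd_pow_self p hn))) :)
  obtain ⟨⟨z, hz⟩, h4, h5⟩ := hp.isPGroup.exists_fixed_point_of_prime_dvd_card_of_fixed_point
    (fr.XS S A hA) h3 (a := ⟨0, f.Q_zero, fun k _ => f.B_zero_left _⟩)
    (fun g => Subtype.ext (map_zero g.1.1))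
  obtain ⟨k, hk⟩ := fr.exists_B_ne (z := z) (fun e => h5 (Subtype.ext e.symm)) hz.1
  have h6 : -k ∈ S := by by_contra h; exact hk (hz.2 _ h)
  have h7 : k ∈ S := by simpa using hS _ h6
  obtain ⟨g, v, l, c, a1, a2, a3⟩ := exists_move (fr.Qe (-k)) (fr.Qe k) hz.1 (fr.B_ne k) hk
  refine ⟨k, h7, g⁻¹, inv_mem (fr.le_ES h6 ⟨⟨_, _, a1⟩, fun m hm => a3 _ ?_ ?_ ?_⟩), fun a ha => ?_⟩
  · exact fr.B_eq' fun e => hm (e ▸ h6)
  · exact f.B_eq_zero_symm (hz.2 m hm)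
  · exact fr.B_neg fun e => hm (e ▸ h7)
  have h8 : a.1 z = z := congrArg Subtype.val (h4 ⟨a, ha⟩)
  rw [inv_inv, Isom.mul_apply, Isom.mul_apply, a2, map_smul, h8, ← a2, Isom.inv_apply]

theorem exists_levi_part {S : Set I} (hS : ∀ i ∈ S, -i ∈ S) {k : I} (hk : k ∈ S) {g : f.Isom}
    (hg : g ∈ fr.Fx S) (h : g.1 (fr.e k) = fr.e k) :
    ∃ u ∈ fr.U k ⊓ fr.Fx S, u⁻¹ * g ∈ fr.Fx (rm S k) := by
  have h1 : f.B (g.1 (fr.e (-k))) (fr.e k) = f.B (fr.e (-k)) (fr.e k) := by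
    conv_lhs => rw [← h, Isom.map_B]
  obtain ⟨u, v, l, c, a1, a2, a3⟩ := exists_move (fr.Qe k) (fr.Qe (-k))
    ((Isom.map_Q g _).trans (fr.Qe (-k))) (fr.B_ne' k) (h1 ▸ fr.B_ne' k)
  have h2 : c = 1 := by
    have := a1.B_apply (fr.Qe k) (fr.e (-k))
    rw [a2, B_smul_left, h1] at this
    exact mul_left_eq_self₀.1 this |>.resolve_right (fr.B_ne' k)
  have h3 : u ∈ fr.Fx S := fun m hm => a3 _ (fr.B_neg fun e => hm (e ▸ hk))
    (by rw [← hg m hm, Isom.map_B]; exact fr.B_neg fun e => hm (e ▸ hk))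
    (fr.B_eq' fun e => hm (e ▸ hS k hk))
  refine ⟨u, ⟨⟨_, _, a1⟩, h3⟩, fun m hm => ?_⟩
  by_cases h4 : m = k
  · rw [h4, Isom.mul_apply, h, inv_apply_of_apply (a1.apply_self (fr.Qe k))]
  by_cases h5 : m = -k
  · rw [h5, Isom.mul_apply, ← one_smul F (g.1 _), ← h2, ← a2, Isom.inv_apply]
  exact (mul_mem (inv_mem h3) hg) m fun e => hm ⟨e, h4, h5⟩

theorem not_mem_rm (S : Set I) (k : I) : k ∉ rm S k := fun h => h.2.1 rfl

theorem neg_not_mem_rm (S : Set I) (k : I) : -k ∉ rm S k := fun h => h.2.2 rfl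

theorem conj_U_of_rm {S : Set I} {k : I} {g u : f.Isom} (hg : g ∈ fr.Fx (rm S k))
    (hu : u ∈ fr.U k) : g * u * g⁻¹ ∈ fr.U k := fr.conj_mem_U (hg k (not_mem_rm S k)) hu

theorem U_eq_one_of_rm {S : Set I} {k : I} {g : f.Isom} (hu : g ∈ fr.U k)
    (hg : g ∈ fr.Fx (rm S k)) : g = 1 :=
  fr.U_eq_one (c := 1) hu (by rw [hg _ (neg_not_mem_rm S k), one_smul])

/-- projection to the Levi factor -/
def prj (S : Set I) (k : I) (A : Subgroup f.Isom) : Subgroup f.Isom where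
  carrier := {l | l ∈ fr.Fx (rm S k) ∧ ∃ u ∈ fr.U k, u * l ∈ A}
  one_mem' := ⟨one_mem _, 1, one_mem _, by simp⟩
  mul_mem' := fun {a b} ⟨ha, u, hu, h⟩ ⟨hb, u', hu', h'⟩ => ⟨mul_mem ha hb, _,
    mul_mem hu (fr.conj_U_of_rm ha hu'), by simpa [mul_assoc] using mul_mem h h'⟩
  inv_mem' := fun {a} ⟨ha, u, hu, h⟩ => ⟨inv_mem ha, _,
    fr.conj_U_of_rm (inv_mem ha) (inv_mem hu), by simpa [mul_assoc] using inv_mem h⟩

theorem pEl_prj {S : Set I} {k : I} {A : Subgroup f.Isom} (hp : PEl p A) :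
    PEl p (fr.prj S k A) := by
  rintro l ⟨hl, u, hu, h⟩
  obtain ⟨m, e⟩ := hp _ h
  have : ∀ n : ℕ, ∃ u' ∈ fr.U k, (u * l) ^ n = u' * l ^ n := fun n => by
    induction n with
    | zero => exact ⟨1, one_mem _, by simp⟩
    | succ n ih =>
      obtain ⟨u', h1, h2⟩ := ih
      exact ⟨_, mul_mem hu (fr.conj_U_of_rm hl h1), by rw [pow_succ', h2, pow_succ']; group⟩
  obtain ⟨u', h1, h2⟩ := this (p ^ m)
  refine ⟨m, fr.U_eq_one_of_rm ?_ (pow_mem hl _)⟩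
  rw [e] at h2
  rw [eq_inv_of_mul_eq_one_right h2.symm]
  exact inv_mem h1

theorem prj_le_Fx (S : Set I) (k : I) (A : Subgroup f.Isom) : fr.prj S k A ≤ fr.Fx (rm S k) :=
  fun _ h => h.1

theorem prj_le_EG {S : Set I} {k : I} {A : Subgroup f.Isom} (h : A ≤ fr.EG) :
    fr.prj S k A ≤ fr.EG := fun _ ⟨_, _, hu, h'⟩ => by
  simpa using mul_mem (inv_mem (fr.U_le_EG k hu)) (h h')

theorem exists_prj {S : Set I} (hS : ∀ i ∈ S, -i ∈ S) {k : I} (hk : k ∈ S) {A : Subgroup f.Isom}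
    (hA : A ≤ fr.Fx S) (h : ∀ g ∈ A, g.1 (fr.e k) = fr.e k) {g : f.Isom} (hg : g ∈ A) :
    ∃ u ∈ fr.U k ⊓ fr.Fx S, ∃ l ∈ fr.prj S k A, g = u * l := by
  obtain ⟨u, hu, h1⟩ := fr.exists_levi_part hS hk (hA hg) (h g hg)
  exact ⟨u, hu, _, ⟨h1, u, hu.1, by simpa using hg⟩, by simp⟩

/-- no `p`-elements in the terminal Levi factors -/
def Term (p : ℕ) : Prop := ∀ S : Set I, (∀ i ∈ S, -i ∈ S) → ¬ fr.Big S →
  ∀ g ∈ fr.EG, IsPElt p g → g ∈ fr.Fx S → g = 1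

theorem rm_ind [Finite I] {q : Set I → Prop}
    (h : ∀ S, (∀ i ∈ S, -i ∈ S) → (∀ k ∈ S, q (rm S k)) → q S) :
    ∀ S, (∀ i ∈ S, -i ∈ S) → q S := by
  intro S
  induction hn : S.ncard using Nat.strong_induction_on generalizing S with
  | _ n ih =>
    exact fun hS => h S hS fun k hk => ih _ (hn ▸ Set.ncard_lt_ncard
      ⟨rm_subset S k, fun e => not_mem_rm S k (e hk)⟩ S.toFinite) _ rfl (rm_closed hS k)

/-- conjugate subgroup -/
abbrev cj (t : f.Isom) (A : Subgroup f.Isom) : Subgroup f.Isom := A.map (MulAut.conj t).toMonoidHom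

theorem cj_le {t : f.Isom} {A N : Subgroup f.Isom} (h : A ≤ N) (ht : t ∈ N) : cj t A ≤ N := by
  rintro _ ⟨g, hg, rfl⟩
  exact mul_mem (mul_mem ht (h hg)) (inv_mem ht)

theorem pEl_cj {t : f.Isom} {A : Subgroup f.Isom} (h : PEl p A) : PEl p (cj t A) := by
  rintro _ ⟨g, hg, rfl⟩
  exact (h g hg).conj t

variable [Fact p.Prime] [Finite F] [Finite V] [Finite I] (hF : Nat.card F = p ^ n)
  (hT : fr.Term p)
include hF hT

theorem le_ES_of_pEl : ∀ S : Set I, (∀ i ∈ S, -i ∈ S) → ∀ A : Subgroup f.Isom, A ≤ fr.Fx S →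
    A ≤ fr.EG → PEl p A → A ≤ fr.ES S := by
  refine rm_ind fun S hS ih A h1 h2 hp g hg => ?_
  by_cases hB : fr.Big S
  swap
  · rw [hT S hS hB g (h2 hg) (hp g hg) (h1 hg)]; exact one_mem _
  obtain ⟨k, hk, t, ht, h⟩ := fr.exists_fixed hF hS hB h1 hp
  obtain ⟨u, hu, l, hl, e⟩ := fr.exists_prj hS hk (cj_le h1 (fr.ES_le_Fx S ht))
    (by rintro _ ⟨g, hg, rfl⟩; exact h g hg) (mem_map_of_mem _ hg)
  have h3 := fr.ES_mono (rm_subset S k) (ih k hk _ (fr.prj_le_Fx _ _ _)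
    (fr.prj_le_EG (cj_le h2 (fr.ES_le_EG S ht))) (fr.pEl_prj (pEl_cj hp)) hl)
  have h4 := mul_mem (mul_mem (inv_mem ht) (mul_mem (fr.le_ES hk hu) h3)) ht
  rw [← e] at h4
  simpa [mul_assoc] using h4

/-- the group acting in the two-step reduction -/
def A2 (i j : I) : Subgroup f.Isom :=
  fr.U i ⊔ (fr.U j ⊓ fr.Fx (rm Set.univ i) ⊔ fr.ES (rm (rm Set.univ i) j))

theorem nk_of_pEl {φ : J →* f.Isom} (hc : Cen φ) (hr : fr.EG ≤ φ.range)
    (H1 : ∀ i, NK φ (fr.U i) (fr.U i))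
    (H2 : ∀ i j, j ≠ i → j ≠ -i → NK φ (fr.U i) (fr.A2 i j)) :
    ∀ S : Set I, (∀ i ∈ S, -i ∈ S) → ∀ A : Subgroup f.Isom, A ≤ fr.Fx S → A ≤ fr.EG → PEl p A →
      NK φ A A := by
  refine rm_ind fun S hS ih A h1 h2 hp => ?_
  by_cases hB : fr.Big S
  swap
  · exact (hc.nk_bot A).mono (fun g hg => hT S hS hB g (h2 hg) (hp g hg) (h1 hg)) le_rfl
  obtain ⟨i, hi, t, ht, h⟩ := fr.exists_fixed hF hS hB h1 hp
  refine Cen.nk_conj (hr (fr.ES_le_EG S ht)) (A' := cj t A) (fun g hg => mem_map_of_mem _ hg) ?_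
  replace h1 := cj_le h1 (fr.ES_le_Fx S ht)
  replace h2 := cj_le h2 (fr.ES_le_EG S ht)
  replace hp := pEl_cj (t := t) hp
  replace h : ∀ g ∈ cj t A, g.1 (fr.e i) = fr.e i := by rintro _ ⟨g, hg, rfl⟩; exact h g hg
  generalize cj t A = A at *
  have hS' := rm_closed hS i
  have p1 : fr.prj S i A ≤ fr.Fx (rm S i) := fun _ h => h.1
  by_cases hB' : fr.Big (rm S i)
  swap
  · have : A ≤ fr.U i := fun g hg => by
      obtain ⟨u, hu, l, hl, rfl⟩ := fr.exists_prj hS hi h1 h hg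
      rw [hT _ hS' hB' l (fr.prj_le_EG h2 hl) (fr.pEl_prj hp l hl) hl.1, mul_one]
      exact hu.1
    exact (H1 i).mono this this
  obtain ⟨j, hj, s, hs, h'⟩ := fr.exists_fixed hF hS' hB' p1 (fr.pEl_prj hp)
  have s1 := fr.ES_le_Fx _ hs
  have s2 := fr.ES_le_EG _ hs
  set K := cj s (fr.prj S i A)
  have k1 : K ≤ fr.Fx (rm S i) := cj_le p1 s1
  have k2 : K ≤ fr.EG := cj_le (fr.prj_le_EG h2) s2
  have k3 : PEl p K := pEl_cj (fr.pEl_prj hp)
  have r1 : rm S i ⊆ rm Set.univ i := fun _ h => ⟨trivial, h.2⟩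
  have a1 : fr.A2 i j ≤ MulAction.stabilizer f.Isom (fr.e i) := by
    have : fr.Fx (rm Set.univ i) ≤ MulAction.stabilizer f.Isom (fr.e i) := fun g hg =>
      hg i (not_mem_rm _ i)
    exact sup_le (fun g hg => apply_self_of_mem_Eu hg) (sup_le (inf_le_right.trans this)
      ((fr.ES_le_Fx _).trans ((fr.Fx_mono (rm_subset _ j)).trans this)))
  refine Cen.nk_conj (hr s2) (A' := cj s A) (fun g hg => mem_map_of_mem _ hg) ?_
  refine Cen.nk_of_prod (K := K) ((fr.U_le_EG i).trans hr) le_sup_left (fun g hg => ?_)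
    (fun a ha q hq => fr.conj_mem_U (a1 ha) hq) (fun q hq hk => fr.U_eq_one_of_rm hq (k1 hk)) ?_
    (H2 i j hj.2.1 hj.2.2) (ih i hi K k1 k2 k3)
  · obtain ⟨u, hu, l, hl, rfl⟩ := fr.exists_prj hS' hj k1
      (by rintro _ ⟨g, hg, rfl⟩; exact h' g hg) hg
    refine mem_sup_right (mul_mem (mem_sup_left ⟨hu.1, fr.Fx_mono r1 hu.2⟩) (mem_sup_right ?_))
    exact fr.ES_mono (S := rm (rm S i) j) (T := rm (rm Set.univ i) j) (fun _ h => ⟨r1 h.1, h.2⟩)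
      (fr.le_ES_of_pEl hF hT _ (rm_closed hS' j) _
      (fr.prj_le_Fx _ _ _) (fr.prj_le_EG k2) (fr.pEl_prj k3) hl)
  · rintro _ ⟨g, hg, rfl⟩
    obtain ⟨u, hu, l, hl, rfl⟩ := fr.exists_prj hS hi h1 h hg
    exact ⟨_, fr.conj_U_of_rm s1 hu.1, _, mem_map_of_mem _ hl, by simp⟩

end Frame

end Cfsg.Agent.Cls
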