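import Cfsg.Agent.Lib.Cls.MUnit

/-!
Kernels of central extensions of unitary groups.
-/

set_option autoImplicit false

namespace Cfsg.Agent.Cls

open Forms Forms.Form Subgroup CExt Module

section general

variable {F : Type*} [Field F] {P : Param F} {V : Type*} [AddCommGroup V] [Module F V]
  {f : Form P V} {I : Type*} [InvolutiveNeg I] {J : Type*} [Group J]
  {fr : Frame f I} {φ : J →* f.Isom} {U : I → Subgroup J}

/-- the Weyl element attached to the parameters `u`, `l` -/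
def Wd (fr : Frame f I) (φ : J →* f.Isom) (U : I → Subgroup J) (i : I) (u : V) (l : F) (r : J) :
    Prop := φ r ∈ fr.Mon ∧ u ∈ fr.V0 ∧ l ≠ 0 ∧ ∃ x ∈ U i, ∃ y ∈ XR fr φ U (-i) (-i),
      ∃ y' ∈ XR fr φ U (-i) (-i), r = y * x * y' ∧ IsE (φ x) (fr.e i) u l

namespace Wd

variable {i : I} {u : V} {l : F} {r : J}

theorem mem (w : Wd fr φ U i u l r) : r ∈ WR fr φ U i i := by
  obtain ⟨a1, a2, a3, x, hx, y, hy, y', hy', rfl, a4⟩ := w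
  refine ⟨a1, x, mem_XR_self.2 ⟨hx, u, a2, l, a4⟩, fun e => a3 ?_, y, hy, y', hy', rfl⟩
  rw [e, map_one] at a4
  exact (a4.vec_eq (isE_one _) (fr.B_ne' i) (fr.mem_V0.1 a2 _) (f.B_zero_left _)).2

theorem lam (w : Wd fr φ U i u l r) : f.IsLam u l :=
  let ⟨_, _, _, _, _, _, _, _, _, _, h⟩ := w; h.lam

theorem conj (w : Wd fr φ U i u l r) {m : J} (hm : m ∈ Mx fr φ U) {t : F}
    (h1 : (φ m).1 (fr.e i) = t • fr.e i) :
    Wd fr φ U i (P.σ t • (φ m).1 u) (t * P.σ t * l) (m * r * m⁻¹) := by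
  have t0 := fr.smul_ne_zero h1
  have h2 := Frame.Mv.neg' hm.1 ⟨t, h1⟩
  refine ⟨(Mx_conj_W hm ⟨t, h1⟩ ⟨t, h1⟩ w.mem).1, Submodule.smul_mem _ _
    (fr.mem_V0_of_mon hm.1 w.2.1), mul_ne_zero (mul_ne_zero t0 (P.σ_ne_zero t0)) w.2.2.1, ?_⟩
  obtain ⟨-, -, -, x, hx, y, hy, y', hy', rfl, a4⟩ := w
  exact ⟨_, Mx_conj hm ⟨t, h1⟩ hx, _, Mx_conj_X hm h2 h2 hy, _, Mx_conj_X hm h2 h2 hy', by group,
    CE.isE_conj a4 h1⟩

end Wd

namespace PSt1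

variable (h : PSt1 fr φ U) [Finite I] {i : I} {u : V} {l : F} {r : J}
include h

theorem exists_Wd_of (hr : r ∈ WR fr φ U i i) : ∃ u l, Wd fr φ U i u l r := by
  obtain ⟨a1, x, hx, x0, y, hy, y', hy', rfl⟩ := hr
  obtain ⟨u, hu, l, hl⟩ := (mem_XR_self.1 hx).2
  exact ⟨u, l, a1, hu, fr.l_ne_zero hu hl fun e => x0 (h.inj i x hx.1 e), x, hx.1, y, hy, y', hy',
    rfl, hl⟩

theorem exists_Wd (hu : u ∈ fr.V0) (hl : f.IsLam u l) (l0 : l ≠ 0) : ∃ r, Wd fr φ U i u l r := by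
  obtain ⟨g, hg⟩ := exists_isE (fr.Qe i) (fr.mem_V0.1 hu i) hl
  obtain ⟨x, hx, rfl⟩ := h.toPSt0.exists_C ⟨u, hu, l, hg⟩
  obtain ⟨y, hy, y', hy', hr⟩ := h.toPSt0.exists_W (fr.ne i).symm hx fun e => l0 (by
    rw [e, map_one] at hg
    exact (hg.vec_eq (isE_one _) (fr.B_ne' i) (fr.mem_V0.1 hu _) (f.B_zero_left _)).2)
  exact ⟨_, hr.1, hu, l0, x, hx.1, y, hy, y', hy', rfl, hg⟩

theorem Wd_eq {r' : J} (w : Wd fr φ U i u l r) (w' : Wd fr φ U i u l r') : r = r' := by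
  obtain ⟨a1, a2, a3, x, hx, y, hy, y', hy', rfl, a4⟩ := id w
  obtain ⟨b1, -, -, x', hx', z, hz, z', hz', rfl, b4⟩ := w'
  obtain rfl := h.toPSt0.eq hx hx' (a4.eq b4)
  obtain ⟨rfl, rfl⟩ := h.toPSt0.W_eq (fr.ne i).symm (mem_XR_self.2 ⟨hx, u, a2, l, a4⟩) (fun e => a3 (by
    rw [e, map_one] at a4
    exact (a4.vec_eq (isE_one _) (fr.B_ne' i) (fr.mem_V0.1 a2 _) (f.B_zero_left _)).2))
    hy hy' hz hz' a1 b1
  rfl

theorem Wd_spec (w : Wd fr φ U i u l r) : ∃ x ∈ U i, ∃ y ∈ U (-i), ∃ y' ∈ U (-i),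
    r = y * x * y' ∧ IsE (φ x) (fr.e i) u l ∧
      IsE (φ y) (fr.e (-i)) ((P.ε * (l * f.B (fr.e i) (fr.e (-i)))⁻¹) • u)
        (P.σ l * f.B (fr.e i) (fr.e (-i)) * P.σ (f.B (fr.e i) (fr.e (-i))))⁻¹ ∧
      IsE (φ y') (fr.e (-i)) ((P.σ l * f.B (fr.e i) (fr.e (-i)))⁻¹ • u)
        (P.σ l * f.B (fr.e i) (fr.e (-i)) * P.σ (f.B (fr.e i) (fr.e (-i))))⁻¹ := by
  obtain ⟨-, hv, l0, x, hx, -, -, -, -, -, hl⟩ := id w
  obtain ⟨a1, a2⟩ := fr.isLam_W2 (i := i) hl.lam l0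
  obtain ⟨z, hz⟩ := exists_isE (fr.Qe (-i)) (fr.mem_V0.1 (Submodule.smul_mem _ _ hv) _) a1
  obtain ⟨z', hz'⟩ := exists_isE (fr.Qe (-i)) (fr.mem_V0.1 (Submodule.smul_mem _ _ hv) _) a2
  obtain ⟨b1, b2, -⟩ := fr.W2_apply hv l0 hl hz hz'
  have c1 : z ∈ fr.RC (-i) := ⟨_, Submodule.smul_mem _ _ hv, _, hz⟩
  have c2 : z' ∈ fr.RC (-i) := ⟨_, Submodule.smul_mem _ _ hv, _, hz'⟩
  have c3 := fr.mon_of_W1 ⟨_, b2⟩ ⟨_, b1⟩ ⟨_, b2⟩ ⟨_, b1⟩ fun k k1 k2 _ _ =>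
    fr.W2_fix ⟨u, hv, l, hl⟩ c1 c2 k1 k2
  obtain ⟨y, hy, rfl⟩ := h.toPSt0.exists_C c1
  obtain ⟨y', hy', rfl⟩ := h.toPSt0.exists_C c2
  exact ⟨x, hx, y, hy.1, y', hy'.1,
    h.Wd_eq w ⟨by simpa using c3, hv, l0, x, hx, y, hy, y', hy', rfl, hl⟩, hl, hz, hz'⟩

theorem Wd_apply (w : Wd fr φ U i u l r) :
    (φ r).1 (fr.e (-i)) = (-(P.ε * l * f.B (fr.e (-i)) (fr.e i))) • fr.e i ∧
    (φ r).1 (fr.e i) = (-(P.σ l * f.B (fr.e (-i)) (fr.e i))⁻¹) • fr.e (-i) ∧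
    ∀ w ∈ fr.V0, (φ r).1 w = w - (f.B w u * l⁻¹) • u := by
  obtain ⟨x, -, y, -, y', -, rfl, a1, a2, a3⟩ := h.Wd_spec w
  simpa only [map_mul] using fr.W2_apply w.2.1 w.2.2.1 a1 a2 a3

theorem commute_Wd (w : Wd fr φ U i 0 l r) {m : J} (hm : m ∈ Mx fr φ U) {t : F}
    (h1 : (φ m).1 (fr.e i) = t • fr.e i) (ht : t * P.σ t = 1) : Commute m r :=
  mul_inv_eq_iff_eq_mul.1 (h.Wd_eq (by simpa [ht] using w.conj hm h1) w)

theorem triple {m : F} {r₁ r₂ : J} (w₁ : Wd fr φ U i u l r₁) (w₂ : Wd fr φ U i 0 m r₂)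
    (w : Wd fr φ U i u (l + m) r) : r * r₂⁻¹ * r₁⁻¹ ∈ WR fr φ U i i := by
  have h0 := h.toPSt0
  have ne := (fr.ne i).symm
  have m1 := h.monoW i i ne _ w₁.mem
  have m2 := h.monoW i i ne _ w₂.mem
  have v1 := h0.W_mv1 ne w₁.mem
  have v2 := (h0.W_mv2 ne w₁.mem).mul (h0.W_mv1 ne w₂.mem)
  have v4 := ((h0.W_mv1 ne w.mem).mul (h0.W_mv1 ne w₂.mem).inv).mul (h0.W_mv2 ne w₁.mem).inv
  rw [← map_mul] at v2
  have hM : φ (r * r₂⁻¹ * r₁⁻¹) ∈ fr.Mon := by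
    rw [map_mul, map_mul, map_inv, map_inv]
    exact mul_mem (mul_mem w.1 (inv_mem w₂.1)) (inv_mem w₁.1)
  obtain ⟨-, -, -, x, hx, y, hy, y', hy', rfl, a⟩ := w
  obtain ⟨-, -, -, x₁, hx₁, y₁, hy₁, y₁', hy₁', e₁, a₁⟩ := w₁
  obtain ⟨-, -, -, x₂, hx₂, y₂, hy₂, y₂', hy₂', e₂, a₂⟩ := w₂
  obtain rfl : x = x₁ * x₂ := h0.eq hx (mul_mem hx₁ hx₂) (a.eq (by
    rw [map_mul]; exact (a₁.mul (fr.Qe i) a₂).congr (add_zero _) (by simp)))
  have e : y * (x₁ * x₂) * y' * r₂⁻¹ * r₁⁻¹ = y * y₁⁻¹ * (r₁ * (y₁'⁻¹ * y₂⁻¹) * r₁⁻¹) *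
      (r₁ * r₂ * (y₂'⁻¹ * y') * (r₁ * r₂)⁻¹) := by rw [e₁, e₂]; group
  have b1 := mul_mem hy (inv_mem hy₁)
  have b2 := Mx_conj_X (mul_mem m1 m2) v2 v2 (mul_mem (inv_mem hy₂') hy')
  refine ⟨hM, _, Mx_conj_X m1 v1 v1 (mul_mem (inv_mem hy₁') (inv_mem hy₂)), fun e' => ?_, _, b1,
    _, b2, e⟩
  rw [e', mul_one] at e
  rw [← map_inv, ← map_inv, ← map_mul, ← map_mul, e] at v4
  exact fr.ne i (Frame.Mv.unique (.of_eq (apply_self_of_mem_Eu (h.mem _ _ (mul_mem b1.1 b2.1)))) v4)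

end PSt1

end general

section abstract
variable {J : Type*} [Group J] {A : Subgroup J} {W : Set J} (hA : ∀ a ∈ A, ∀ b ∈ A, Commute a b)
  (hW : ∀ r ∈ W, ∀ a ∈ A, r * a * r⁻¹ ∈ A) {n : J} (hn : n ∈ W)

/-- commutators of an abelian subgroup with a normalizing element -/
def TZ : Subgroup J where
  carrier := {x | ∃ a ∈ A, x = a * (n * a * n⁻¹)⁻¹}
  one_mem' := ⟨1, one_mem _, by simp⟩
  mul_mem' := by
    rintro _ _ ⟨a, ha, rfl⟩ ⟨b, hb, rfl⟩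
    refine ⟨b * a, mul_mem hb ha, ?_⟩
    rw [← mul_assoc, ← (hA _ hb _ (mul_mem ha (inv_mem (hW n hn a ha)))).eq]; group
  inv_mem' := by
    rintro _ ⟨a, ha, rfl⟩
    refine ⟨a⁻¹, inv_mem ha, ?_⟩
    rw [mul_inv_rev, inv_inv, (hA _ (hW n hn a ha) _ (inv_mem ha)).eq]; group

variable (h2 : ∀ r ∈ W, ∀ r' ∈ W, r * r'⁻¹ ∈ A)
include h2 hA hW hn

theorem conj_eq_TZ {r a : J} (hr : r ∈ W) (ha : a ∈ A) : r * a * r⁻¹ = n * a * n⁻¹ := by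
  rw [← mul_inv_cancel_right (n * a * n⁻¹) (r * n⁻¹), ← (hA _ (h2 r hr n hn) _ (hW n hn a ha)).eq]
  group

theorem comm_mem_TZ {r a : J} (hr : r ∈ W) (ha : a ∈ A) : a * r * a⁻¹ * r⁻¹ ∈ TZ hA hW hn :=
  ⟨a, ha, by rw [← conj_eq_TZ hA hW hn h2 hr ha]; group⟩

theorem conj_mem_TZ {r t : J} (hr : r ∈ W) (ht : t ∈ TZ hA hW hn) : r * t * r⁻¹ ∈ TZ hA hW hn := by
  obtain ⟨a, ha, rfl⟩ := ht
  rw [conj_eq_TZ hA hW hn h2 hr (mul_mem ha (inv_mem (hW n hn a ha)))]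
  exact ⟨n * a * n⁻¹, hW n hn a ha, by group⟩

end abstract

variable {F : Type*} [Field F] [Fintype F] {q : ℕ} {V : Type*} [AddCommGroup V] [Module F V]
  {I : Type*} [InvolutiveNeg I] {J : Type*} [Group J] {hF : Fintype.card F = q ^ 2}
  {f : Form (uP hF) V} {fr : Frame f I} {φ : J →* f.Isom} {U : I → Subgroup J} [Finite I]

theorem PSt1.ker_su_even (h : PSt1 fr φ U) (hV : ∀ v ∈ fr.V0, v = 0) {i j : I} (h1 : j ≠ i)
    (h2 : j ≠ -i) {g : J} (hg : g ∈ ⨆ i, U i) (e : φ g = 1) : g = 1 := by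
  obtain ⟨t, t1, a, ha, b, hb, rfl, a1, b1⟩ := h.ker_D h1 h2 (h.HR_C_le h1 h2
    (fun v hv v' hv' l l' hl hl' l0 l0' => by
      rw [hV v hv, unit_isLam_iff, B_zero_left, add_eq_zero_iff_neg_eq] at hl
      rw [hV v' hv', unit_isLam_iff, B_zero_left, add_eq_zero_iff_neg_eq] at hl'
      obtain ⟨t, ht⟩ := exists_norm_eq hF (c := l' / l)
        (by rw [map_div₀, ← hl, ← hl', neg_div_neg_eq])
      exact ⟨t, fun e => div_ne_zero l0' l0 (by rw [← ht, e, zero_mul]),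
        by rw [hV v hv, hV v' hv', smul_zero], by rw [Param.unit_σ, ht, div_mul_cancel₀ _ l0]⟩)
    (h.ker_mem_HR fr.unit_hasC i hg e)) e
  obtain ⟨l, l0, hl⟩ := f.unit_exists_isLam_zero
  obtain ⟨r, w⟩ := h.exists_Wd (i := j) (zero_mem _) hl l0
  obtain ⟨s, -, s1, s2⟩ := h.HR_apply h1 h2 ha
  obtain rfl := smul_left_injective F (fr.e_ne_zero i) (a1.symm.trans s2)
  have c := h.commute_Wd w (h.HR_le_Mx h2 ha) s1 (by rw [← t1, (uP hF).σσ, mul_comm])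
  have a2 := Mx_conj_HR (h.monoW j j (fr.ne j).symm _ w.mem)
    (.of_eq (W_fix w.mem h1.symm (ne_neg_swap h2) h1.symm (ne_neg_swap h2)))
    (h.toPSt0.W_mv2 (fr.ne j).symm w.mem) ha
  rw [← c.eq, mul_inv_cancel_right] at a2
  exact h.HR_eq_one (neg_ne_of h2) (neg_ne_neg_of h1) (mul_mem a2 hb) (by rw [e]; rfl)

/-- the torus of the rank one subgroup -/
def TA (fr : Frame f I) (i : I) (v : V) (t : F) (g : f.Isom) : Prop :=
  g.1 (fr.e i) = t • fr.e i ∧ g.1 (fr.e (-i)) = (frobq hF t)⁻¹ • fr.e (-i) ∧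
    (∀ k, k ≠ i → k ≠ -i → g.1 (fr.e k) = fr.e k) ∧ g.1 v = (frobq hF t / t) • v

/-- the nontrivial coset of the torus -/
def WA (fr : Frame f I) (i : I) (v : V) (l : F) (g : f.Isom) : Prop :=
  g.1 (fr.e (-i)) = (-(l * f.B (fr.e (-i)) (fr.e i))) • fr.e i ∧
    g.1 (fr.e i) = (-(frobq hF l * f.B (fr.e (-i)) (fr.e i))⁻¹) • fr.e (-i) ∧
    (∀ k, k ≠ i → k ≠ -i → g.1 (fr.e k) = fr.e k) ∧ g.1 v = (-(frobq hF l / l)) • v

section
variable {i : I} {v : V} {s t : F} {g g' : f.Isom}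
omit [Finite I]

theorem TA.mul (a : TA fr i v s g) (b : TA fr i v t g') : TA fr i v (s * t) (g * g') := by
  refine ⟨?_, ?_, fun k h1 h2 => ?_, ?_⟩ <;>
    simp only [Isom.mul_apply, a.1, a.2.1, a.2.2.2, b.1, b.2.1, b.2.2.2, map_smul, smul_smul,
      map_mul]
  · rw [mul_comm]
  · rw [mul_inv_rev]
  · rw [b.2.2.1 k h1 h2, a.2.2.1 k h1 h2]
  · congr 1; ring

theorem TA.mulW (a : TA fr i v s g) (b : WA fr i v t g') : WA fr i v (s * t) (g * g') := by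
  refine ⟨?_, ?_, fun k h1 h2 => ?_, ?_⟩ <;>
    simp only [Isom.mul_apply, a.1, a.2.1, a.2.2.2, b.1, b.2.1, b.2.2.2, map_smul, smul_smul,
      map_mul]
  · congr 1; ring
  · congr 1; ring
  · rw [b.2.2.1 k h1 h2, a.2.2.1 k h1 h2]
  · congr 1; ring

theorem WA.mul (a : WA fr i v s g) (b : WA fr i v t g') : TA fr i v (s / frobq hF t) (g * g') := by
  have := fr.B_ne' i
  refine ⟨?_, ?_, fun k h1 h2 => ?_, ?_⟩ <;>
    simp only [Isom.mul_apply, a.1, a.2.1, a.2.2.2, b.1, b.2.1, b.2.2.2, map_smul, smul_smul,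
      map_div₀, frobq_frobq]
  · congr 1; field_simp
  · congr 1; field_simp
  · rw [b.2.2.1 k h1 h2, a.2.2.1 k h1 h2]
  · congr 1; field_simp

theorem TA.one : TA fr i v 1 1 := ⟨by simp, by simp, fun _ _ _ => rfl, by simp⟩

theorem TA.pow (a : TA fr i v s g) (n : ℕ) : TA fr i v (s ^ n) (g ^ n) := by
  induction n with
  | zero => simpa using TA.one
  | succ n ih => rw [pow_succ, pow_succ]; exact ih.mul a

theorem TA.mv (a : TA fr i v s g) (k : I) : fr.Mv g k k := by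
  by_cases h1 : k = i
  · exact h1 ▸ ⟨_, a.1⟩
  by_cases h2 : k = -i
  · exact h2 ▸ ⟨_, a.2.1⟩
  exact .of_eq (a.2.2.1 k h1 h2)

end

theorem TA.eq {i : I} {v : V} (hV : ∀ u ∈ fr.V0, ∃ c : F, u = c • v) {s : F} {g g' : f.Isom}
    (a : TA fr i v s g) (b : TA fr i v s g') : g = g' :=
  fr.ext (fun k => by
    by_cases h1 : k = i
    · rw [h1, a.1, b.1]
    by_cases h2 : k = -i
    · rw [h2, a.2.1, b.2.1]
    rw [a.2.2.1 k h1 h2, b.2.2.1 k h1 h2]) fun u hu => by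
    obtain ⟨c, rfl⟩ := hV u hu
    rw [map_smul, map_smul, a.2.2.2, b.2.2.2]

theorem PSt1.Wd_WA (h : PSt1 fr φ U) {i : I} {v : V} (hv : v ∈ fr.V0) {c l : F} {r : J}
    (w : Wd fr φ U i (c • v) l r) : WA fr i v l (φ r) := by
  obtain ⟨a1, a2, a3⟩ := h.Wd_apply w
  refine ⟨by simpa using a1, a2, fun k h1 h2 => W_fix w.mem h1 h2 h1 h2, ?_⟩
  have := f.unit_isLam_iff.1 w.lam
  have l0 := w.2.2.1
  rw [B_smul_left] at this
  rw [a3 v hv]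
  match_scalars
  field_simp
  linear_combination this

theorem PSt1.flip (h : PSt1 fr φ U) {i : I} {v : V} (hv : v ∈ fr.V0) {c l : F} {r : J}
    (w : Wd fr φ U i (c • v) l r) : Wd fr φ U i ((frobq hF l / l * c) • v) l r := by
  obtain ⟨x, hx, y, hy, y', hy', e, a1, a2, a3⟩ := h.Wd_spec w
  obtain ⟨b1, b2, -, b3⟩ := h.Wd_WA hv w
  have m := h.monoW i i (fr.ne i).symm _ w.mem
  have l0 := w.2.2.1
  have l1 := (map_ne_zero (frobq hF)).2 l0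
  have n1 := fr.B_ne i
  have n2 := fr.B_ne' i
  have n3 := f.unit_symm (fr.e i) (fr.e (-i))
  have n4 := f.unit_symm (fr.e (-i)) (fr.e i)
  refine ⟨w.1, Submodule.smul_mem _ _ hv, l0, r * y' * r⁻¹, Mx_conj m ⟨_, b1⟩ hy', r * x * r⁻¹,
    Mx_conj_X m ⟨_, b2⟩ ⟨_, b2⟩ (mem_XR_self.2 ⟨hx, _, w.2.1, _, a1⟩), y,
    mem_XR_self.2 ⟨hy, _, Submodule.smul_mem _ _ w.2.1, _, a2⟩, by rw [e]; group, ?_⟩
  rw [map_mul, map_mul, map_inv]
  refine (a3.of_conj b1 (fr.smul_ne_zero b1)).congr ?_ ?_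
  · simp only [map_smul, b3, smul_smul, Param.unit_σ, map_neg, map_mul, ← n4]
    congr 1; field_simp
  · simp only [Param.unit_σ, map_neg, map_mul, ← n4, ← n3]
    field_simp

theorem Can.ker_su_odd (h : Can fr φ U) {v : V} (hv : v ∈ fr.V0) (hB : f.B v v ≠ 0)
    (hV : ∀ u ∈ fr.V0, ∃ c : F, u = c • v) (i : I) {g : J} (e : φ g = 1) : g = 1 := by
  set σ := frobq hF with hσ
  have σσ : ∀ a, σ (σ a) = a := frobq_frobq hF
  have σ0 : ∀ {a}, a ≠ 0 → σ a ≠ 0 := fun h => (map_ne_zero σ).2 h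
  have v0 : v ≠ 0 := fun e => by simp [e] at hB
  have h1 := h.toPSt1
  set W := WR fr φ U i i
  have hW : ∀ r ∈ W, ∃ c l, Wd fr φ U i (c • v) l r := fun r hr => by
    obtain ⟨u, l, w⟩ := h1.exists_Wd_of hr
    obtain ⟨c, rfl⟩ := hV u w.2.1
    exact ⟨c, l, w⟩
  have hW' : ∀ r ∈ W, ∃ l, WA fr i v l (φ r) := fun r hr =>
    let ⟨_, l, w⟩ := hW r hr; ⟨l, h1.Wd_WA hv w⟩
  have hT : ∀ t, t ≠ 0 → ∃ a, TA fr i v t (φ a) := fun t ht => by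
    obtain ⟨g, hg, -, g1⟩ := fr.torus_odd i hv hB ht
    obtain ⟨a, rfl⟩ := h.ce.surj hg
    exact ⟨a, g1⟩
  let A : Subgroup J :=
    { carrier := {a | ∃ t, TA fr i v t (φ a)}
      one_mem' := ⟨1, by rw [map_one]; exact TA.one⟩
      mul_mem' := fun ⟨_, a⟩ ⟨_, b⟩ => ⟨_, by rw [map_mul]; exact a.mul b⟩
      inv_mem' := fun {a} ⟨t, ha⟩ => by
        obtain ⟨b, hb⟩ := hT t⁻¹ (inv_ne_zero (fr.smul_ne_zero ha.1))
        have := hb.mul ha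
        rw [inv_mul_cancel₀ (fr.smul_ne_zero ha.1)] at this
        exact ⟨_, by rwa [map_inv, inv_eq_of_mul_eq_one_left (this.eq hV TA.one)]⟩ }
  have aM : ∀ {a t}, TA fr i v t (φ a) → a ∈ Mx fr φ U := fun ha =>
    h1.toPSt0.mem_Mx (fr.mem_Mon fun k => ⟨k, ha.mv k⟩) (h.conj _)
  have hA : ∀ a ∈ A, ∀ b ∈ A, Commute a b := by
    obtain ⟨ξ, x0, hξ⟩ := exists_pow_eq (F := F)
    obtain ⟨x, hx⟩ := hT ξ x0
    rintro a ⟨s, ha⟩ b ⟨t, hb⟩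
    obtain ⟨m, rfl⟩ := hξ s (fr.smul_ne_zero ha.1)
    obtain ⟨n, rfl⟩ := hξ t (fr.smul_ne_zero hb.1)
    exact h.ce.cen.commute_congr ((ha.eq hV (hx.pow m)).trans (map_pow φ x m).symm)
      ((hb.eq hV (hx.pow n)).trans (map_pow φ x n).symm) (Commute.pow_pow_self x m n)
  have h2 : ∀ r ∈ W, ∀ r' ∈ W, r * r'⁻¹ ∈ A := fun r hr r' hr' =>
    let ⟨_, a⟩ := hW' r hr; let ⟨_, b⟩ := hW' _ (inv_mem_W hr'); ⟨_, by rw [map_mul]; exact a.mul b⟩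
  have h3 : ∀ r ∈ W, ∀ a ∈ A, r * a * r⁻¹ ∈ A := fun r hr a ⟨_, ha⟩ =>
    let ⟨_, a⟩ := hW' r hr; let ⟨_, b⟩ := hW' _ (inv_mem_W hr)
    ⟨_, by rw [mul_assoc, map_mul, map_mul]; exact a.mul (ha.mulW b)⟩
  have w0 : ∀ {m r}, Wd fr φ U i 0 m r → (φ r).1 v = v := fun w => by
    simpa using (h1.Wd_apply w).2.2 v hv
  obtain ⟨l₀, l0, hl₀⟩ := f.unit_exists_isLam_zero
  obtain ⟨n, wn⟩ := h1.exists_Wd (i := i) (zero_mem _) hl₀ l0
  have hn : n ∈ W := wn.mem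
  set T := TZ hA h3 hn
  have t1 : ∀ {r a}, r ∈ W → a ∈ A → a * r * a⁻¹ * r⁻¹ ∈ T := comm_mem_TZ hA h3 hn h2
  have t2 : ∀ {r t}, r ∈ W → t ∈ T → r * t * r⁻¹ ∈ T := conj_mem_TZ hA h3 hn h2
  have t3 : ∀ t ∈ T, (φ t).1 v = v := by
    rintro _ ⟨a, ⟨s, ha⟩, rfl⟩
    have : (φ (n * a * n⁻¹)).1 v = (φ a).1 v := by
      simp only [map_mul, map_inv, Isom.mul_apply, inv_apply_of_apply (w0 wn), ha.2.2.2, map_smul,
        w0 wn]
    have s0 := fr.smul_ne_zero ha.1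
    refine smul_right_injective V (div_ne_zero (σ0 s0) s0) ?_
    simp only
    rw [← map_smul, ← ha.2.2.2, map_mul, map_inv, Isom.mul_apply, ← this, Isom.inv_apply, this]
  have t4 : ∀ t ∈ T, φ t = 1 → t = 1 := by
    rintro _ ⟨a, ⟨s, ha⟩, rfl⟩ e
    have s0 := fr.smul_ne_zero ha.1
    have b1 := (h1.Wd_apply wn).1
    rw [map_mul, map_inv, mul_inv_eq_one, map_mul, map_mul, map_inv, eq_mul_inv_iff_mul_eq] at e
    have := congrArg (fun g : f.Isom => g.1 (fr.e (-i))) e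
    simp only [Isom.mul_apply, b1, ha.1, ha.2.1, map_smul, smul_smul] at this
    have := mul_left_cancel₀ (fr.smul_ne_zero b1)
      ((smul_left_injective F (fr.e_ne_zero i) this).trans (mul_comm _ _))
    rw [← (h1.commute_Wd wn (aM ha) ha.1 ((congrArg (· * σ s) this).trans
      (inv_mul_cancel₀ (σ0 s0)))).eq]; group
  have nm : ∀ {c l r}, Wd fr φ U i (c • v) l r → c * σ c * f.B v v = l + σ l := fun w => by
    rw [f.unit_isLam_iff.1 w.lam, B_smul_left, unit_B_smul_right, mul_assoc]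
  have ex : ∀ {c l}, l ≠ 0 → c * σ c * f.B v v = l + σ l → ∃ r, Wd fr φ U i (c • v) l r :=
    fun l0 e => h1.exists_Wd (Submodule.smul_mem _ _ hv) (f.unit_isLam_iff.2 (by
      rw [← e, B_smul_left, unit_B_smul_right, mul_assoc])) l0
  let Sy : F → F → Prop := fun l s => s * σ s = 1 ∧
    ∀ c r r', Wd fr φ U i (c • v) l r → Wd fr φ U i ((s * c) • v) l r' → r * r'⁻¹ ∈ T
  have s1 : ∀ l, Sy l 1 := fun l => ⟨by simp, fun c r r' w w' => by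
    rw [one_mul] at w'; rw [h1.Wd_eq w w', mul_inv_cancel]; exact one_mem _⟩
  have s2 : ∀ {l s s'}, Sy l s → Sy l s' → Sy l (s * s') := fun {l s s'} a b =>
    ⟨by rw [map_mul]; linear_combination (s' * σ s') * a.1 + b.1, fun c r r' w w' => by
      obtain ⟨r'', w''⟩ := ex (c := s' * c) w.2.2.1 (by
        rw [← nm w, map_mul]; linear_combination (c * σ c * f.B v v) * b.1)
      simpa using mul_mem (b.2 c r r'' w w'') (a.2 _ r'' r' w'' (by rwa [← mul_assoc]))⟩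
  have s3 : ∀ {l s} (n : ℕ), Sy l s → Sy l (s ^ n) := fun n a => by
    induction n with
    | zero => rw [pow_zero]; exact s1 _
    | succ n ih => rw [pow_succ]; exact s2 ih a
  have s4 : ∀ l {s}, s * σ s = 1 → Sy l (s ^ 3) := fun l s hs =>
    ⟨by rw [map_pow, ← mul_pow, hs, one_pow], fun c r r' w w' => by
      have s0 := left_ne_zero_of_mul_eq_one hs
      obtain ⟨a, ha⟩ := hT (σ s) (σ0 s0)
      have := w.conj (aM ha) ha.1
      rw [map_smul, ha.2.2.2, Param.unit_σ, ← hσ, σσ, mul_comm (σ s), hs, one_mul, smul_smul,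
        smul_smul, eq_inv_of_mul_eq_one_right hs,
        show s * c * (s / s⁻¹) = s ^ 3 * c by field_simp] at this
      rw [h1.Wd_eq w' this]
      simpa [mul_assoc] using inv_mem (t1 w.mem ⟨_, ha⟩)⟩
  have s5 : ∀ {l}, l ≠ 0 → Sy l (σ l / l) := fun {l} l0 =>
    ⟨by have := σ0 l0; rw [map_div₀, σσ]; field_simp, fun c r r' w w' => by
      rw [h1.Wd_eq w' (h1.flip hv w), mul_inv_cancel]; exact one_mem _⟩
  obtain ⟨ζ, z1, z2, z3⟩ := exists_gen_norm_one hF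
  have z0 := left_ne_zero_of_mul_eq_one z1
  have ni : ∀ {s}, s * σ s = 1 → s⁻¹ * σ s⁻¹ = 1 := fun h => by
    rw [map_inv₀, ← mul_inv, h, inv_one]
  have np : ∀ {s} (n : ℕ), s * σ s = 1 → s ^ n * σ (s ^ n) = 1 := fun n h => by
    rw [map_pow, ← mul_pow, h, one_pow]
  let S1 : F → Prop := fun l =>
    ∀ (c c' : F) r r', Wd fr φ U i (c • v) l r → Wd fr φ U i (c' • v) l r' → r * r'⁻¹ ∈ T
  have s6 : ∀ {l}, Sy l ζ → S1 l := fun {l} a c c' r r' w w' => by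
    have e := mul_right_cancel₀ hB ((nm w).trans (nm w').symm)
    by_cases c0 : c = 0
    · obtain rfl : c' = c := by
        rw [c0, zero_mul, eq_comm, mul_eq_zero, map_eq_zero, or_self] at e; rw [e, c0]
      exact (s1 l).2 c' r r' w (by rwa [one_mul])
    have := σ0 c0
    obtain ⟨k, hk⟩ := z2 (c' / c) (by rw [map_div₀, ← hσ]; field_simp; exact e.symm)
    exact (s3 k a).2 c r r' w (by rwa [← hk, div_mul_cancel₀ _ c0])
  have s7 : ∀ {r r'} {c' l' : F}, r ∈ W → Wd fr φ U i (c' • v) l' r' → S1 l' →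
      (φ r).1 v = (φ r').1 v → r * r'⁻¹ ∈ T := fun {r r' c' l'} hr w' a e => by
    obtain ⟨c, l, w⟩ := hW r hr
    have b1 := w.2.2.1
    have b2 := w'.2.2.1
    rw [(h1.Wd_WA hv w).2.2.2, (h1.Wd_WA hv w').2.2.2] at e
    have e := neg_injective (smul_left_injective F v0 e)
    obtain ⟨t, ht⟩ := exists_norm_eq hF (c := l' / l) (by
      have := σ0 b1
      rw [map_div₀, div_eq_div_iff this b1]
      rw [div_eq_div_iff b1 b2] at e; linear_combination -e)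
    obtain ⟨b, hb⟩ := hT t fun e => div_ne_zero b2 b1 (by rw [← ht, e, zero_mul])
    have := w.conj (aM hb) hb.1
    rw [map_smul, hb.2.2.2, Param.unit_σ, ht, div_mul_cancel₀ _ b1, smul_smul, smul_smul] at this
    simpa [mul_assoc] using mul_mem (inv_mem (t1 hr ⟨_, hb⟩)) (a _ _ _ _ this w')
  have tr : ∀ {c l : F} {r s}, Wd fr φ U i (c • v) l r → l + σ l ≠ 0 → s * σ s = 1 → 1 + s ≠ 0 →
      ∃ l₁ r₁, σ l₁ / l₁ = s ∧ Wd fr φ U i (c • v) l₁ r₁ ∧ (l₁ = l ∨ ∃ r₂ ∈ W, (φ r₂).1 v = v ∧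
        r * r₂⁻¹ * r₁⁻¹ ∈ W ∧ ∀ (c' : F) r' r₁', Wd fr φ U i (c' • v) l r' →
          Wd fr φ U i (c' • v) l₁ r₁' → r' * r₂⁻¹ * r₁'⁻¹ ∈ W) := fun {c l r s} w a1 a2 a3 => by
    have s0 := left_ne_zero_of_mul_eq_one a2
    have a3' : s + 1 ≠ 0 := by rwa [add_comm]
    have a4 : σ ((l + σ l) / (1 + s)) = s * ((l + σ l) / (1 + s)) := by
      rw [map_div₀, map_add, map_add, σσ, map_one, eq_inv_of_mul_eq_one_right a2]
      field_simp; ring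
    have a5 := div_ne_zero a1 a3
    have a6 : (l + σ l) / (1 + s) + σ ((l + σ l) / (1 + s)) = l + σ l := by rw [a4]; field_simp
    obtain ⟨r₁, w₁⟩ := ex a5 ((nm w).trans a6.symm)
    refine ⟨_, r₁, by rw [a4, mul_div_cancel_right₀ _ a5], w₁, ?_⟩
    by_cases m0 : l - (l + σ l) / (1 + s) = 0
    · exact Or.inl (sub_eq_zero.1 m0).symm
    obtain ⟨r₂, w₂⟩ := h1.exists_Wd (i := i) (zero_mem _) (f.unit_isLam_iff.2 (by
      rw [map_sub, B_zero_left]; linear_combination -a6)) m0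
    have := fun (c' : F) r' r₁' (w' : Wd fr φ U i (c' • v) l r') w₁' =>
      h1.triple (r₁ := r₁') w₁' w₂ (by rwa [add_sub_cancel])
    exact Or.inr ⟨r₂, w₂.mem, w0 w₂, this c r r₁ w w₁, this⟩
  have ev : ∀ {a b c : J} {x y : F}, (φ a).1 v = x • v → (φ b).1 v = v → (φ c).1 v = y • v →
      (φ (a * b⁻¹ * c⁻¹)).1 v = (x / y) • v := fun {a b c x y} ha hb hc => by
    have y0 : y ≠ 0 := fun e => v0 (by simpa [e] using hc)
    have : (φ c)⁻¹.1 v = y⁻¹ • v := by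
      rw [eq_inv_smul_iff₀ y0, ← map_smul, ← hc, Isom.inv_apply]
    simp only [map_mul, map_inv, Isom.mul_apply, this, map_smul, inv_apply_of_apply hb, ha,
      smul_smul]
    congr 1; ring
  have s8 : ∀ l, l ≠ 0 → S1 l := fun l l0 => by
    have u := s5 l0
    obtain ⟨k, hk⟩ := z2 _ u.1
    obtain ⟨k, rfl | rfl | rfl⟩ : ∃ j, k = 3 * j + 1 ∨ k = 3 * j + 2 ∨ k = 3 * j :=
      ⟨k / 3, by omega⟩
    · refine s6 ?_
      convert s2 u (s4 l (ni (np k z1))) using 1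
      rw [hk]; field_simp; ring
    · refine s6 ?_
      convert s2 (s2 u u) (s4 l (ni (np (2 * k + 1) z1))) using 1
      rw [hk]; field_simp; ring
    intro c c' r r' w w'
    by_cases a1 : l + σ l = 0
    · have : ∀ {c : F} {r}, Wd fr φ U i (c • v) l r → c = 0 := fun w => by simpa [hB, a1] using nm w
      obtain rfl := this w
      obtain rfl := this w'
      exact (s1 l).2 0 r r' w (by rwa [one_mul])
    obtain ⟨l₁, r₁, b1, w₁, rfl | ⟨r₂, b2, b3, b4, b5⟩⟩ := tr w a1 z1 fun e =>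
      z3 2 two_pos (two_le_q hF) (by linear_combination (ζ - 1) * e)
    · exact s6 (b1 ▸ u) c c' r r' w w'
    obtain ⟨r₁', w₁'⟩ := ex (c := c') w₁.2.2.1 ((nm w').trans ((nm w).symm.trans (nm w₁)))
    have b6 := b5 c' r' r₁' w' w₁'
    obtain ⟨c₃, l₃, w₃⟩ := hW _ b6
    have b7 := ev (h1.Wd_WA hv w').2.2.2 b3 (h1.Wd_WA hv w₁').2.2.2
    have b8 := smul_left_injective F v0 (b7.symm.trans (h1.Wd_WA hv w₃).2.2.2)
    have b9 : Sy l₃ ζ := by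
      have u3 := s2 (s5 w₃.2.2.1) (s4 l₃ (s := -(ζ ^ k)⁻¹) (by simpa using ni (np k z1)))
      convert s2 (s2 u3 u3) (s4 l₃ z1) using 1
      rw [← neg_eq_iff_eq_neg.2 b8, ← hσ, hk, b1]; field_simp; ring
    have c1 := s7 b4 w₃ (s6 b9)
      ((ev (h1.Wd_WA hv w).2.2.2 b3 (h1.Wd_WA hv w₁).2.2.2).trans b7.symm)
    have c2 := s6 (b1 ▸ s5 w₁.2.2.1) c c' r₁ r₁' w₁ w₁'
    simpa [mul_assoc] using mul_mem (t2 b4 c2) c1
  have s9 : ∀ {r r'}, r ∈ W → r' ∈ W → (φ r).1 v = (φ r').1 v → r * r'⁻¹ ∈ T := fun hr hr' e =>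
    let ⟨_, _, w⟩ := hW _ hr'; s7 hr w (s8 _ w.2.2.1) e
  have iv : ∀ {a b : J} {x : F}, x ≠ 0 → (φ a).1 v = x • v → (φ b).1 v = x⁻¹ • v →
      (φ b).1 v = (φ a⁻¹).1 v := fun x0 ha hb => by
    rw [hb, map_inv, eq_comm, eq_inv_smul_iff₀ x0, ← map_smul, ← ha, Isom.inv_apply]
  have c1 : ∀ r₁ ∈ W, ∀ r₃ ∈ W, ∃ r ∈ W, r₁ * n * r₃ * r⁻¹ ∈ T := fun r₁ a1 r₃ a3 => by
    suffices ∃ s ∈ W, ∃ s' ∈ W, (φ s).1 v = v ∧ (φ r₃).1 v = (φ s').1 v ∧ r₁ * s * s' ∈ W by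
      obtain ⟨s, b1, s', b2, b3, b4, b5⟩ := this
      refine ⟨_, b5, ?_⟩
      simpa [mul_assoc] using
        t2 a1 (mul_mem (t2 hn (s9 a3 b2 b4)) (s9 hn b1 ((w0 wn).trans b3.symm)))
    obtain ⟨c, l, w⟩ := hW r₁ a1
    obtain ⟨c', l', w'⟩ := hW r₃ a3
    have b1 := (h1.Wd_WA hv w).2.2.2
    have b3 := (h1.Wd_WA hv w').2.2.2
    have l1 := w.2.2.1
    have l2 := w'.2.2.1
    have l3 := σ0 l2
    by_cases e1 : l + σ l = 0
    · rw [← hσ, eq_neg_of_add_eq_zero_right e1, neg_div, neg_neg, div_self l1, one_smul] at b1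
      exact ⟨_, inv_mem_W a1, r₃, a3, by rw [map_inv, inv_apply_of_apply b1], rfl, by simpa⟩
    by_cases e2 : 1 + l' / σ l' = 0
    · rw [← hσ, show -(σ l' / l') = 1 by field_simp; field_simp at e2; linear_combination -e2,
        one_smul] at b3
      exact ⟨n, hn, _, inv_mem_W hn, w0 wn, by rw [b3, map_inv, inv_apply_of_apply (w0 wn)],
        by simpa⟩
    obtain ⟨l₁, s₁, d1, w₁, d2⟩ := tr w e1 (by rw [map_div₀, σσ]; field_simp) e2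
    have d3 := iv (neg_ne_zero.2 (div_ne_zero (σ0 w₁.2.2.1) w₁.2.2.1)) (h1.Wd_WA hv w₁).2.2.2
      (b3.trans (by rw [d1, inv_neg, inv_div]))
    rcases d2 with rfl | ⟨r₂, d2, d4, d5, -⟩
    · obtain rfl := h1.Wd_eq w w₁
      refine ⟨n, hn, _, inv_mem_W a1, w0 wn, d3, ?_⟩
      have m := h1.toPSt0.W_mv1 (fr.ne i).symm a1
      exact Mx_conj_W (h1.monoW i i (fr.ne i).symm _ a1) m m (h1.W_neg (fr.ne i).symm hn)
    · exact ⟨_, inv_mem_W d2, _, inv_mem_W w₁.mem, by rw [map_inv, inv_apply_of_apply d4], d3, d5⟩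
  have c2 : ∀ r₁ ∈ W, ∀ r₂ ∈ W, ∀ r₃ ∈ W, ∃ r ∈ W, r₁ * r₂ * r₃ * r⁻¹ ∈ T :=
    fun r₁ a1 r₂ a2 r₃ a3 => by
      have m := h1.toPSt0.W_mv1 (fr.ne i).symm (inv_mem_W hn)
      obtain ⟨s, b1, b2⟩ := c1 r₁ a1 _ (Mx_conj_W (h1.monoW i i (fr.ne i).symm _ (inv_mem_W hn)) m m
        (h1.W_neg (fr.ne i).symm a2))
      obtain ⟨r, b3, b4⟩ := c1 s b1 r₃ a3
      refine ⟨r, b3, ?_⟩
      simpa [mul_assoc] using mul_mem (mul_mem b2 (t2 b1 (s9 (inv_mem_W hn) hn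
        (by rw [map_inv, inv_apply_of_apply (w0 wn), w0 wn])))) b4
  have c3 : ∀ a ∈ HR fr φ U i i, ∃ r ∈ W, a * n * r⁻¹ ∈ T := fun a ha => by
    have key : ∀ r₁ ∈ W, ∀ r₂ ∈ W, ∀ a, (∃ r ∈ W, a * n * r⁻¹ ∈ T) →
        ∃ r ∈ W, r₁ * r₂⁻¹ * a * n * r⁻¹ ∈ T := fun r₁ a1 r₂ a2 a ⟨r, a3, a4⟩ => by
      obtain ⟨s, b1, b2⟩ := c2 r₁ a1 _ (inv_mem_W a2) r a3
      exact ⟨s, b1, by simpa [mul_assoc] using mul_mem (t2 a1 (t2 (inv_mem_W a2) a4)) b2⟩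
    induction ha using closure_induction_left with
    | one => exact ⟨n, hn, by simp⟩
    | mul_left x hx y _ ih => obtain ⟨r, a1, r', a2, rfl⟩ := hx; exact key r a1 r' a2 y ih
    | inv_mul_cancel x hx y _ ih =>
      obtain ⟨r, a1, r', a2, rfl⟩ := hx
      rw [mul_inv_rev, inv_inv]; exact key r' a2 r a1 y ih
  obtain ⟨r, a1, a2⟩ := c3 g (h1.ker_mem_HR fr.unit_hasC i (h.top ▸ mem_top g) e)
  have a3 := t3 _ a2
  rw [map_mul, map_mul, e, one_mul, ← map_mul] at a3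
  have a4 := s9 hn a1 (by
    have : (φ r⁻¹).1 v = v := (φ n).1.injective (by rw [← Isom.mul_apply, ← map_mul, a3, w0 wn])
    rw [w0 wn, ← inv_inv r, map_inv, inv_apply_of_apply this])
  exact t4 g (by simpa [mul_assoc] using mul_mem a2 (inv_mem a4)) e

end Cfsg.Agent.Cls
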