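import Cfsg.Agent.Lib.Cls.MOFin

/-!
Central extensions of unitary groups: splitting over the unipotent subgroups.
-/

set_option autoImplicit false

namespace Cfsg.Agent.Cls

open Forms Forms.Form Subgroup CExt Module

variable {F : Type*} [Field F] [Fintype F] {q : ℕ} {V : Type*} [AddCommGroup V] [Module F V]
  {I : Type*} [InvolutiveNeg I] {J : Type*} [Group J]

section field
variable (hF : Fintype.card F = q ^ 2)

theorem exists_norm_pow_ne {k : ℕ} (h0 : 0 < k) (h : k + 1 < q) :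
    ∃ t : F, t ≠ 0 ∧ (t * frobq hF t) ^ k ≠ 1 := by
  obtain ⟨ξ, h1, h2⟩ := exists_pow_eq (F := F)
  refine ⟨ξ, h1, ?_⟩
  rw [frobq_apply, ← pow_succ', ← pow_mul]
  exact gen_pow_ne h2 (by positivity) (by rw [Nat.card_eq_fintype_card, hF]; nlinarith)

theorem exists_div_frob {s : F} (hs : s * frobq hF s = 1) : ∃ l, l ≠ 0 ∧ s = frobq hF l / l := by
  have s0 := left_ne_zero_of_mul_eq_one hs
  by_cases e : 1 + s = 0
  · obtain ⟨a, ha⟩ := frobq_ne hF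
    refine ⟨a - frobq hF a, sub_ne_zero.2 ha.symm, ?_⟩
    rw [map_sub, frobq_frobq, eq_div_iff (sub_ne_zero.2 ha.symm)]
    linear_combination (a - frobq hF a) * e
  · refine ⟨(1 + s)⁻¹, inv_ne_zero e, ?_⟩
    rw [map_inv₀, map_add, map_one, eq_inv_of_mul_eq_one_right hs]
    have : s + 1 ≠ 0 := by rwa [add_comm]
    field_simp; ring

theorem exists_gen_norm_one : ∃ ζ : F, ζ * frobq hF ζ = 1 ∧
    (∀ s, s * frobq hF s = 1 → ∃ n : ℕ, s = ζ ^ n) ∧ ∀ k, 0 < k → k ≤ q → ζ ^ k ≠ 1 := by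
  obtain ⟨ξ, h1, h2⟩ := exists_pow_eq (F := F)
  have h3 := (map_ne_zero (frobq hF)).2 h1
  have hq := two_le_q hF
  refine ⟨frobq hF ξ / ξ, by rw [map_div₀, frobq_frobq]; field_simp, fun s hs => ?_,
    fun k h0 hk => ?_⟩
  · obtain ⟨l, l0, rfl⟩ := exists_div_frob hF hs
    obtain ⟨n, rfl⟩ := h2 l l0
    exact ⟨n, by rw [map_pow, div_pow]⟩
  · obtain ⟨r, rfl⟩ : ∃ r, q = r + 1 := ⟨q - 1, by omega⟩
    rw [frobq_apply, pow_succ, mul_div_cancel_right₀ _ h1, ← pow_mul]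
    exact gen_pow_ne h2 (Nat.mul_pos (by omega) h0)
      (by rw [Nat.card_eq_fintype_card, hF]; nlinarith)

theorem exists_rank_one (h3 : 3 ≤ q) : ∃ t₁ t₂ w : F, t₁ ≠ 0 ∧ t₂ ≠ 0 ∧
    frobq hF t₁ * (frobq hF t₁ / t₁) = w ∧ frobq hF t₂ * (frobq hF t₂ / t₂) = 1 - w ∧
    w ^ 2 - w + 1 ≠ 0 := by
  have key : ∀ w : F, frobq hF w = w → w ≠ 0 → w ≠ 1 → w ^ 2 - w + 1 ≠ 0 → ∃ t₁ t₂ w : F,
      t₁ ≠ 0 ∧ t₂ ≠ 0 ∧ frobq hF t₁ * (frobq hF t₁ / t₁) = w ∧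
      frobq hF t₂ * (frobq hF t₂ / t₂) = 1 - w ∧ w ^ 2 - w + 1 ≠ 0 := fun w h0 h1 h2 h3 =>
    ⟨w, 1 - w, w, h1, sub_ne_zero.2 h2.symm, by rw [h0, div_self h1, mul_one], by
      rw [map_sub, map_one, h0, div_self (sub_ne_zero.2 h2.symm), mul_one], h3⟩
  have six : ∀ w : F, w ^ 6 ≠ 1 → w ≠ 1 ∧ w ^ 2 - w + 1 ≠ 0 := fun w h =>
    ⟨fun e => h (by simp [e]), fun e => h (by linear_combination (w ^ 4 + w ^ 3 - w - 1) * e)⟩
  by_cases h8 : 8 ≤ q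
  · obtain ⟨t, t0, t1⟩ := exists_norm_pow_ne hF (k := 6) (by omega) (by omega)
    exact key _ (by rw [map_mul, frobq_frobq, mul_comm])
      (mul_ne_zero t0 ((map_ne_zero _).2 t0)) (six _ t1).1 (six _ t1).2
  by_cases h5 : 5 ≤ q
  · have hc := FiniteField.cast_card_eq_zero F
    obtain ⟨p, k, hp, -, -, hk⟩ := exists_char_pow hF
    have h6 : q ≠ 6 := fun e => by
      have a2 := Nat.prime_two.dvd_of_dvd_pow (show 2 ∣ p ^ k by rw [← hk, e]; decide)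
      have a3 := Nat.prime_three.dvd_of_dvd_pow (show 3 ∣ p ^ k by rw [← hk, e]; decide)
      rw [Nat.prime_dvd_prime_iff_eq (by decide) hp] at a2 a3
      omega
    refine key (-1) (by simp) (by simp) (fun e => ?_) fun e => ?_ <;> rw [hF] at hc <;>
      interval_cases q <;> push_cast at hc
    · exact one_ne_zero (α := F) (by linear_combination hc + 12 * e)
    · exact h6 rfl
    · exact one_ne_zero (α := F) (by linear_combination hc + 24 * e)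
    · exact one_ne_zero (α := F) (by linear_combination hc - 8 * e)
    · exact h6 rfl
    · exact one_ne_zero (α := F) (by linear_combination hc - 16 * e)
  obtain ⟨w, w0, hw⟩ := exists_pow_eq (F := F)
  obtain ⟨w1, w2⟩ := six w (gen_pow_ne hw (by omega)
    (by rw [Nat.card_eq_fintype_card, hF]; nlinarith))
  have hs : ∀ x : F, x ≠ 0 → ∃ t, t ≠ 0 ∧ frobq hF t * (frobq hF t / t) = x := fun x x0 => by
    have hx := FiniteField.pow_card_sub_one_eq_one x x0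
    rw [hF] at hx
    interval_cases q
    · refine ⟨x ^ 5, pow_ne_zero _ x0, ?_⟩
      rw [frobq_apply]; field_simp
      linear_combination (x ^ 16 + x ^ 8 + 1) * hx
    · refine ⟨x ^ 13, pow_ne_zero _ x0, ?_⟩
      rw [frobq_apply]; field_simp
      linear_combination (x ^ 75 + x ^ 60 + x ^ 45 + x ^ 30 + x ^ 15 + 1) * hx
  obtain ⟨t₁, a1, a2⟩ := hs w w0
  obtain ⟨t₂, b1, b2⟩ := hs (1 - w) (sub_ne_zero.2 w1.symm)
  exact ⟨t₁, t₂, w, a1, b1, a2, b2, w2⟩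

end field

variable {hF : Fintype.card F = q ^ 2} {f : Form (uP hF) V}

theorem unit_tr (a : F) (h : a = (uP hF).ε * (uP hF).σ a) : ∃ b, a = b + (uP hF).ε * (uP hF).σ b :=
  let ⟨b, hb⟩ := exists_trace_eq (frobq hF) (frobq_frobq hF) (frobq_ne hF) (c := a)
    (by simpa using h.symm)
  ⟨b, by simpa using hb.symm⟩

namespace Frame

variable (fr : Frame f I)

theorem unit_hasC : fr.HasC :=
  let ⟨l, h1, h2⟩ := f.unit_exists_isLam_zero; ⟨0, zero_mem _, l, h2, h1⟩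

variable [Finite I]

theorem torus_odd (i : I) {v : V} (hv : v ∈ fr.V0) (hB : f.B v v ≠ 0) {t : F} (ht : t ≠ 0) :
    ∃ g ∈ fr.EG, (∀ k, fr.Mv g k k) ∧ g.1 (fr.e i) = t • fr.e i ∧
      g.1 (fr.e (-i)) = (frobq hF t)⁻¹ • fr.e (-i) ∧
      (∀ k, k ≠ i → k ≠ -i → g.1 (fr.e k) = fr.e k) ∧ g.1 v = (frobq hF t / t) • v := by
  obtain ⟨g, hg, g1, g2, g3⟩ := fr.exists_torus_odd i hv hB ht
  exact ⟨g, sup_le (fr.RC_le_EG _) (fr.RC_le_EG _) hg, g1, g2, fr.apply_neg g2 (g1 _),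
    fun k => fr.RC_sup_fix hg, g3⟩

theorem hT_odd {v : V} (hv : v ∈ fr.V0) (hB : f.B v v ≠ 0) (k : I) : ∃ g ∈ fr.EG, ∃ t : F, t ≠ 1 ∧
    g.1 (fr.e k) = t • fr.e k ∧ ∀ l, l ≠ k → l ≠ -k → g.1 (fr.e l) = fr.e l := by
  obtain ⟨ζ, h1, -, h2⟩ := exists_gen_norm_one hF
  obtain ⟨g, hg, -, g1, -, g2, -⟩ := fr.torus_odd k hv hB (left_ne_zero_of_mul_eq_one h1)
  exact ⟨g, hg, ζ, by simpa using h2 1 one_pos (by have := two_le_q hF; omega), g1, g2⟩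

theorem hT_N (h3 : 3 ≤ q) (h2 : ∀ i : I, ∃ j, j ≠ i ∧ j ≠ -i) (k : I) :
    ∃ g ∈ fr.EG, ∃ t : F, t ≠ 1 ∧ g.1 (fr.e k) = t • fr.e k ∧
      ∀ l, l ≠ k → l ≠ -k → g.1 (fr.e l) = fr.e l := by
  obtain ⟨t, t0, t1⟩ := exists_norm_pow_ne hF (k := 1) one_pos (by omega)
  obtain ⟨j, h1, h2⟩ := h2 k
  obtain ⟨g, hg, g1, -, g2, -⟩ := fr.exists_torus_N h1 h2 t0
  exact ⟨g, hg, _, by simpa using t1, g1, g2⟩

end Frame

namespace CE

variable {fr : Frame f I} {φ : J →* f.Isom} (h : CE fr φ) [Finite I]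
include h

theorem unit_big (h4 : ∀ i j k : I, ∃ l, l ≠ i ∧ l ≠ -i ∧ l ≠ j ∧ l ≠ -j ∧ l ≠ k ∧ l ≠ -k) :
    Spl fr φ :=
  h.spl_big (h.rcm_four h4) (h.ltwo_four fr.unit_hasC h4)
    (fun i j => let ⟨l, a1, a2, a3, a4, _⟩ := h4 i j j; ⟨l, a1, a2, a3, a4⟩) (Or.inl h4)
    (Or.inl ⟨unit_hZ f (frobq_ne hF), unit_tr⟩) fun _ _ => fr.T2_le_four h4

theorem unit_good (h3 : 3 ≤ q) (n1 : ∀ i, NK φ (fr.U i) (fr.U i)) : Spl fr φ := by
  refine ⟨n1, fun i j a1 a2 => ?_⟩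
  obtain ⟨t, t0, t1⟩ := exists_norm_pow_ne hF (k := 1) one_pos (by omega)
  obtain ⟨g, hg, g1, g2, g3, g4⟩ := fr.exists_torus_N a1 a2 t0
  exact h.nk_good (n1 i) hg (s := 1) g1 g2
    (fr.apply_Wp (rm_closed (S := Set.univ) (fun _ _ => trivial) i)
      (fun k hk => by rw [one_smul, g3 k hk.2.1 hk.2.2])
      fun v hv => by rw [g4 v hv, one_smul]) (by simpa [frobq_frobq, mul_comm] using t1)
    (Or.inl (fr.RZ_le_comm' (unit_hZ f (frobq_ne hF)) a1 a2)) j a1 a2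

theorem unit_n1 (R : RCm fr φ) (h2 : ∀ i : I, ∃ j, j ≠ i ∧ j ≠ -i)
    (nd : (∀ i j : I, ∃ k, k ≠ i ∧ k ≠ -i ∧ k ≠ j ∧ k ≠ -j) ∨
      ∃ u ∈ fr.V0, ∃ u' ∈ fr.V0, f.B u u' ≠ 0) (i : I) : NK φ (fr.U i) (fr.U i) := by
  obtain ⟨j, a1, a2⟩ := h2 i
  obtain ⟨ψ, hψ⟩ := h.exists_ci R a1 a2 (nd.imp_left fun h3 => h3 i j)
  exact h.nk_of_ci_tr a1 a2 hψ unit_tr

theorem unit_six (h3 : 3 ≤ q) (hI : ∀ i j : I, ∃ k, k ≠ i ∧ k ≠ -i ∧ k ≠ j ∧ k ≠ -j) : Spl fr φ :=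
  have h2 : ∀ i : I, ∃ j, j ≠ i ∧ j ≠ -i := fun i => let ⟨k, a1, a2, _⟩ := hI i i; ⟨k, a1, a2⟩
  h.unit_good h3 (h.unit_n1 (h.rcm_tor (fr.hT_N h3 h2) fun i j _ => Or.inl (hI i j)) h2 (Or.inl hI))

theorem unit_four (h4 : 4 ≤ q) (hV : ∀ v ∈ fr.V0, v = 0) (h2 : ∀ i : I, ∃ j, j ≠ i ∧ j ≠ -i)
    (hI : ∀ i j : I, j ≠ i → j ≠ -i → ∀ k, k = i ∨ k = -i ∨ k = j ∨ k = -j) : Spl fr φ := by
  obtain ⟨t, t0, t1⟩ := exists_norm_pow_ne hF (k := 2) two_pos (by omega)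
  have t2 : frobq hF (t * frobq hF t) = t * frobq hF t := by rw [map_mul, frobq_frobq, mul_comm]
  have R : RCm fr φ := h.rcm_tor (fr.hT_N (by omega) h2) fun i j hj => by
    by_cases e : j = i
    · obtain ⟨k, a1, a2⟩ := h2 i
      exact Or.inl ⟨k, a1, a2, e ▸ a1, e ▸ a2⟩
    refine Or.inr fun r hr => (fr.RC_le_RZ hV j).trans ?_
    obtain ⟨g, hg, g1, -, g2, -⟩ := fr.exists_torus_N (Ne.symm e) (ne_neg_swap hj) t0
    exact h.RZ_le_of_weight hg g1 (by simpa [t2, sq] using t1)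
      (fr.commute_RZ' (g2 i (Ne.symm e) (ne_neg_swap hj)) hr) fun x hx => cRC hr hj x (fr.RZ_le_RC _ hx)
  refine h.unit_good (by omega) fun i => ?_
  obtain ⟨j, a1, a2⟩ := h2 i
  exact h.nk_of_weight R a1 a2 (mul_ne_zero t0 ((map_ne_zero _).2 t0)) t2 (by rwa [← sq])
    (h.le_closure_two R a1 a2 hV (hI i j a1 a2) f.unit_exists_isLam_zero)

variable {v : V} (hv : v ∈ fr.V0) (hB : f.B v v ≠ 0) (hV : ∀ u ∈ fr.V0, ∃ c : F, u = c • v)
include hv hB hV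

theorem unit_RC {i j : I} (hj : j ≠ -i) (e : j ≠ i ∨ 3 ≤ q) {r : J} (hr : φ r ∈ fr.RZ i) :
    fr.RC j ≤ LCs φ r := by
  obtain ⟨ζ, h1, -, h2⟩ := exists_gen_norm_one hF
  have z0 := left_ne_zero_of_mul_eq_one h1
  have z1 := eq_inv_of_mul_eq_one_right h1
  obtain ⟨g, hg, -, g1, -, g2, g3⟩ := fr.torus_odd i hv hB z0
  have key : ∀ t : F, g.1 (fr.e j) = t • fr.e j → frobq hF t * (frobq hF ζ / ζ) - 1 ≠ 0 →
      fr.RC j ≤ LCs φ r := fun t a1 a2 =>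
    h.RC_le_of_weight hg a1 (fun u hu => by
      obtain ⟨c, rfl⟩ := hV u hu
      refine ⟨(c / (frobq hF t * (frobq hF ζ / ζ) - 1)) • v, Submodule.smul_mem _ _ hv, ?_⟩
      rw [map_smul, g3, smul_smul, smul_smul, ← sub_smul, Param.unit_σ]
      congr 1
      linear_combination div_mul_cancel₀ c a2) (fr.commute_RZ g1 h1 hr) (cRC hr hj)
      (h.RZ_le_of_V0 (unit_hZ f (frobq_ne hF)) hv hB (cRC hr hj))
  by_cases e' : j = i
  · refine key ζ (e' ▸ g1) fun a => h2 3 (by omega) (e.resolve_left (not_not.2 e')) ?_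
    rw [z1] at a; field_simp at a; linear_combination -a
  · refine key 1 (by rw [g2 j e' hj, one_smul]) fun a => h2 2 (by omega) (two_le_q hF) ?_
    rw [z1, map_one] at a; field_simp at a; linear_combination -a

theorem unit_three (h3 : 3 ≤ q) (hI : ∀ i k : I, k = i ∨ k = -i) : Spl fr φ := by
  refine ⟨fun i => ?_, fun i j a1 a2 => ((hI i j).elim a1 a2).elim⟩
  obtain ⟨t, t0, t1⟩ := exists_norm_pow_ne hF (k := 1) one_pos (by omega)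
  obtain ⟨t₁, t₂, w, a1, a2, a3, a4, a5⟩ := exists_rank_one hF h3
  exact h.nk_rank_one (rcm_of (fun i r hr j k _ _ a1 a2 => ((hI j k).elim a1 a2).elim)
    fun i r hr j hj => h.unit_RC hv hB hV hj (Or.inr h3) hr) (hI i) hv hV (fun t ht =>
      let ⟨g, hg, g1, g2, _, _, g3⟩ := fr.torus_odd i hv hB ht; ⟨g, hg, g1, g2, g3⟩)
    t0 a1 a2 (by simpa using t1) a3 a4 a5

theorem unit_odd (h2 : ∀ i : I, ∃ j, j ≠ i ∧ j ≠ -i)
    (hI : (∀ i j : I, j ≠ i → j ≠ -i → ∀ k, k = i ∨ k = -i ∨ k = j ∨ k = -j) ∨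
      ∀ i j : I, j ≠ i → j ≠ -i → ∃ l, l ≠ i ∧ l ≠ -i ∧ l ≠ j ∧ l ≠ -j ∧
        ∀ k, k = i ∨ k = -i ∨ k = j ∨ k = -j ∨ k = l ∨ k = -l) : Spl fr φ := by
  have n1 := h.unit_n1 (h.rcm_tor (fr.hT_odd hv hB) fun i j hj => by
    by_cases e : j = i
    · obtain ⟨k, a1, a2⟩ := h2 i
      exact Or.inl ⟨k, a1, a2, e ▸ a1, e ▸ a2⟩
    exact Or.inr fun r hr => h.unit_RC hv hB hV hj (Or.inl e) hr) h2 (Or.inr ⟨v, hv, v, hv, hB⟩)
  rcases (two_le_q hF).eq_or_lt with rfl | h3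
  swap
  · exact h.unit_good h3 n1
  refine ⟨n1, fun i j a1 a2 => ?_⟩
  obtain ⟨ζ, h1, -, h2⟩ := exists_gen_norm_one hF
  have z0 := left_ne_zero_of_mul_eq_one h1
  have z1 := eq_inv_of_mul_eq_one_right h1
  have z2 : ζ⁻¹ / ζ = ζ := by
    rw [frobq_apply] at h1; field_simp; linear_combination -h1
  have z3 : ζ ≠ 1 := by simpa using h2 1 one_pos one_le_two
  have hc := rm_closed (S := Set.univ) (fun _ _ => trivial) i
  have hR := fr.RZ_le_comm' (unit_hZ f (frobq_ne hF)) a1 a2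
  obtain ⟨g, hg, -, g1, g2, g3, g4⟩ := fr.torus_odd j hv hB z0
  rw [z1, inv_inv] at g2
  rw [z1, z2] at g4
  have b1 := a1.symm
  have b2 := ne_neg_swap a2
  have b3 := a2.symm
  have b4 := neg_ne_neg_of b1
  rcases hI with hI | hI
  · refine h.nk_good (n1 i) hg (t := 1) (s := ζ) (by rw [g3 i b1 b2, one_smul])
      (.of_eq (g3 _ b3 b4)) (fr.apply_Wp hc (fun k hk => ?_) fun u hu => ?_) (by simpa)
      (Or.inl hR) j a1 a2
    · rcases hI i j a1 a2 k with e | e | rfl | rfl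
      exacts [absurd e hk.2.1, absurd e hk.2.2, g1, g2]
    · obtain ⟨c, rfl⟩ := hV u hu
      rw [map_smul, g4, smul_comm]
  obtain ⟨l, c1, c2, c3, c4, hI⟩ := hI i j a1 a2
  obtain ⟨g', hg', -, g1', g2', g3', g4'⟩ := fr.torus_odd l hv hB z0
  rw [z1, inv_inv] at g2'
  rw [z1, z2] at g4'
  obtain ⟨k, hk, -, k1, k2, k3, k4⟩ := fr.torus_odd i hv hB (inv_ne_zero z0)
  rw [map_inv₀, z1, inv_inv] at k4
  refine h.nk_good (n1 i) (mul_mem (mul_mem hg hg') hk) (t := ζ⁻¹) (s := ζ) (by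
      rw [Isom.mul_apply, Isom.mul_apply, k1, map_smul, map_smul, g3' i c1.symm (ne_neg_swap c2),
        g3 i b1 b2])
    (((Frame.Mv.of_eq (g3 _ b3 b4)).mul (.of_eq (g3' _ c2.symm (neg_ne_neg_of c1.symm)))).mul
      ⟨_, k2⟩) (fr.apply_Wp hc (fun m hm => ?_) fun u hu => ?_) ?_ (Or.inl hR) j a1 a2
  · rw [Isom.mul_apply, Isom.mul_apply, k3 m hm.2.1 hm.2.2]
    rcases hI m with e | e | rfl | rfl | rfl | rfl
    · exact absurd e hm.2.1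
    · exact absurd e hm.2.2
    · rw [g3' _ c3.symm (ne_neg_swap c4), g1]
    · rw [g3' _ c4.symm (neg_ne_neg_of c3.symm), g2]
    · rw [g1', map_smul, g3 _ c3 c4]
    · rw [g2', map_smul, g3 _ (neg_ne_of c4) (neg_ne_neg_of c3)]
  · obtain ⟨c, rfl⟩ := hV u hu
    simp only [Isom.mul_apply, map_smul, k4, g4', g4, smul_smul]
    congr 1
    rw [frobq_apply] at h1
    field_simp
    linear_combination c * h1
  · rw [Param.unit_σ, map_inv₀, z1, inv_inv, ← sq]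
    exact h2 2 two_pos le_rfl

end CE

theorem PM.cases_three {i j : PM 3} (h1 : j ≠ i) (h2 : j ≠ -i) : ∃ l, l ≠ i ∧ l ≠ -i ∧ l ≠ j ∧
    l ≠ -j ∧ ∀ k, k = i ∨ k = -i ∨ k = j ∨ k = -j ∨ k = l ∨ k = -l := by
  revert i j; decide

end Cfsg.Agent.Cls
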