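import Cfsg.Agent.Lib.Cls.U3Grp

/-!
The unitary group of degree three: from relations to injectivity.
-/

set_option autoImplicit false

namespace Cfsg.Agent.Cls

open Forms Forms.Form Subgroup Polynomial SL2
open scoped commutatorElement

variable {F : Type*} [Field F] [Fintype F] {q : ℕ} {V : Type*} [AddCommGroup V] [Module F V]
  {I : Type*} [InvolutiveNeg I] {J : Type*} [Group J] {hF : Fintype.card F = q ^ 2}
  {f : Form (uP hF) V} {fr : Frame f I} {φ : J →* f.Isom} {i : I} {v : V} {ζ : F} {h u n : J}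

/-- the weight of the torus on the short root subgroup -/
def wt (hF : Fintype.card F = q ^ 2) (t : F) : F := frobq hF t * (frobq hF t / t)

theorem wt_mul (s t : F) : wt hF (s * t) = wt hF s * wt hF t := by
  simp only [wt, map_mul]; ring

theorem wt_pow (s : F) (k : ℕ) : wt hF (s ^ k) = wt hF s ^ k := by
  simp only [wt, map_pow, mul_pow, div_pow]

theorem wt_norm {s : F} (hs : s ≠ 0) : wt hF s * frobq hF (wt hF s) = s * frobq hF s := by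
  have := (map_ne_zero (frobq hF)).2 hs
  simp only [wt, map_mul, map_div₀, frobq_frobq]; field_simp

theorem TA.conj {t c l : F} {g x : J} (a : TA fr i v t (φ g)) (hx : IsE (φ x) (fr.e i) (c • v) l) :
    IsE (φ (g * x * g⁻¹)) (fr.e i) ((c * wt hF t) • v) (t * frobq hF t * l) :=
  (CE.isE_conj hx a.1).congr (by
    rw [map_smul, a.2.2.2, smul_smul, smul_smul, wt, Param.unit_σ]; congr 1; ring) rfl

theorem WA.eq [Finite I] (hV : ∀ u ∈ fr.V0, ∃ c : F, u = c • v) {s : F} {g g' : f.Isom}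
    (a : WA fr i v s g) (b : WA fr i v s g') : g = g' :=
  mul_right_cancel ((a.mul a).eq hV (b.mul a))

theorem Frame.W2_spec [Finite I] (fr : Frame f I) {x y y' : f.Isom} {w : V} {l : F} (hw : w ∈ fr.V0)
    (l0 : l ≠ 0) (hx : IsE x (fr.e i) w l) (hy : y ∈ fr.RC (-i)) (hy' : y' ∈ fr.RC (-i))
    (hM : y * x * y' ∈ fr.Mon) : fr.Mv (y * x * y') (-i) i ∧ ∃ a b : F, IsE y (fr.e (-i)) (a • w)
      (frobq hF l * f.B (fr.e i) (fr.e (-i)) * frobq hF (f.B (fr.e i) (fr.e (-i))))⁻¹ ∧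
      IsE y' (fr.e (-i)) (b • w)
      (frobq hF l * f.B (fr.e i) (fr.e (-i)) * frobq hF (f.B (fr.e i) (fr.e (-i))))⁻¹ := by
  obtain ⟨a1, a2⟩ := fr.isLam_W2 (i := i) hx.lam l0
  obtain ⟨z, hz⟩ := exists_isE (fr.Qe (-i)) (fr.mem_V0.1 (Submodule.smul_mem _ _ hw) _) a1
  obtain ⟨z', hz'⟩ := exists_isE (fr.Qe (-i)) (fr.mem_V0.1 (Submodule.smul_mem _ _ hw) _) a2
  obtain ⟨b1, b2, -⟩ := fr.W2_apply hw l0 hx hz hz'
  have c1 : z ∈ fr.RC (-i) := ⟨_, Submodule.smul_mem _ _ hw, _, hz⟩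
  have c2 : z' ∈ fr.RC (-i) := ⟨_, Submodule.smul_mem _ _ hw, _, hz'⟩
  obtain ⟨rfl, rfl⟩ := fr.W_unique (i := i) (j := i) (x := x) (fr.ne i).symm
    (by rw [fr.RX_self]; exact ⟨w, hw, l, hx⟩) (fun e => l0 ((e ▸ hx).vec_eq (isE_one _) (fr.B_ne' i)
      (fr.mem_V0.1 hw _) (f.B_zero_left _)).2) (by rwa [fr.RX_self]) (by rwa [fr.RX_self])
    (by rwa [fr.RX_self]) (by rwa [fr.RX_self]) hM
    (fr.mon_of_W1 ⟨_, b2⟩ ⟨_, b1⟩ ⟨_, b2⟩ ⟨_, b1⟩ fun k k1 k2 _ _ =>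
      fr.W2_fix ⟨w, hw, l, hx⟩ c1 c2 k1 k2)
  exact ⟨⟨_, b1⟩, _, _, hz, hz'⟩

/-- three generators -/
structure D3 (fr : Frame f I) (φ : J →* f.Isom) (i : I) (v : V) (ζ : F) (h u n : J) : Prop where
  hI : ∀ a b : I, b = a ∨ b = -a
  v1 : v ∈ fr.V0
  v2 : f.B v v ≠ 0
  v3 : ∀ u ∈ fr.V0, ∃ c : F, u = c • v
  hζ : ∀ t, t ≠ 0 → ∃ k : ℕ, t = ζ ^ k
  q3 : 3 ≤ q
  hh : TA fr i v ζ (φ h)
  hu : ∃ l, IsE (φ u) (fr.e i) ((1 : F) • v) l
  hn : ∃ l, l ≠ 0 ∧ WA fr i v l (φ n)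

namespace D3

variable (d : D3 fr φ i v ζ h u n)
include d

theorem ζ0 : ζ ≠ 0 := fr.smul_ne_zero d.hh.1

theorem σζ0 : frobq hF ζ ≠ 0 := (_root_.map_ne_zero _).2 d.ζ0

theorem pow_ne {k : ℕ} (h0 : 0 < k) (hk : k + 1 < q ^ 2) : ζ ^ k ≠ 1 :=
  gen_pow_ne d.hζ h0 (by rwa [Nat.card_eq_fintype_card, hF])

theorem pow_sub : ζ ^ (q - 1) = frobq hF ζ / ζ := by
  rw [eq_div_iff d.ζ0, ← pow_succ, Nat.sub_add_cancel (by have := d.q3; omega), frobq_apply]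

theorem r_ne (k : ℕ) (h0 : 0 < k) (hk : k ≤ q) : (ζ / frobq hF ζ) ^ k ≠ 1 := fun e => by
  obtain ⟨p, rfl⟩ : ∃ p, q = p + 1 := ⟨q - 1, by have := d.q3; omega⟩
  have := d.q3
  refine d.pow_ne (k := p * k) (Nat.mul_pos (by omega) h0) (by nlinarith) ?_
  rw [pow_mul, show ζ ^ p = _ from d.pow_sub, ← inv_div, inv_pow, e, inv_one]

theorem θ_ne : (uP hF).σ (wt hF ζ) ≠ wt hF ζ := fun e => d.r_ne 3 (by omega) d.q3 (by
  have := d.ζ0
  have := d.σζ0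
  simp only [wt, Param.unit_σ, map_mul, map_div₀, frobq_frobq] at e
  field_simp at e ⊢
  exact e)

theorem tg : TA fr i v (ζ * frobq hF ζ) (φ (h ^ (q + 1))) ∧ wt hF (ζ * frobq hF ζ) = ζ * frobq hF ζ :=
  ⟨by rw [map_pow, frobq_apply, ← pow_succ']; exact d.hh.pow _, by
    have := d.ζ0
    have := d.σζ0
    simp only [wt, map_mul, frobq_frobq]; field_simp⟩

theorem tg0 : TA fr i v (frobq hF ζ / ζ) (φ (h ^ (q - 1))) ∧
    wt hF (frobq hF ζ / ζ) = (ζ / frobq hF ζ) ^ 3 ∧ frobq hF ζ / ζ * frobq hF (frobq hF ζ / ζ) = 1 := by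
  have := d.ζ0
  have := d.σζ0
  refine ⟨by rw [map_pow, ← d.pow_sub]; exact d.hh.pow _, ?_, ?_⟩ <;>
    simp only [wt, map_div₀, frobq_frobq] <;> field_simp

theorem tor {t : F} (ht : t ≠ 0) : ∃ k : ℕ, TA fr i v t (φ (h ^ k)) :=
  let ⟨k, hk⟩ := d.hζ t ht; ⟨k, by rw [hk, map_pow]; exact d.hh.pow k⟩

theorem u1 : ∃ l, IsE (φ (h * u * h⁻¹)) (fr.e i) ((1 * wt hF ζ) • v) l :=
  let ⟨_, hl⟩ := d.hu; ⟨_, d.hh.conj hl⟩

theorem z_spec : ∃ l, l ≠ 0 ∧ IsE (φ ⁅u, h * u * h⁻¹⁆) (fr.e i) 0 l := by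
  obtain ⟨l, hl⟩ := d.hu
  obtain ⟨l', hl'⟩ := d.u1
  refine ⟨_, fun e => d.θ_ne ?_, map_commutatorElement φ _ _ ▸ hl.comm (fr.Qe i) hl'⟩
  simp only [one_smul, one_mul, B_smul_left, unit_B_smul_right] at e
  exact (mul_right_cancel₀ d.v2 (sub_eq_zero.1 e)).symm

theorem z_conj {l : F} {z : J} (hz : IsE (φ z) (fr.e i) 0 l) (k : ℕ) :
    IsE (φ (h ^ k * z * (h ^ k)⁻¹)) (fr.e i) 0 (l * (ζ * frobq hF ζ) ^ k) :=
  (CE.isE_conj hz (by rw [map_pow]; exact apply_pow d.hh.1 k)).congr (by simp) (by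
    rw [Param.unit_σ, map_pow, mul_pow, mul_comm])

theorem RZ_le : fr.RZ i ≤ (FN h ⁅u, h * u * h⁻¹⁆).map φ := fun y ⟨m, hm⟩ => by
  obtain ⟨l, l0, hl⟩ := d.z_spec
  by_cases m0 : m = 0
  · exact (m0 ▸ hm).eq_one ▸ one_mem _
  have l1 := IsE.lam_zero hl.lam
  have m1 := IsE.lam_zero hm.lam
  simp only [Param.unit_ε, one_mul] at l1 m1
  obtain ⟨k, hk⟩ := gen_norm d.hζ (m / l) (by rw [map_div₀, l1, m1, neg_div_neg_eq])
    (div_ne_zero m0 l0)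
  exact ⟨_, mem_FN _ _ k, (d.z_conj hl k).eq (hm.congr rfl (by
    rw [show ζ * frobq hF ζ = ζ * (uP hF).σ ζ from rfl, ← hk, mul_div_cancel₀ _ l0]))⟩

theorem exists_U (t : F) : ∃ y ∈ FN (h ^ (q + 1)) u ⊔ FN (h ^ (q + 1)) (h * u * h⁻¹), ∃ l,
    IsE (φ y) (fr.e i) (t • v) l :=
  span_lines d.hζ (PC fr φ i v _) (fun _ ⟨_, h1, _, h2⟩ => ⟨_, conj_mem_sup
    (fun _ hx => mem_sup_left (conj_mem_FN hx)) (fun _ hx => mem_sup_right (conj_mem_FN hx)) h1, _,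
    d.tg.2 ▸ d.tg.1.conj h2⟩) one_ne_zero d.θ_ne ⟨u, mem_sup_left (self_mem_FN _ _), d.hu⟩
    ⟨_, mem_sup_right (self_mem_FN _ _), d.u1⟩ t

omit d in
theorem FN_pow_le (k : ℕ) : FN (h ^ k) u ⊔ FN (h ^ k) (h * u * h⁻¹) ≤ FN h u :=
  sup_le (FN_le' (conj_pow_mem (fun _ => conj_mem_FN) k) (self_mem_FN _ _))
    (FN_le' (conj_pow_mem (fun _ => conj_mem_FN) k) (conj_mem_FN (self_mem_FN _ _)))

theorem RC_le : fr.RC i ≤ (FN h u ⊔ FN h ⁅u, h * u * h⁻¹⁆).map φ := fun g ⟨w, hw, l, hg⟩ => by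
  obtain ⟨t, rfl⟩ := d.v3 w hw
  obtain ⟨y, hy, m, hm⟩ := d.exists_U t
  obtain ⟨z, hz, e⟩ := d.RZ_le (fr.inv_mul_mem_RZ hm hg)
  exact ⟨y * z, mul_mem (mem_sup_left (FN_pow_le _ hy)) (mem_sup_right hz),
    by rw [map_mul, e, mul_inv_cancel_left]⟩

theorem word_Z {z : J} {l : F} (hz : IsE (φ z) (fr.e i) 0 l) (s : ℤ[X]) :
    IsE (φ (word z h s)) (fr.e i) 0 (l * aeval (ζ * frobq hF ζ) s) :=
  word_rel (R := fun x t => IsE (φ x) (fr.e i) 0 t) (by simpa using isE_one _)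
    (fun x y s t a b => map_mul φ x y ▸ (a.mul (fr.Qe i) b).congr (add_zero _) (by simp))
    (fun x s a => map_inv φ x ▸ (a.inv (fr.Qe i)).congr neg_zero (IsE.lam_zero a.lam)) (d.z_conj hz) s

theorem word_U {x : J} {c : F} (hx : ∃ l, IsE (φ x) (fr.e i) (c • v) l) (s : ℤ[X]) :
    ∃ l, IsE (φ (word x (h ^ (q + 1)) s)) (fr.e i) ((c * aeval (ζ * frobq hF ζ) s) • v) l :=
  word_rel (R := fun x t => ∃ l, IsE (φ x) (fr.e i) (t • v) l) ⟨0, by simpa using isE_one _⟩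
    (fun x y s t ⟨_, a⟩ ⟨_, b⟩ =>
      ⟨_, map_mul φ x y ▸ (a.mul (fr.Qe i) b).congr (add_smul _ _ _).symm rfl⟩)
    (fun x s ⟨_, a⟩ => ⟨_, map_inv φ x ▸ (a.inv (fr.Qe i)).congr (neg_smul _ _).symm rfl⟩)
    (fun k => let ⟨_, hl⟩ := hx; ⟨_, by
      have := TA.conj (g := (h ^ (q + 1)) ^ k) (map_pow φ _ k ▸ d.tg.1.pow k) hl
      rwa [wt_pow, d.tg.2] at this⟩) s

section box

variable {p m : ℕ} {mp : ℤ[X]}
  (hm : ∀ s : ℤ[X], aeval (ζ * frobq hF ζ) s = 0 → ∃ g r : ℤ[X], s = g * mp + r * C (p : ℤ))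
  (a : Fam p m mp h ⁅u, h * u * h⁻¹⁆)
include hm a

theorem boxZ : Box φ (FN h ⁅u, h * u * h⁻¹⁆) (fr.RZ i) := by
  obtain ⟨l, l0, hl⟩ := d.z_spec
  refine ⟨fun y hy e => ?_, fun y hy => ?_, fun g hg => d.RZ_le hg⟩ <;>
    obtain ⟨s, rfl⟩ := a.exists_word hy
  · exact a.ker (hm s ((mul_eq_zero.1 ((e ▸ d.word_Z hl s).vec_eq (isE_one _) (fr.B_ne' i)
      (f.B_zero_left _) (f.B_zero_left _)).2).resolve_left l0))
  · exact ⟨_, d.word_Z hl s⟩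

theorem boxU {y x g z : J} (hg : g = h ^ (q + 1)) (hz : z = ⁅u, h * u * h⁻¹⁆)
    (r0 : h ^ (q ^ 2 - 1) = 1) (c0 : Commute z u) (c1 : Commute z (h * u * h⁻¹))
    (c2 : Commute z (h * (h * u * h⁻¹) * h⁻¹)) (hy : y ∈ FN (h ^ (q - 1)) u ⊔
      FN (h ^ (q - 1)) (h * u * h⁻¹) ⊔ FN (h ^ (q - 1)) (h * (h * u * h⁻¹) * h⁻¹))
    (c3 : y⁻¹ * (h * (h * (h * u * h⁻¹) * h⁻¹) * h⁻¹) ∈ FN h z)
    (r1 : u⁻¹ * (g * u * g⁻¹ * (g ^ m * u * (g ^ m)⁻¹)) ∈ FN h z) (r2 : ⁅u, g * u * g⁻¹⁆ ∈ FN h z)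
    (r3 : u ^ p ∈ FN h z) (r4 : word u g mp ∈ FN h z)
    (r6 : ⁅u, g * (h * u * h⁻¹) * g⁻¹⁆ ∈ FN h z) (hx : x ∈ FN g u ⊔ FN g (h * u * h⁻¹))
    (r7 : x⁻¹ * (h * (h * u * h⁻¹) * h⁻¹) ∈ FN h z) : Box φ (FN h u ⊔ FN h z) (fr.RC i) := by
  have bZ := d.boxZ hm a
  rw [← hz] at bZ a
  have k0 : 0 < q ^ 2 - 1 := by have := d.q3; rw [Nat.sub_pos_iff_lt]; nlinarith
  have e : Commute h (h ^ (q - 1)) := (Commute.refl h).pow_right _
  have cen := fun {a' b} => central_of_rel (a := a') (b := b) k0 r0 e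
    (fun y => a.comm' (self_mem_FN _ _)) (fun y hy => mul_inv_eq_iff_eq_mul.1 (bZ.eq
      (conj_pow_mem (fun _ => conj_mem_FN) _ y hy) hy (by
        rw [map_conj, (fr.commute_RZ d.tg0.1.1 d.tg0.2.2 (bZ.mem y hy)).eq, mul_inv_cancel_right])))
    c0 c1 c2 hy c3
  refine ⟨fun w hw e => ?_, fun w hw => sup_le (FN_le' (N := (fr.RC i).comap φ) (fun x hx => ?_) ?_)
    (fun x hx => fr.RZ_le_RC i (bZ.mem x hx)) hw, fun g hg => hz ▸ d.RC_le hg⟩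
  · obtain ⟨y, hy, z', hz', rfl⟩ := exists_mul_of_commute (fun x hx y hy => (cen hy hx).symm) hw
    obtain ⟨s, t, b1, b2⟩ := heis k0 r0 (mem_normalizer_of_commute fun x hx =>
      (cen hx (self_mem_FN _ _)).symm) (mem_normalizer_of_pow k0 r0 fun _ => conj_mem_FN) hg r1 r2 r3 r4
      (hz ▸ self_mem_FN _ _) r6 hx r7 hy
    obtain ⟨l1, d1⟩ := d.word_U d.hu s
    obtain ⟨l2, d2⟩ := d.word_U d.u1 t
    obtain ⟨l3, d3⟩ := bZ.mem _ (mul_mem b1 hz')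
    rw [mul_assoc, map_mul, e, mul_one, map_inv, map_mul, hg] at d3
    have d4 := ((d1.mul (fr.Qe i) d2).inv (fr.Qe i)).vec_eq d3 (fr.B_ne' i)
      (by simp [fr.mem_V0.1 d.v1]) (f.B_zero_left _) |>.1
    rw [neg_eq_zero, ← add_smul, smul_eq_zero, one_mul, one_mul] at d4
    replace d4 := d4.resolve_right fun e => d.v2 (by simp [e])
    have fx : ∀ s : ℤ[X], frobq hF (aeval (ζ * frobq hF ζ) s) = aeval (ζ * frobq hF ζ) s := fun s => by
      rw [← RingHom.toIntAlgHom_coe, ← aeval_algHom_apply, RingHom.toIntAlgHom_coe, map_mul,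
        frobq_frobq, mul_comm]
    have d5 : aeval (ζ * frobq hF ζ) t = 0 := by
      have := congrArg (frobq hF) d4
      rw [map_add, map_mul, fx, fx, map_zero] at this
      exact (mul_eq_zero.1 (show (frobq hF (wt hF ζ) - wt hF ζ) * _ = 0 by
        linear_combination this - d4)).resolve_left (sub_ne_zero.2 d.θ_ne)
    exact bZ.inj _ (mul_mem (b2 (hm s (by simpa [d5] using d4)) (hm t d5)) hz') e
  · change φ _ ∈ fr.RC i
    rw [map_conj]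
    exact (d.hh.mv i).conj_RC ⟨fun k => ⟨k, d.hh.mv k⟩, fun k => ⟨k, d.hh.mv k⟩⟩ hx
  · exact ⟨_, Submodule.smul_mem _ _ d.v1, d.hu⟩

end box

theorem injective [Finite I] {U : Subgroup J} (box : Box φ U (fr.RC i))
    (hU : ∀ x ∈ U, h * x * h⁻¹ ∈ U) (r0 : h ^ (q ^ 2 - 1) = 1) (r1 : n * h * n ∈ zpowers h)
    (r2 : n * n ∈ zpowers h) (gen : ∀ K : Subgroup J, U ≤ K → h ∈ K → n ∈ K → K = ⊤) {c₁ l₀ l₁ : F}
    (l0 : l₀ ≠ 0) (l1 : l₁ ≠ 0) (l2 : frobq hF l₁ = -(ζ / frobq hF ζ * l₁))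
    (g0 : ∃ x ∈ U, IsE (φ x) (fr.e i) ((0 : F) • v) l₀ ∧ ∃ a ∈ U, ∃ b ∈ U,
      n * a * n⁻¹ * x * (n * b * n⁻¹) ∈ closure {h, n})
    (g1 : ∀ j < 3, ∃ x ∈ U, IsE (φ x) (fr.e i) (((ζ / frobq hF ζ) ^ j * c₁) • v) l₁ ∧ ∃ a ∈ U, ∃ b ∈ U,
      n * a * n⁻¹ * x * (n * b * n⁻¹) ∈ closure {h, n}) : Function.Injective φ := by
  classical
  set σ := frobq hF with hσ
  have σσ : ∀ a, σ (σ a) = a := frobq_frobq hF
  have σ0 : ∀ {a}, a ≠ 0 → σ a ≠ 0 := fun h => (map_ne_zero σ).2 h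
  have k0 : 0 < q ^ 2 - 1 := by have := d.q3; rw [Nat.sub_pos_iff_lt]; nlinarith
  obtain ⟨ln, -, hn⟩ := d.hn
  have n1 : fr.Mv (φ n) (-i) i := ⟨_, hn.1⟩
  have n2 : fr.Mv (φ n) i (-i) := ⟨_, hn.2.1⟩
  have nM : φ n ∈ fr.Mon := fr.mem_Mon fun k => by
    rcases d.hI i k with rfl | rfl; exacts [⟨_, n2⟩, ⟨_, n1⟩]
  have UR : ∀ a, fr.U a ≤ fr.RC a := fun a =>
    fr.U_le (fun b b1 b2 => ((d.hI a b).elim b1 b2).elim) le_rfl
  have hT : zpowers h ≤ normalizer (U : Set J) := zpowers_le.2 (mem_normalizer_of_pow k0 r0 hU)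
  let W : I → Subgroup J := fun a => if a = i then U else U.comap (MulAut.conj n⁻¹).toMonoidHom
  have W1 : W i = U := if_pos rfl
  have W2 : ∀ {x}, x ∈ W (-i) ↔ n⁻¹ * x * n ∈ U := by simp [W, fr.ne i]
  have bW : ∀ a, Box φ (W a) (fr.RC a) := fun a => by
    rcases d.hI i a with rfl | rfl
    · exact W1 ▸ box
    refine ⟨fun x hx e => conj_eq_one_iff.1 (show n⁻¹ * x * n⁻¹⁻¹ = 1 by
      rw [inv_inv]; exact box.inj _ (W2.1 hx) (by simp [e])), fun x hx => by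
      simpa [mul_assoc] using n2.conj_RC nM (box.mem _ (W2.1 hx)), fun g hg => ?_⟩
    obtain ⟨x, hx, e⟩ := box.surj _ (n2.inv.conj_RC (inv_mem nM) hg)
    exact ⟨n * x * n⁻¹, W2.2 (by simpa [mul_assoc]), by simp [e, mul_assoc]⟩
  have P0 : PSt0 fr φ W := ⟨fun a => (bW a).inj, fun a x hx => fr.RC_le_U a ((bW a).mem x hx),
    fun a g hg => (bW a).surj g (UR a hg), fun a b x hx e y hy => by
      rcases d.hI b a with rfl | rfl
      · exact mul_mem (mul_mem hx hy) (inv_mem hx)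
      · rwa [(bW b).inj x hx (fr.U_eq_one (fr.RC_le_U b ((bW b).mem x hx)) (c := 1)
          (by rwa [one_smul])), one_mul, inv_one, mul_one],
    fun a b b1 b2 => ((d.hI a b).elim b1 b2).elim⟩
  set M := closure {h, n}
  have hM : h ∈ M := subset_closure (by simp)
  have nM' : n ∈ M := subset_closure (by simp)
  have MM : M ≤ Mx fr φ W := (closure_le _).2 (by
    rintro _ (rfl | rfl)
    · refine P0.mem_Mx (fr.mem_Mon fun k => ⟨k, d.hh.mv k⟩) fun a b e y hy => ?_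
      obtain rfl := e.unique (d.hh.mv a)
      rcases d.hI i b with rfl | rfl
      · exact W1 ▸ hU y (W1 ▸ hy)
      · simpa [W2, mul_assoc] using (hT (mul_mem (inv_mem r2) r1) _).1 (W2.1 hy)
    · refine P0.mem_Mx nM fun a b e y hy => ?_
      rcases d.hI i a with rfl | rfl
      · exact e.unique n2 ▸ W2.2 (by simpa [mul_assoc, W1] using hy)
      · rw [e.unique n1, W1]
        simpa [mul_assoc] using (hT r2 _).1 (W2.1 hy))
  let Gd : J → Prop := fun x => ∃ y ∈ W (-i), ∃ y' ∈ W (-i), y * x * y' ∈ M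
  have G0 : ∀ {x}, (∃ a ∈ U, ∃ b ∈ U, n * a * n⁻¹ * x * (n * b * n⁻¹) ∈ M) → Gd x :=
    fun ⟨a, ha, b, hb, e⟩ => ⟨_, W2.2 (by simpa [mul_assoc]), _, W2.2 (by simpa [mul_assoc]), e⟩
  have G1 : ∀ {x₀ x} {c₀ c m₀ m t : F}, x₀ ∈ U → IsE (φ x₀) (fr.e i) (c₀ • v) m₀ → Gd x₀ → x ∈ U →
      IsE (φ x) (fr.e i) (c • v) m → t ≠ 0 → c = c₀ * wt hF t → m = t * σ t * m₀ → Gd x := by
    rintro x₀ x c₀ _ m₀ _ t a1 a2 ⟨y, hy, y', hy', e⟩ b1 b2 t0 rfl rfl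
    obtain ⟨k, hk⟩ := d.tor t0
    have a3 := pow_mem hM k
    rw [box.eq b1 (conj_pow_mem hU k _ a1) (b2.eq (hk.conj a2))]
    exact ⟨_, Mx_conj (MM a3) (hk.mv _) hy, _, Mx_conj (MM a3) (hk.mv _) hy',
      by simpa [mul_assoc] using mul_mem (mul_mem a3 e) (inv_mem a3)⟩
  have nm : ∀ {x : f.Isom} {c l : F}, IsE x (fr.e i) (c • v) l → c * σ c * f.B v v = l + σ l :=
    fun w => by rw [f.unit_isLam_iff.1 w.lam, B_smul_left, unit_B_smul_right, mul_assoc]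
  have ex : ∀ {c l : F}, c * σ c * f.B v v = l + σ l → ∃ x ∈ U, IsE (φ x) (fr.e i) (c • v) l :=
    fun {c l} e => by
      have a := Submodule.smul_mem _ c d.v1
      obtain ⟨g, hg⟩ := exists_isE (fr.Qe i) (fr.mem_V0.1 a i) (f.unit_isLam_iff.2 (by
        rw [← e, B_smul_left, unit_B_smul_right, mul_assoc]))
      obtain ⟨x, hx, rfl⟩ := box.surj g ⟨_, a, _, hg⟩
      exact ⟨x, hx, hg⟩
  let FG : F → Prop := fun r => ∀ x ∈ U, ∀ c l : F, IsE (φ x) (fr.e i) (c • v) l → l ≠ 0 →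
    σ l = -(r * l) → Gd x
  have tt : ∀ {l l' r : F}, l ≠ 0 → l' ≠ 0 → σ l = -(r * l) → σ l' = -(r * l') →
      ∃ t, t ≠ 0 ∧ l = t * σ t * l' := fun {l l' r} a b c e => by
    obtain ⟨t, ht⟩ := exists_norm_eq hF (c := l / l') (by
      rw [map_div₀, div_eq_div_iff (σ0 b) b, ← hσ, c, e]; ring)
    exact ⟨t, fun e => div_ne_zero a b (by rw [← ht, e, zero_mul]), by rw [ht, div_mul_cancel₀ _ b]⟩
  have F1 : FG 1 := fun x hx c l a1 a2 a3 => by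
    obtain ⟨z, z1, z2, z3⟩ := g0
    obtain ⟨t, t0, ht⟩ := tt a2 l0 a3 (by have := nm z2; linear_combination -this)
    refine G1 z1 z2 (G0 z3) hx a1 t0 ?_ ht
    have := nm a1
    rw [a3, one_mul, add_neg_cancel, mul_eq_zero, mul_eq_zero, map_eq_zero, or_self] at this
    rw [zero_mul, this.resolve_right d.v2]
  have ρ1 : ζ / σ ζ * σ (ζ / σ ζ) = 1 := by
    have := d.ζ0; have := σ0 d.ζ0; rw [map_div₀, σσ]; field_simp
  set r := ζ / σ ζ
  have ρ2 : 1 - r ≠ 0 := sub_ne_zero.2 (pow_one r ▸ d.r_ne 1 one_pos (by have := d.q3; omega)).symm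
  have ρ3 : ∀ s, s * σ s = 1 → ∃ k : ℕ, s = r ^ k := fun s hs => by
    obtain ⟨l, a, e⟩ := exists_div_frob hF (s := s⁻¹) (by rw [map_inv₀, ← mul_inv, hs, inv_one])
    obtain ⟨k, rfl⟩ := d.hζ l a
    exact ⟨k, by rw [← inv_inv s, e, map_pow, inv_div, div_pow]⟩
  have F2 : FG r := fun x hx c l a1 a2 a3 => by
    obtain ⟨t, t0, ht⟩ := tt a2 l1 a3 l2
    obtain ⟨_, -, b0, -⟩ := g1 0 (by omega)
    have b1 := nm b0
    rw [pow_zero, one_mul, l2] at b1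
    have c0 : c₁ ≠ 0 := fun e => mul_ne_zero ρ2 l1 (by rw [e] at b1; linear_combination -b1)
    have w0 : wt hF t ≠ 0 := mul_ne_zero (σ0 t0) (div_ne_zero (σ0 t0) t0)
    obtain ⟨k, hk⟩ := ρ3 (c / (c₁ * wt hF t)) (by
      have := σ0 c0
      have := σ0 w0
      have b2 := nm a1
      rw [a3, ht, ← wt_norm t0] at b2
      rw [map_div₀, map_mul]
      field_simp
      exact mul_right_cancel₀ d.v2 (by linear_combination b2 - wt hF t * σ (wt hF t) * b1))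
    obtain ⟨x', c1, c2, c3⟩ := g1 (k % 3) (Nat.mod_lt _ (by omega))
    refine G1 c1 c2 (G0 c3) hx a1 (mul_ne_zero t0 (pow_ne_zero (k / 3) (div_ne_zero d.σζ0 d.ζ0))) ?_ ?_
    · rw [wt_mul, wt_pow, d.tg0.2.1, ← pow_mul, (div_eq_iff (mul_ne_zero c0 w0)).1 hk]
      conv_lhs => rw [← Nat.mod_add_div k 3]
      ring
    · rw [map_mul, map_pow, mul_mul_mul_comm, ← mul_pow, d.tg0.2.2, one_pow, mul_one, ht]
  have F3 : ∀ {s}, FG s → FG (r * s) := fun {s} hs x hx c l a1 a2 a3 => by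
    by_cases e : l + σ l = 0
    · exact F1 x hx c l a1 a2 (by linear_combination e)
    have b0 := div_ne_zero e ρ2
    have b1 : σ ((l + σ l) / (1 - r)) = -(r * ((l + σ l) / (1 - r))) := by
      have r0 := left_ne_zero_of_mul_eq_one ρ1
      have : r - 1 ≠ 0 := fun e => ρ2 (by linear_combination -e)
      rw [map_div₀, map_add, map_sub, σσ, map_one, eq_inv_of_mul_eq_one_right ρ1]
      field_simp; ring
    have b2 : (l + σ l) / (1 - r) + σ ((l + σ l) / (1 - r)) = l + σ l := by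
      rw [b1]; field_simp; ring
    generalize (l + σ l) / (1 - r) = l' at b0 b1 b2
    obtain ⟨x₁, c1, c2⟩ := ex ((nm a1).trans b2.symm)
    obtain ⟨y₁, d1, y₁', d2, d3⟩ := F2 x₁ c1 c l' c2 b0 b1
    by_cases m0 : l - l' = 0
    · exact box.eq c1 hx (c2.eq (a1.congr rfl (sub_eq_zero.1 m0))) ▸ ⟨y₁, d1, y₁', d2, d3⟩
    have b3 : σ (l - l') = -(1 * (l - l')) := by rw [map_sub]; linear_combination -b2
    obtain ⟨x₂, c3, c4⟩ := ex (c := 0) (l := l - l') (by rw [b3]; ring)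
    obtain ⟨y₂, d4, y₂', d5, d6⟩ := F1 x₂ c3 0 _ c4 m0 b3
    obtain rfl : x = x₁ * x₂ := box.eq hx (mul_mem c1 c3) (a1.eq (by
      rw [map_mul]; exact (c2.mul (fr.Qe i) c4).congr (by simp) (by simp)))
    obtain ⟨v1, -, α, -, p1⟩ := fr.W2_spec (Submodule.smul_mem _ _ d.v1) b0 c2 ((bW _).mem _ d1)
      ((bW _).mem _ d2) (by simpa only [map_mul] using (MM d3).1)
    obtain ⟨v2, β, -, p2, -⟩ := fr.W2_spec (Submodule.smul_mem _ _ d.v1) m0 c4 ((bW _).mem _ d4)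
      ((bW _).mem _ d5) (by simpa only [map_mul] using (MM d6).1)
    rw [← map_mul, ← map_mul] at v1 v2
    obtain ⟨t, ht⟩ := id v1
    have t0 := fr.smul_ne_zero ht
    have p3 := ((p2.mul (fr.Qe _) p1).inv (fr.Qe _)).of_conj ht t0
    rw [← map_mul, ← map_inv, ← map_conj] at p3
    obtain ⟨γ, hγ⟩ := d.v3 _ (Submodule.smul_mem _ ((uP hF).σ t) (fr.mem_V0_of_mon (MM d3).1
      (neg_mem (add_mem (Submodule.smul_mem _ β (Submodule.smul_mem _ 0 d.v1))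
        (Submodule.smul_mem _ α (Submodule.smul_mem _ c d.v1))))))
    have B0 := fr.B_ne i
    have B1 := σ0 B0
    have t1 := σ0 t0
    have r0 := left_ne_zero_of_mul_eq_one ρ1
    have e1 : l - l' + l' ≠ 0 := by rwa [sub_add_cancel]
    have e2 : r * l' + (l - l') = r * s * (l - l' + l') := by
      linear_combination b1 + b3 - a3 - map_sub σ l l'
    generalize l - l' = m at *
    obtain ⟨y₃, d7, y₃', d8, d9⟩ := hs _ (W1 ▸ Mx_conj (MM d3) v1 (inv_mem (mul_mem d4 d2))) γ _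
      (hγ ▸ p3) (by
        simp only [Param.unit_σ, Param.unit_ε, ← hσ, map_add, map_inv₀, map_mul, σσ, zero_smul,
          smul_zero, B_zero_right, add_zero, one_mul]
        field_simp
        simp [t0, t1, e1, add_comm l', m0, b0, B0]) (by
        simp only [Param.unit_σ, Param.unit_ε, ← hσ, map_add, map_inv₀, map_mul, σσ, zero_smul,
          smul_zero, B_zero_right, add_zero, one_mul]
        rw [b1, b3]
        field_simp
        linear_combination -e2)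
    have v3 : fr.Mv (φ (y₁ * x₁ * y₁' * (y₂ * x₂ * y₂'))) (-i) (-i) :=
      Base.mv_mul (by simpa using v1.neg' (MM d3).1) v2
    exact ⟨y₃ * y₁, mul_mem d7 d1, _, mul_mem d5 (Mx_conj (MM (inv_mem (mul_mem d3 d6)))
      (Base.mv_inv v3) d8), by convert mul_mem d9 (mul_mem d3 d6) using 1; group⟩
  have F4 : ∀ x ∈ U, x ≠ 1 → Gd x := fun x hx x0 => by
    obtain ⟨w, hw, l, hl⟩ := box.mem x hx
    have a := fr.l_ne_zero hw hl fun e => x0 (box.inj x hx e)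
    obtain ⟨c, rfl⟩ := d.v3 w hw
    obtain ⟨k, hk⟩ := ρ3 (-(σ l / l)) (by have := σ0 a; rw [map_neg, map_div₀, σσ]; field_simp)
    have : ∀ k : ℕ, FG (r ^ k) := fun k => by
      induction k with
      | zero => rwa [pow_zero]
      | succ k ih => rw [pow_succ']; exact F3 ih
    exact this k x hx c l hl a (by rw [← hk]; field_simp)
  refine PSt.injective (U := W) (M := M) ⟨P0, fun m hm a => let ⟨b, hb⟩ := (MM hm).1.1 a
    ⟨b, hb, fun y => Mx_conj (MM hm) hb⟩, fun a b b1 b2 => ((d.hI a b).elim b1 b2).elim,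
    fun a x hx _ x0 => ?_⟩ (gen _ (le_sup_of_le_left (le_iSup_of_le i W1.ge)) (mem_sup_right hM)
      (mem_sup_right nM')) fun m hm e => ?_
  · suffices ∃ y ∈ W (-a), ∃ y' ∈ W (-a), y * x * y' ∈ M from let ⟨y, hy, y', hy', e⟩ := this
      ⟨y, hy, y', hy', (bW _).mem y hy, (bW _).mem y' hy', e⟩
    rcases d.hI i a with rfl | rfl
    · exact F4 x (W1 ▸ hx) x0
    obtain ⟨y, hy, y', hy', e⟩ := F4 _ (W1 ▸ Mx_conj (MM nM') n1 hx) (conj_ne_one x0 n)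
    rw [neg_neg, W1]
    exact ⟨_, W2.1 hy, _, W2.1 hy', by simpa [mul_assoc] using mul_mem (mul_mem (inv_mem nM') e) nM'⟩
  have q1 : ∀ g ∈ zpowers h, n * g * n⁻¹ ∈ zpowers h := fun g ⟨k, hk⟩ => by
    have := zpow_mem (mul_mem r1 (inv_mem r2)) k
    rwa [show n * h * n * (n * n)⁻¹ = n * h * n⁻¹ by group, conj_zpow, show h ^ k = g from hk] at this
  have q2 : ∀ s ∈ zpowers h, ∀ g, g ∈ zpowers h ∨ g * n⁻¹ ∈ zpowers h →
      (s * g ∈ zpowers h ∨ s * g * n⁻¹ ∈ zpowers h) ∧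
      (s * n * g ∈ zpowers h ∨ s * n * g * n⁻¹ ∈ zpowers h) := by
    rintro s hs g (hg | hg)
    · exact ⟨.inl (mul_mem hs hg), .inr (by simpa [mul_assoc] using mul_mem hs (q1 g hg))⟩
    · exact ⟨.inr (mul_assoc s g _ ▸ mul_mem hs hg),
        .inl (by simpa [mul_assoc] using mul_mem (mul_mem hs (q1 _ hg)) r2)⟩
  have : m ∈ zpowers h ∨ m * n⁻¹ ∈ zpowers h := by
    clear e
    induction hm using closure_induction_left with
    | one => exact .inl (one_mem _)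
    | mul_left x hx y _ ih =>
      rcases hx with rfl | rfl
      · exact (q2 _ (mem_zpowers _) y ih).1
      · simpa using (q2 1 (one_mem _) y ih).2
    | inv_mul_cancel x hx y _ ih =>
      rcases hx with rfl | rfl
      · exact (q2 _ (inv_mem (mem_zpowers _)) y ih).1
      · simpa [mul_assoc] using (q2 _ (inv_mem r2) y ih).2
  have fin := fun {x} => (isOfFinOrder_iff_pow_eq_one.2 ⟨_, k0, r0⟩).mem_powers_iff_mem_zpowers (y := x)
  rcases this with e' | e' <;> obtain ⟨k, hk⟩ := fin.2 e' <;> have a := (d.hh.pow k).1 <;>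
    rw [← map_pow, show h ^ k = _ from hk] at a
  · rw [e] at a
    have b : ζ ^ (k % (q ^ 2 - 1)) = 1 := by
      rw [← pow_eq_pow_mod k (hF ▸ FiniteField.pow_card_sub_one_eq_one ζ d.ζ0)]
      exact smul_left_injective F (fr.e_ne_zero i) (a.symm.trans (one_smul F _).symm)
    rw [← show h ^ k = m from hk, pow_eq_pow_mod k r0, show k % (q ^ 2 - 1) = 0 from by
      by_contra e
      exact d.pow_ne (Nat.pos_of_ne_zero e) (by have := Nat.mod_lt k k0; omega) b, pow_zero]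
  · rw [map_mul, e, one_mul] at a
    exact absurd ((Base.mv_inv n1).unique ⟨_, a⟩) (fr.ne i)

end D3

end Cfsg.Agent.Cls
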