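import Cfsg.Agent.Lib.Cls.UPres2

/-!
Group theoretic lemmas for a presentation of the Borel subgroup of `SU₃`.
-/

set_option autoImplicit false

namespace Cfsg.Agent.Cls

open Subgroup Polynomial SL2
open scoped commutatorElement

universe u

variable {J : Type*} [Group J] {g h u v y : J}

/-- the group generated by the conjugates of `u` under the powers of `g` -/
def FN {J : Type*} [Group J] (g u : J) : Subgroup J :=
  closure (Set.range fun k : ℕ => g ^ k * u * (g ^ k)⁻¹)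

theorem map_FN {J' : Type*} [Group J'] (ψ : J →* J') (g u : J) :
    (FN g u).map ψ = FN (ψ g) (ψ u) := by
  simp [FN, MonoidHom.map_closure, ← Set.range_comp, Function.comp_def]

theorem mem_FN (g u : J) (k : ℕ) : g ^ k * u * (g ^ k)⁻¹ ∈ FN g u := subset_closure ⟨k, rfl⟩

theorem self_mem_FN (g u : J) : u ∈ FN g u := by simpa using mem_FN g u 0

theorem FN_le {N : Subgroup J} (h : ∀ k : ℕ, g ^ k * u * (g ^ k)⁻¹ ∈ N) : FN g u ≤ N :=
  (closure_le _).2 (by rintro _ ⟨k, rfl⟩; exact h k)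

theorem FN_le' {N : Subgroup J} (h1 : ∀ x ∈ N, g * x * g⁻¹ ∈ N) (h2 : u ∈ N) : FN g u ≤ N :=
  FN_le fun k => conj_pow_mem h1 k u h2

theorem conj_FN (e : Commute h g) (hy : y ∈ FN g u) : h * y * h⁻¹ ∈ FN g (h * u * h⁻¹) := by
  have := mem_map_of_mem (MulAut.conj h).toMonoidHom hy
  rwa [map_FN, MulEquiv.coe_toMonoidHom, MulAut.conj_apply, MulAut.conj_apply, MulAut.conj_apply,
    e.eq, mul_inv_cancel_right] at this

theorem conj_mem_FN (hy : y ∈ FN g u) : g * y * g⁻¹ ∈ FN g u :=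
  conj_mem_of_closure (by
    rintro _ ⟨k, rfl⟩
    convert mem_FN g u (k + 1) using 1
    rw [pow_succ']; group) hy

theorem mem_normalizer_of_pow {N : Subgroup J} {k : ℕ} (k0 : 0 < k) (hk : g ^ k = 1)
    (h : ∀ x ∈ N, g * x * g⁻¹ ∈ N) : g ∈ normalizer (N : Set J) :=
  mem_normalizer_iff.2 fun x => ⟨h x, fun hx => by
    have := conj_pow_mem h (k - 1) _ hx
    rwa [show g ^ (k - 1) * (g * x * g⁻¹) * (g ^ (k - 1))⁻¹ = g ^ (k - 1) * g * x * (g ^ (k - 1) * g)⁻¹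
      by group, ← pow_succ, Nat.sub_add_cancel k0, hk, one_mul, inv_one, mul_one] at this⟩

theorem commute_two_fam {m : ℕ} (hu : u = g * u * g⁻¹ * (g ^ m * u * (g ^ m)⁻¹))
    (hv : v = g * v * g⁻¹ * (g ^ m * v * (g ^ m)⁻¹)) (c0 : Commute u v)
    (c1 : Commute u (g * v * g⁻¹)) (k : ℕ) : Commute u (g ^ k * v * (g ^ k)⁻¹) := by
  have e : ∀ k : ℕ, g ^ k * v * (g ^ k)⁻¹ =
      g ^ (k + 1) * v * (g ^ (k + 1))⁻¹ * (g ^ (k + m) * v * (g ^ (k + m))⁻¹) := fun k => by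
    conv_lhs => rw [hv]
    group
  suffices Commute u (g ^ k * v * (g ^ k)⁻¹) ∧ Commute u (g ^ (k + 1) * v * (g ^ (k + 1))⁻¹) from
    this.1
  induction k with
  | zero => simpa using ⟨c0, c1⟩
  | succ k ih =>
    have a : Commute u (g ^ (k + m) * v * (g ^ (k + m))⁻¹) := by
      have := ih.2.inv_right.mul_right ih.1
      rwa [e k, inv_mul_cancel_left] at this
    have b : Commute u (g ^ (k + 1 + m) * v * (g ^ (k + 1 + m))⁻¹) := by
      rw [hu]
      refine .mul_left ?_ ?_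
      · rw [show g ^ (k + 1 + m) * v * (g ^ (k + 1 + m))⁻¹ =
          g * (g ^ (k + m) * v * (g ^ (k + m))⁻¹) * g⁻¹ by group]
        exact a.conj g
      · rw [show g ^ (k + 1 + m) * v * (g ^ (k + 1 + m))⁻¹ =
          g ^ m * (g ^ (k + 1) * v * (g ^ (k + 1))⁻¹) * (g ^ m)⁻¹ by group]
        exact ih.2.conj _
    refine ⟨ih.2, ?_⟩
    have := ih.2.mul_right b.inv_right
    rwa [e (k + 1), mul_inv_cancel_right] at this

/-- relations for an additive family -/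
structure Fam {J : Type*} [Group J] (p m : ℕ) (mp : ℤ[X]) (g u : J) : Prop where
  r1 : u = g * u * g⁻¹ * (g ^ m * u * (g ^ m)⁻¹)
  r2 : Commute u (g * u * g⁻¹)
  r3 : u ^ p = 1
  r4 : word u g mp = 1

namespace Fam

variable {p m : ℕ} {mp : ℤ[X]} (a : Fam p m mp g u)
include a

theorem comm (k : ℕ) : Commute u (g ^ k * u * (g ^ k)⁻¹) :=
  commute_two_fam a.r1 a.r1 (.refl u) a.r2 k

theorem exists_word (hy : y ∈ FN g u) : ∃ f, y = word u g f := by
  obtain ⟨E, h1, -⟩ := exists_wordHom a.comm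
  obtain ⟨f, rfl⟩ := FN_le (N := E.range) (fun k => ⟨_, (h1 _).trans (word_X_pow a.comm k)⟩) hy
  exact ⟨_, h1 f⟩

theorem comm' {x : J} (hx : x ∈ FN g u) (hy : y ∈ FN g u) : Commute x y := by
  obtain ⟨f, rfl⟩ := a.exists_word hx
  obtain ⟨f', rfl⟩ := a.exists_word hy
  rw [Commute, SemiconjBy, ← word_add a.comm, ← word_add a.comm, add_comm]

theorem ker {f : ℤ[X]} (hf : ∃ s r : ℤ[X], f = s * mp + r * C (p : ℤ)) : word u g f = 1 := by
  obtain ⟨s, r, rfl⟩ := hf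
  rw [word_add a.comm, word_mul_of_eq_one a.comm a.r4,
    word_mul_of_eq_one a.comm (by rw [word_C, zpow_natCast, a.r3]), mul_one]

theorem conj (e : Commute h g) : Fam p m mp g (h * u * h⁻¹) := by
  have e' : (MulAut.conj h).toMonoidHom g = g := mul_inv_eq_iff_eq_mul.2 e
  rw [show h * u * h⁻¹ = (MulAut.conj h).toMonoidHom u from rfl]
  generalize (MulAut.conj h).toMonoidHom = ψ at e'
  exact ⟨by simpa only [map_mul, map_inv, map_pow, e'] using congrArg ψ a.r1,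
    by simpa only [map_mul, map_inv, e'] using a.r2.map ψ, by rw [← map_pow, a.r3, map_one],
    by simpa only [map_word, map_one, e'] using congrArg ψ a.r4⟩

end Fam

theorem word_rel {A : Type*} [CommRing A] {R : J → A → Prop} (h1 : R 1 0)
    (h2 : ∀ x y s t, R x s → R y t → R (x * y) (s + t)) (h3 : ∀ x s, R x s → R x⁻¹ (-s)) {ω c : A}
    (h4 : ∀ k : ℕ, R (g ^ k * u * (g ^ k)⁻¹) (c * ω ^ k)) (f : ℤ[X]) :
    R (word u g f) (c * aeval ω f) := by
  have k0 : ∀ x s, R x s → ∀ n : ℕ, R (x ^ n) (n * s) := fun x s hx n => by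
    induction n with
    | zero => simpa
    | succ n ih => rw [pow_succ, Nat.cast_succ, add_mul, one_mul]; exact h2 _ _ _ _ ih hx
  have k1 : ∀ x s, R x s → ∀ n : ℤ, R (x ^ n) (n * s) := fun x s hx n => by
    obtain ⟨n, rfl | rfl⟩ := n.eq_nat_or_neg
    · simpa using k0 x s hx n
    · simpa using h3 _ _ (k0 x s hx n)
  rw [aeval_eq_sum_range, word]
  induction f.natDegree + 1 with
  | zero => simpa
  | succ n ih =>
    rw [List.range_succ, List.map_append, List.prod_append, Finset.sum_range_succ, mul_add]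
    refine h2 _ _ _ _ ih ?_
    simpa [mul_left_comm] using k1 _ _ (h4 n) (f.coeff n)

theorem central_of_rel {z : J} {k : ℕ} (k0 : 0 < k) (hk : h ^ k = 1) (e : Commute h g)
    (a0 : ∀ y ∈ FN h z, Commute z y) (a1 : ∀ y ∈ FN h z, Commute g y) (c0 : Commute z u)
    (c1 : Commute z (h * u * h⁻¹)) (c2 : Commute z (h * (h * u * h⁻¹) * h⁻¹))
    (hy : y ∈ FN g u ⊔ FN g (h * u * h⁻¹) ⊔ FN g (h * (h * u * h⁻¹) * h⁻¹))
    (r : y⁻¹ * (h * (h * (h * u * h⁻¹) * h⁻¹) * h⁻¹) ∈ FN h z) {a b : J} (ha : a ∈ FN h z)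
    (hb : b ∈ FN h u) : Commute a b := by
  set W := FN g u ⊔ FN g (h * u * h⁻¹) ⊔ FN g (h * (h * u * h⁻¹) * h⁻¹) ⊔ FN h z
  have w1 : ∀ x ∈ W, g * x * g⁻¹ ∈ W := fun _ => conj_mem_sup (fun _ => conj_mem_sup
    (fun _ => conj_mem_sup (fun _ hx => mem_sup_left (mem_sup_left (mem_sup_left (conj_mem_FN hx))))
      fun _ hx => mem_sup_left (mem_sup_left (mem_sup_right (conj_mem_FN hx))))
    fun _ hx => mem_sup_left (mem_sup_right (conj_mem_FN hx)))
    fun x hx => mem_sup_right (conj_mem_of_commute (a1 x hx) hx)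
  have w2 : ∀ x ∈ W, h * x * h⁻¹ ∈ W := fun _ => conj_mem_sup (fun _ => conj_mem_sup
    (fun _ => conj_mem_sup (fun _ hx => mem_sup_left (mem_sup_left (mem_sup_right (conj_FN e hx))))
      fun _ hx => mem_sup_left (mem_sup_right (conj_FN e hx)))
    fun _ hx => FN_le' w1 ((mul_mem_cancel_left (inv_mem (mem_sup_left hy))).1 (mem_sup_right r))
      (conj_FN e hx)) fun x hx => mem_sup_right (conj_mem_FN hx)
  have w3 : ∀ {v}, Commute z v → FN g v ≤ centralizer {z} := fun hv => FN_le' (fun x hx =>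
    mul_mem (mul_mem (mem_centralizer_singleton_iff.2 (a1 z (self_mem_FN _ _))) hx)
      (inv_mem (mem_centralizer_singleton_iff.2 (a1 z (self_mem_FN _ _)))))
    (mem_centralizer_singleton_iff.2 hv.symm)
  have w4 : FN h u ≤ centralizer {z} :=
    (FN_le' w2 (mem_sup_left (mem_sup_left (mem_sup_left (self_mem_FN _ _))))).trans (sup_le
      (sup_le (sup_le (w3 c0) (w3 c1)) (w3 c2)) fun x hx =>
        mem_centralizer_singleton_iff.2 (a0 x hx).symm)
  have w5 := mem_normalizer_of_pow k0 hk fun x => conj_mem_FN (g := h) (u := u)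
  refine (FN_le (N := centralizer {b}) (fun j => mem_centralizer_singleton_iff.2 ?_) ha b rfl).symm
  simpa [mul_assoc] using (Commute.conj (w4 ((mem_normalizer_iff.1 (inv_mem (pow_mem w5 j)) b).1 hb)
    z rfl) (h ^ j)).eq

theorem heis_quot {p m k : ℕ} {mp : ℤ[X]} (k0 : 0 < k) (hk : g ^ k = 1) (e : Commute h g)
    (a : Fam p m mp g u) (c0 : Commute u (h * u * h⁻¹)) (c1 : Commute u (g * (h * u * h⁻¹) * g⁻¹))
    (r : h * (h * u * h⁻¹) * h⁻¹ ∈ FN g u ⊔ FN g (h * u * h⁻¹)) (hy : y ∈ FN h u) :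
    ∃ f₁ f₂, y = word u g f₁ * word (h * u * h⁻¹) g f₂ := by
  have a' := a.conj e
  have w1 : ∀ x ∈ FN g u ⊔ FN g (h * u * h⁻¹), g * x * g⁻¹ ∈ FN g u ⊔ FN g (h * u * h⁻¹) :=
    fun _ => conj_mem_sup (fun _ hx => mem_sup_left (conj_mem_FN hx))
      fun _ hx => mem_sup_right (conj_mem_FN hx)
  have w2 := FN_le' (fun _ => conj_mem_sup (fun _ hx => mem_sup_right (conj_FN e hx))
    fun _ hx => FN_le' w1 r (conj_FN e hx)) (mem_sup_left (self_mem_FN g u)) hy
  have w3 : FN g (h * u * h⁻¹) ≤ centralizer {u} := FN_le fun j =>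
    mem_centralizer_singleton_iff.2 (commute_two_fam a.r1 a'.r1 c0 c1 j).symm
  have w5 := mem_normalizer_of_pow k0 hk fun x => conj_mem_FN (g := g) (u := h * u * h⁻¹)
  obtain ⟨x, hx, x', hx', rfl⟩ := exists_mul_of_commute (fun x hx b hb => by
    refine (FN_le (N := centralizer {b}) (fun j => mem_centralizer_singleton_iff.2 ?_) hx b rfl).symm
    simpa [mul_assoc] using (Commute.conj (w3 ((mem_normalizer_iff.1 (inv_mem (pow_mem w5 j)) b).1 hb)
      u rfl) (g ^ j)).eq) w2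
  obtain ⟨f₁, rfl⟩ := a.exists_word hx
  obtain ⟨f₂, rfl⟩ := a'.exists_word hx'
  exact ⟨f₁, f₂, rfl⟩

theorem heis {Z : Subgroup J} {p m k b : ℕ} {mp : ℤ[X]} (k0 : 0 < k) (hk : h ^ k = 1)
    (hu : u ∈ normalizer (Z : Set J)) (hh : h ∈ normalizer (Z : Set J)) (hg : g = h ^ b)
    (r1 : u⁻¹ * (g * u * g⁻¹ * (g ^ m * u * (g ^ m)⁻¹)) ∈ Z) (r2 : ⁅u, g * u * g⁻¹⁆ ∈ Z)
    (r3 : u ^ p ∈ Z) (r4 : word u g mp ∈ Z) (r5 : ⁅u, h * u * h⁻¹⁆ ∈ Z)
    (r6 : ⁅u, g * (h * u * h⁻¹) * g⁻¹⁆ ∈ Z) {x : J} (hx : x ∈ FN g u ⊔ FN g (h * u * h⁻¹))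
    (r7 : x⁻¹ * (h * (h * u * h⁻¹) * h⁻¹) ∈ Z) (hy : y ∈ FN h u) :
    ∃ f₁ f₂, (word u g f₁ * word (h * u * h⁻¹) g f₂)⁻¹ * y ∈ Z ∧
      ((∃ s r : ℤ[X], f₁ = s * mp + r * C (p : ℤ)) → (∃ s r : ℤ[X], f₂ = s * mp + r * C (p : ℤ)) →
        y ∈ Z) := by
  obtain ⟨N, _, Q, _, ι, π, u, h, rfl, rfl, hι, hπ⟩ : ∃ (N : Type _) (_ : Group N) (Q : Type _)
      (_ : Group Q) (ι : N →* J) (π : N →* Q) (u' h' : N), ι u' = u ∧ ι h' = h ∧
        Function.Injective ι ∧ ∀ x, π x = 1 ↔ ι x ∈ Z :=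
    ⟨_, _, _, _, (normalizer (Z : Set J)).subtype, QuotientGroup.mk' (Z.subgroupOf _), ⟨u, hu⟩,
      ⟨h, hh⟩, rfl, rfl, Subtype.val_injective, fun x => QuotientGroup.eq_one_iff x⟩
  rw [← map_pow] at hg
  subst hg
  simp only [← map_mul, ← map_inv, ← map_pow, ← map_commutatorElement, ← map_word, ← map_FN,
    ← Subgroup.map_sup] at r1 r2 r3 r4 r5 r6 r7 hx hy ⊢
  obtain ⟨x, hx, rfl⟩ := hx
  obtain ⟨y, hy, rfl⟩ := hy
  simp only [← map_mul, ← map_inv, ← hπ] at r1 r2 r3 r4 r5 r6 r7 ⊢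
  simp only [map_mul, map_inv, map_commutatorElement, map_word, map_pow π u, map_pow π (h ^ b),
    commutatorElement_eq_one_iff_commute, inv_mul_eq_one] at r1 r2 r3 r4 r5 r6 r7 ⊢
  have e : Commute (π h) (π (h ^ b)) := ((Commute.refl h).pow_right b).map π
  have a : Fam p m mp (π (h ^ b)) (π u) := ⟨r1, r2, r3, r4⟩
  obtain ⟨f₁, f₂, e'⟩ := heis_quot k0 (by
    rw [← map_pow, ← pow_mul, mul_comm, pow_mul, hι (a₁ := h ^ k) (a₂ := 1) (by simpa), one_pow,
      map_one]) e a r5 r6 (by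
    simpa only [r7, Subgroup.map_sup, map_FN, map_mul, map_inv] using mem_map_of_mem π hx)
    (map_FN π h u ▸ mem_map_of_mem π hy)
  exact ⟨f₁, f₂, e'.symm, fun h1 h2 => by rw [e', a.ker h1, (a.conj e).ker h2, one_mul]⟩

theorem cube_mem_span {F : Type*} [Field F] [Fintype F] {q : ℕ} (hF : Fintype.card F = q ^ 2)
    {r θ : F} (r0 : r ≠ 0) (hr : ∀ k, 0 < k → k ≤ q → r ^ k ≠ 1) (A : AddSubgroup F)
    (hA : ∀ k < 3, ∀ j : ℕ, θ ^ k * (r ^ 3) ^ j ∈ A) : θ ^ 3 ∈ A := by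
  classical
  let K := Subfield.closure {r ^ 3}
  have h1 : ∀ l ∈ K, ∀ k < 3, θ ^ k * l ∈ A := fun l hl k hk => by
    obtain ⟨y, hy, z, hz, rfl⟩ := Subfield.mem_closure_iff.1 hl
    have : y / z ∈ Subring.closure {r ^ 3} := by
      by_cases z0 : z = 0
      · simp [z0]
      have c := Fintype.one_lt_card (α := F)
      rw [div_eq_mul_inv, ← (mul_eq_one_iff_eq_inv₀ z0).1 (show z ^ (Fintype.card F - 2) * z = 1 by
        rw [← pow_succ, ← FiniteField.pow_card_sub_one_eq_one z z0]; congr 1; omega)]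
      exact mul_mem hy (pow_mem hz _)
    refine (AddSubgroup.closure_le (A.comap (AddMonoidHom.mulLeft (θ ^ k)))).2 (fun x hx => ?_)
      (Subring.mem_closure_iff.1 this)
    obtain ⟨j, rfl⟩ := Submonoid.mem_closure_singleton.1 hx
    exact hA k hk j
  have h2 : Module.finrank K F ≤ 3 := by
    by_contra h
    have a := Module.card_eq_pow_finrank (K := K) (V := F)
    have b := FiniteField.pow_card_sub_one_eq_one (⟨r ^ 3, Subfield.subset_closure rfl⟩ : K)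
      fun e => pow_ne_zero 3 r0 (congrArg Subtype.val e)
    have c := Fintype.one_lt_card (α := K)
    have d : ¬ 3 * (Fintype.card K - 1) ≤ q := fun e => hr _ (by omega) e (by
      rw [pow_mul]; exact congrArg Subtype.val b)
    have e : Fintype.card K ^ 2 ≤ q := (pow_le_pow_iff_left₀ (by positivity) (by positivity)
      two_ne_zero).1 (by rw [← pow_mul, ← hF, a]; exact Nat.pow_le_pow_right c.le (by omega))
    obtain ⟨n, hn⟩ : ∃ n, Fintype.card K = n + 1 := ⟨_, (Nat.sub_add_cancel c.le).symm⟩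
    rw [hn] at d e
    simp at d
    nlinarith
  refine Submodule.span_induction (p := fun x _ => ∀ l ∈ K, x * l ∈ A) ?_ (by simp)
    (fun x y _ _ a b l hl => add_mul x y l ▸ add_mem (a l hl) (b l hl))
    (fun c x _ a l hl => ?_) ((IsIntegral.of_finite K θ).mem_span_pow ⟨X ^ 3, by simp⟩) 1 (one_mem _)
    |> (by simpa using ·)
  · rintro _ ⟨i, rfl⟩ l hl
    exact h1 l hl i (i.2.trans_le ((minpoly.natDegree_le θ).trans h2))
  · simpa [Subfield.smul_def, mul_assoc, mul_comm, mul_left_comm] using a _ (mul_mem c.2 hl)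

end Cfsg.Agent.Cls
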