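import Cfsg.Agent.Lib.Cls.UPres2

/-!
Presentations of the special unitary groups of degree at least four.
-/

set_option autoImplicit false

namespace Cfsg.Agent.Cls

open Forms Subgroup Pres Module

variable {F : Type*} [Field F] [Fintype F] {q : ℕ} (hF : Fintype.card F = q ^ 2)
include hF

theorem su_of_EG {n m g r : ℕ} (hn : 2 ≤ n) (fr : Frame (uForm n hF) (PM m)) (i : PM m)
    (h : PresN fr.EG g r) : PresN (SU n F q) g r ∧ PresN (PSU n F q) g (r + 1) := by
  have hr := (suHom_range hF n).trans (fr.unit_EG i (frobq_ne hF)).symm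
  have := isCyclic_of_scalar _ (suHom_injective hF n) (fr.e_ne_zero i) _ fun z hz =>
    ((mem_center_equiv (suEquiv n hF) z).trans
      ((uForm_nondeg n hF).su_mem_center_iff (by simpa) _)).1 hz
  have := h.equiv ((MonoidHom.ofInjective (suHom_injective hF n)).trans
    (MulEquiv.subgroupCongr hr)).symm
  exact ⟨this, this.center⟩

theorem su_pres {n m g r : ℕ} (hm : n / 2 = m) (h2 : 2 ≤ m)
    (h : PresN (Matrix.SpecialLinearGroup (Fin m) F) g r) {g' r' : ℕ}
    (h1 : g' = g + if n % 2 = 0 then 1 else 2)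
    (h3 : r' = r + if n % 2 = 0 then (if m = 2 then 15 else 7) else if m = 2 then 24 else 12) :
    PresN (SU n F q) g' r' ∧ PresN (PSU n F q) g' (r' + 1) := by
  obtain ⟨fr, hV⟩ := unit_frame hF n
  revert fr
  rw [hm]
  intro fr hV
  obtain ⟨i, hi, j, hj, e⟩ := (Set.one_lt_ncard (Set.toFinite (PM.pos m))).1
    (by rw [PM.ncard_pos]; omega)
  have := unit_presN fr PM.pos1 PM.pos2 hi hj e.symm (a := if m = 2 then 15 else 7)
    (b := if m = 2 then 24 else 12) (by
      by_cases e2 : m = 2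
      · subst e2
        exact .inr ⟨PM.cases_two e.symm fun e => PM.pos1 _ hi (e ▸ hj), rfl, rfl⟩
      · exact .inl ⟨PM.three (by omega), if_neg e2, if_neg e2⟩)
    (h.equiv (fr.exists_equiv_levi h2 PM.ncard_pos PM.pos1).some)
  refine su_of_EG hF (by omega) fr i ?_
  by_cases e : n % 2 = 0
  · rw [h1, h3, if_pos e, if_pos e]
    exact this.1 (fr.V0_eq_zero (hV.trans e))
  · obtain ⟨v, v1, v2, v3⟩ := fr.exists_gen_V0 (uForm_nondeg n hF) (by omega)
    rw [h1, h3, if_neg e, if_neg e]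
    exact this.2 v v1 v2 v3

theorem su_pres_six {n : ℕ} (hn : 4 ≤ n) :
    PresN (SU n F q) 6 (if n ≤ 5 then 34 else 39) ∧
      PresN (PSU n F q) 6 ((if n ≤ 5 then 34 else 39) + 1) := by
  have k : ∀ {g r}, PresN (SU n F q) g r ∧ PresN (PSU n F q) g (r + 1) → g ≤ 6 →
      r + (6 - g) ≤ (if n ≤ 5 then 34 else 39) → PresN (SU n F q) 6 (if n ≤ 5 then 34 else 39) ∧
      PresN (PSU n F q) 6 ((if n ≤ 5 then 34 else 39) + 1) :=
    fun h a b => ⟨h.1.mono a b, h.2.mono a (by omega)⟩
  rcases (by omega : n / 2 = 2 ∨ n / 2 = 3 ∨ n / 2 = 4 ∨ 5 ≤ n / 2) with e | e | e | e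
  · exact k (su_pres hF e le_rfl SLn.presN_two rfl rfl) (by split_ifs <;> omega)
      (by split_ifs <;> omega)
  · exact k (su_pres hF e (by omega) SLn.presN_three rfl rfl) (by split_ifs <;> omega)
      (by split_ifs <;> omega)
  · exact k (su_pres hF e (by omega) SLn.presN_four rfl rfl) (by split_ifs <;> omega)
      (by split_ifs <;> omega)
  · obtain ⟨a, b, h⟩ := SLn.exists_two_gen (K := F) (n := n / 2) (by omega)
    exact k (su_pres hF rfl (by omega) ((SLn.presN_five_le e).two h) rfl rfl)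
      (by split_ifs <;> omega) (by split_ifs <;> omega)

end Cfsg.Agent.Cls
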