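import Cfsg.Agent.Lib.Cls.U3
import Cfsg.Agent.Lib.Cls.USU

/-!
A presentation of the special unitary group of degree three.
-/

set_option autoImplicit false

namespace Cfsg.Agent.Cls

open Forms Forms.Form Subgroup Polynomial SL2 Pres
open scoped commutatorElement

universe w

variable {F : Type*} [Field F] [Fintype F] {q : ℕ} {V : Type*} [AddCommGroup V] [Module F V]
  {I : Type*} [InvolutiveNeg I] {H : Type w} [Group H] {hF : Fintype.card F = q ^ 2}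
  {f : Form (uP hF) V} {fr : Frame f I} {Φ : H →* f.Isom} {i : I} {v : V} {ζ : F} {h u n : H}

namespace D3

variable (d : D3 fr Φ i v ζ h u n)
include d

theorem map {J : Type*} [Group J] {ψ : H →* J} {φ : J →* f.Isom} (e : ∀ x, φ (ψ x) = Φ x) :
    D3 fr φ i v ζ (ψ h) (ψ u) (ψ n) :=
  ⟨d.hI, d.v1, d.v2, d.v3, d.hζ, d.q3, e h ▸ d.hh, e u ▸ d.hu, e n ▸ d.hn⟩

theorem relZ {a : H} (ha : Φ a ∈ fr.RZ i) :
    Rels Φ 1 fun _ _ ψ _ => ψ a ∈ FN (ψ h) ⁅ψ u, ψ h * ψ u * (ψ h)⁻¹⁆ :=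
  (Rels.mem (d.RZ_le ha)).mono le_rfl fun _ _ _ _ _ r => by
    simpa only [map_FN, map_commutatorElement, map_mul, map_inv] using r

theorem relZ' {a b : H} {c c' : F} (ha : ∃ l, IsE (Φ a) (fr.e i) (c • v) l)
    (hb : ∃ l, IsE (Φ b) (fr.e i) (c' • v) l) (e : c = c') :
    Rels Φ 1 fun _ _ ψ _ => ψ (a⁻¹ * b) ∈ FN (ψ h) ⁅ψ u, ψ h * ψ u * (ψ h)⁻¹⁆ :=
  let ⟨_, a1⟩ := ha; let ⟨_, b1⟩ := hb
  d.relZ (by rw [map_mul, map_inv]; exact fr.inv_mul_mem_RZ a1 (e ▸ b1))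

theorem relC {a b : H} {c c' : F} (ha : ∃ l, IsE (Φ a) (fr.e i) (c • v) l)
    (hb : ∃ l, IsE (Φ b) (fr.e i) (c' • v) l) :
    Rels Φ 1 fun _ _ ψ _ => ψ ⁅a, b⁆ ∈ FN (ψ h) ⁅ψ u, ψ h * ψ u * (ψ h)⁻¹⁆ :=
  let ⟨_, a1⟩ := ha; let ⟨_, b1⟩ := hb
  d.relZ (by rw [map_commutatorElement]; exact fr.comm_mem_RZ ⟨_, _, a1⟩ ⟨_, _, b1⟩)

theorem relK {a : H} {c : F} (ha : ∃ l, IsE (Φ a) (fr.e i) (c • v) l) :
    Rels Φ 1 fun _ _ ψ _ => Commute (ψ ⁅u, h * u * h⁻¹⁆) (ψ a) :=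
  let ⟨_, a1⟩ := ha; let ⟨_, _, b1⟩ := d.z_spec
  .comm (fr.commute_RZ' (fr.RC_apply ⟨_, Submodule.smul_mem _ _ d.v1, _, a1⟩ (fr.ne i).symm)
    ⟨_, b1⟩).symm

theorem relT [Finite I] {a : H} {t : F} (ha : TA fr i v t (Φ a)) :
    Rels Φ 1 fun _ _ ψ _ => ψ a ∈ zpowers (ψ h) :=
  let ⟨k, hk⟩ := d.tor (fr.smul_ne_zero ha.1)
  (Rels.mem (K := zpowers h) ⟨_, npow_mem_zpowers h k, hk.eq d.v3 ha⟩).mono le_rfl
    fun _ _ _ _ _ r => by rwa [MonoidHom.map_zpowers] at r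

theorem cj {x : H} {c : F} (hx : ∃ l, IsE (Φ x) (fr.e i) (c • v) l) :
    ∃ l, IsE (Φ (h * x * h⁻¹)) (fr.e i) ((c * wt hF ζ) • v) l := let ⟨_, a⟩ := hx; ⟨_, d.hh.conj a⟩

theorem cg {x : H} {c : F} (hx : ∃ l, IsE (Φ x) (fr.e i) (c • v) l) (k : ℕ) :
    ∃ l, IsE (Φ ((h ^ (q + 1)) ^ k * x * ((h ^ (q + 1)) ^ k)⁻¹)) (fr.e i)
      ((c * (ζ * frobq hF ζ) ^ k) • v) l :=
  let ⟨_, a⟩ := hx; ⟨_, by
    have := TA.conj (g := (h ^ (q + 1)) ^ k) (map_pow Φ _ k ▸ d.tg.1.pow k) a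
    rwa [wt_pow, d.tg.2] at this⟩

theorem rels_fam {p m : ℕ} [CharP F p] {mp : ℤ[X]} (m0 : aeval (ζ * frobq hF ζ) mp = 0)
    (m1 : 1 - ζ * frobq hF ζ = (ζ * frobq hF ζ) ^ m) :
    Rels Φ 4 fun _ _ ψ _ => Fam p m mp (ψ h) ⁅ψ u, ψ h * ψ u * (ψ h)⁻¹⁆ := by
  obtain ⟨l, -, hl⟩ := d.z_spec
  have a := d.z_conj hl 1
  rw [pow_one, pow_one] at a
  obtain ⟨l', b1, b2⟩ := hl.pow (fr.Qe i) p
  set z := ⁅u, h * u * h⁻¹⁆ with hz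
  refine ((((Rels.eq (b := h * z * h⁻¹ * (h ^ m * z * (h ^ m)⁻¹)) (hl.eq (by
    rw [map_mul]
    exact (a.mul (fr.Qe i) (d.z_conj hl m)).congr (add_zero _) (by
      rw [← m1, B_zero_left]; ring)))).and (d.relK (a := h * z * h⁻¹) (c := 0)
      ⟨_, by rwa [zero_smul]⟩)).and (Rels.eq (a := z ^ p) (b := 1) (by
      rw [map_pow, map_one]; exact (b1.congr (smul_zero _) (by simp [b2])).eq_one))).and
    (Rels.eq (a := word z h mp) (b := 1) (by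
      rw [map_one]; exact ((d.word_Z hl mp).congr rfl (by rw [m0, mul_zero])).eq_one))).mono le_rfl
    fun _ _ _ _ _ ⟨⟨⟨r1, r2⟩, r3⟩, r4⟩ => ?_
  simp only [hz, map_mul, map_inv, map_pow, map_commutatorElement, map_one, map_word] at r1 r2 r3 r4
  exact ⟨r1, r2, r3, r4⟩

theorem rels_box [Finite I] : Rels Φ 15 fun _ _ ψ φ => ψ h ^ (q ^ 2 - 1) = 1 ∧
    Box φ (FN (ψ h) (ψ u) ⊔ FN (ψ h) ⁅ψ u, ψ h * ψ u * (ψ h)⁻¹⁆) (fr.RC i) := by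
  obtain ⟨p, hp⟩ := CharP.exists F
  have : Fact p.Prime := ⟨CharP.char_is_prime F p⟩
  obtain ⟨mp, m0, hm⟩ := exists_minpoly_lift p (ζ * frobq hF ζ)
  obtain ⟨m, m1⟩ := gen_norm (hF := hF) d.hζ (1 - ζ * frobq hF ζ) (by
    rw [Param.unit_σ, map_sub, map_one, map_mul, frobq_frobq, mul_comm]) (sub_ne_zero.2 (by
      rw [frobq_apply, ← pow_succ']
      exact (d.pow_ne (by omega) (by have := d.q3; nlinarith)).symm))
  have u2 := d.cj d.u1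
  obtain ⟨y, hy, y1⟩ := cube_mem_span hF (θ := wt hF ζ) (div_ne_zero d.ζ0 d.σζ0) d.r_ne
    (PC fr Φ i v (FN (h ^ (q - 1)) u ⊔ FN (h ^ (q - 1)) (h * u * h⁻¹) ⊔
      FN (h ^ (q - 1)) (h * (h * u * h⁻¹) * h⁻¹))) fun k hk j => by
    have key : ∀ {x c}, (∃ l, IsE (Φ x) (fr.e i) (c • v) l) → c = wt hF ζ ^ k → ∃ l,
        IsE (Φ ((h ^ (q - 1)) ^ j * x * ((h ^ (q - 1)) ^ j)⁻¹)) (fr.e i)
          ((wt hF ζ ^ k * ((ζ / frobq hF ζ) ^ 3) ^ j) • v) l := fun ⟨_, a⟩ e => ⟨_, by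
      have := TA.conj (g := (h ^ (q - 1)) ^ j) (map_pow Φ _ j ▸ d.tg0.1.pow j) a
      rwa [wt_pow, d.tg0.2.1, e] at this⟩
    interval_cases k
    exacts [⟨_, mem_sup_left (mem_sup_left (mem_FN _ _ j)), key d.hu (by simp)⟩,
      ⟨_, mem_sup_left (mem_sup_right (mem_FN _ _ j)), key d.u1 (by simp)⟩,
      ⟨_, mem_sup_right (mem_FN _ _ j), key u2 (by ring)⟩]
  obtain ⟨x, hx, x1⟩ := d.exists_U (1 * wt hF ζ * wt hF ζ)
  have g1 := d.cg d.hu 1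
  have g2 := d.cg d.u1 1
  rw [pow_one] at g1 g2
  obtain ⟨l, hl⟩ := d.hu
  have g3 : ∃ l, IsE (Φ (h ^ (q + 1) * u * (h ^ (q + 1))⁻¹ *
      ((h ^ (q + 1)) ^ m * u * ((h ^ (q + 1)) ^ m)⁻¹))) (fr.e i) ((1 : F) • v) l := by
    obtain ⟨_, a⟩ := g1
    obtain ⟨_, b⟩ := d.cg d.hu m
    rw [map_mul]
    exact ⟨_, (a.mul (fr.Qe i) b).congr (by
      rw [← add_smul, show ζ * frobq hF ζ = ζ * (uP hF).σ ζ from rfl, ← m1]; simp) rfl⟩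
  refine ((((((((((((d.rels_fam m0 m1).and (Rels.eq (a := h ^ (q ^ 2 - 1)) (b := 1) (by
    rw [map_pow, map_one]
    exact (d.hh.pow _).eq d.v3 (by
      rw [← hF, FiniteField.pow_card_sub_one_eq_one ζ d.ζ0]; exact TA.one)))).and
    (d.relK d.hu)).and (d.relK d.u1)).and (d.relK u2)).and (d.relZ' y1 (d.cj u2) (by ring))).and
    (d.relZ' d.hu g3 rfl)).and (d.relC d.hu g1)).and
    (d.relZ (a := u ^ p) (let ⟨_, a, _⟩ := hl.pow (fr.Qe i) p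
      ⟨_, map_pow Φ u p ▸ a.congr (by simp) rfl⟩))).and (d.relZ (let ⟨_, a⟩ := d.word_U d.hu mp
      ⟨_, a.congr (by simp [m0]) rfl⟩))).and (d.relC d.hu g2)).and (d.relZ' x1 u2 rfl)).mono le_rfl
    fun J _ ψ φ e ⟨⟨⟨⟨⟨⟨⟨⟨⟨⟨⟨a, r0⟩, c0⟩, c1⟩, c2⟩, c3⟩, r1⟩, r2⟩, r3⟩, r4⟩, r6⟩, r7⟩ => ?_
  replace hx := mem_map_of_mem ψ hx
  replace hy := mem_map_of_mem ψ hy
  simp only [map_mul, map_inv, map_pow, map_commutatorElement, map_one, map_word, Subgroup.map_sup,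
    map_FN] at r0 c0 c1 c2 c3 r1 r2 r3 r4 r6 r7 hx hy
  exact ⟨r0, (d.map e).boxU hm a rfl rfl r0 c0 c1 c2 hy c3 r1 r2 r3 r4 r6 hx r7⟩

theorem rels_good [Finite I] {c l : F} (l0 : l ≠ 0)
    (hl : c * frobq hF c * f.B v v = l + frobq hF l) : Rels Φ 1 fun J _ ψ φ => ∀ U : Subgroup J,
      FN (ψ h) (ψ u) ⊔ FN (ψ h) ⁅ψ u, ψ h * ψ u * (ψ h)⁻¹⁆ = U → ∃ x ∈ U,
        IsE (φ x) (fr.e i) (c • v) l ∧ ∃ a ∈ U, ∃ b ∈ U,
          ψ n * a * (ψ n)⁻¹ * x * (ψ n * b * (ψ n)⁻¹) ∈ closure {ψ h, ψ n} := by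
  have c1 := Submodule.smul_mem _ c d.v1
  obtain ⟨r, hr⟩ := fr.pSt1.exists_Wd (i := i) c1 (f.unit_isLam_iff.2 (by
    rw [← hl, B_smul_left, unit_B_smul_right, mul_assoc])) l0
  obtain ⟨x, -, y, -, y', -, rfl, a1, a2, a3⟩ := fr.pSt1.Wd_spec hr
  obtain ⟨ln, n0, hn⟩ := d.hn
  obtain ⟨k, hk⟩ := d.tor (div_ne_zero l0 n0)
  have n1 : fr.Mv (Φ n)⁻¹ (-i) i := Frame.Mv.inv ⟨_, hn.2.1⟩
  have nM : (Φ n)⁻¹ ∈ fr.Mon := inv_mem (fr.mem_Mon fun k => by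
    rcases d.hI i k with rfl | rfl; exacts [⟨_, _, hn.2.1⟩, ⟨_, _, hn.1⟩])
  obtain ⟨x, hx, rfl⟩ := d.RC_le ⟨_, c1, _, a1⟩
  obtain ⟨a, ha, a4⟩ := d.RC_le (n1.conj_RC nM ⟨_, Submodule.smul_mem _ _ c1, _, a2⟩)
  obtain ⟨b, hb, b4⟩ := d.RC_le (n1.conj_RC nM ⟨_, Submodule.smul_mem _ _ c1, _, a3⟩)
  refine (Rels.mem (K := closure {h, n}) (a := n * a * n⁻¹ * x * (n * b * n⁻¹)) ⟨h ^ k * n,
    mul_mem (pow_mem (subset_closure (by simp)) k) (subset_closure (by simp)), ?_⟩).mono le_rfl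
    fun J _ ψ φ e r U hU => ?_
  · rw [map_mul, (hk.mulW hn).eq d.v3 (by rw [div_mul_cancel₀ _ n0]; exact fr.pSt1.Wd_WA d.v1 hr)]
    simp [a4, b4, mul_assoc]
  have : ∀ x ∈ FN h u ⊔ FN h ⁅u, h * u * h⁻¹⁆, ψ x ∈ U := fun x hx => by
    simpa only [← hU, Subgroup.map_sup, map_FN, map_commutatorElement, map_mul, map_inv] using
      mem_map_of_mem ψ hx
  exact ⟨_, this x hx, e x ▸ a1, _, this a ha, _, this b hb, by
    simpa only [MonoidHom.map_closure, Set.image_pair, map_mul, map_inv] using r⟩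

theorem rels [Finite I] : Rels Φ 21 fun J _ ψ φ =>
    (∀ K : Subgroup J, ψ h ∈ K → ψ u ∈ K → ψ n ∈ K → K = ⊤) → Function.Injective φ := by
  obtain ⟨ln, -, hn⟩ := d.hn
  obtain ⟨l₀, l0, a0⟩ := f.unit_exists_isLam_zero
  have ρ : ζ / frobq hF ζ * frobq hF (ζ / frobq hF ζ) = 1 := by
    have := d.ζ0; have := d.σζ0; rw [map_div₀, frobq_frobq]; field_simp
  obtain ⟨l₁, l1, a1⟩ := exists_div_frob hF (s := -(ζ / frobq hF ζ)) (by rwa [map_neg, neg_mul_neg])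
  obtain ⟨c₁, a2⟩ := exists_norm_eq hF (c := (l₁ + frobq hF l₁) / f.B v v) (by
    rw [map_div₀, map_add, frobq_frobq, ← f.unit_symm, add_comm])
  refine (((((d.rels_box.and (d.relT (a := n * h * n) (by
    rw [mul_assoc, map_mul, map_mul]; exact hn.mul (d.hh.mulW hn)))).and
    (d.relT (a := n * n) (map_mul Φ n n ▸ hn.mul hn))).and (d.rels_good (c := 0) l0 (by
      rw [f.unit_isLam_iff.1 a0]; simp))).and (Rels.list (List.range 3) fun j _ =>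
    d.rels_good (c := (ζ / frobq hF ζ) ^ j * c₁) l1 (by
      rw [map_mul, map_pow, mul_mul_mul_comm, ← mul_pow, ρ, one_pow, one_mul, a2,
        div_mul_cancel₀ _ d.v2])))).mono (by simp)
    fun J _ ψ φ e ⟨⟨⟨⟨⟨r0, box⟩, r1⟩, r2⟩, g0⟩, g1⟩ gen => ?_
  rw [map_mul] at r2
  rw [map_mul, map_mul] at r1
  exact (d.map e).injective box (fun _ => conj_mem_sup (fun _ hx => mem_sup_left (conj_mem_FN hx))
    fun _ hx => mem_sup_right (conj_mem_FN hx)) r0 r1 r2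
    (fun K a b => gen K b (a (mem_sup_left (self_mem_FN _ _)))) l0 l1
    (by rw [← neg_mul, a1, div_mul_cancel₀ _ l1]) (g0 _ rfl) fun j hj => g1 j (List.mem_range.2 hj) _ rfl

end D3

theorem Frame.presN_three [Finite I] (fr : Frame f I) (i : I) (hI : ∀ a b : I, b = a ∨ b = -a)
    (v1 : v ∈ fr.V0) (v2 : f.B v v ≠ 0) (v3 : ∀ u ∈ fr.V0, ∃ c : F, u = c • v) (q3 : 3 ≤ q) :
    PresN fr.EG 3 21 := by
  obtain ⟨ζ, ζ0, hζ⟩ := exists_pow_eq (F := F)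
  obtain ⟨h, h1, -, h2⟩ := fr.torus_odd i v1 v2 ζ0
  obtain ⟨l, hl⟩ := f.exists_isLam v
  obtain ⟨u, hu⟩ := exists_isE (fr.Qe i) (fr.mem_V0.1 v1 i) hl
  obtain ⟨l₀, l0, a0⟩ := f.unit_exists_isLam_zero
  obtain ⟨n, hn⟩ := fr.pSt1.exists_Wd (i := i) (u := (0 : F) • v) (by simp) (by simpa) l0
  have top : ∀ {J : Type _} [Group J] (ψ : FreeGroup (Fin 3) →* J) (K : Subgroup J),
      ψ (.of 0) ∈ K → ψ (.of 1) ∈ K → ψ (.of 2) ∈ K → ψ.range ≤ K := fun ψ K a b c => by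
    rw [MonoidHom.range_eq_map, ← FreeGroup.closure_range_of, MonoidHom.map_closure]
    exact (closure_le _).2 (by rintro _ ⟨_, ⟨x, rfl⟩, rfl⟩; fin_cases x <;> assumption)
  have d : D3 fr (FreeGroup.lift ![h, u, n]) i v ζ (.of 0) (.of 1) (.of 2) :=
    ⟨hI, v1, v2, v3, hζ, q3, by simpa using (show TA fr i v ζ h from h2), ⟨l, by simpa⟩, l₀, l0, by
      simpa using fr.pSt1.Wd_WA v1 hn⟩
  have k : fr.RC i ≤ (FreeGroup.lift ![h, u, n]).range := d.RC_le.trans (map_le_range _ _)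
  obtain ⟨_, -, b⟩ := d.hn
  refine Rels.pres (r := 0) (le_antisymm ?_ (fr.EG_le (fun a b b1 b2 => ((hI a b).elim b1 b2).elim)
    fun a => ?_)) (d.rels.mono le_rfl fun J _ ψ φ _ p s => p fun K a b c =>
      top_le_iff.1 ((MonoidHom.range_eq_top.2 s).ge.trans (top ψ K a b c))) ⟨_, hasPres_free _⟩
  · rw [FreeGroup.range_lift_eq_closure]
    obtain ⟨x, x1, y, y1, y', y2, rfl, -⟩ := fr.pSt1.Wd_spec hn
    refine (closure_le _).2 ?_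
    rintro _ ⟨x, rfl⟩
    fin_cases x
    exacts [h1, fr.U_le_EG i ⟨_, _, hu⟩,
      mul_mem (mul_mem (fr.U_le_EG _ y1) (fr.U_le_EG _ x1)) (fr.U_le_EG _ y2)]
  rcases hI i a with rfl | rfl
  · exact k
  intro g hg
  have := k ((Frame.Mv.conj_RC (h := ⟨_, b.1⟩) (fr.mem_Mon fun k => by
    rcases hI i k with rfl | rfl; exacts [⟨_, _, b.2.1⟩, ⟨_, _, b.1⟩]) hg))
  have c : _ ∈ (FreeGroup.lift ![h, u, n]).range := ⟨.of 2, rfl⟩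
  simpa only [mul_assoc, inv_mul_cancel_left, inv_mul_cancel, mul_one] using
    mul_mem (mul_mem (inv_mem c) this) c

theorem su_pres_three (hF : Fintype.card F = q ^ 2) (h2 : q ≠ 2) :
    PresN (SU 3 F q) 3 21 ∧ PresN (PSU 3 F q) 3 22 := by
  obtain ⟨fr, hV⟩ := unit_frame hF 3
  obtain ⟨v, v1, v2, v3⟩ := fr.exists_gen_V0 (uForm_nondeg 3 hF) hV
  obtain ⟨p, -⟩ := PM.exists_cyc 0
  exact su_of_EG hF (by omega) fr (p 0) (fr.presN_three (p 0) PM.cases_one v1 v2 v3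
    (by have := two_le_q hF; omega))

end Cfsg.Agent.Cls
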