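import Cfsg.Agent.Lib.Cls.DPres
import Cfsg.Agent.Lib.Cls.MUKer

/-!
Systems of root subgroups with two indices and with one index.
-/

set_option autoImplicit false

namespace Cfsg.Agent.Cls

open Forms Forms.Form Subgroup
open scoped commutatorElement

variable {F : Type*} [Field F] {P : Param F} {V : Type*} [AddCommGroup V] [Module F V]
  {f : Form P V} {I : Type*} [InvolutiveNeg I] {J : Type*} [Group J]

/-- root subgroups with two indices, permuted by a monomial group -/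
structure ASys (fr : Frame f I) (φ : J →* f.Isom) (A : I → I → Subgroup J) (M : Subgroup J) :
    Prop where
  box : ∀ {a b}, b ≠ a → b ≠ -a → Box φ (A a b) (fr.RS a b)
  sym : ∀ {a b}, b ≠ a → b ≠ -a → A a b ≤ A b a
  R1 : ∀ {i j k l}, j ≠ i → j ≠ -i → l ≠ k → l ≠ -k → k ≠ -i → k ≠ -j → l ≠ -i → l ≠ -j →
    ∀ {x}, x ∈ A i j → ∀ {y}, y ∈ A k l → Commute x y
  R3 : ∀ {i j k}, j ≠ i → j ≠ -i → k ≠ i → k ≠ -i → k ≠ j → k ≠ -j →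
    ∀ {x}, x ∈ A i j → ∀ {y}, y ∈ A (-j) k → ⁅x, y⁆ ∈ A i k
  mon : ∀ m ∈ M, φ m ∈ fr.Mon
  conj : ∀ {m}, m ∈ M → ∀ {a b a' b'}, fr.Mv (φ m) a a' → fr.Mv (φ m) b b' → ∀ {x}, x ∈ A a b →
    m * x * m⁻¹ ∈ A a' b'
  trans : ∀ {a b a' b'}, b ≠ a → b ≠ -a → b' ≠ a' → b' ≠ -a' →
    ∃ m ∈ M, fr.Mv (φ m) a a' ∧ fr.Mv (φ m) b b'
  two : ∀ a : I, ∃ b, b ≠ a ∧ b ≠ -a

/-- root subgroups with one index -/
structure CSys (fr : Frame f I) (φ : J →* f.Isom) (A : I → I → Subgroup J) (M : Subgroup J)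
    (C : I → Subgroup J) (R : I → Subgroup f.Isom) : Prop where
  box : ∀ a, Box φ (C a) (R a)
  conj : ∀ {m}, m ∈ M → ∀ {a a'}, fr.Mv (φ m) a a' → ∀ {x}, x ∈ C a → m * x * m⁻¹ ∈ C a'
  R2 : ∀ {i j}, j ≠ i → j ≠ -i → ∀ {x}, x ∈ A i j → ∀ {y}, y ∈ A i (-j) → ⁅x, y⁆ ∈ C i
  R4 : ∀ {i j k}, j ≠ i → j ≠ -i → k ≠ -i → k ≠ -j → ∀ {x}, x ∈ A i j → ∀ {y}, y ∈ C k →
    Commute x y
  R5 : ∀ {i j}, j ≠ i → j ≠ -i → ∀ {x}, x ∈ A i j → ∀ {y}, y ∈ C (-j) → ⁅x, y⁆ ∈ A i (-j) ⊔ C i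
  R6 : ∀ {i j}, j ≠ i → j ≠ -i → ∀ {x}, x ∈ C i → ∀ {y}, y ∈ C j → ⁅x, y⁆ ∈ A i j

variable {fr : Frame f I} {φ : J →* f.Isom} {A : I → I → Subgroup J} {M : Subgroup J}

namespace ASys

variable (h : ASys fr φ A M)
include h

theorem mv_neg {m : J} (hm : m ∈ M) {a b : I} (e : fr.Mv (φ m) a b) : fr.Mv (φ m) (-a) (-b) :=
  e.neg' (h.mon m hm)

theorem of_conj {m x : J} (hm : m ∈ M) {a b a' b' : I} (h1 : fr.Mv (φ m) a a')
    (h2 : fr.Mv (φ m) b b') (hx : m * x * m⁻¹ ∈ A a' b') : x ∈ A a b := by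
  simpa [mul_assoc] using h.conj (inv_mem hm) (Base.mv_inv h1) (Base.mv_inv h2) hx

theorem trans_one (a b : I) : ∃ m ∈ M, fr.Mv (φ m) a b :=
  let ⟨_, a1, a2⟩ := h.two a; let ⟨_, b1, b2⟩ := h.two b
  let ⟨m, hm, e, _⟩ := h.trans a1 a2 b1 b2; ⟨m, hm, e⟩

theorem rgd {C : I → Subgroup J} (hC : CSys fr φ A M C fr.RC) : RGD fr φ A C :=
  ⟨fun _ _ => h.sym, fun _ _ h1 h2 => (h.box h1 h2).mem, fun _ _ h1 h2 => (h.box h1 h2).inj,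
    fun _ _ h1 h2 => (h.box h1 h2).surj, fun a => (hC.box a).mem, fun a => (hC.box a).inj,
    fun a => (hC.box a).surj, fun _ _ _ _ a b c d e f g k _ hx _ => h.R1 a b c d e f g k hx,
    fun _ _ a b _ hx _ => hC.R2 a b hx, fun _ _ _ a b c d e f _ hx _ => h.R3 a b c d e f hx,
    fun _ _ _ a b c d _ hx _ => hC.R4 a b c d hx, fun _ _ a b _ hx _ => hC.R5 a b hx,
    fun _ _ a b _ hx _ => hC.R6 a b hx⟩

theorem box_CF {i : I} {C : Subgroup J} {R : I → Subgroup f.Isom}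
    (hR : ∀ g ∈ fr.Mon, ∀ a b, fr.Mv g a b → ∀ x ∈ R a, g * x * g⁻¹ ∈ R b) (box : Box φ C (R i))
    (sC : ∀ m ∈ M, fr.Mv (φ m) i i → ∀ x ∈ C, m * x * m⁻¹ ∈ C) (a : I) :
    Box φ (CF fr φ i M C a) (R a) := by
  obtain ⟨m, hm, a1⟩ := h.trans_one a i
  refine ⟨fun x hx e => ?_, fun x hx => ?_, fun g hg => ?_⟩
  · simpa using box.inj _ (hx m hm a1) (by simp [e])
  · simpa [mul_assoc] using hR _ (inv_mem (h.mon m hm)) _ _ a1.inv _ (box.mem _ (hx m hm a1))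
  · obtain ⟨x, hx, e⟩ := box.surj _ (hR _ (h.mon m hm) _ _ a1 _ hg)
    refine ⟨m⁻¹ * x * m, Base.of_conj_C hm a1 fun m' hm' e' => ?_, by simp [e, mul_assoc]⟩
    simpa [mul_assoc] using sC m' hm' e' x hx

theorem cSys {i j : I} (h1 : j ≠ i) (h2 : j ≠ -i) {C : Subgroup J} {R : I → Subgroup f.Isom}
    (hR : ∀ g ∈ fr.Mon, ∀ a b, fr.Mv g a b → ∀ x ∈ R a, g * x * g⁻¹ ∈ R b) (box : Box φ C (R i))
    (sC : ∀ m ∈ M, fr.Mv (φ m) i i → ∀ x ∈ C, m * x * m⁻¹ ∈ C)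
    (R2 : ∀ x ∈ A i j, ∀ y ∈ A i (-j), ⁅x, y⁆ ∈ C)
    (R4 : ∀ a b, b ≠ a → b ≠ -a → i ≠ -a → i ≠ -b → ∀ x ∈ A a b, ∀ y ∈ C, Commute x y)
    (R5 : ∀ x ∈ A i j, ∀ y ∈ CF fr φ i M C (-j), ⁅x, y⁆ ∈ A i (-j) ⊔ C)
    (R6 : ∀ x ∈ C, ∀ y ∈ CF fr φ i M C (-j), ⁅x, y⁆ ∈ A i (-j)) :
    CSys fr φ A M (CF fr φ i M C) R := by
  refine ⟨h.box_CF hR box sC, fun hm _ _ e _ => Base.conj_C hm e, ?_, ?_, ?_, ?_⟩
  · intro a b a1 a2 x hx y hy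
    obtain ⟨m, hm, b1, b2⟩ := h.trans a1 a2 h1 h2
    refine Base.of_conj_C hm b1 (sC · · · _ ?_)
    rw [conj_comm]
    exact R2 _ (h.conj hm b1 b2 hx) _ (h.conj hm b1 (h.mv_neg hm b2) hy)
  · intro a b k a1 a2 a3 a4 x hx y hy
    obtain ⟨m, hm, b1⟩ := h.trans_one k i
    obtain ⟨a', b2⟩ := (h.mon m hm).1 a
    obtain ⟨b', b3⟩ := (h.mon m hm).1 b
    have v := Frame.Mv.valid b2 b3 (h.mv_neg hm b2) a1 a2
    exact commute_of_conj m (R4 a' b' v.1 v.2 (fun e => a3 (b1.inj (e ▸ h.mv_neg hm b2)))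
      (fun e => a4 (b1.inj (e ▸ h.mv_neg hm b3))) _ (h.conj hm b2 b3 hx) _ (hy m hm b1))
  · intro a b a1 a2 x hx y hy
    obtain ⟨m, hm, b1, b2⟩ := h.trans a1 a2 h1 h2
    have b3 := h.mv_neg hm b2
    have := R5 _ (h.conj hm b1 b2 hx) _ (Base.conj_C hm b3 hy)
    rw [← conj_comm] at this
    have k : A i (-j) ⊔ C ≤ (A a (-b) ⊔ CF fr φ i M C a).comap (MulAut.conj m⁻¹).toMonoidHom :=
      sup_le (fun z hz => mem_sup_left (h.conj (inv_mem hm) (Base.mv_inv b1) (Base.mv_inv b3) hz))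
        fun z hz => mem_sup_right (Base.conj_C (inv_mem hm) (Base.mv_inv b1) (sC · · · _ hz))
    simpa [mul_assoc] using k this
  · intro a b a1 a2 x hx y hy
    obtain ⟨m, hm, b1, b2⟩ := h.trans a1 a2 (neg_ne_of h2) (neg_ne_neg_of h1)
    refine h.of_conj hm b1 b2 ?_
    rw [conj_comm]
    exact R6 _ (hx m hm b1) _ (Base.conj_C hm b2 hy)

end ASys

theorem PSt1.can [Finite I] [Finite F] {U : I → Subgroup J} (h : PSt1 fr φ U) (hC : fr.HasC)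
    (i : I) (top : ⨆ i, U i = ⊤) : Can fr φ U := by
  refine ⟨h, ⟨fun z hz x => ?_, iSup_le fun a g hg => h.surj a g hg |>.imp fun _ h => h.2⟩, top,
    fun g a b e x hx => ?_⟩
  · have := h.HR_le_Mx (fr.ne i).symm (h.ker_mem_HR hC i (top ▸ mem_top z) hz)
    refine (iSup_le (fun a y hy => mem_centralizer_singleton_iff.2 ?_) :
      _ ≤ centralizer {z}) (top ▸ mem_top x) z rfl |>.symm
    exact (mul_inv_eq_iff_eq_mul.1 (h.toPSt0.eq (Mx_conj this (by rw [hz]; exact .one) hy) hy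
      (by simp [hz]))).symm
  have hP := h.pSt
  obtain ⟨m, hm, e'⟩ : ∃ m ∈ NS fr φ U Set.univ, fr.Mv (φ m) b a := by
    by_cases e1 : b = a
    · exact ⟨1, one_mem _, by rw [map_one, e1]; exact .one⟩
    obtain ⟨r, hr⟩ := h.toPSt0.W_nonempty (i := b) (j := -a) (.inr hC) (neg_ne_neg_of (Ne.symm e1))
    exact ⟨r, mem_NS_of_W (Set.mem_univ _) (Set.mem_univ _) (neg_ne_neg_of (Ne.symm e1)) hr,
      by simpa using h.toPSt0.W_mv2 (neg_ne_neg_of (Ne.symm e1)) hr⟩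
  have k : PS fr φ U (NS fr φ U Set.univ) Set.univ a ≤ normalizer (U a : Set J) := by
    refine sup_le (inf_le_left.trans le_normalizer) (sup_le (iSup₂_le fun c hc => ?_) ?_) <;>
      refine le_normalizer_iff.2 fun y hy z hz => ?_
    · exact h.norm a c y hy.1 (hy.2 a fun e => e.2.1 rfl) z hz
    · exact hP.conj_U hy.1 (hy.2 a fun e => e.2.1 rfl) hz
  have := hP.conj_U (inv_mem hm) (Base.mv_inv e') (le_normalizer_iff.1 k _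
    (hP.mem_PS_of_mv (fun _ _ => Set.mem_univ _) (Set.mem_univ a) (hP.mem_JS
      (fun _ _ => Set.mem_univ _) (mem_sup_left (top ▸ mem_top (m * g)))
      fun _ e => absurd (Set.mem_univ _) e) (Base.mv_mul e' e)) x hx)
  simpa [mul_assoc] using this

namespace SetK

variable {S : Set I} {i j : I} {L K : Subgroup J} {w : J} (h : SetK fr φ S i j L K w) [Finite I]
include h

theorem sA (h1 : ∀ k ∈ NL fr φ K, fr.Mv (φ k) i i → ∀ x ∈ L, φ x ∈ fr.RA i (-j) →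
      k * x * k⁻¹ ∈ L ∧ w * k * w⁻¹ * x * (w * k * w⁻¹)⁻¹ ∈ L) {m : J} (hm : m ∈ MK fr φ S i L K)
    (e1 : fr.Mv (φ m) i i) (e2 : fr.Mv (φ m) j j) {x : J} (hx : x ∈ L) (hx' : φ x ∈ fr.RA i (-j)) :
    m * x * m⁻¹ ∈ L := by
  obtain ⟨e', he, l, hl, rfl, a⟩ := h.split hm
  obtain ⟨a1, a2⟩ := a i h.hi e1
  obtain ⟨a3, a4⟩ := a j h.hj e2
  obtain ⟨k, hk, e0, he0, rfl⟩ := h.ET_split subset_rfl h.hi he
  obtain ⟨k', hk', e, he', rfl⟩ := h.ET_split Set.sdiff_subset h.hj he0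
  have hS : (S \ {i}) \ {j} ⊆ S := Set.sdiff_subset.trans Set.sdiff_subset
  have b1 : l * x * l⁻¹ ∈ L := mul_mem (mul_mem hl.1 hx) (inv_mem hl.1)
  have cA : ∀ {g x : J}, φ g ∈ fr.Mon → fr.Mv (φ g) i i → fr.Mv (φ g) j j → φ x ∈ fr.RA i (-j) →
      φ (g * x * g⁻¹) ∈ fr.RA i (-j) := fun g1 g2 g3 g4 => by
    rw [map_conj]; exact g2.conj_RA (g3.neg' g1) g4
  have b2 := cA hl.2 a1 a3 hx'
  have b3 : Commute e (l * x * l⁻¹) := (ET_le (N := centralizer {l * x * l⁻¹})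
    (fun b hb z hz => mem_centralizer_singleton_iff.2 (h.K_far (hS hb) h.hi h.hj
      (Ne.symm hb.1.2) (Ne.symm hb.2) h.ne b1 b2 hz.1).symm) he' _ rfl).symm
  have c1 := Frame.Mv.of_eq (h.ET_fix hS h.hi (by simp) he')
  have c2 := Frame.Mv.of_eq (h.ET_fix hS h.hj (by simp) he')
  have c3 := Frame.Mv.of_eq (h.K_fix h.hj hk'.1 h.ne.symm (h.ne' h.hj h.hi))
  have c4 := Frame.Mv.of_eq (h.K_fix h.hi hk.1 h.ne (h.ne' h.hi h.hj))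
  have c5 : fr.Mv (φ k') j j := by
    simpa [mul_assoc] using Base.mv_mul (Base.mv_mul (Base.mv_inv c4) a4) (Base.mv_inv c2)
  have c6 : fr.Mv (φ k) i i := by
    simpa [mul_assoc] using Base.mv_mul a2 (Base.mv_inv (Base.mv_mul c3 c1))
  have wN : w ∈ NL fr φ L := ⟨h.wL, h.wM⟩
  have d1 := (h1 (w⁻¹ * k' * w⁻¹⁻¹) ⟨hk'.1 _ (inv_mem wN) (Base.mv_inv h.w1), by
    change φ _ ∈ fr.Mon
    rw [map_mul, map_mul]
    exact mul_mem (mul_mem (inv_mem wN).2 hk'.2) (inv_mem (inv_mem wN)).2⟩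
    (Base.mv_mul (Base.mv_mul (Base.mv_inv h.w1) c5) (by rw [inv_inv]; exact h.w1)) _ b1 b2).2
  rw [show w * (w⁻¹ * k' * w⁻¹⁻¹) * w⁻¹ = k' by group] at d1
  have d2 := (h1 k ⟨h.mem_K.1 hk.1, hk.2⟩ c6 _ d1 (cA hk'.2 c3 c5 b2)).1
  convert d2 using 1
  calc _ = k * (k' * (e * (l * x * l⁻¹) * e⁻¹) * k'⁻¹) * k⁻¹ := by group
    _ = _ := by rw [b3.eq, mul_inv_cancel_right]

theorem aSys [Finite F] (h1 : ∀ k ∈ NL fr φ K, fr.Mv (φ k) i i → ∀ x ∈ L, φ x ∈ fr.RA i (-j) →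
      k * x * k⁻¹ ∈ L ∧ w * k * w⁻¹ * x * (w * k * w⁻¹)⁻¹ ∈ L) {x m : J} (x1 : x ∈ L)
    (x2 : φ x ∈ fr.RA i (-j)) (x0 : x ≠ 1) (hm : m ∈ MK fr φ S i L K) (m1 : fr.Mv (φ m) (-j) i)
    (m2 : fr.Mv (φ m) i (-j)) (sym : m * x * m⁻¹ ∈ L) :
    ∃ A, ASys fr φ A (MK fr φ S i L K) ∧
      ∀ a ∈ S, ∀ b ∈ S, b ≠ a → ∀ x, x ∈ A a (-b) ↔ x ∈ L ∧ φ x ∈ fr.RA a (-b) := by
  set M := MK fr φ S i L K
  have e2 := h.ne' h.hi h.hj
  have cA := fun {m x : J} (hm : m ∈ M) {a b a' b' : I} =>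
    Base.conj_A (i := i) (j := j) (L := L) (x := x) hm (MK_mon m hm) (a := a) (b := b) (a' := a')
      (b' := b')
  have cA' : ∀ {m x : J}, m ∈ M → ∀ {a b a' b'}, fr.Mv (φ m) a a' → fr.Mv (φ m) b b' →
      m * x * m⁻¹ ∈ AF fr φ i j L M a' b' → x ∈ AF fr φ i j L M a b := fun hm _ _ _ _ a1 a2 hx => by
    simpa [mul_assoc] using cA (inv_mem hm) (Base.mv_inv a1) (Base.mv_inv a2) hx
  have ng := fun {m} (hm : m ∈ M) {a b} (e : fr.Mv (φ m) a b) => e.neg' (MK_mon m hm)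
  have mA : ∀ a ∈ S, ∀ b ∈ S, b ≠ a → ∀ x, x ∈ AF fr φ i j L M a (-b) ↔
      x ∈ L ∧ φ x ∈ fr.RA a (-b) := fun a ha b hb e x => by
    obtain ⟨m, hm, a1, a2⟩ := h.two_trans ha hb h.hi h.hj e h.ne
    have hm' : m ∈ M := mem_sup_right hm
    refine ⟨fun hx => ⟨?_, hx.1⟩, fun hx => cA' hm' a1 (ng hm' a2) ?_⟩
    · simpa [mul_assoc] using
        L.mul_mem (L.mul_mem (L.inv_mem hm.1) (hx.2 m hm' a1 (by rwa [neg_neg]))) hm.1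
    · have : φ (m * x * m⁻¹) ∈ fr.RA i (-j) := by rw [map_conj]; exact a1.conj_RA (ng hm' a2) hx.2
      exact ⟨this, fun m' hm' h3 h4 => h.sA h1 hm' h3 (by rwa [neg_neg] at h4)
        (L.mul_mem (L.mul_mem hm.1 hx.1) (L.inv_mem hm.1)) this⟩
  have tr : ∀ {a b}, b ≠ a → b ≠ -a → ∃ m ∈ M, fr.Mv (φ m) a i ∧ fr.Mv (φ m) b (-j) := by
    intro a b h1 h2
    obtain ⟨m, hm, e⟩ := h.pos {a, -b} (by simp [fr.ne, h1, h1.symm, (fr.ne b).symm])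
    obtain ⟨a', ha, a1⟩ := e a (by simp)
    obtain ⟨b', hb, a2⟩ := e (-b) (by simp)
    obtain ⟨m', hm', a3, a4⟩ := h.two_trans ha hb h.hi h.hj
      (fun e => neg_ne_of h2 (a2.inj (e ▸ a1))) h.ne
    have := mul_mem (mem_sup_right hm' : _ ∈ M) hm
    exact ⟨_, this, Base.mv_mul a3 a1, by simpa using ng this (Base.mv_mul a4 a2)⟩
  have box : ∀ {a b}, b ≠ a → b ≠ -a → Box φ (AF fr φ i j L M a b) (fr.RS a b) := by
    intro a b h1 h2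
    obtain ⟨m, hm, a1, a2⟩ := tr h1 h2
    refine ⟨fun x hx e => ?_, fun x hx => hx.1, fun g hg => ?_⟩
    · simpa using h.box.inj _ ((mA _ h.hi _ h.hj h.ne _).1 (cA hm a1 a2 hx)).1 (by simp [e])
    · obtain ⟨x, hx, e⟩ := h.box.surj _ (fr.mem_Levi h.hi h.hj h.ne (a1.conj_RA a2 hg))
      refine ⟨m⁻¹ * x * m, cA' hm a1 a2 ?_, by simp [e, mul_assoc]⟩
      simpa [mul_assoc] using (mA _ h.hi _ h.hj h.ne _).2 ⟨hx, e ▸ a1.conj_RA a2 hg⟩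
  have cL : ∀ {m x}, m ∈ M → ∀ {a b a' b'}, a' ∈ S → b' ∈ S → b ≠ -a → fr.Mv (φ m) a a' →
      fr.Mv (φ m) (-b) b' → x ∈ AF fr φ i j L M a b → m * x * m⁻¹ ∈ L :=
    fun hm _ _ _ _ ha hb e a1 a2 hx => ((mA _ ha _ hb (fun e' => neg_ne_of e (a2.inj (e' ▸ a1))) _).1
      (cA hm a1 (by simpa using ng hm a2) hx)).1
  have sy : AF fr φ i j L M i (-j) ≤ AF fr φ i j L M (-j) i := by
    have xA := (mA _ h.hi _ h.hj h.ne _).2 ⟨x1, x2⟩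
    have := cA' hm m1 m2 ((mA _ h.hi _ h.hj h.ne _).2 ⟨sym, by
      rw [map_conj]; exact m1.conj_RA m2 (fr.RA_swap (neg_ne_neg_of h.ne) x2)⟩)
    refine (box (neg_ne_of e2) (neg_ne_neg_of h.ne)).le_of_span xA x0 span_sq ?_
    rintro _ ⟨t, ht, rfl⟩
    obtain ⟨g, g1, g2, g3, g4, -⟩ := fr.exists_torus_A h.ne e2 (P.σ_ne_zero ht)
    obtain ⟨g, hg, rfl⟩ := h.box.surj g (g1 S h.hi h.hj)
    have g6 := mem_MK_of_L (S := S) (i := i) (K := K) hg (fr.mem_Mon fun k => ⟨k, g4 k⟩)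
    exact ⟨g, _, _, g2, fr.apply_neg g3 (g4 _), by simp [P.σσ, sq], cA g6 (g4 _) (g4 _) xA,
      cA g6 (g4 _) (g4 _) this⟩
  have sy' : ∀ {a b}, b ≠ a → b ≠ -a → AF fr φ i j L M a b ≤ AF fr φ i j L M b a := by
    intro a b h1 h2 x hx
    obtain ⟨m, hm, a1, a2⟩ := tr h1 h2
    exact cA' hm a2 a1 (sy (cA hm a1 a2 hx))
  have R1 : ∀ {a b c d}, b ≠ a → b ≠ -a → d ≠ c → d ≠ -c → c ≠ -a → c ≠ -b → d ≠ -a → d ≠ -b →
      c ≠ b → d ≠ a → ∀ {x}, x ∈ AF fr φ i j L M a b → ∀ {y}, y ∈ AF fr φ i j L M c d →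
      Commute x y := by
    intro a b c d h1 h2 h3 h4 h5 h6 h7 h8 h9 h10 x hx y hy
    obtain ⟨m, hm, a', ha, b', hb, c', hc, d', hd, a1, a2, a3, a4⟩ := h.pos4 a (-b) c (-d)
      (neg_ne_neg_of h1) h5 (by rwa [neg_neg]) (neg_ne_neg_of h10) (neg_ne_neg_of h8)
      (neg_ne_neg_of h3)
    refine commute_of_conj m (h.box.commute (cL hm ha hb h2 a1 a2 hx) (cL hm hc hd h4 a3 a4 hy) ?_)
    simp only [map_mul, map_inv]
    exact (fr.rgd.R1 a b c d h1 h2 h3 h4 h5 h6 h7 h8 _ hx.1 _ hy.1).conj _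
  refine ⟨_, ⟨box, sy', ?_, ?_, MK_mon, fun hm _ _ _ _ a1 a2 _ => cA hm a1 a2, ?_, fun a => ?_⟩, mA⟩
  · intro a b c d h1 h2 h3 h4 h5 h6 h7 h8 x hx y hy
    by_cases e : c ≠ b ∧ d ≠ a
    · exact R1 h1 h2 h3 h4 h5 h6 h7 h8 e.1 e.2 hx hy
    refine R1 h1 h2 h3.symm (ne_neg_swap h4) h7 h8 h5 h6 ?_ ?_ hx (sy' h3 h4 hy) <;> rintro rfl
    · exact e ⟨h3.symm, h1⟩
    · exact e ⟨h1.symm, h3⟩
  · intro a b c h1 h2 h3 h4 h5 h6 x hx y hy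
    obtain ⟨m, hm, a', ha, b', hb, c', hc, -, -, a1, a2, a3, -⟩ := h.pos4 a (-b) (-c) a
      (neg_ne_neg_of h1) (neg_ne_neg_of h3) (neg_ne_neg_of h6) (fr.ne a).symm
      (by rw [neg_neg]; exact h1.symm) (by rw [neg_neg]; exact h3.symm)
    have b1 := cL hm ha hb h2 a1 a2 hx
    have b2 := cL hm hb hc (by rwa [neg_neg]) a2 a3 hy
    have a4 : fr.Mv (φ m) c (-c') := by simpa using ng hm a3
    refine cA' hm a1 a4 ((mA _ ha _ hc (fun e => neg_ne_of h4 (a3.inj (e ▸ a1))) _).2 ⟨?_, ?_⟩)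
    · rw [conj_comm]
      exact mul_mem (mul_mem (mul_mem b1 b2) (inv_mem b1)) (inv_mem b2)
    · rw [map_conj, map_commutatorElement]
      exact a1.conj_RA a4 (fr.rgd.R3 a b c h1 h2 h3 h4 h5 h6 _ hx.1 _ hy.1)
  · intro a b a' b' h1 h2 h3 h4
    obtain ⟨m, hm, a1, a2⟩ := tr h1 h2
    obtain ⟨m', hm', a3, a4⟩ := tr h3 h4
    exact ⟨m'⁻¹ * m, mul_mem (inv_mem hm') hm, Base.mv_mul (Base.mv_inv a3) a1,
      Base.mv_mul (Base.mv_inv a4) a2⟩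
  · by_cases e : a = j ∨ a = -j
    · rcases e with rfl | rfl
      exacts [⟨i, h.ne.symm, ne_neg_swap e2⟩, ⟨i, ne_neg_swap e2, by simpa using h.ne.symm⟩]
    · push Not at e; exact ⟨j, e.1.symm, ne_neg_swap e.2⟩

end SetK

end Cfsg.Agent.Cls
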