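import Cfsg.Agent.Lib.Cls.UOdd

/-!
Unitary groups: from finitely many relations to injectivity.
-/

set_option autoImplicit false

namespace Cfsg.Agent.Cls

open Forms Forms.Form Subgroup
open scoped commutatorElement

section general

variable {F : Type*} [Field F] {P : Param F} {V : Type*} [AddCommGroup V] [Module F V]
  {f : Form P V} {I : Type*} [InvolutiveNeg I] {J : Type*} [Group J]

theorem inv_apply_smul {g : f.Isom} {v : V} {t : F} (h : g.1 v = t • v) (ht : t ≠ 0) :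
    g⁻¹.1 v = t⁻¹ • v := by
  rw [eq_inv_smul_iff₀ ht, ← map_smul, ← h, Isom.inv_apply]

theorem conj_apply_smul {fr : Frame f I} {φ : J →* f.Isom} {w g : J} {i j : I} {t : F}
    (h : fr.Mv (φ w) i j) (hg : (φ g).1 (fr.e i) = t • fr.e i) :
    (φ (w * g * w⁻¹)).1 (fr.e j) = t • fr.e j := by
  obtain ⟨c, hc⟩ := h.inv
  rw [map_mul, map_mul, map_inv, Isom.mul_apply, Isom.mul_apply, hc, map_smul, hg, smul_comm, ← hc,
    map_smul, Isom.apply_inv]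

/-- the vector parameters of the short root elements in a subgroup -/
def PC (fr : Frame f I) (φ : J →* f.Isom) (a : I) (v : V) (N : Subgroup J) : AddSubgroup F where
  carrier := {u | ∃ y ∈ N, ∃ l, IsE (φ y) (fr.e a) (u • v) l}
  zero_mem' := ⟨1, one_mem _, 0, by simpa using isE_one _⟩
  add_mem' := fun ⟨y, hy, _, e⟩ ⟨y', hy', _, e'⟩ => ⟨y * y', mul_mem hy hy', _, by
    rw [map_mul]
    exact (e.mul (fr.Qe a) e').congr (add_smul _ _ _).symm rfl⟩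
  neg_mem' := fun ⟨y, hy, _, e⟩ => ⟨y⁻¹, inv_mem hy, _, by
    rw [map_inv]
    exact (e.inv (fr.Qe a)).congr (neg_smul _ _).symm rfl⟩

/-- the parameters of the long root elements in a subgroup -/
def PZ (fr : Frame f I) (φ : J →* f.Isom) (a : I) (N : Subgroup J) : AddSubgroup F where
  carrier := {l | ∃ y ∈ N, IsE (φ y) (fr.e a) 0 l}
  zero_mem' := ⟨1, one_mem _, by simpa using isE_one _⟩
  add_mem' := fun ⟨y, hy, e⟩ ⟨y', hy', e'⟩ => ⟨y * y', mul_mem hy hy', by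
    rw [map_mul]
    exact (e.mul (fr.Qe a) e').congr (add_zero _) (by simp)⟩
  neg_mem' := fun ⟨y, hy, e⟩ => ⟨y⁻¹, inv_mem hy, by
    rw [map_inv]
    exact (e.inv (fr.Qe a)).congr neg_zero (IsE.lam_zero e.lam)⟩

end general

variable {F : Type*} [Field F] [Fintype F] {q : ℕ} {V : Type*} [AddCommGroup V] [Module F V]
  {I : Type*} [InvolutiveNeg I] {J : Type*} [Group J] {hF : Fintype.card F = q ^ 2}
  {f : Form (uP hF) V} {fr : Frame f I} {φ : J →* f.Isom} {S : Set I} {i j : I} {L : Subgroup J}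
  {n w c η : J} {A : I → I → Subgroup J} {Z : I → Subgroup J} {ζ : F}

section lines

variable (hζ : ∀ t : F, t ≠ 0 → ∃ k : ℕ, t = ζ ^ k)
include hζ

theorem gen_not_fixed : (uP hF).σ ζ ≠ ζ := fun e => by
  obtain ⟨a, ha⟩ := frobq_ne hF
  obtain ⟨k, rfl⟩ := hζ a fun e => ha (by simp [e])
  exact ha (by rw [map_pow]; exact congrArg (· ^ k) e)

theorem span_lines {α s : F} (B : AddSubgroup F) (hB : ∀ t ∈ B, t * (ζ * (uP hF).σ ζ) ∈ B)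
    (s0 : s ≠ 0) (hα : (uP hF).σ α ≠ α) (h1 : s ∈ B) (h2 : s * α ∈ B) (t : F) : t ∈ B := by
  have k : ∀ t ∈ B, ∀ a, (uP hF).σ a = a → t * a ∈ B := fun t ht a ha => by
    by_cases a0 : a = 0
    · simp [a0]
    obtain ⟨k, rfl⟩ := gen_norm hζ a ha a0
    clear ha a0
    induction k with
    | zero => simpa
    | succ k ih => rw [pow_succ, ← mul_assoc]; exact hB _ ih
  obtain ⟨a, b, ha, hb, e⟩ := exists_fixed_coords hα (map_one _) one_ne_zero (t / s)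
  rw [show t = s * α * a + s * b by field_simp at e; linear_combination e]
  exact add_mem (k _ h2 a ha) (k _ h1 b hb)

theorem Box.le_of_lines {a b : I} {X N : Subgroup J} (hX : Box φ X (fr.RS a b)) {α s c d : F}
    {g x y : J} (g1 : (φ g).1 (fr.e a) = c • fr.e a) (g2 : (φ g).1 (fr.e b) = d • fr.e b)
    (e : (uP hF).σ c * d = ζ * (uP hF).σ ζ) (hg : ∀ x ∈ X ⊓ N, g * x * g⁻¹ ∈ X ⊓ N) (s0 : s ≠ 0)
    (hα : (uP hF).σ α ≠ α) (hx : x ∈ X ⊓ N) (x1 : IsE (φ x) (fr.e a) (s • fr.e b) 0)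
    (hy : y ∈ X ⊓ N) (y1 : IsE (φ y) (fr.e a) ((s * α) • fr.e b) 0) : X ≤ N := fun z hz =>
  let ⟨u, hu⟩ := hX.mem z hz
  hX.mem_of_PA hz hu (span_lines hζ (PA fr φ a b (X ⊓ N))
    (fun _ ⟨y, h1, h2⟩ => ⟨_, hg y h1, e ▸ isE_conj_A h2 g1 g2⟩) s0 hα ⟨x, hx, x1⟩ ⟨y, hy, y1⟩ u)

theorem Box.le_of_linesC {a : I} {D Y N : Subgroup J} (hD : Box φ D (fr.RC a))
    (hY : Box φ Y (fr.RZ a)) (YD : Y ≤ D ⊓ N) {v : V} (hV : ∀ u ∈ fr.V0, ∃ t : F, u = t • v)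
    {g x y : J} {α l l' : F} (g1 : (φ g).1 (fr.e a) = (ζ * (uP hF).σ ζ) • fr.e a)
    (g2 : (φ g).1 v = v) (hg : ∀ x ∈ D ⊓ N, g * x * g⁻¹ ∈ D ⊓ N) (hα : (uP hF).σ α ≠ α)
    (hx : x ∈ D ⊓ N) (x1 : IsE (φ x) (fr.e a) v l) (hy : y ∈ D ⊓ N)
    (y1 : IsE (φ y) (fr.e a) (α • v) l') : D ≤ N := fun z hz => by
  obtain ⟨u, hu, m, hm⟩ := hD.mem z hz
  obtain ⟨t, rfl⟩ := hV u hu
  obtain ⟨p, p1, m', p2⟩ := span_lines hζ (PC fr φ a v (D ⊓ N)) (fun t ⟨y, h1, _, h2⟩ =>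
    ⟨_, hg y h1, _, (CE.isE_conj h2 g1).congr (by
      rw [map_smul, g2, smul_smul, map_mul, (uP hF).σσ]; congr 1; ring) rfl⟩) one_ne_zero hα
    ⟨x, hx, l, by rwa [one_smul]⟩ ⟨y, hy, l', by rwa [one_mul]⟩ t
  obtain ⟨r, r1, r2⟩ := hY.surj _ (fr.inv_mul_mem_RZ p2 hm)
  rw [hD.eq hz (mul_mem p1.1 (YD r1).1) (by rw [map_mul, r2, mul_inv_cancel_left])]
  exact mul_mem p1.2 (YD r1).2

theorem Box.le_of_lineZ {a : I} {Y N : Subgroup J} (hY : Box φ Y (fr.RZ a)) {g z : J}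
    (g1 : (φ g).1 (fr.e a) = (ζ * (uP hF).σ ζ) • fr.e a) (hz : φ z ∈ fr.RZ a) (z0 : φ z ≠ 1)
    (hg : ∀ k : ℕ, g ^ k * z * (g ^ k)⁻¹ ∈ Y ⊓ N) : Y ≤ N := fun y hy => by
  obtain ⟨l, hl⟩ := hz
  obtain ⟨m, hm⟩ := hY.mem y hy
  have l0 := fr.l_ne_zero (zero_mem _) hl z0
  have l1 := IsE.lam_zero hl.lam
  have m1 := IsE.lam_zero hm.lam
  simp only [Param.unit_ε, one_mul] at l1 m1
  obtain ⟨p, p1, p2⟩ := span_fixed (P := uP hF) (gen_norm hζ) (PZ fr φ a (Y ⊓ N)) (d := l)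
    (fun k => ⟨_, hg k, (CE.isE_conj hl (by rw [map_pow]; exact apply_pow g1 k)).congr (by simp) (by
      rw [map_pow, map_mul, (uP hF).σσ, mul_comm ((uP hF).σ ζ)]; ring)⟩) (s := m / l)
    (by rw [map_div₀, l1, m1, neg_div_neg_eq])
  rw [mul_div_cancel₀ _ l0] at p2
  exact hY.eq p1.1 hy (p2.eq hm) ▸ p1.2

end lines

variable [Finite I]

namespace USys

variable (h : USys fr φ S i j L n w A Z)
include h

omit [Finite I] in
theorem conj_E {g : J} (hg : g ∈ MK fr φ S i L (KN fr φ i L n)) (g1 : fr.Mv (φ g) i i)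
    (g2 : fr.Mv (φ g) j j) {d : J} (hd : d ∈ A i j ⊔ Z i) : g * d * g⁻¹ ∈ A i j ⊔ Z i :=
  conj_mem_sup (fun _ hy => mem_sup_left (h.hA.conj hg g1 g2 hy))
    (fun _ hy => mem_sup_right (h.hZ.conj hg g1 hy)) hd

omit [Finite I] in
theorem conj_E' {x : J} (hx : x ∈ A i (-j)) {d : J} (hd : d ∈ A i j ⊔ Z i) :
    x * d * x⁻¹ ∈ A i j ⊔ Z i :=
  have e3 := neg_ne_of (h.ne' h.hi h.hj)
  have e4 := neg_ne_neg_of h.ne
  conj_mem_sup (fun _ hy => conj_mem_of_comm (mem_sup_right (h.hZ.R2 e3 e4 hx (by rwa [neg_neg])))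
    (mem_sup_left hy)) (fun _ hy => conj_mem_of_commute (h.hZ.R4 e3 e4 (fr.ne i).symm
      (by rw [neg_neg]; exact h.ne.symm) hx hy) (mem_sup_right hy)) hd

omit [Finite I] h in
theorem mem_DS' {x c d : J} (hx : x ∈ A i (-j)) (e : c⁻¹ * ⁅x, d⁆ ∈ A i j ⊔ Z i) :
    c ∈ DS A Z i j d := by
  have := mul_mem (mem_DS (Z := Z) (d := d) hx) (inv_mem (mem_sup_right e))
  rwa [mul_inv_rev, mul_inv_cancel_left, inv_inv] at this

variable (V1 : ∀ u ∈ fr.V0, u ≠ 0 → f.B u u ≠ 0 ∧ ∀ u' ∈ fr.V0, ∃ a : F, u' = a • u)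
  (c1 : φ c ∈ fr.RC i) (c0 : φ c ∉ fr.RZ i)
include V1 c1 c0

theorem cSys_three (h3 : ∀ a b : I, ∃ k, k ≠ a ∧ k ≠ -a ∧ k ≠ b ∧ k ≠ -b)
    (f1 : ∀ l ∈ L, φ l ∈ fr.Levi (S \ {i}) → Commute l c) (r1 : Commute (w * n * w⁻¹) c) {x : J}
    (hx : x ∈ A i (-j)) (x0 : x ≠ 1) (r2 : Commute x c)
    (r3 : c⁻¹ * ⁅x, w * c * w⁻¹⁆ ∈ A i j ⊔ Z i) :
    ∃ C, CSys fr φ A (MK fr φ S i L (KN fr φ i L n)) C fr.RC ∧ c ∈ C i ∧ ∀ a, Z a ≤ C a := by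
  obtain ⟨k, hk, k1, k2⟩ := h.exists_third h3
  have e1 := h.ne
  have e2 := h.ne' h.hi h.hj
  have e3 := neg_ne_of e2
  have e4 := neg_ne_neg_of e1
  have wN : w ∈ NL fr φ L := ⟨h.wL, h.wM⟩
  have NM : ∀ {l}, l ∈ NL fr φ L → l ∈ MK fr φ S i L (KN fr φ i L n) := mem_sup_right
  have O : OSys0 fr φ S i j L n w A Z c := ⟨h, V1, c1, c0, f1, fun g hg =>
    (closure_le ((centralizer {c}).comap (MulAut.conj w).toMonoidHom)).2 (by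
      rintro _ ⟨l, l1, ⟨t, l2⟩, rfl⟩
      obtain ⟨b, b1, b2, b3, -⟩ := h.exists_tor h.hi hk k1 (fr.smul_ne_zero l2)
      have b5 := mul_mem (mul_mem wN b1) (inv_mem wN)
      have := f1 _ b5.1 (by
        rw [map_conj]
        refine fr.conj_Levi h.wM ?_ b2
        rintro _ (rfl | rfl)
        exacts [⟨j, ⟨h.hj, e1⟩, h.w1⟩, ⟨_, ⟨hk, k1⟩, h.w3 _ k1 (h.ne' h.hi hk) k2 (h.ne' h.hj hk)⟩])
      rw [h.conj_eq h.far l1 b1 (l2.trans b3.symm)]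
      refine mem_centralizer_singleton_iff.2 ?_
      simpa [mul_assoc] using ((this.mul_left r1).mul_left this.inv_left).eq) hg c rfl |>.symm⟩
  have f3 : ∀ x ∈ A i (-j), Commute x c := fun y hy => by
    refine ((h.hA.box e3 e4).le_of_span (N := centralizer {c}) hx x0 span_sq ?_ hy c rfl).symm
    rintro _ ⟨t, ht, rfl⟩
    obtain ⟨a, a1, a2, a3, -, a4, a5, -⟩ := h.exists_tor h.hj hk k2
      (inv_ne_zero ((uP hF).σ_ne_zero (pow_ne_zero 2 ht)))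
    have a6 := f1 a a1.1 (h.levi_pair h.hj hk e1 k1 a2)
    exact ⟨a, 1, _, by rw [one_smul, a5 i e1.symm (ne_neg_swap e2) k1.symm (h.ne' hk h.hi)],
      fr.apply_neg a3 (a4 _), by rw [map_one, one_mul, map_inv₀, inv_inv, (uP hF).σσ],
      h.hA.conj (NM a1) (a4 _) (a4 _) hx,
      mem_centralizer_singleton_iff.2 ((a6.mul_left r2).mul_left a6.inv_left)⟩
  have tor : ∀ {t : F}, t ≠ 0 → ∃ g ∈ NL fr φ L, (φ g).1 (fr.e i) = t • fr.e i ∧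
      (φ g).1 (fr.e (-j)) = fr.e (-j) ∧ (∀ a, fr.Mv (φ g) a a) ∧ Commute g (w * c * w⁻¹) :=
    fun ht => let ⟨g, g1, g2, g3, _, g4, g5, _⟩ := h.exists_tor h.hi hk k1 ht
      ⟨g, g1, g3, g5 _ e3 e4 (neg_ne_of (h.ne' hk h.hj)) (neg_ne_neg_of k2.symm), g4,
        h.far2 f1 g1.1 (h.levi_pair h.hi hk e1.symm k2 g2)⟩
  refine OSys.cSys ⟨O, f3, fun z hz => ?_, fun y hy => ?_⟩ ((closure_le _).2 ?_)
  · have a1 := h.ne' h.hj hk
    have a2 := h.ne' h.hj h.hi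
    exact (h.hZ.Z_le h.hA k2 a1 (N := centralizer {c}) (fun x hx => mem_centralizer_singleton_iff.2
      (O.A_comm f3 k2 a1 a2 (h.ne' hk h.hi) hx c mem_KN)) (fun x hx =>
      mem_centralizer_singleton_iff.2 (O.A_comm f3 (neg_ne_of a1) (neg_ne_neg_of k2) a2
        (by rw [neg_neg]; exact k1.symm) hx c mem_KN)) hz c rfl).symm
  · refine ((h.hA.box e3 e4).le_of_span (N := commSub (A i (-j)) {w * c * w⁻¹}
      (KN fr φ i L c ⊔ (A i j ⊔ Z i)) fun x hx _ => conj_mem_sup (fun y hy => mem_sup_left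
        (conj_mem_of_commute (O.A_comm f3 e3 e4 (fr.ne i).symm (by rw [neg_neg]; exact e1.symm) hx y hy)
          hy)) fun y hy => mem_sup_right (h.conj_E' hx hy)) hx x0 span_sq ?_ hy).2 _ rfl
    rintro _ ⟨t, ht, rfl⟩
    obtain ⟨g, g1, g2, g3, g4, g5⟩ := tor ((uP hF).σ_ne_zero (pow_ne_zero 2 ht))
    have g6 := h.hA.conj (NM g1) (g4 _) (g4 _) hx
    refine ⟨g, _, 1, g2, by rw [g3, one_smul], by rw [(uP hF).σσ, mul_one], g6, g6, ?_⟩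
    rintro _ rfl
    rw [conj_comm_fix (mul_inv_eq_iff_eq_mul.2 g5)]
    refine conj_mem_sup (fun y hy => mem_sup_left (conj_mem_KN g1 (g4 i) hy))
      (fun y hy => mem_sup_right (h.conj_E (NM g1) (g4 i) (g4 j) hy)) ?_
    simpa using mul_mem (mem_sup_left mem_KN : c ∈ KN fr φ i L c ⊔ (A i j ⊔ Z i)) (mem_sup_right r3)
  · rintro _ ⟨l, l1, ⟨t, l2⟩, rfl⟩
    obtain ⟨g, g1, g2, -, g4, g5⟩ := tor (fr.smul_ne_zero l2)
    rw [h.conj_eq f1 l1 g1 (l2.trans g2.symm)]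
    exact OSys.conj_DS h.hA h.hZ (NM g1) (g4 i) (g4 j) g5 (mem_DS' hx r3)

theorem cSys_two (h2 : Set2 fr φ S i j L n w η ζ) (r1 : Commute (w * n * w⁻¹) c)
    (r2 : Commute (w * ⁅η, n⁆ * w⁻¹) c) {x₀ x₁ x₂ z : J} {s : F} (hx₀ : x₀ ∈ A i (-j))
    (hx₁ : x₁ ∈ A i (-j)) (hx₂ : x₂ ∈ A i (-j)) (s0 : s ≠ 0)
    (p0 : IsE (φ x₀) (fr.e i) (s • fr.e (-j)) 0)
    (p1 : IsE (φ x₁) (fr.e i) ((s * (uP hF).σ ζ) • fr.e (-j)) 0) (r3 : Commute x₀ c)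
    (r4 : Commute x₁ c) (hz : z ∈ Z j) (z0 : φ z ≠ 1) (r5 : Commute z c)
    (r6 : ⁅η, n⁆ * (w * ⁅η, n⁆ * w⁻¹)⁻¹ ∈ L) (r7 : c⁻¹ * ⁅x₀, w * c * w⁻¹⁆ ∈ A i j ⊔ Z i)
    (r8 : (η * c * η⁻¹)⁻¹ * ⁅x₁, w * c * w⁻¹⁆ ∈ A i j ⊔ Z i)
    (r9 : (η * (η * c * η⁻¹) * η⁻¹)⁻¹ * ⁅x₂, w * c * w⁻¹⁆ ∈ A i j ⊔ Z i) :
    ∃ C, CSys fr φ A (MK fr φ S i L (KN fr φ i L n)) C fr.RC ∧ c ∈ C i ∧ ∀ a, Z a ≤ C a := by
  have hK := h.setK h.comm
  have e1 := h.ne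
  have e2 := h.ne' h.hi h.hj
  have e3 := neg_ne_of e2
  have e4 := neg_ne_neg_of e1
  have NM : ∀ {l}, l ∈ NL fr φ L → l ∈ MK fr φ S i L (KN fr φ i L n) := mem_sup_right
  have O : OSys0 fr φ S i j L n w A Z c := ⟨h, V1, c1, c0, fun l l1 l2 => by
    rw [h.box.inj l l1 (levi_eq_one h.S1 h.hi h.hj h2.hI l2)]; exact .one_left c, fun g hg =>
    (h2.KN_le (N := (centralizer {c}).comap (MulAut.conj w).toMonoidHom)
      (mem_centralizer_singleton_iff.2 r1) (mem_centralizer_singleton_iff.2 r2) hg c rfl).symm⟩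
  have α1 : (uP hF).σ ((uP hF).σ ζ) ≠ (uP hF).σ ζ := by
    rw [(uP hF).σσ]; exact (gen_not_fixed h2.hζ).symm
  obtain ⟨u, u1, u0, l, hu⟩ := O.exists_isE
  have ηV := fun {v} => fr.Levi_V0 (v := v) (h.box.mem η h2.ηL)
  have κ1 := h2.κ_apply
  have κ2 := h2.κK
  have κ3 := h2.κd
  have κ4 := h2.r2
  have κ5 : (φ ⁅η, n⁆).1 u = u := by
    rw [map_commutatorElement, commutatorElement_def, Isom.mul_apply, Isom.mul_apply, Isom.mul_apply,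
      inv_apply_of_apply (ηV (fr.mem_V0_of_mon (inv_mem h.nM) u1)), Isom.apply_inv, ηV u1]
  generalize ⁅η, n⁆ = κ at *
  have κM := mem_MK_of_K h.hi (hK.mem_K.2 κ2) (h.KN_mon κ2)
  have κM' := mul_mem (mul_mem (NM h2.wN) κM) (inv_mem (NM h2.wN))
  have a1 := hK.K_fix h.hj (hK.conj_mem_K κ2) e1.symm (ne_neg_swap e2)
  have a2 := conj_apply_smul h.w1 κ1
  have N0 := fr.smul_ne_zero a2
  have a3 := fr.apply_neg a2 (h.hA.mv_neg κM' ⟨_, a2⟩)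
  have κ6 := O.K_comm κ2
  have f3 : ∀ x ∈ A i (-j), Commute x c := fun y hy =>
    ((h.hA.box e3 e4).le_of_lines h2.hζ (N := centralizer {c}) (g := (w * κ * w⁻¹)⁻¹) (c := 1)
      (by rw [map_inv, inv_apply_of_apply a1, one_smul])
      (by rw [map_inv]; exact inv_apply_smul a3 (fr.smul_ne_zero a3))
      (by rw [map_one, one_mul, inv_inv, map_mul, (uP hF).σσ, mul_comm]) (fun x hx =>
        ⟨h.hA.conj (inv_mem κM') (Base.mv_inv (.of_eq a1)) (Base.mv_inv ⟨_, a3⟩) hx.1,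
          mem_centralizer_singleton_iff.2 ((r2.inv_left.mul_left
            (mem_centralizer_singleton_iff.1 hx.2)).mul_left r2.inv_left.inv_left)⟩) s0 α1
      ⟨hx₀, mem_centralizer_singleton_iff.2 r3⟩ p0 ⟨hx₁, mem_centralizer_singleton_iff.2 r4⟩ p1
      hy c rfl).symm
  have κK : ∀ y ∈ KN fr φ i L c, κ * y * κ⁻¹ ∈ KN fr φ i L c := fun y hy => by
    have := conj_mem_KN (l := κ * (w * κ * w⁻¹)⁻¹) ⟨r6, MK_mon _ (mul_mem κM (inv_mem κM'))⟩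
      (Base.mv_mul (κ3 i) (Base.mv_inv (.of_eq a1))) hy
    rwa [mul_assoc κ, (O.K2_comm κ2 hy).inv_left.eq, show κ * (y * (w * κ * w⁻¹)⁻¹) *
      (κ * (w * κ * w⁻¹)⁻¹)⁻¹ = κ * y * κ⁻¹ by group] at this
  have b1 := conj_mem_KN h2.ηN (h2.ηd i) (mem_KN (n := c))
  have O' : OSys fr φ S i j L n w A Z c := ⟨O, f3, fun y hy => ((h.hZ.box j).le_of_lineZ h2.hζ
    (N := centralizer {c}) a2 ((h.hZ.box j).mem z hz) z0 (fun k => conj_pow_mem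
      (N := Z j ⊓ centralizer {c}) (g := w * κ * w⁻¹) (fun x hx => ⟨h.hZ.conj κM' ⟨_, a2⟩ hx.1, mem_centralizer_singleton_iff.2 ((r2.mul_left
        (mem_centralizer_singleton_iff.1 hx.2)).mul_left r2.inv_left)⟩) k z
      ⟨hz, mem_centralizer_singleton_iff.2 r5⟩) hy c rfl).symm, fun y hy => by
    refine ((h.hA.box e3 e4).le_of_lines h2.hζ (N := commSub (A i (-j)) {w * c * w⁻¹}
      (KN fr φ i L c ⊔ (A i j ⊔ Z i)) fun x hx _ => conj_mem_sup (fun y hy => mem_sup_left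
        (conj_mem_of_commute (O.A_comm f3 e3 e4 (fr.ne i).symm (by rw [neg_neg]; exact e1.symm) hx y hy)
          hy)) fun y hy => mem_sup_right (h.conj_E' hx hy)) κ1 (d := 1)
      (by rw [one_smul, hK.fix κ κ2 _ e3 e4]) (by rw [mul_one, map_mul, (uP hF).σσ, mul_comm])
      (fun x hx => ?_) s0 α1 ⟨hx₀, hx₀, ?_⟩ p0 ⟨hx₁, hx₁, ?_⟩ p1 hy).2 _ rfl
    · have := h.hA.conj κM (κ3 _) (κ3 _) hx.1
      refine ⟨this, this, ?_⟩
      rintro _ rfl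
      rw [conj_comm_fix (mul_inv_eq_iff_eq_mul.2 κ6)]
      exact conj_mem_sup (fun y hy => mem_sup_left (κK y hy))
        (fun y hy => mem_sup_right (h.conj_E κM (κ3 i) (κ3 j) hy)) (hx.2.2 _ rfl)
    · rintro _ rfl
      simpa using mul_mem (mem_sup_left mem_KN : c ∈ KN fr φ i L c ⊔ (A i j ⊔ Z i)) (mem_sup_right r7)
    · rintro _ rfl
      have := mul_mem (mem_sup_left b1 : _ ∈ KN fr φ i L c ⊔ (A i j ⊔ Z i)) (mem_sup_right r8)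
      rwa [mul_inv_cancel_left] at this⟩
  have d0 : c ∈ DS A Z i j (w * c * w⁻¹) ⊓ (fr.RC i).comap φ := ⟨mem_DS' hx₀ r7, c1⟩
  have d1 : _ ∈ DS A Z i j (w * c * w⁻¹) ⊓ (fr.RC i).comap φ := ⟨mem_DS' hx₁ r8, O.KN_le_RC b1⟩
  have d2 : _ ∈ DS A Z i j (w * c * w⁻¹) ⊓ (fr.RC i).comap φ :=
    ⟨mem_DS' hx₂ r9, O.KN_le_RC (conj_mem_KN h2.ηN (h2.ηd i) b1)⟩
  have d3 : ∀ y ∈ DS A Z i j (w * c * w⁻¹) ⊓ (fr.RC i).comap φ,
      κ * y * κ⁻¹ ∈ DS A Z i j (w * c * w⁻¹) ⊓ (fr.RC i).comap φ := fun y hy =>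
    ⟨OSys.conj_DS h.hA h.hZ κM (κ3 i) (κ3 j) κ6 hy.1, by
      change φ _ ∈ fr.RC i; rw [map_conj]; exact (κ3 i).conj_RC (h.KN_mon κ2) hy.2⟩
  have d4 : Z i ≤ DS A Z i j (w * c * w⁻¹) ⊓ (fr.RC i).comap φ := fun y hy =>
    ⟨mem_sup_right (mem_sup_right hy), fr.RZ_le_RC i ((h.hZ.box i).mem y hy)⟩
  have d5 := O'.boxD.le_of_linesC h2.hζ (h.hZ.box i) (N := (DS A Z i j (w * c * w⁻¹) ⊓
      (fr.RC i).comap φ).comap (MulAut.conj η).toMonoidHom) (fun y hy =>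
      ⟨d4 hy, d4 (h.hZ.conj (NM h2.ηN) (h2.ηd i) hy)⟩) (V1 u u1 u0).2 κ1 κ5 (fun y hy =>
      ⟨d3 y hy.1, by
        change η * (κ * y * κ⁻¹) * η⁻¹ ∈ DS A Z i j (w * c * w⁻¹) ⊓ (fr.RC i).comap φ
        convert d3 _ hy.2 using 1
        calc _ = η * κ * y * (η * κ)⁻¹ := by group
          _ = _ := by rw [κ4.eq]; simp [mul_assoc]⟩) α1 ⟨d0, d1⟩ hu ⟨d1, d2⟩
      (ηV u1 ▸ CE.isE_conj hu h2.η1)
  refine O'.cSys ((closure_le _).2 ?_)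
  rintro _ ⟨l, l1, l2, rfl⟩
  obtain ⟨k, rfl⟩ := h2.exists_pow l1 l2
  exact (conj_pow_mem (N := DS A Z i j (w * c * w⁻¹) ⊓ (fr.RC i).comap φ) (fun y hy => d5 hy)
    k c d0).1

omit V1 c1 c0

theorem injective {C : I → Subgroup J} (hC : CSys fr φ A (MK fr φ S i L (KN fr φ i L n)) C fr.RC)
    (ZC : ∀ a, Z a ≤ C a) (nZ : n ∈ Z i ⊔ Z (-i)) (hV : (∀ v ∈ fr.V0, v = 0) ∨
      ∃ v ∈ fr.V0, f.B v v ≠ 0 ∧ ∀ u ∈ fr.V0, ∃ c : F, u = c • v)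
    (gen : ∀ K : Subgroup J, L ≤ K → n ∈ K → C i ≤ K → K = ⊤) : Function.Injective φ := by
  have h1 := (h.hA.rgd hC).pSt0.pSt1 (.inr (fr.RC_ne_bot fr.unit_hasC)) h.hA.two
  have CU : ∀ a, C a ≤ ⨆ a, UT A C a Set.univ := fun a => le_iSup_of_le a C_le_UT
  have top := gen (⨆ a, UT A C a Set.univ) (fun l hl => h.box.mem_of_le (fr.Levi_le
    fun a ha b hb e g hg => by
      obtain ⟨x, hx, rfl⟩ := (h.boxX ha hb e).surj g hg
      exact ⟨x, ⟨hx.1, le_iSup_of_le (f := fun a => UT A C a Set.univ) a (A_le_UT (Set.mem_univ _)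
        (neg_ne_of (h.ne' ha hb)) (neg_ne_neg_of e)) (h.eA a ha b hb e ▸ hx)⟩, rfl⟩) hl
      (h.box.mem l hl)) (sup_le ((ZC _).trans (CU _)) ((ZC _).trans (CU _)) nZ) (CU i)
  refine (injective_iff_map_eq_one φ).2 fun g e => ?_
  rcases hV with hV | ⟨v, v1, v2, v3⟩
  · exact h1.ker_su_even hV h.ne (h.ne' h.hi h.hj) (top ▸ mem_top g) e
  · exact (h1.can fr.unit_hasC i top).ker_su_odd v1 v2 v3 i e

end USys

end Cfsg.Agent.Cls
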