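import Cfsg.Agent.Lib.Cls.UK

/-!
Root subgroups of unitary groups from relations.
-/

set_option autoImplicit false

namespace Cfsg.Agent.Cls

open Forms Forms.Form Subgroup
open scoped commutatorElement

section general

variable {F : Type*} [Field F] {P : Param F} {V : Type*} [AddCommGroup V] [Module F V]
  {f : Form P V} {I : Type*} [InvolutiveNeg I] {J : Type*} [Group J]

/-- the short and long root subgroups -/
structure USys (fr : Frame f I) (φ : J →* f.Isom) (S : Set I) (i j : I) (L : Subgroup J) (n w : J)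
    (A : I → I → Subgroup J) (Z : I → Subgroup J) : Prop extends SetN fr φ S i j L n w where
  comm : ∀ k ∈ KN fr φ i L n, ∀ k' ∈ KN fr φ i L n, Commute k (w * k' * w⁻¹)
  hA : ASys fr φ A (MK fr φ S i L (KN fr φ i L n))
  eA : ∀ a ∈ S, ∀ b ∈ S, b ≠ a → A a (-b) = XL fr φ L a b
  hZ : CSys fr φ A (MK fr φ S i L (KN fr φ i L n)) Z fr.RZ

variable {fr : Frame f I} {φ : J →* f.Isom} {S : Set I} {i j : I} {L : Subgroup J} {n w : J}

namespace SetN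

variable (h : SetN fr φ S i j L n w)
include h

theorem far2 {c : J} (hc : ∀ l ∈ L, φ l ∈ fr.Levi (S \ {i}) → Commute l c) {l : J} (hl : l ∈ L)
    (l1 : φ l ∈ fr.Levi (S \ {j})) : Commute l (w * c * w⁻¹) := by
  simpa [mul_assoc] using (hc (w⁻¹ * l * w⁻¹⁻¹) (L.mul_mem (L.mul_mem (L.inv_mem h.wL) hl)
    (L.inv_mem (L.inv_mem h.wL))) (by
      rw [map_conj, map_inv]
      refine fr.conj_Levi (inv_mem h.wM) (fun a ha => ?_) l1
      obtain ⟨b, hb⟩ := (inv_mem h.wM).1 a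
      exact ⟨b, ⟨fr.mv_mem_of_Levi h.S1 h.S2 (inv_mem (h.box.mem w h.wL)) ha.1 hb,
        fun e' => ha.2 (hb.inj (e' ▸ h.w1.inv))⟩, hb⟩)).conj w

theorem m_mv : φ (w * n * w⁻¹) ∈ fr.Mon ∧ fr.Mv (φ (w * n * w⁻¹)) (-j) j ∧
    fr.Mv (φ (w * n * w⁻¹)) j (-j) ∧ (φ (w * n * w⁻¹)).1 (fr.e i) = fr.e i :=
  ⟨by rw [map_conj]; exact mul_mem (mul_mem h.wM h.nM) (inv_mem h.wM),
    Base.mv_mul (Base.mv_mul h.w1 h.n1) (Base.mv_inv (h.w1.neg' h.wM)),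
    Base.mv_mul (Base.mv_mul (h.w1.neg' h.wM) h.n3) (Base.mv_inv h.w1),
    conj_fix h.w2 (h.n2 j h.ne (h.ne' h.hi h.hj))⟩

theorem exists_third (h3 : ∀ a b : I, ∃ k, k ≠ a ∧ k ≠ -a ∧ k ≠ b ∧ k ≠ -b) :
    ∃ c ∈ S, c ≠ i ∧ c ≠ j :=
  let ⟨d, d1, d2, d3, d4⟩ := h3 i j
  (h.S2 d).elim (fun e => ⟨d, e, d1, d3⟩) fun e => ⟨-d, e, neg_ne_of d2, neg_ne_of d4⟩

theorem levi_pair {a b c : I} (ha : a ∈ S) (hb : b ∈ S) (h1 : a ≠ c) (h2 : b ≠ c) :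
    fr.Levi {a, b} ≤ fr.Levi (S \ {c}) :=
  fr.Levi_mono (by rintro _ (rfl | rfl); exacts [⟨ha, h1⟩, ⟨hb, h2⟩])

variable [Finite I] [Finite F]

theorem aSys_three (h3 : ∀ a b : I, ∃ k, k ≠ a ∧ k ≠ -a ∧ k ≠ b ∧ k ≠ -b)
    (r1 : Commute n (w * n * w⁻¹)) (r2 : ∀ l ∈ L, φ l ∈ fr.Levi {i, j} →
      n * (w * n * w⁻¹) * l * (n * (w * n * w⁻¹))⁻¹ ∈ L) {x : J} (hx : x ∈ XL fr φ L i j)
    (x0 : x ≠ 1) (r3 : n * n * x * (n * n)⁻¹ ∈ L) :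
    (∀ k ∈ KN fr φ i L n, ∀ k' ∈ KN fr φ i L n, Commute k (w * k' * w⁻¹)) ∧
    ∃ A, ASys fr φ A (MK fr φ S i L (KN fr φ i L n)) ∧
      ∀ a ∈ S, ∀ b ∈ S, b ≠ a → A a (-b) = XL fr φ L a b := by
  obtain ⟨c, hc, c1, c2⟩ := h.exists_third h3
  have e1 := h.ne
  have e2 := h.ne' h.hi h.hj
  have e3 := h.ne' h.hj h.hi
  have wN : w ∈ NL fr φ L := ⟨h.wL, h.wM⟩
  obtain ⟨m0, m1, m2, m3⟩ := h.m_mv
  have comm : ∀ k ∈ KN fr φ i L n, ∀ k' ∈ KN fr φ i L n, Commute k (w * k' * w⁻¹) := by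
    intro k hk k' hk'
    refine commute_of_closure (t := (MulAut.conj w).toMonoidHom '' _) ?_ hk
      (by rw [← MonoidHom.map_closure]; exact ⟨k', hk', rfl⟩)
    rintro _ ⟨l, l1, ⟨s, l2⟩, rfl⟩ _ ⟨_, ⟨l', l3, ⟨t, l4⟩, rfl⟩, rfl⟩
    obtain ⟨a, a1, a2, a3, -, a4, -, a5⟩ := h.exists_tor h.hi hc c1 (fr.smul_ne_zero l2)
    obtain ⟨b, b1, b2, b3, -, b4, -⟩ := h.exists_tor h.hi hc c1 (fr.smul_ne_zero l4)
    rw [h.conj_eq h.far l1 a1 (l2.trans a3.symm), h.conj_eq h.far l3 b1 (l4.trans b3.symm)]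
    have b5 := mul_mem (mul_mem wN b1) (inv_mem wN)
    have d1 := h.far _ b5.1 (by
      rw [map_conj]
      refine fr.conj_Levi h.wM ?_ b2
      rintro _ (rfl | rfl)
      exacts [⟨j, ⟨h.hj, e1⟩, h.w1⟩, ⟨_, ⟨hc, c1⟩, h.w3 _ c1 (h.ne' h.hi hc) c2 (h.ne' h.hj hc)⟩])
    have d2 := h.far2 h.far a1.1 (h.levi_pair h.hi hc e1.symm c2 a2)
    have d3 := h.box.commute a1.1 b5.1 (fr.diag_commute a4 (fun k => by
      obtain ⟨k', hk'⟩ := h.wM.2 k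
      exact Base.mv_mul (Base.mv_mul hk' (b4 k')) (Base.mv_inv hk')) a5)
    have := r1.conj (a * (w * b * w⁻¹))
    rw [show a * (w * b * w⁻¹) * n * (a * (w * b * w⁻¹))⁻¹ =
      a * (w * b * w⁻¹ * n * (w * b * w⁻¹)⁻¹) * a⁻¹ by group, d1.eq, mul_inv_cancel_right, d3.eq,
      show w * b * w⁻¹ * a * (w * n * w⁻¹) * (w * b * w⁻¹ * a)⁻¹ = w * b * w⁻¹ *
        (a * (w * n * w⁻¹) * a⁻¹) * (w * b * w⁻¹)⁻¹ by group, d2.eq, mul_inv_cancel_right] at this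
    simpa [mul_assoc] using this
  generalize hm : w * n * w⁻¹ = m at *
  have g1 : fr.Mv (φ (n * m)) i (-i) := Base.mv_mul h.n3 (.of_eq m3)
  have g2 : fr.Mv (φ (n * m)) j (-j) :=
    Base.mv_mul (.of_eq (h.n2 _ (neg_ne_of e2) (neg_ne_neg_of e1))) m2
  have g0 : φ (n * m) ∈ fr.Mon := by rw [map_mul]; exact mul_mem h.nM m0
  have k1 : ∀ {a b}, a ∈ S → b ∈ S → b ≠ a → a ∈ ({i, j} : Set I) → b ∈ ({i, j} : Set I) →
      fr.Mv (φ (n * m)) a (-a) → fr.Mv (φ (n * m)) b (-b) →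
      (∀ y ∈ XL fr φ L a b, n * m * y * (n * m)⁻¹ ∈ XL fr φ L b a) ∧
      ∀ y ∈ XL fr φ L b a, (n * m)⁻¹ * y * (n * m) ∈ XL fr φ L a b := by
    intro a b ha hb e a1 b1 a2 b2
    have b3 := b2.neg' g0
    have k : ∀ y ∈ XL fr φ L a b, n * m * y * (n * m)⁻¹ ∈ XL fr φ L b a := fun y hy =>
      ⟨r2 y hy.1 (fr.mem_Levi a1 b1 e hy.2), by
        change φ _ ∈ fr.RA _ _
        rw [map_conj]
        simpa using show _ ∈ fr.RA (- -b) (-a) from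
          fr.RA_swap (neg_ne_neg_of (neg_ne_neg_of e)) (a2.conj_RA b3 hy.2)⟩
    exact ⟨k, fun y => (h.boxX ha hb e).of_conj (h.boxX hb ha e.symm) k fun y hy => by
      simpa using show _ ∈ fr.RS a (-b) from a2.inv.conj_RA b3.inv
        (fr.RA_swap (i := - -b) (by rw [neg_neg]; exact neg_ne_neg_of e.symm) (by rwa [neg_neg]))⟩
  obtain ⟨p1, p2⟩ := k1 h.hi h.hj e1 (by simp) (by simp) g1 g2
  obtain ⟨p3, p4⟩ := k1 h.hj h.hi e1.symm (by simp) (by simp) g2 g1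
  have h1 : n * n ∈ normalizer (XL fr φ L i j : Set J) := by
    have n4 := Frame.Mv.of_eq (h.n2 _ (neg_ne_of e2) (neg_ne_neg_of e1))
    refine h.norm_XL' h.hi h.hj e1 (Base.mv_mul h.n1 h.n3) (Base.mv_mul n4 n4)
      ((h.boxX h.hi h.hj e1).le_of_span (N := L.comap (MulAut.conj (n * n)).toMonoidHom) hx x0
        span_sq ?_)
    rintro _ ⟨t, ht, rfl⟩
    obtain ⟨a, a1, a2, a3, -, a4, a5, -⟩ := h.exists_tor h.hj hc c2
      (inv_ne_zero (P.σ_ne_zero (pow_ne_zero 2 ht)))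
    have a6 := h.far a a1.1 (h.levi_pair h.hj hc e1 c1 a2)
    refine ⟨a, 1, _, by rw [one_smul, a5 i e1.symm e3 c1.symm (h.ne' hc h.hi)],
      fr.apply_neg a3 (a4 _), by simp [P.σσ], conj_XL a1 (a4 _) (a4 _) hx, ?_⟩
    change n * n * (a * x * a⁻¹) * (n * n)⁻¹ ∈ L
    rw [show n * n * (a * x * a⁻¹) * (n * n)⁻¹ = n * n * a * x * (n * n * a)⁻¹ by group,
      ← (a6.mul_right a6).eq]
    simpa [mul_assoc] using L.mul_mem (L.mul_mem a1.1 r3) (L.inv_mem a1.1)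
  refine ⟨comm, h.aSys comm h1 ?_ (fun t ht => ?_) hx x0 (hm ▸ (p3 _ (conj_XL wN h.w1 h.w2 hx)).1)⟩
  · have := conj_mem_normalizer p1 p2 h1
    rwa [← ((Commute.refl n).mul_right r1).mul_left ((Commute.refl n).mul_right r1) |>.eq,
      mul_inv_cancel_right] at this
  · obtain ⟨a, a1, a2, a3, -, a4, -⟩ := h.exists_tor h.hi hc c1 ht
    have a5 : n⁻¹ * a * n = (n * m)⁻¹ * a * (n * m)⁻¹⁻¹ := by
      have := h.far2 h.far a1.1 (h.levi_pair h.hi hc e1.symm c2 a2)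
      rw [hm] at this
      rw [r1.eq, inv_inv, mul_inv_rev, mul_assoc n⁻¹ m⁻¹, ← this.inv_right.eq]; group
    exact ⟨a, a1, a3, a4 j, a5 ▸ conj_mem_normalizer (by simpa only [inv_inv] using p2)
      (by simpa only [inv_inv] using p1) (norm_XL a1 (a4 _) (a4 _)), a5 ▸ conj_mem_normalizer
      (by simpa only [inv_inv] using p4) (by simpa only [inv_inv] using p3) (norm_XL a1 (a4 _) (a4 _))⟩

end SetN

end general

end Cfsg.Agent.Cls
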