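import Cfsg.Agent.Lib.Cls.UZ

/-!
The monomial group generated by a linear subgroup and one sign change.
-/

set_option autoImplicit false

namespace Cfsg.Agent.Cls

open Forms Forms.Form Subgroup
open scoped commutatorElement

variable {F : Type*} [Field F] {P : Param F} {V : Type*} [AddCommGroup V] [Module F V]
  {f : Form P V} {I : Type*} [InvolutiveNeg I] {J : Type*} [Group J]

theorem Box.of_conj {G : Type*} [Group G] {φ : J →* G} {X X' : Subgroup J} {H H' : Subgroup G}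
    (h : Box φ X H) (h' : Box φ X' H') {g : J} (h1 : ∀ x ∈ X, g * x * g⁻¹ ∈ X')
    (h2 : ∀ y ∈ H', (φ g)⁻¹ * y * φ g ∈ H) {y : J} (hy : y ∈ X') : g⁻¹ * y * g ∈ X := by
  obtain ⟨x, hx, e⟩ := h.surj _ (h2 _ (h'.mem y hy))
  rw [← h'.eq (h1 x hx) hy (by simp [e, mul_assoc])]
  simpa [mul_assoc] using hx

theorem Box.mem_normalizer {G : Type*} [Group G] {φ : J →* G} {X : Subgroup J} {H : Subgroup G}
    (h : Box φ X H) {g : J} (h1 : ∀ x ∈ X, g * x * g⁻¹ ∈ X)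
    (h2 : ∀ y ∈ H, (φ g)⁻¹ * y * φ g ∈ H) : g ∈ normalizer (X : Set J) :=
  mem_normalizer_iff.2 fun x => ⟨h1 x, fun hx => by simpa [mul_assoc] using h.of_conj h h1 h2 hx⟩

theorem conj_mem_normalizer {X Y : Subgroup J} {g a : J} (h1 : ∀ x ∈ X, g * x * g⁻¹ ∈ Y)
    (h2 : ∀ y ∈ Y, g⁻¹ * y * g ∈ X) (ha : a ∈ normalizer (X : Set J)) :
    g * a * g⁻¹ ∈ normalizer (Y : Set J) :=
  mem_normalizer_iff.2 fun y => ⟨fun hy => by
    simpa [mul_assoc] using h1 _ ((mem_normalizer_iff.1 ha _).1 (h2 y hy)), fun hy => by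
    simpa [mul_assoc] using h1 _ ((mem_normalizer_iff.1 (inv_mem ha) _).1 (h2 _ hy))⟩

theorem mem_normalizer_of_commute {X : Subgroup J} {g : J} (h : ∀ x ∈ X, Commute g x) :
    g ∈ normalizer (X : Set J) :=
  centralizer_le_normalizer _ fun x hx => (h x hx).symm

/-- the group generated by the conjugates of `n` -/
def KN (fr : Frame f I) (φ : J →* f.Isom) (i : I) (L : Subgroup J) (n : J) : Subgroup J :=
  closure {k | ∃ l ∈ NL fr φ L, fr.Mv (φ l) i i ∧ k = l * n * l⁻¹}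

/-- the root subgroups inside `L` -/
abbrev XL (fr : Frame f I) (φ : J →* f.Isom) (L : Subgroup J) (a b : I) : Subgroup J :=
  L ⊓ (fr.RS a (-b)).comap φ

/-- A linear subgroup and a sign change. -/
structure SetN (fr : Frame f I) (φ : J →* f.Isom) (S : Set I) (i j : I) (L : Subgroup J) (n w : J) :
    Prop where
  S1 : ∀ i ∈ S, -i ∉ S
  S2 : ∀ i, i ∈ S ∨ -i ∈ S
  hi : i ∈ S
  hj : j ∈ S
  ne : j ≠ i
  box : Box φ L (fr.Levi S)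
  nM : φ n ∈ fr.Mon
  n1 : fr.Mv (φ n) (-i) i
  n2 : ∀ a, a ≠ i → a ≠ -i → (φ n).1 (fr.e a) = fr.e a
  wL : w ∈ L
  wM : φ w ∈ fr.Mon
  w1 : fr.Mv (φ w) i j
  w2 : fr.Mv (φ w) j i
  w3 : ∀ a, a ≠ i → a ≠ -i → a ≠ j → a ≠ -j → fr.Mv (φ w) a a
  far : ∀ l ∈ L, φ l ∈ fr.Levi (S \ {i}) → Commute l n

variable {fr : Frame f I} {φ : J →* f.Isom} {S : Set I} {i j : I} {L K : Subgroup J} {n w : J}

theorem conj_mem_KN {l k : J} (hl : l ∈ NL fr φ L) (e : fr.Mv (φ l) i i) (hk : k ∈ KN fr φ i L n) :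
    l * k * l⁻¹ ∈ KN fr φ i L n :=
  conj_mem_of_closure (by
    rintro _ ⟨l', h1, h2, rfl⟩
    exact subset_closure ⟨l * l', mul_mem hl h1, Base.mv_mul e h2, by group⟩) hk

theorem mem_KN : n ∈ KN fr φ i L n :=
  subset_closure ⟨1, one_mem _, by rw [map_one]; exact .one, by simp⟩

theorem SetK.conj_mem_one' (h : SetK fr φ S i j L K w) [Finite I] {N : Subgroup J}
    (h1 : ∀ l ∈ NL fr φ L, fr.Mv (φ l) i i → ∀ x ∈ N, l * x * l⁻¹ ∈ N)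
    (h2 : ∀ k ∈ NL fr φ K, fr.Mv (φ k) i i → ∀ x ∈ N, k * x * k⁻¹ ∈ N)
    (h3 : ∀ k ∈ NL fr φ K, ∀ x ∈ N, w * k * w⁻¹ * x * (w * k * w⁻¹)⁻¹ ∈ N)
    (m : J) (hm : m ∈ MK fr φ S i L K) (e : fr.Mv (φ m) i i) (x : J) (hx : x ∈ N) :
    m * x * m⁻¹ ∈ N := by
  obtain ⟨e', he, l, hl, rfl, a⟩ := h.split hm
  obtain ⟨a1, a2⟩ := a i h.hi e
  obtain ⟨k, hk, e0, he', rfl⟩ := h.ET_split subset_rfl h.hi he
  have b2 := le_normalizer_iff.1 (ET_le (T := S \ {i}) (N := normalizer (N : Set J))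
    (fun a ha => le_normalizer_iff.2
    fun k hk x hx => by
      obtain ⟨g, hg, g1, g2⟩ := h.two_trans h.hi ha.1 h.hi h.hj ha.2 h.ne
      have wN : w⁻¹ * g ∈ NL fr φ L := mul_mem (inv_mem ⟨h.wL, h.wM⟩) hg
      simpa [mul_assoc] using h1 _ (inv_mem hg) (Base.mv_inv g1) _ (h3 _ ⟨hk.1 _ wN
        (Base.mv_mul (Base.mv_inv h.w1) g2), (fr.Mon.comap φ).mul_mem ((fr.Mon.comap φ).mul_mem wN.2
          hk.2) (inv_mem wN).2⟩ _ (h1 g hg g1 x hx)))) e0 he' _ (h1 l hl a1 x hx)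
  simpa [mul_assoc] using h2 k ⟨h.mem_K.1 hk.1, hk.2⟩ (by simpa using (Base.mv_mul a2
    (Base.mv_inv (.of_eq (h.ET_fix Set.sdiff_subset h.hi (by simp) he'))))) _ b2

namespace SetN

variable (h : SetN fr φ S i j L n w)
include h

theorem ne' {a b : I} (ha : a ∈ S) (hb : b ∈ S) : b ≠ -a := fun e => h.S1 _ ha (e ▸ hb)

theorem n3 : fr.Mv (φ n) i (-i) := by simpa using h.n1.neg' h.nM

theorem boxX {a b : I} (ha : a ∈ S) (hb : b ∈ S) (e : b ≠ a) :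
    Box φ (XL fr φ L a b) (fr.RS a (-b)) := h.box.inf fun _ hg => fr.mem_Levi ha hb e hg

theorem KN_mon {k : J} (hk : k ∈ KN fr φ i L n) : φ k ∈ fr.Mon :=
  (closure_le (fr.Mon.comap φ)).2 (by
    rintro _ ⟨l, h1, -, rfl⟩
    exact mul_mem (mul_mem h1.2 h.nM) (inv_mem h1).2) hk

theorem conj_far {l g : J} (hl : l ∈ L) (l1 : φ l ∈ fr.Levi (S \ {i})) (hg : g ∈ NL fr φ L)
    (e : fr.Mv (φ g) i i) : g * l * g⁻¹ ∈ L ∧ φ (g * l * g⁻¹) ∈ fr.Levi (S \ {i}) :=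
  ⟨L.mul_mem (L.mul_mem hg.1 hl) (L.inv_mem hg.1), by
    rw [map_conj]
    refine fr.conj_Levi hg.2 (fun a ha => ?_) l1
    obtain ⟨b, hb⟩ := hg.2.1 a
    exact ⟨b, ⟨fr.mv_mem_of_Levi h.S1 h.S2 (h.box.mem g hg.1) ha.1 hb,
      fun e' => ha.2 (hb.inj (e' ▸ e))⟩, hb⟩⟩

theorem far_KN {c : J} (hc : ∀ l ∈ L, φ l ∈ fr.Levi (S \ {i}) → Commute l c) {l : J} (hl : l ∈ L)
    (l1 : φ l ∈ fr.Levi (S \ {i})) {k : J} (hk : k ∈ KN fr φ i L c) : Commute l k :=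
  commute_of_closure (s := {l}) (by
    rintro _ rfl _ ⟨g, g1, g2, rfl⟩
    have := h.conj_far hl l1 (inv_mem g1) (Base.mv_inv g2)
    simpa [mul_assoc] using (hc _ this.1 this.2).conj g) (subset_closure rfl) hk

theorem setK (comm : ∀ k ∈ KN fr φ i L n, ∀ k' ∈ KN fr φ i L n, Commute k (w * k' * w⁻¹)) :
    SetK fr φ S i j L (KN fr φ i L n) w :=
  ⟨h.S1, h.S2, h.hi, h.hj, h.ne, h.box, fun k hk a a1 a2 =>
    (closure_le (FixV fr φ {a}ᶜ)).2 (by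
      rintro _ ⟨l, h1, h2, rfl⟩ b hb
      obtain rfl : b = a := by simpa using hb
      obtain ⟨c, hc⟩ := h1.2.2 b
      exact conj_fix hc (h.n2 c (fun e => a1 (hc.unique (e ▸ h2)))
        fun e => a2 (hc.unique (e ▸ h2.neg' h1.2)))) hk a (by simp),
    ⟨n, mem_KN, h.nM, h.n1⟩, h.wL, h.wM, h.w1, fun _ h1 h2 h3 _ => conj_mem_KN ⟨h1, h2⟩ h3,
    fun _ h1 h2 _ => h.far_KN h.far h1 h2, comm⟩

variable [Finite I] [Finite F]

theorem conj_eq {c : J} (hc : ∀ l ∈ L, φ l ∈ fr.Levi (S \ {i}) → Commute l c) {l l' : J}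
    (hl : l ∈ NL fr φ L) (hl' : l' ∈ NL fr φ L) (e : (φ l).1 (fr.e i) = (φ l').1 (fr.e i)) :
    l * c * l⁻¹ = l' * c * l'⁻¹ := by
  have a1 := mul_mem (inv_mem hl') hl
  have := hc _ a1.1 (fr.Levi_stab h.S1 h.S2 (by simpa using h.hi) (h.box.mem _ a1.1) a1.2 (by
    rintro _ rfl
    rw [map_mul, map_inv, Isom.mul_apply, e, Isom.inv_apply]))
  calc _ = l' * (l'⁻¹ * l * c * (l'⁻¹ * l)⁻¹) * l'⁻¹ := by group
    _ = _ := by rw [this.eq, mul_inv_cancel_right]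

theorem K_norm {X : Subgroup J} (h1 : n * n ∈ normalizer (X : Set J))
    (h2 : ∀ t : F, t ≠ 0 → ∃ l ∈ NL fr φ L, (φ l).1 (fr.e i) = t • fr.e i ∧
      l ∈ normalizer (X : Set J) ∧ n⁻¹ * l * n ∈ normalizer (X : Set J))
    {k : J} (hk : k ∈ KN fr φ i L n) (e : fr.Mv (φ k) i i) : k ∈ normalizer (X : Set J) := by
  let Q := FixP fr φ {i, -i}ᶜ ⊓ normalizer (X : Set J) ⊓
    (normalizer (X : Set J)).comap (MulAut.conj n⁻¹).toMonoidHom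
  have mQ : ∀ {g}, g ∈ Q ↔ (fr.Mv (φ g) i i ∧ fr.Mv (φ g) (-i) (-i)) ∧ g ∈ normalizer (X : Set J) ∧
      n⁻¹ * g * n ∈ normalizer (X : Set J) := by simp [Q, FixP, and_assoc, ← or_iff_not_imp_left]
  have q1 : n * n ∈ Q := mQ.2 ⟨⟨Base.mv_mul h.n1 h.n3, Base.mv_mul h.n3 h.n1⟩, h1, by simpa⟩
  have q2 : ∀ g ∈ Q, n * g * n⁻¹ ∈ Q := fun g hg => by
    obtain ⟨⟨a1, a2⟩, a3, a4⟩ := mQ.1 hg
    exact mQ.2 ⟨⟨Base.mv_mul (Base.mv_mul h.n1 a2) (Base.mv_inv h.n1),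
      Base.mv_mul (Base.mv_mul h.n3 a1) (Base.mv_inv h.n3)⟩,
      by simpa [mul_assoc] using mul_mem (mul_mem h1 a4) (inv_mem h1), by simpa [mul_assoc]⟩
  have q3 : ∀ s ∈ Q, ∀ g, g ∈ Q ∨ g * n⁻¹ ∈ Q → s * n * g ∈ Q ∨ s * n * g * n⁻¹ ∈ Q := by
    rintro s hs g (hg | hg)
    · exact .inr (by simpa [mul_assoc] using mul_mem hs (q2 g hg))
    · exact .inl (by simpa [mul_assoc] using mul_mem (mul_mem hs (q2 _ hg)) q1)
  have q4 : ∀ l ∈ NL fr φ L, fr.Mv (φ l) i i → l * n * l⁻¹ * n⁻¹ ∈ Q := by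
    rintro l hl ⟨t, ht⟩
    obtain ⟨g, g1, g2, g3, g4⟩ := h2 t (fr.smul_ne_zero ht)
    have g5 : fr.Mv (φ g) i i := ⟨t, g2⟩
    have g6 := g5.neg' g1.2
    rw [h.conj_eq h.far hl g1 (ht.trans g2.symm)]
    exact mQ.2 ⟨⟨Base.mv_mul (Base.mv_mul (Base.mv_mul g5 h.n1) (Base.mv_inv g6)) (Base.mv_inv h.n1),
      Base.mv_mul (Base.mv_mul (Base.mv_mul g6 h.n3) (Base.mv_inv g5)) (Base.mv_inv h.n3)⟩,
      by simpa [mul_assoc] using mul_mem g3 (mul_mem (mul_mem h1 (inv_mem g4)) (inv_mem h1)),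
      by simpa [mul_assoc] using mul_mem g4 (inv_mem g3)⟩
  have : k ∈ Q ∨ k * n⁻¹ ∈ Q := by
    clear e
    induction hk using closure_induction_left with
    | one => exact .inl (one_mem _)
    | mul_left x hx y _ ih =>
      obtain ⟨l, l1, l2, rfl⟩ := hx
      simpa [mul_assoc] using q3 _ (q4 l l1 l2) y ih
    | inv_mul_cancel x hx y _ ih =>
      obtain ⟨l, l1, l2, rfl⟩ := hx
      simpa [mul_assoc] using q3 _ (mul_mem (inv_mem q1) (q2 _ (inv_mem (q4 l l1 l2)))) y ih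
  rcases this with e' | e'
  · exact (mQ.1 e').2.1
  · exact absurd ((Base.mv_mul e (Base.mv_inv h.n3)).unique (mQ.1 e').1.2).symm (fr.ne i)

theorem exists_tor {a b : I} (ha : a ∈ S) (hb : b ∈ S) (e : b ≠ a) {t : F} (ht : t ≠ 0) :
    ∃ l ∈ NL fr φ L, φ l ∈ fr.Levi {a, b} ∧ (φ l).1 (fr.e a) = t • fr.e a ∧
      (φ l).1 (fr.e b) = t⁻¹ • fr.e b ∧ (∀ k, fr.Mv (φ l) k k) ∧
      (∀ k, k ≠ a → k ≠ -a → k ≠ b → k ≠ -b → (φ l).1 (fr.e k) = fr.e k) ∧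
      ∀ v ∈ fr.V0, (φ l).1 v = v := by
  obtain ⟨g, g1, g2, g3, g4, g5⟩ := fr.exists_torus_A e (h.ne' ha hb) ht
  obtain ⟨g, hg, rfl⟩ := h.box.surj g (g1 S ha hb)
  exact ⟨g, ⟨hg, fr.mem_Mon fun k => ⟨k, g4 k⟩⟩, g1 _ (by simp) (by simp), g2, g3, g4, g5⟩

omit [Finite I] [Finite F] h in
theorem conj_XL {l x : J} (hl : l ∈ NL fr φ L) {a b a' b' : I} (h1 : fr.Mv (φ l) a a')
    (h2 : fr.Mv (φ l) b b') (hx : x ∈ XL fr φ L a b) : l * x * l⁻¹ ∈ XL fr φ L a' b' :=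
  ⟨L.mul_mem (L.mul_mem hl.1 hx.1) (L.inv_mem hl.1), by
    change φ _ ∈ fr.RA _ _; rw [map_conj]; exact h1.conj_RA (h2.neg' hl.2) hx.2⟩

omit [Finite I] [Finite F] h in
theorem norm_XL {l : J} (hl : l ∈ NL fr φ L) {a b : I} (h1 : fr.Mv (φ l) a a)
    (h2 : fr.Mv (φ l) b b) : l ∈ normalizer (XL fr φ L a b : Set J) :=
  mem_normalizer_iff.2 fun x => ⟨conj_XL hl h1 h2, fun hx => by
    simpa [mul_assoc] using conj_XL (inv_mem hl) (Base.mv_inv h1) (Base.mv_inv h2) hx⟩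

omit [Finite F] in
theorem norm_XL' {g : J} {a b : I} (ha : a ∈ S) (hb : b ∈ S) (e : b ≠ a) (h1 : fr.Mv (φ g) a a)
    (h2 : fr.Mv (φ g) (-b) (-b)) (h3 : ∀ x ∈ XL fr φ L a b, g * x * g⁻¹ ∈ L) :
    g ∈ normalizer (XL fr φ L a b : Set J) :=
  (h.boxX ha hb e).mem_normalizer (fun x hx => ⟨h3 x hx, by
    change φ _ ∈ fr.RA _ _; rw [map_conj]; exact h1.conj_RA h2 hx.2⟩) fun y hy => by
      simpa using show _ ∈ fr.RS a (-b) from h1.inv.conj_RA h2.inv hy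

theorem aSys (comm : ∀ k ∈ KN fr φ i L n, ∀ k' ∈ KN fr φ i L n, Commute k (w * k' * w⁻¹))
    (h1 : n * n ∈ normalizer (XL fr φ L i j : Set J)) (h2 : n * n ∈ normalizer (XL fr φ L j i : Set J))
    (h3 : ∀ t : F, t ≠ 0 → ∃ l ∈ NL fr φ L, (φ l).1 (fr.e i) = t • fr.e i ∧ fr.Mv (φ l) j j ∧
      n⁻¹ * l * n ∈ normalizer (XL fr φ L i j : Set J) ∧
      n⁻¹ * l * n ∈ normalizer (XL fr φ L j i : Set J)) {x : J} (hx : x ∈ XL fr φ L i j) (x0 : x ≠ 1)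
    (sym : n * (w * n * w⁻¹) * (w * x * w⁻¹) * (n * (w * n * w⁻¹))⁻¹ ∈ L) :
    ∃ A, ASys fr φ A (MK fr φ S i L (KN fr φ i L n)) ∧
      ∀ a ∈ S, ∀ b ∈ S, b ≠ a → A a (-b) = XL fr φ L a b := by
  have hK := h.setK comm
  have wN : w ∈ NL fr φ L := ⟨h.wL, h.wM⟩
  have e2 := h.ne' h.hi h.hj
  have e3 := h.ne' h.hj h.hi
  have n4 := mem_MK_of_K h.hi (hK.mem_K.2 mem_KN) h.nM
  have n5 : fr.Mv (φ (w * n * w⁻¹)) (-j) j :=
    Base.mv_mul (Base.mv_mul h.w1 h.n1) (Base.mv_inv (h.w1.neg' h.wM))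
  have n6 : fr.Mv (φ (w * n * w⁻¹)) i i := .of_eq (hK.K_fix h.hj (hK.conj_mem_K mem_KN) h.ne.symm e3)
  have n7 : w * n * w⁻¹ ∈ MK fr φ S i L (KN fr φ i L n) :=
    mul_mem (mul_mem (mem_sup_right wN) n4) (inv_mem (mem_sup_right wN))
  obtain ⟨A, hA, e⟩ := hK.aSys (fun k hk k1 y y1 y2 => ⟨((h.K_norm h1 (fun t ht =>
      let ⟨l, l1, l2, l3, l4, _⟩ := h3 t ht; ⟨l, l1, l2, norm_XL l1 ⟨t, l2⟩ l3, l4⟩) hk.1 k1 y).1
      ⟨y1, y2⟩).1, by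
    simpa [mul_assoc] using (conj_XL wN h.w2 h.w1 ((h.K_norm h2 (fun t ht =>
      let ⟨l, l1, l2, l3, _, l4⟩ := h3 t ht; ⟨l, l1, l2, norm_XL l1 l3 ⟨t, l2⟩, l4⟩) hk.1 k1 _).1
      (conj_XL (inv_mem wN) (Base.mv_inv h.w2) (Base.mv_inv h.w1) ⟨y1, y2⟩))).1⟩) hx.1 hx.2 x0
    (mul_mem (mul_mem n4 n7) (mem_sup_right wN))
    (Base.mv_mul (Base.mv_mul h.n1 (n6.neg' (MK_mon _ n7))) (h.w2.neg' h.wM))
    (Base.mv_mul (Base.mv_mul (.of_eq (h.n2 _ (neg_ne_of e2) (neg_ne_neg_of h.ne)))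
      (by simpa using n5.neg' (MK_mon _ n7))) h.w1) (by simpa [mul_assoc] using sym)
  exact ⟨A, hA, fun a ha b hb e' => Subgroup.ext (e a ha b hb e')⟩

end SetN

end Cfsg.Agent.Cls
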