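import Cfsg.Agent.Lib.Cls.UTwo

/-!
The short root subgroups of unitary groups of odd degree from relations.
-/

set_option autoImplicit false

namespace Cfsg.Agent.Cls

open Forms Forms.Form Subgroup
open scoped commutatorElement

section general

variable {F : Type*} [Field F] {P : Param F} {V : Type*} [AddCommGroup V] [Module F V]
  {f : Form P V} {I : Type*} [InvolutiveNeg I] {J : Type*} [Group J]

theorem Frame.Levi_V0 (fr : Frame f I) {S : Set I} {g : f.Isom} (hg : g ∈ fr.Levi S) {v : V}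
    (hv : v ∈ fr.V0) : g.1 v = v :=
  fr.Levi_le (N := (MulAction.stabilizer _ v).comap f.Isom.subtype)
    (fun _ _ _ _ _ _ hx => fr.RA_apply_V0 hx hv) hg

theorem exists_mul_of_commute {X Y : Subgroup J} (h : ∀ x ∈ X, ∀ y ∈ Y, Commute x y) {g : J}
    (hg : g ∈ X ⊔ Y) : ∃ x ∈ X, ∃ y ∈ Y, g = x * y := by
  rw [← SetLike.mem_coe, coe_mul_of_left_le_normalizer_right _ _
    fun x hx => mem_normalizer_of_commute (h x hx)] at hg
  obtain ⟨x, hx, y, hy, rfl⟩ := hg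
  exact ⟨x, hx, y, hy, rfl⟩

theorem commute_sup {X Y : Subgroup J} {g : J} (h1 : ∀ x ∈ X, Commute x g) (h2 : ∀ y ∈ Y, Commute y g)
    {x : J} (hx : x ∈ X ⊔ Y) : Commute x g :=
  ((sup_le (fun x hx => mem_centralizer_singleton_iff.2 (h1 x hx))
    (fun x hx => mem_centralizer_singleton_iff.2 (h2 x hx)) : _ ≤ centralizer {g}) hx g rfl).symm

theorem conj_mem_sup {X Y N : Subgroup J} {g : J} (h1 : ∀ x ∈ X, g * x * g⁻¹ ∈ N)
    (h2 : ∀ y ∈ Y, g * y * g⁻¹ ∈ N) {x : J} (hx : x ∈ X ⊔ Y) : g * x * g⁻¹ ∈ N :=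
  (sup_le h1 h2 : _ ≤ N.comap (MulAut.conj g).toMonoidHom) hx

variable {fr : Frame f I} {φ : J →* f.Isom} {A : I → I → Subgroup J} {Z : I → Subgroup J}

theorem CSys.Z_comm {M : Subgroup J} (hZ : CSys fr φ A M Z fr.RZ) (h : ASys fr φ A M) {a b : I}
    (h1 : b ≠ a) (h2 : b ≠ -a) {x y : J} (hx : x ∈ Z a) (hy : y ∈ Z b) : Commute x y :=
  commutatorElement_eq_one_iff_commute.1 ((h.box h1 h2).inj _ (hZ.R6 h1 h2 hx hy) (by
    rw [map_commutatorElement, commutatorElement_eq_one_iff_commute]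
    exact fr.commute_RZ' (fr.RC_apply (fr.RZ_le_RC _ ((hZ.box a).mem x hx)) h2) ((hZ.box b).mem y hy)))

/-- the commutators with a short root element -/
def DS (A : I → I → Subgroup J) (Z : I → Subgroup J) (i j : I) (d : J) : Subgroup J :=
  closure ((⁅·, d⁆) '' (A i (-j) : Set J)) ⊔ (A i j ⊔ Z i)

theorem mem_DS {i j : I} {d x : J} (hx : x ∈ A i (-j)) : ⁅x, d⁆ ∈ DS A Z i j d :=
  mem_sup_left (subset_closure ⟨x, hx, rfl⟩)

/-- a further short root element -/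
structure OSys0 (fr : Frame f I) (φ : J →* f.Isom) (S : Set I) (i j : I) (L : Subgroup J) (n w : J)
    (A : I → I → Subgroup J) (Z : I → Subgroup J) (c : J) : Prop
    extends USys fr φ S i j L n w A Z where
  V1 : ∀ u ∈ fr.V0, u ≠ 0 → f.B u u ≠ 0 ∧ ∀ u' ∈ fr.V0, ∃ a : F, u' = a • u
  c1 : φ c ∈ fr.RC i
  c0 : φ c ∉ fr.RZ i
  f1 : ∀ l ∈ L, φ l ∈ fr.Levi (S \ {i}) → Commute l c
  f2 : ∀ k ∈ KN fr φ i L n, Commute (w * k * w⁻¹) c

/-- the same with more relations -/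
structure OSys (fr : Frame f I) (φ : J →* f.Isom) (S : Set I) (i j : I) (L : Subgroup J) (n w : J)
    (A : I → I → Subgroup J) (Z : I → Subgroup J) (c : J) : Prop
    extends OSys0 fr φ S i j L n w A Z c where
  f3 : ∀ x ∈ A i (-j), Commute x c
  f4 : ∀ z ∈ Z j, Commute z c
  f5 : ∀ x ∈ A i (-j), ⁅x, w * c * w⁻¹⁆ ∈ KN fr φ i L c ⊔ (A i j ⊔ Z i)

variable {S : Set I} {i j : I} {L : Subgroup J} {n w c : J} [Finite I] [Finite F]

namespace OSys0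

variable (h : OSys0 fr φ S i j L n w A Z c)
include h

theorem commute_KN {N : Set J} (h1 : ∀ x ∈ N, Commute x c)
    (h2 : ∀ l ∈ NL fr φ L, (∀ a, fr.Mv (φ l) a a) → ∀ x ∈ N, l * x * l⁻¹ ∈ N) {x : J} (hx : x ∈ N)
    {y : J} (hy : y ∈ KN fr φ i L c) : Commute x y :=
  commute_of_closure (s := {x}) (by
    rintro _ rfl _ ⟨l, l1, ⟨t, l2⟩, rfl⟩
    obtain ⟨g, g1, -, g2, -, g3, -⟩ := h.exists_tor h.hi h.hj h.ne (fr.smul_ne_zero l2)
    rw [h.conj_eq h.f1 l1 g1 (l2.trans g2.symm)]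
    simpa [mul_assoc] using (h1 _ (h2 _ (inv_mem g1) (fun a => Base.mv_inv (g3 a)) _ hx)).conj g)
    (subset_closure rfl) hy

theorem K2_comm {k : J} (hk : k ∈ KN fr φ i L n) {y : J} (hy : y ∈ KN fr φ i L c) :
    Commute (w * k * w⁻¹) y :=
  h.commute_KN (N := {x | ∃ k ∈ KN fr φ i L n, x = w * k * w⁻¹}) (by
    rintro _ ⟨k, hk, rfl⟩; exact h.f2 k hk) (by
    rintro l l1 l2 _ ⟨k, hk, rfl⟩
    exact ⟨_, conj_mem_KN (mul_mem (mul_mem (inv_mem ⟨h.wL, h.wM⟩) l1) ⟨h.wL, h.wM⟩)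
      (Base.mv_mul (Base.mv_mul (Base.mv_inv h.w1) (l2 j)) h.w1) hk, by group⟩) ⟨k, hk, rfl⟩ hy

omit [Finite F] in
theorem K_comm {k : J} (hk : k ∈ KN fr φ i L n) : Commute k (w * c * w⁻¹) := by
  have wN : w ∈ NL fr φ L := ⟨h.wL, h.wM⟩
  simpa [mul_assoc] using (h.f2 _ (conj_mem_KN (inv_mem (mul_mem wN wN))
    (Base.mv_inv (Base.mv_mul h.w2 h.w1)) hk)).conj w

omit [Finite I] [Finite F] h in
theorem comm_of_conj {g x : J} (hg : g ∈ NL fr φ L) (e : fr.Mv (φ g) i i)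
    (hx : ∀ y ∈ KN fr φ i L c, Commute (g * x * g⁻¹) y) : ∀ y ∈ KN fr φ i L c, Commute x y :=
  fun y hy => commute_of_conj g (hx _ (conj_mem_KN hg e hy))

theorem exists_sign {a : I} (ha : a ∈ S) (e : a ≠ i) : ∃ s ∈ MK fr φ S i L (KN fr φ i L n),
    fr.Mv (φ s) (-a) a ∧ fr.Mv (φ s) a (-a) ∧ (∀ b, b ≠ a → b ≠ -a → fr.Mv (φ s) b b) ∧
      ∀ x, (∀ y ∈ KN fr φ i L c, Commute (s * x * s⁻¹) y) → ∀ y ∈ KN fr φ i L c, Commute x y := by
  have hK := h.setK h.comm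
  obtain ⟨s, s1, s2, s3⟩ := hK.sign ha
  obtain ⟨g, hg, g1, g2⟩ := hK.two_trans h.hi ha h.hi h.hj e h.ne
  have := comm_of_conj (x := s) hg g1 fun y hy => by
    simpa [mul_assoc] using h.K2_comm (s1 _ (mul_mem (inv_mem ⟨h.wL, h.wM⟩) hg)
      (Base.mv_mul (Base.mv_inv h.w1) g2)) hy
  exact ⟨s, mem_MK_of_K ha s1 s2, s3, by simpa using s3.neg' s2,
    fun b b1 b2 => .of_eq (hK.K_fix ha s1 b1 b2), fun x hx y hy => commute_of_conj s (by
      rw [(this y hy).eq, mul_inv_cancel_right]; exact hx y hy)⟩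

omit [Finite I] [Finite F] in
theorem KN_le_RC {y : J} (hy : y ∈ KN fr φ i L c) : φ y ∈ fr.RC i :=
  (closure_le ((fr.RC i).comap φ)).2 (by
    rintro _ ⟨l, l1, l2, rfl⟩
    change φ _ ∈ fr.RC i
    rw [map_conj]; exact l2.conj_RC l1.2 h.c1) hy

omit [Finite I] [Finite F] in
theorem exists_isE : ∃ u ∈ fr.V0, u ≠ 0 ∧ ∃ l, IsE (φ c) (fr.e i) u l :=
  let ⟨u, h1, l, h2⟩ := h.c1; ⟨u, h1, fun e => h.c0 ⟨l, e ▸ h2⟩, l, h2⟩

end OSys0

end general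

variable {F : Type*} [Field F] [Fintype F] {q : ℕ} {V : Type*} [AddCommGroup V] [Module F V]
  {I : Type*} [InvolutiveNeg I] {J : Type*} [Group J] {hF : Fintype.card F = q ^ 2}
  {f : Form (uP hF) V} {fr : Frame f I} {φ : J →* f.Isom} {S : Set I} {i j : I} {L : Subgroup J}
  {n w c : J} {A : I → I → Subgroup J} {Z : I → Subgroup J} [Finite I]

theorem OSys0.A_comm (h : OSys0 fr φ S i j L n w A Z c) (f3 : ∀ x ∈ A i (-j), Commute x c) {a b : I}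
    (h1 : b ≠ a) (h2 : b ≠ -a) (h3 : i ≠ -a) (h4 : i ≠ -b) {x : J} (hx : x ∈ A a b) :
    ∀ y ∈ KN fr φ i L c, Commute x y := by
  have hK := h.setK h.comm
  have k1 : ∀ {a b}, a ∈ S → b ∈ S → b ≠ a → b ≠ i → ∀ {x}, x ∈ A a (-b) →
      ∀ y ∈ KN fr φ i L c, Commute x y := by
    intro a b ha hb e e' x hx
    by_cases a1 : a = i
    · obtain ⟨g, hg, g1, g2⟩ := hK.two_trans ha hb h.hi h.hj e h.ne
      exact OSys0.comm_of_conj hg (a1 ▸ g1) fun y => h.commute_KN (N := A i (-j)) f3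
        (fun l l1 l2 x => h.hA.conj (mem_sup_right l1) (l2 _) (l2 _))
        (h.hA.conj (mem_sup_right hg) g1 (g2.neg' hg.2) hx)
    · rw [h.eA a ha b hb e] at hx
      exact fun y => h.far_KN h.f1 hx.1 (fr.mem_Levi (S := S \ {i}) ⟨ha, a1⟩ ⟨hb, e'⟩ e hx.2)
  have k2 : ∀ {a b}, a ∈ S → b ∈ S → b ≠ a → b ≠ i → ∀ {x}, x ∈ A a b →
      ∀ y ∈ KN fr φ i L c, Commute x y := fun ha hb e e' x hx =>
    let ⟨s, s1, _, s2, s3, s4⟩ := h.exists_sign hb e'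
    s4 x (k1 ha hb e e' (h.hA.conj s1 (s3 _ e.symm (h.ne' hb ha)) s2 hx))
  have k3 : ∀ {a b}, a ∈ S → b ≠ a → b ≠ -a → i ≠ -b → ∀ {x}, x ∈ A a b →
      ∀ y ∈ KN fr φ i L c, Commute x y := by
    intro a b ha h1 h2 h4 x hx
    rcases h.S2 b with hb | hb
    · by_cases e : b = i
      · exact k2 hb ha h1.symm (e ▸ h1.symm) (h.hA.sym h1 h2 hx)
      · exact k2 ha hb h1 e hx
    · exact k1 ha hb (neg_ne_of h2) h4.symm (by rwa [neg_neg])
  rcases h.S2 a with ha | ha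
  · exact k3 ha h1 h2 h4 hx
  obtain ⟨s, s1, s2, -, s3, s4⟩ := h.exists_sign ha h3.symm
  rw [neg_neg] at s2 s3
  exact s4 x (k3 ha h2 (by rwa [neg_neg]) h4 (h.hA.conj s1 s2 (s3 b h2 h1) hx))

namespace OSys

variable (h : OSys fr φ S i j L n w A Z c)
include h

theorem Z_comm {z : J} (hz : z ∈ Z i ∨ z ∈ Z j) : ∀ y ∈ KN fr φ i L c, Commute z y := by
  have e2 := h.ne' h.hi h.hj
  rcases hz with hz | hz
  · exact fun y hy => (h.hZ.Z_le h.hA h.ne e2 (N := centralizer {y})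
      (fun x hx => mem_centralizer_singleton_iff.2
        (h.A_comm h.f3 h.ne e2 (fr.ne i).symm (ne_neg_swap e2) hx y hy))
      (fun x hx => mem_centralizer_singleton_iff.2 (h.A_comm h.f3 (neg_ne_of e2) (neg_ne_neg_of h.ne)
        (fr.ne i).symm (by rw [neg_neg]; exact h.ne.symm) hx y hy)) hz y rfl).symm
  · exact fun y => h.commute_KN (N := Z j) h.f4
      (fun l l1 l2 x => h.hZ.conj (mem_sup_right l1) (l2 _)) hz

theorem E_comm {d : J} (hd : d ∈ A i j ⊔ Z i) : (∀ y ∈ KN fr φ i L c, Commute d y) ∧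
    ∀ y ∈ KN fr φ i L c ⊔ Z i, Commute d (w * y * w⁻¹) := by
  have e2 := h.ne' h.hi h.hj
  have e3 := ne_neg_swap e2
  have wM : w⁻¹ ∈ MK fr φ S i L (KN fr φ i L n) := inv_mem (mem_sup_right ⟨h.wL, h.wM⟩)
  refine ⟨fun y hy => commute_sup (fun x hx => h.A_comm h.f3 h.ne e2 (fr.ne i).symm e3 hx y hy)
    (fun x hx => h.Z_comm (.inl hx) y hy) hd, fun y hy => commute_of_conj w⁻¹ ?_⟩
  rw [show w⁻¹ * (w * y * w⁻¹) * w⁻¹⁻¹ = y by group]
  have : w⁻¹ * d * w⁻¹⁻¹ ∈ A j i ⊔ Z j := conj_mem_sup (fun x hx => mem_sup_left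
    (h.hA.conj wM (Base.mv_inv h.w2) (Base.mv_inv h.w1) hx))
    (fun x hx => mem_sup_right (h.hZ.conj wM (Base.mv_inv h.w2) hx)) hd
  exact commute_sup (fun x hx => (commute_sup (fun y hy => (h.A_comm h.f3 h.ne.symm e3 e3
    (fr.ne i).symm hx y hy).symm) (fun y hy => (h.hZ.R4 h.ne.symm e3 e3 (fr.ne i).symm hx hy).symm)
    hy).symm) (fun x hx => (commute_sup (fun y hy => (h.Z_comm (.inr hx) y hy).symm)
      (fun y hy => h.hZ.Z_comm h.hA h.ne e2 hy hx) hy).symm) this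

theorem DS_spec {g : J} (hg : g ∈ DS A Z i j (w * c * w⁻¹)) :
    ∃ x ∈ A i (-j), g * ⁅x, w * c * w⁻¹⁆⁻¹ ∈ A i j ⊔ Z i := by
  have e2 := h.ne' h.hi h.hj
  have e3 := neg_ne_of e2
  have e4 := neg_ne_neg_of h.ne
  have YZ : ∀ y ∈ A i j, ∀ z ∈ Z i, Commute y z := fun y hy z hz =>
    h.hZ.R4 h.ne e2 (fr.ne i).symm (ne_neg_swap e2) hy hz
  have c1 : ∀ x ∈ A i (-j), ∀ d ∈ A i j ⊔ Z i, ⁅x, d⁆ ∈ Z i := fun x hx d hd => by
    obtain ⟨y, hy, z, hz, rfl⟩ := exists_mul_of_commute YZ hd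
    rw [comm_mul_right, commutatorElement_eq_one_iff_commute.2
      (h.hZ.R4 e3 e4 (fr.ne i).symm (by rw [neg_neg]; exact h.ne.symm) hx hz)]
    simpa using h.hZ.R2 e3 e4 hx (by rwa [neg_neg])
  have c2 : ∀ x ∈ A i (-j), ∀ x' ∈ A i (-j), ⁅x, ⁅x', w * c * w⁻¹⁆⁆ ∈ Z i := fun x hx x' hx' => by
    obtain ⟨y, hy, d, hd, e⟩ := exists_mul_of_commute
      (fun y hy d hd => ((h.E_comm hd).1 y hy).symm) (h.f5 x' hx')
    rw [e, comm_mul_right, commutatorElement_eq_one_iff_commute.2 (h.A_comm h.f3 e3 e4 (fr.ne i).symm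
      (by rw [neg_neg]; exact h.ne.symm) hx y hy), one_mul,
      ← (h.Z_comm (.inl (c1 x hx d hd)) y hy).eq, mul_inv_cancel_right]
    exact c1 x hx d hd
  have c3 : ∀ x ∈ A i (-j), ⁅x, w * c * w⁻¹⁆ ∈ normalizer ((A i j ⊔ Z i : Subgroup J) : Set J) :=
    fun x hx => sup_le (fun y hy => mem_normalizer_of_commute fun d hd =>
      ((h.E_comm hd).1 y hy).symm) le_normalizer (h.f5 x hx)
  let T : Subgroup J :=
    { carrier := {g | ∃ x ∈ A i (-j), g * ⁅x, w * c * w⁻¹⁆⁻¹ ∈ A i j ⊔ Z i}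
      one_mem' := ⟨1, one_mem _, by simp⟩
      mul_mem' := by
        rintro g g' ⟨x, hx, e⟩ ⟨x', hx', e'⟩
        refine ⟨x' * x, mul_mem hx' hx, ?_⟩
        convert mul_mem (mul_mem e ((c3 x hx _).1 e')) (mem_sup_right (inv_mem (c2 x' hx' x hx)))
          using 1
        simp only [commutatorElement_def]; group
      inv_mem' := by
        rintro g ⟨x, hx, e⟩
        refine ⟨x⁻¹, inv_mem hx, ?_⟩
        have := (mem_normalizer_iff.1 (inv_mem (c3 x hx)) _).1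
          (mul_mem (inv_mem e) (mem_sup_right (c2 _ (inv_mem hx) x hx)))
        convert this using 1
        simp only [commutatorElement_def]; group }
  exact (sup_le ((closure_le T).2 (by rintro _ ⟨x, hx, rfl⟩; exact ⟨x, hx, by
    beta_reduce; rw [mul_inv_cancel]; exact one_mem _⟩))
    (fun d hd => ⟨1, one_mem _, by simpa⟩) : _ ≤ T) hg

omit h in
theorem c2_isE (h : OSys0 fr φ S i j L n w A Z c) :
    ∃ u ∈ fr.V0, u ≠ 0 ∧ ∃ l, IsE (φ (w * c * w⁻¹)) (fr.e (- -j)) u l := by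
  obtain ⟨u, h1, h2, l, h3⟩ := h.exists_isE
  obtain ⟨a, ha⟩ := h.w1
  refine ⟨_, Submodule.smul_mem _ _ (fr.mem_V0_of_mon h.wM h1), smul_ne_zero
    ((uP hF).σ_ne_zero (fr.smul_ne_zero ha)) ((map_ne_zero_iff _ (φ w).1.injective).2 h2), _, by
      rw [neg_neg, map_conj]; exact h3.of_conj ha (fr.smul_ne_zero ha)⟩

theorem boxD : Box φ (DS A Z i j (w * c * w⁻¹) ⊓ (fr.RC i).comap φ) (fr.RC i) := by
  have e2 := h.ne' h.hi h.hj
  have e3 := neg_ne_of e2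
  have e4 := neg_ne_neg_of h.ne
  obtain ⟨u, u1, u0, l, hu⟩ := c2_isE h.toOSys0
  have YZ : ∀ y ∈ A i j, ∀ z ∈ Z i, Commute y z := fun y hy z hz =>
    h.hZ.R4 h.ne e2 (fr.ne i).symm (ne_neg_swap e2) hy hz
  refine ⟨fun g hg g1 => ?_, fun g hg => hg.2, fun g ⟨u', u2, l', hg⟩ => ?_⟩
  · obtain ⟨x, hx, e⟩ := h.DS_spec hg.1
    obtain ⟨y, hy, z, hz, e⟩ := exists_mul_of_commute YZ e
    have y1 := (h.hA.box h.ne e2).mem y hy
    have z1 := fr.RZ_le_RC _ ((h.hZ.box i).mem z hz)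
    obtain ⟨s, hs⟩ := (h.hA.box e3 e4).mem x hx
    obtain ⟨r, r1, r2⟩ := fr.comm_AC e3 e4 u1 hs hu
    have a1 : (⁅φ x, φ (w * c * w⁻¹)⁆ * r⁻¹).1 u = u := by
      have := congrArg φ e
      rw [map_mul, g1, one_mul, map_inv, map_commutatorElement, inv_eq_iff_eq_inv,
        map_mul φ y z] at this
      obtain ⟨l, z2⟩ := (h.hZ.box i).mem z hz
      rw [this, ← mul_inv_rev]
      refine inv_apply_of_apply ?_
      rw [Isom.mul_apply, Isom.mul_apply, z2.apply_of_orth (fr.mem_V0.1 u1 i) (f.B_zero_right _),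
        fr.RA_apply_V0 y1 u1, fr.RA_apply_V0 ⟨_, r1⟩ u1]
    rw [r2.app, fr.mem_V0.1 u1] at a1
    obtain rfl : x = 1 := (h.hA.box e3 e4).inj x hx (IsE.eq_one (by
      simpa [show s = 0 by simpa [fr.e_ne_zero, (h.V1 u u1 u0).1, fr.B_ne'] using a1] using hs))
    rw [commutatorElement_one_left, inv_one, mul_one] at e
    rw [e, map_mul] at g1
    obtain rfl : y = 1 := (h.hA.box h.ne e2).inj y hy (fr.RA_eq_one e2 y1 (c := 1) (by
      rw [eq_inv_of_mul_eq_one_left g1, one_smul, inv_apply_of_apply (fr.RC_apply z1 e4)]))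
    rw [e, (h.hZ.box i).inj z hz (by simpa using g1), mul_one]
  · obtain ⟨a, rfl⟩ := (h.V1 u u1 u0).2 u' u2
    obtain ⟨x, hx, hs⟩ := h.hA.exists_isE e3 e4 (-a / f.B (fr.e (-j)) (fr.e (- -j)))
    obtain ⟨r, r1, r2⟩ := fr.comm_AC e3 e4 u1 hs hu
    rw [div_mul_cancel₀ _ (fr.B_ne _), neg_neg a] at r2
    obtain ⟨y, hy, rfl⟩ := (h.hA.box h.ne e2).surj r ⟨_, by rwa [neg_neg] at r1⟩
    obtain ⟨z, hz, e⟩ := (h.hZ.box i).surj _ (fr.inv_mul_mem_RZ r2 hg)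
    have : φ (⁅x, w * c * w⁻¹⁆ * y⁻¹ * z) = g := by
      rw [map_mul, e, map_mul, map_inv, map_commutatorElement, mul_inv_cancel_left]
    exact ⟨_, ⟨mul_mem (mul_mem (mem_DS hx) (mem_sup_right (mem_sup_left (inv_mem hy))))
      (mem_sup_right (mem_sup_right hz)), show φ _ ∈ fr.RC i from this ▸ ⟨_, u2, _, hg⟩⟩, this⟩

omit h in
theorem conj_DS {M : Subgroup J} (hA : ASys fr φ A M) (hZ : CSys fr φ A M Z fr.RZ) {k d : J}
    (hk : k ∈ M) (k1 : fr.Mv (φ k) i i) (k2 : fr.Mv (φ k) j j) (e : Commute k d) {g : J}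
    (hg : g ∈ DS A Z i j d) : k * g * k⁻¹ ∈ DS A Z i j d :=
  conj_mem_sup (fun _ => conj_mem_of_closure (by
    rintro _ ⟨x, hx, rfl⟩
    rw [conj_comm, e.eq, mul_inv_cancel_right]
    exact mem_DS (hA.conj hk k1 (hA.mv_neg hk k2) hx))) (fun _ => conj_mem_sup
    (fun y hy => mem_sup_right (mem_sup_left (hA.conj hk k1 k2 hy)))
    fun y hy => mem_sup_right (mem_sup_right (hZ.conj hk k1 hy))) hg

theorem cSys (f6 : KN fr φ i L c ≤ DS A Z i j (w * c * w⁻¹)) :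
    ∃ C, CSys fr φ A (MK fr φ S i L (KN fr φ i L n)) C fr.RC ∧ c ∈ C i ∧ ∀ a, Z a ≤ C a := by
  have hK := h.setK h.comm
  have e1 := h.ne
  have e2 := h.ne' h.hi h.hj
  have e3 := neg_ne_of e2
  have e4 := neg_ne_neg_of e1
  have e5 := ne_neg_swap e2
  have box := h.boxD
  have wN : w ∈ NL fr φ L := ⟨h.wL, h.wM⟩
  set M := MK fr φ S i L (KN fr φ i L n)
  have NM : ∀ {l}, l ∈ NL fr φ L → l ∈ M := mem_sup_right
  have k0 : KN fr φ i L c ⊔ Z i ≤ DS A Z i j (w * c * w⁻¹) ⊓ (fr.RC i).comap φ :=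
    sup_le (fun y hy => ⟨f6 hy, h.KN_le_RC hy⟩) fun z hz => ⟨mem_sup_right (mem_sup_right hz),
      fr.RZ_le_RC _ ((h.hZ.box i).mem z hz)⟩
  have k1 : ∀ y ∈ DS A Z i j (w * c * w⁻¹) ⊓ (fr.RC i).comap φ, y ∈ Z i ∨ ∃ l ∈ NL fr φ L,
      (∀ a, fr.Mv (φ l) a a) ∧ ∃ z ∈ Z i, y = l * c * l⁻¹ * z := fun y hy => by
    obtain ⟨u, u1, u0, l, hu⟩ := h.exists_isE
    obtain ⟨u', u2, l', hy'⟩ := hy.2
    obtain ⟨a, rfl⟩ := (h.V1 u u1 u0).2 u' u2
    by_cases a0 : a = 0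
    · obtain ⟨z, hz, e⟩ := (h.hZ.box i).surj (φ y) ⟨l', by simpa [a0] using hy'⟩
      exact .inl (box.eq (k0 (mem_sup_right hz)) hy e ▸ hz)
    obtain ⟨g, g1, -, g2, -, g3, -, g4⟩ := h.exists_tor h.hi h.hj e1 ((uP hF).σ_ne_zero a0)
    have := CE.isE_conj hu g2
    rw [(uP hF).σσ, g4 u u1] at this
    obtain ⟨z, hz, e⟩ := (h.hZ.box i).surj _ (fr.inv_mul_mem_RZ this hy')
    exact .inr ⟨g, g1, g3, z, hz, box.eq hy (k0 (mul_mem (mem_sup_left (conj_mem_KN g1 (g3 i) mem_KN))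
      (mem_sup_right hz))) (by rw [map_mul _ _ z, e, mul_inv_cancel_left])⟩
  have k2 : DS A Z i j (w * c * w⁻¹) ⊓ (fr.RC i).comap φ = KN fr φ i L c ⊔ Z i :=
    le_antisymm (fun y hy => by
      rcases k1 y hy with e | ⟨l, l1, l2, z, hz, rfl⟩
      exacts [mem_sup_right e,
        mul_mem (mem_sup_left (conj_mem_KN l1 (l2 i) mem_KN)) (mem_sup_right hz)]) k0
  have sC := hK.conj_mem_one' (N := KN fr φ i L c ⊔ Z i) (fun l l1 l2 _ => conj_mem_sup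
    (fun y hy => mem_sup_left (conj_mem_KN l1 l2 hy))
    fun y hy => mem_sup_right (h.hZ.conj (NM l1) l2 hy)) (fun k hk k1 y hy => by
      rw [← k2] at hy ⊢
      exact ⟨conj_DS h.hA h.hZ (mem_MK_of_K h.hi (hK.mem_K.2 hk.1) hk.2) k1
        (.of_eq (hK.fix k hk.1 j e1 e2)) (h.K_comm hk.1) hy.1, by
          change φ _ ∈ fr.RC i; rw [map_conj]; exact k1.conj_RC hk.2 hy.2⟩)
    fun k hk _ => conj_mem_sup (fun y hy => mem_sup_left (conj_mem_of_commute (h.K2_comm hk.1 hy) hy))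
      fun y hy => mem_sup_right (h.hZ.conj (mul_mem (mul_mem (NM wN) (mem_MK_of_K h.hi
        (hK.mem_K.2 hk.1) hk.2)) (inv_mem (NM wN))) (.of_eq (hK.K_fix h.hj (hK.conj_mem_K hk.1)
          e1.symm e5)) hy)
  rw [k2] at box k1
  set C := KN fr φ i L c ⊔ Z i
  have R4 : ∀ a b, b ≠ a → b ≠ -a → i ≠ -a → i ≠ -b → ∀ x ∈ A a b, ∀ y ∈ C, Commute x y :=
    fun a b a1 a2 a3 a4 x hx y hy => (commute_sup (fun y hy => (h.A_comm h.f3 a1 a2 a3 a4 hx y hy).symm)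
      (fun y hy => (h.hZ.R4 a1 a2 a3 a4 hx hy).symm) hy).symm
  have cW : ∀ {y}, y ∈ CF fr φ i M C j ↔ w⁻¹ * y * w⁻¹⁻¹ ∈ C :=
    ⟨fun hy => hy _ (inv_mem (NM wN)) (Base.mv_inv h.w1), fun hy =>
      Base.of_conj_C (inv_mem (NM wN)) (Base.mv_inv h.w1) (sC · · · _ hy)⟩
  have cE : ∀ d ∈ A i j ⊔ Z i, ∀ y ∈ CF fr φ i M C j, Commute d y := fun d hd y hy => by
    simpa [mul_assoc] using (h.E_comm hd).2 _ (cW.1 hy)
  have EC : A i j ⊔ Z i ≤ A i j ⊔ C := sup_le_sup_left le_sup_right _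
  have R5 : ∀ x ∈ A i (-j), ∀ y ∈ CF fr φ i M C j, ⁅x, y⁆ ∈ A i j ⊔ C := fun x hx y hy => by
    have z5 : ∀ z ∈ Z i, ⁅x, w * z * w⁻¹⁆ ∈ A i j ⊔ Z i := fun z hz => by
      simpa using h.hZ.R5 e3 e4 hx (y := w * z * w⁻¹)
        (by rw [neg_neg]; exact h.hZ.conj (NM wN) h.w1 hz)
    rw [show y = w * (w⁻¹ * y * w⁻¹⁻¹) * w⁻¹ by group]
    rcases k1 _ (cW.1 hy) with e | ⟨l, l1, l2, z, hz, e⟩
    · exact EC (z5 _ e)
    have l3 := mul_mem (mul_mem wN l1) (inv_mem wN)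
    have l4 : ∀ a, fr.Mv (φ (w * l * w⁻¹)) a a := fun a => by
      obtain ⟨a', ha⟩ := h.wM.2 a
      exact Base.mv_mul (Base.mv_mul ha (l2 a')) (Base.mv_inv ha)
    rw [e, ← conj_mul (a := l * c * l⁻¹), comm_mul_right, ← ((h.E_comm (z5 z hz)).2 _
      (mem_sup_left (conj_mem_KN l1 (l2 i) mem_KN))).eq, mul_inv_cancel_right]
    refine mul_mem ?_ (EC (z5 z hz))
    have := conj_mem_sup (g := w * l * w⁻¹) (N := A i j ⊔ C) (fun y hy => mem_sup_right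
      (mem_sup_left (conj_mem_KN l3 (l4 i) hy))) (fun _ hy => conj_mem_sup (fun y hy => mem_sup_left
        (h.hA.conj (NM l3) (l4 i) (l4 j) hy)) (fun y hy => mem_sup_right (mem_sup_right
          (h.hZ.conj (NM l3) (l4 i) hy))) hy) (h.f5 _ (h.hA.conj (inv_mem (NM l3))
            (Base.mv_inv (l4 i)) (Base.mv_inv (l4 _)) hx))
    rw [conj_comm] at this
    convert this using 2 <;> group
  refine ⟨_, h.hA.cSys e3 e4 (fun g hg a b e x => e.conj_RC hg) box sC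
    (fun x hx y hy => mem_sup_right (h.hZ.R2 e3 e4 hx hy)) R4 (by rwa [neg_neg]) fun y hy a ha => ?_,
    (sC · · · c (mem_sup_left mem_KN)), fun a z hz m hm e => mem_sup_right (h.hZ.conj hm e hz)⟩
  rw [neg_neg] at ha ⊢
  have c2 : w * c * w⁻¹ ∈ CF fr φ i M C j := cW.2 (by simpa [mul_assoc] using mem_sup_left mem_KN)
  have a1 : a * y * a⁻¹ ∈ A i j ⊔ C := by
    have cE' : ∀ d ∈ A i j ⊔ Z i, a * d * a⁻¹ ∈ A i j ⊔ C := fun d hd =>
      conj_mem_of_commute (cE d hd a ha).symm (EC hd)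
    refine conj_mem_sup (fun y hy => ?_) (fun z hz => cE' z (mem_sup_right hz)) hy
    obtain ⟨x, hx, e⟩ := h.DS_spec (f6 hy)
    convert mul_mem (cE' _ e) (mul_mem (inv_mem (R5 x hx a ha)) (R5 x hx _ (mul_mem ha c2))) using 1
    simp only [commutatorElement_def]; group
  obtain ⟨x, hx, y', hy', e⟩ := exists_mul_of_commute (R4 i j e1 e2 (fr.ne i).symm e5)
    (mul_mem (mem_sup_right hy) (inv_mem a1))
  have a2 : ⁅y, a⁆ = x * y' := by rw [← e, commutatorElement_def]; group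
  have a3 := fr.rgd.R6 i j e1 e2 _ (box.mem y hy) _ ((h.hA.box_CF
    (fun g hg a b e x => e.conj_RC hg) box sC j).mem a ha)
  rw [← map_commutatorElement, a2, map_mul] at a3
  rwa [a2, box.inj y' hy' (fr.RA_eq_one e2 (c := 1) ((mul_mem_cancel_left
    ((h.hA.box e1 e2).mem x hx)).1 a3) (by rw [one_smul, fr.RC_apply (box.mem y' hy') e4])), mul_one]

end OSys

end Cfsg.Agent.Cls
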