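import Cfsg.Agent.Lib.Cls.UDer
import Cfsg.Agent.Lib.Pres.Rels

/-!
Presentations of unitary groups of rank at least two.
-/

set_option autoImplicit false

namespace Cfsg.Agent.Cls

open Forms Forms.Form Subgroup Pres Monoid
open scoped commutatorElement

universe u

theorem Box.map {H J G : Type*} [Group H] [Group J] [Group G] {Φ : H →* G} {L : Subgroup H}
    {K : Subgroup G} (h : Box Φ L K) {ψ : H →* J} {φ : J →* G} (e : ∀ x, φ (ψ x) = Φ x) :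
    Box φ (L.map ψ) K :=
  ⟨by rintro _ ⟨x, hx, rfl⟩ h1; rw [h.inj x hx (e x ▸ h1), map_one],
    by rintro _ ⟨x, hx, rfl⟩; exact e x ▸ h.mem x hx,
    fun g hg => let ⟨x, hx, h1⟩ := h.surj g hg; ⟨ψ x, ⟨x, hx, rfl⟩, (e x).trans h1⟩⟩

theorem Box.rels {H : Type u} {G : Type*} [Group H] [Group G] {Φ : H →* G} {L : Subgroup H}
    {K : Subgroup G} (h : Box Φ L K) {a : H} (ha : Φ a ∈ K) :
    Rels Φ 1 fun _ _ ψ _ => ψ a ∈ L.map ψ := .mem (h.surj _ ha)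

theorem presN_of_rels {G : Type u} [Group G] {L E : Subgroup G} {g r m k : ℕ} (hL : PresN L g r)
    (v : Fin m → G) (h1 : L ≤ E) (h2 : ∀ x, v x ∈ E)
    (h3 : ∀ N : Subgroup G, L ≤ N → (∀ x, v x ∈ N) → E ≤ N)
    (h : ∀ (H : Type u) [Group H] (Φ : H →* G) (K : Subgroup H) (n : Fin m → H), Box Φ K L →
      (∀ x, Φ (n x) = v x) → Rels Φ k fun J _ ψ φ =>
        (∀ N : Subgroup J, K.map ψ ≤ N → (∀ x, ψ (n x) ∈ N) → N = ⊤) → Function.Injective φ) :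
    PresN E (g + m) (r + k) := by
  obtain ⟨π, hπ⟩ := hL
  have top : ∀ {J : Type u} [Group J] (ψ : Coprod L (FreeGroup (Fin m)) →* J) (N : Subgroup J),
      (Coprod.inl : L →* _).range.map ψ ≤ N → (∀ x, ψ (Coprod.inr (.of x)) ∈ N) → ψ.range ≤ N := by
    intro J _ ψ N a b
    rw [MonoidHom.range_eq_map, ← Coprod.range_inl_sup_range_inr, Subgroup.map_sup,
      sup_le_iff, and_iff_right a, ← MonoidHom.range_comp, MonoidHom.range_eq_map,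
      ← FreeGroup.closure_range_of, MonoidHom.map_closure]
    exact (closure_le _).2 (by rintro _ ⟨_, ⟨x, rfl⟩, rfl⟩; exact b x)
  refine Rels.pres (Φ := Coprod.lift L.subtype (FreeGroup.lift v))
    (le_antisymm (top _ _ ?_ (by simpa)) (h3 _ (fun x hx => ⟨Coprod.inl ⟨x, hx⟩, rfl⟩)
      fun x => ⟨Coprod.inr (.of x), by simp⟩)) ((h _ _ Coprod.inl.range
    (fun x => Coprod.inr (.of x)) (.of_range fun _ => rfl) (by simp)).mono le_rfl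
    fun J _ ψ φ _ p s => p fun N a b =>
      top_le_iff.1 ((MonoidHom.range_eq_top.2 s).ge.trans (top ψ N a b)))
    ((hπ.coprod (hasPres_free (Fin m))).pres (by simp) (by simp))
  rintro _ ⟨_, ⟨x, rfl⟩, rfl⟩
  exact h1 x.2

variable {F : Type*} [Field F] [Fintype F] {q : ℕ} {V : Type*} [AddCommGroup V] [Module F V]
  {I : Type*} [InvolutiveNeg I] {hF : Fintype.card F = q ^ 2} {f : Form (uP hF) V}

/-- a Weyl element of a long root -/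
structure NG (fr : Frame f I) (i : I) (n : f.Isom) : Prop where
  M : n ∈ fr.Mon
  n1 : fr.Mv n (-i) i
  ex : ∃ y ∈ fr.RZ (-i), ∃ x ∈ fr.RZ i, n = y * x * y
  sq : (n * n).1 (fr.e i) = -fr.e i

variable {fr : Frame f I} {S : Set I} {i j : I}

namespace NG

variable {n : f.Isom} (h : NG fr i n)
include h

theorem mem : n ∈ fr.RC i ⊔ fr.RC (-i) :=
  let ⟨_, hy, _, hx, e⟩ := h.ex
  e ▸ mul_mem (mul_mem (mem_sup_right (fr.RZ_le_RC _ hy)) (mem_sup_left (fr.RZ_le_RC _ hx)))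
    (mem_sup_right (fr.RZ_le_RC _ hy))

theorem commute {g : f.Isom} (h1 : g.1 (fr.e i) = fr.e i) (h2 : g.1 (fr.e (-i)) = fr.e (-i)) :
    Commute g n :=
  let ⟨_, hy, _, hx, e⟩ := h.ex
  e ▸ ((fr.commute_RZ' h2 hy).mul_right (fr.commute_RZ' h1 hx)).mul_right (fr.commute_RZ' h2 hy)

theorem V0 {v : V} (hv : v ∈ fr.V0) : n.1 v = v := by
  obtain ⟨y, ⟨_, hy⟩, x, ⟨_, hx⟩, rfl⟩ := h.ex
  have a := hy.apply_of_orth (fr.mem_V0.1 hv _) (f.B_zero_right _)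
  rw [Isom.mul_apply, Isom.mul_apply, a, hx.apply_of_orth (fr.mem_V0.1 hv _) (f.B_zero_right _), a]

end NG

theorem Frame.exists_NG [Finite I] (fr : Frame f I) (i : I) : ∃ n, NG fr i n := by
  obtain ⟨l, l0, hl⟩ := f.unit_exists_isLam_zero
  obtain ⟨x, hx⟩ := exists_isE (fr.Qe i) (f.B_zero_left _) hl
  obtain ⟨y, hy⟩ := exists_isE (fr.Qe (-i)) (by simp) (fr.isLam_W2 (i := i) hl l0).1
  obtain ⟨a1, a2, -⟩ := fr.W2_apply (zero_mem _) l0 hx hy (hy.congr (by simp) rfl)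
  have y1 : y ∈ fr.RZ (-i) := ⟨_, hy.congr (smul_zero _) rfl⟩
  refine ⟨y * x * y, fr.mem_Mon fun k => ?_, ⟨_, a1⟩, ⟨y, y1, x, ⟨_, hx⟩, rfl⟩, ?_⟩
  · by_cases e1 : k = i
    · exact ⟨_, _, e1 ▸ a2⟩
    by_cases e2 : k = -i
    · exact ⟨_, _, e2 ▸ a1⟩
    exact ⟨k, .of_eq (fr.W2_fix (fr.RZ_le_RC _ ⟨_, hx⟩) (fr.RZ_le_RC _ y1) (fr.RZ_le_RC _ y1) e1 e2)⟩
  · have := fr.B_ne' i
    rw [Isom.mul_apply, a2, map_smul, a1, smul_smul, ← neg_one_smul F (fr.e i)]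
    have := IsE.lam_zero hl
    simp only [Param.unit_ε, one_mul] at this ⊢
    rw [this]
    congr 1
    field_simp

theorem Frame.exists_R5 (fr : Frame f I)
    (V1 : ∀ u ∈ fr.V0, u ≠ 0 → f.B u u ≠ 0 ∧ ∀ u' ∈ fr.V0, ∃ a : F, u' = a • u) (e1 : j ≠ i)
    (e2 : j ≠ -i) {c w : f.Isom} (wM : w ∈ fr.Mon) (w1 : fr.Mv w i j) {u : V} {l : F}
    (u1 : u ∈ fr.V0) (u0 : u ≠ 0) (hc : IsE c (fr.e i) u l) : ∃ s : F, s ≠ 0 ∧
      ∀ (a : F) (x c' : f.Isom) l', IsE x (fr.e i) ((s * a) • fr.e (-j)) 0 → IsE c' (fr.e i) (a • u) l' →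
        ∃ z ∈ fr.RZ i, ∃ r ∈ fr.RA i j, c'⁻¹ * ⁅x, w * c * w⁻¹⁆ = z * r := by
  obtain ⟨t, ht⟩ := w1
  have t0 := fr.smul_ne_zero ht
  have b1 := Submodule.smul_mem _ ((uP hF).σ t) (fr.mem_V0_of_mon wM u1)
  obtain ⟨b, hb⟩ := (V1 u u1 u0).2 _ b1
  have b0 : b ≠ 0 := fun e => _root_.smul_ne_zero ((uP hF).σ_ne_zero t0)
    ((map_ne_zero_iff _ w.1.injective).2 u0) (by rw [hb, e, zero_smul])
  have B0 := fr.B_ne (-j)
  refine ⟨-(f.B (fr.e (-j)) (fr.e (- -j)) * b)⁻¹, neg_ne_zero.2 (inv_ne_zero (mul_ne_zero B0 b0)),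
    fun a x c' l' hx hc' => ?_⟩
  obtain ⟨r, r1, r2⟩ := fr.comm_AC (neg_ne_of e2) (neg_ne_neg_of e1) b1 hx
    (by rw [neg_neg]; exact hc.of_conj ht t0)
  refine ⟨_, fr.inv_mul_mem_RZ hc' (r2.congr ?_ rfl), r, ⟨_, by rwa [neg_neg] at r1⟩, by group⟩
  rw [hb, smul_smul]
  congr 1
  field_simp

/-- the generators of a presentation -/
structure HSet {H : Type*} [Group H] (fr : Frame f I) (Φ : H →* f.Isom) (S : Set I) (i j : I)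
    (L : Subgroup H) (n w : H) : Prop where
  S1 : ∀ i ∈ S, -i ∉ S
  S2 : ∀ i, i ∈ S ∨ -i ∈ S
  hi : i ∈ S
  hj : j ∈ S
  ne : j ≠ i
  box : Box Φ L (fr.Levi S)
  ng : NG fr i (Φ n)
  wL : w ∈ L
  wM : Φ w ∈ fr.Mon
  w1 : fr.Mv (Φ w) i j
  w2 : fr.Mv (Φ w) j i
  w3 : ∀ a, a ≠ i → a ≠ -i → a ≠ j → a ≠ -j → fr.Mv (Φ w) a a

namespace HSet

variable {H : Type u} [Group H] {Φ : H →* f.Isom} {L : Subgroup H} {n w c η : H} {ζ : F}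
  (h : HSet fr Φ S i j L n w)
include h

theorem ne' {a b : I} (ha : a ∈ S) (hb : b ∈ S) : b ≠ -a := fun e => h.S1 _ ha (e ▸ hb)

theorem far_fix {l : f.Isom} (hl : l ∈ fr.Levi (S \ {i})) :
    l.1 (fr.e i) = fr.e i ∧ l.1 (fr.e (-i)) = fr.e (-i) :=
  ⟨fr.Levi_fix hl (by simp) fun e => h.S1 _ h.hi e.1,
    fr.Levi_fix hl (fun e => h.S1 _ h.hi e.1) (by simp)⟩

theorem setN {J : Type*} [Group J] {ψ : H →* J} {φ : J →* f.Isom} (e : ∀ x, φ (ψ x) = Φ x)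
    (far : ∀ l ∈ L.map ψ, φ l ∈ fr.Levi (S \ {i}) → Commute l (ψ n)) :
    SetN fr φ S i j (L.map ψ) (ψ n) (ψ w) :=
  ⟨h.S1, h.S2, h.hi, h.hj, h.ne, h.box.map e, e n ▸ h.ng.M, e n ▸ h.ng.n1,
    fun _ a b => e n ▸ fr.RC_sup_fix h.ng.mem a b, ⟨w, h.wL, rfl⟩, e w ▸ h.wM, e w ▸ h.w1,
    e w ▸ h.w2, e w ▸ h.w3, far⟩

theorem setG : SetN fr (MonoidHom.id _) S i j (L.map Φ) (Φ n) (Φ w) :=
  h.setN (fun _ => rfl) fun _ _ hl => h.ng.commute (h.far_fix hl).1 (h.far_fix hl).2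

theorem m_mv : Φ (w * n * w⁻¹) ∈ fr.Mon ∧ fr.Mv (Φ (w * n * w⁻¹)) (-j) j ∧
    fr.Mv (Φ (w * n * w⁻¹)) j (-j) ∧ (Φ (w * n * w⁻¹)).1 (fr.e i) = fr.e i ∧
    (Φ (w * n * w⁻¹)).1 (fr.e (-i)) = fr.e (-i) := by
  obtain ⟨a, b, c, d⟩ := h.setG.m_mv
  rw [map_conj]
  exact ⟨a, b, c, d, conj_fix (φ := .id _) (h.w2.neg' h.wM) (fr.RC_sup_fix h.ng.mem
    (neg_ne_of (h.ne' h.hi h.hj)) (neg_ne_neg_of h.ne))⟩

theorem exists_X {g : f.Isom} (hg : g ∈ fr.RA i (-j)) : ∃ x, Φ x = g ∧ ∀ (J : Type u) [Group J]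
    (ψ : H →* J) (φ : J →* f.Isom), (∀ x, φ (ψ x) = Φ x) → ψ x ∈ XL fr φ (L.map ψ) i j :=
  let ⟨x, hx, e⟩ := h.box.surj g (fr.mem_Levi h.hi h.hj h.ne hg)
  ⟨x, e, fun _ _ _ φ e' => ⟨⟨x, hx, rfl⟩, show φ _ ∈ fr.RA _ _ by rwa [e', e]⟩⟩

theorem exists_Y {g : f.Isom} (hg : g ∈ fr.RA i j) : ∃ x,
    Φ (w * n * w⁻¹ * x * (w * n * w⁻¹)⁻¹) = g ∧ ∀ (J : Type u) [Group J]
    (ψ : H →* J) (φ : J →* f.Isom), (∀ x, φ (ψ x) = Φ x) → ψ x ∈ XL fr φ (L.map ψ) i j := by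
  obtain ⟨-, a, -, b, -⟩ := h.m_mv
  obtain ⟨x, e, hx⟩ := h.exists_X ((Frame.Mv.of_eq b).inv.conj_RA a.inv hg)
  exact ⟨x, by rw [map_conj, e]; group, hx⟩

omit h in
theorem _root_.Cfsg.Agent.Cls.USys.conj_X {J : Type*} [Group J] {φ : J →* f.Isom} {L : Subgroup J}
    {n w x : J} {A : I → I → Subgroup J} {Z : I → Subgroup J} (h : USys fr φ S i j L n w A Z)
    (hx : x ∈ XL fr φ L i j) : n ∈ MK fr φ S i L (KN fr φ i L n) ∧ x ∈ A i (-j) ∧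
      w * n * w⁻¹ * x * (w * n * w⁻¹)⁻¹ ∈ A i j := by
  have a := mem_MK_of_K h.hi ((h.setK h.comm).mem_K.2 mem_KN) h.nM
  have b : w ∈ MK fr φ S i L (KN fr φ i L n) := mem_sup_right ⟨h.wL, h.wM⟩
  rw [← h.eA i h.hi j h.hj h.ne] at hx
  exact ⟨a, hx, h.hA.conj (mul_mem (mul_mem b a) (inv_mem b)) (.of_eq h.m_mv.2.2.2) h.m_mv.2.1 hx⟩

theorem exists_Z {g : f.Isom} (hg : g ∈ fr.RZ i) : ∃ z, Φ z = g ∧ ∀ (J : Type u) [Group J]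
    (ψ : H →* J) (φ : J →* f.Isom), (∀ x, φ (ψ x) = Φ x) → ∀ A Z,
      USys fr φ S i j (L.map ψ) (ψ n) (ψ w) A Z → ψ z ∈ Z i := by
  have e3 := neg_ne_of (h.ne' h.hi h.hj)
  have e4 := neg_ne_neg_of h.ne
  obtain ⟨x, x1⟩ := fr.exists_RA e4 1
  obtain ⟨y, hy, rfl⟩ := fr.exists_comm_RZ e3 one_ne_zero x1 hg
  obtain ⟨x, rfl, hx⟩ := h.exists_X ⟨_, x1⟩
  obtain ⟨y, rfl, hy'⟩ := h.exists_Y (by rwa [neg_neg] at hy)
  refine ⟨_, map_commutatorElement _ _ _, fun J _ ψ φ e A Z hU => ?_⟩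
  rw [map_commutatorElement]
  exact hU.hZ.R2 e3 e4 (hU.conj_X (hx J ψ φ e)).2.1 (by
    simpa only [neg_neg, map_mul, map_inv] using (hU.conj_X (hy' J ψ φ e)).2.2)

theorem rels_E {a : H} (ha : ∃ z ∈ fr.RZ i, ∃ r ∈ fr.RA i j, Φ a = z * r) :
    Rels Φ 1 fun _ _ ψ φ => ∀ A Z, USys fr φ S i j (L.map ψ) (ψ n) (ψ w) A Z → ψ a ∈ A i j ⊔ Z i := by
  obtain ⟨z, hz, r, hr, e⟩ := ha
  obtain ⟨z, rfl, hz'⟩ := h.exists_Z hz
  obtain ⟨y, rfl, hy⟩ := h.exists_Y hr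
  refine (Rels.eq (e.trans (map_mul _ _ _).symm)).mono le_rfl fun J _ ψ φ e r A Z hU => ?_
  rw [r, map_mul]
  exact mul_mem (mem_sup_right (hz' J ψ φ e A Z hU)) (mem_sup_left (by
    simpa only [map_mul, map_inv] using (hU.conj_X (hy J ψ φ e)).2.2))

theorem rels_W :
    Rels Φ 1 fun _ _ ψ φ => ∀ A Z, USys fr φ S i j (L.map ψ) (ψ n) (ψ w) A Z → ψ n ∈ Z i ⊔ Z (-i) := by
  obtain ⟨y, hy, x, hx, e⟩ := h.ng.ex
  obtain ⟨x, rfl, hx'⟩ := h.exists_Z hx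
  obtain ⟨z, z1, hz⟩ := h.exists_Z (fr.conj_mem_RZ h.setG.n3.inv hy)
  refine (Rels.eq (a := n) (b := n * z * n⁻¹ * x * (n * z * n⁻¹)) ?_).mono le_rfl
    fun J _ ψ φ e r A Z hU => ?_
  · rw [map_mul, map_mul, map_conj, z1]
    simpa [mul_assoc] using e
  have := hU.hZ.conj (hU.conj_X (one_mem _)).1 hU.n3 (hz J ψ φ e A Z hU)
  rw [r, map_mul, map_mul, map_mul, map_mul, map_inv]
  exact mul_mem (mul_mem (mem_sup_right this) (mem_sup_left (hx' J ψ φ e A Z hU))) (mem_sup_right this)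

variable [Finite I]

theorem rels_levi {T : Set I} (hT : T ⊆ S)
    {N : ∀ (J : Type u) [Group J], (H →* J) → Subgroup J}
    (hN : ∀ a, Φ a ∈ fr.Levi T → Rels Φ 1 fun J _ ψ _ => ψ a ∈ N J ψ) :
    Rels Φ 2 fun J _ ψ φ => ∀ l ∈ L.map ψ, φ l ∈ fr.Levi T → l ∈ N J ψ := by
  obtain ⟨a, a1, b, b1, e⟩ := fr.exists_two_gen_levi (S := T) fun a ha e => h.S1 a (hT ha) (hT e)
  obtain ⟨a, a2, rfl⟩ := h.box.surj a (fr.Levi_mono hT a1)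
  obtain ⟨b, b2, rfl⟩ := h.box.surj b (fr.Levi_mono hT b1)
  refine ((hN a a1).and (hN b b1)).mono le_rfl fun J _ ψ φ e' r l l1 l2 => (closure_le _).2 ?_
    ((h.box.map e').mem_closure (s := {ψ a, ψ b}) ?_ l1 (by rw [Set.image_pair, e', e']; exact e l2))
  · rintro _ (rfl | rfl); exacts [r.1, r.2]
  · rintro _ (rfl | rfl); exacts [⟨a, a2, rfl⟩, ⟨b, b2, rfl⟩]

theorem rels_far (hc : ∀ l ∈ fr.Levi (S \ {i}), Commute l (Φ c)) :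
    Rels Φ 2 fun _ _ ψ φ => ∀ l ∈ L.map ψ, φ l ∈ fr.Levi (S \ {i}) → Commute l (ψ c) :=
  (h.rels_levi Set.sdiff_subset (N := fun _ _ ψ => centralizer {ψ c}) fun a ha =>
    (Rels.comm (hc _ ha)).mono le_rfl fun _ _ _ _ _ => mem_centralizer_singleton_iff.2).mono le_rfl
    fun _ _ _ _ _ r l a b => mem_centralizer_singleton_iff.1 (r l a b)

omit [Finite I] in
theorem nn_conj {a b : I} (ha : a ∈ ({i, j} : Set I)) (hb : b ∈ ({i, j} : Set I)) (e : b ≠ a)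
    {g : f.Isom} (hg : g ∈ fr.RA a (-b)) :
    Φ (n * (w * n * w⁻¹)) * g * (Φ (n * (w * n * w⁻¹)))⁻¹ ∈ fr.Levi S := by
  obtain ⟨m0, -, m2, m3, -⟩ := h.m_mv
  have k : ∀ a ∈ ({i, j} : Set I), a ∈ S ∧ fr.Mv (Φ (n * (w * n * w⁻¹))) a (-a) := by
    rintro _ (rfl | rfl)
    exacts [⟨h.hi, Base.mv_mul h.setG.n3 (.of_eq m3)⟩, ⟨h.hj, Base.mv_mul (.of_eq (h.setG.n2 _
      (neg_ne_of (h.ne' h.hi h.hj)) (neg_ne_neg_of h.ne))) m2⟩]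
  have := fr.RA_swap (neg_ne_neg_of (neg_ne_neg_of e)) ((k a ha).2.conj_RA ((k b hb).2.neg'
    (by rw [map_mul]; exact mul_mem h.ng.M m0)) hg)
  exact fr.mem_Levi (k b hb).1 (k a ha).1 e.symm (by rwa [neg_neg] at this)

theorem rels_three (h3 : ∀ a b : I, ∃ k, k ≠ a ∧ k ≠ -a ∧ k ≠ b ∧ k ≠ -b) :
    Rels Φ 6 fun _ _ ψ φ => ∃ A Z, USys fr φ S i j (L.map ψ) (ψ n) (ψ w) A Z := by
  have e3 := neg_ne_of (h.ne' h.hi h.hj)
  have e4 := neg_ne_neg_of h.ne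
  obtain ⟨x, x1, x0⟩ := fr.exists_RX_ne_one (.inl e3) e4
  rw [fr.RX_of_ne e3] at x1
  obtain ⟨x, rfl, hx⟩ := h.exists_X x1
  have n4 := Frame.Mv.of_eq (h.setG.n2 _ e3 e4)
  refine ((((h.rels_far fun l hl => h.ng.commute (h.far_fix hl).1 (h.far_fix hl).2).and
    (Rels.comm (h.ng.commute h.m_mv.2.2.2.1 h.m_mv.2.2.2.2).symm)).and
    (h.rels_levi (T := {i, j}) (by rintro _ (rfl | rfl); exacts [h.hi, h.hj])
      (N := fun _ _ ψ => (L.map ψ).comap (MulAut.conj (ψ (n * (w * n * w⁻¹)))).toMonoidHom)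
      fun a ha => (h.box.rels (a := n * (w * n * w⁻¹) * a * (n * (w * n * w⁻¹))⁻¹) (by
        rw [map_conj]
        exact fr.Levi_le (N := (fr.Levi S).comap (MulAut.conj (Φ (n * (w * n * w⁻¹)))).toMonoidHom)
          (fun a ha b hb e g hg => h.nn_conj ha hb e hg) ha)).mono le_rfl fun _ _ _ _ _ r => by
        rwa [map_mul, map_mul, map_inv] at r)).and
    (h.box.rels (a := n * n * x * (n * n)⁻¹) (by
      rw [map_conj]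
      exact fr.mem_Levi h.hi h.hj h.ne ((Base.mv_mul h.ng.n1 h.setG.n3).conj_RA
        (Base.mv_mul n4 n4) x1)))).mono le_rfl fun J _ ψ φ e ⟨⟨⟨r0, r1⟩, r2⟩, r3⟩ => ?_
  simp only [map_mul, map_inv] at r1 r3
  have hN := h.setN e r0
  obtain ⟨comm, A, hA, eA⟩ := hN.aSys_three h3 r1 (fun l a b => by
    rw [← map_inv, ← map_mul, ← map_mul, ← map_mul]; exact r2 l a b) (hx J ψ φ e)
    (fun e' => x0 (by rw [← e, e', map_one])) r3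
  obtain ⟨Z, hZ⟩ := hA.zSys h3
  exact ⟨A, Z, hN, comm, hA, eA, hZ⟩

end HSet

end Cfsg.Agent.Cls
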