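import Cfsg.Agent.Lib.Cls.UPres

/-!
Presentations of unitary groups: rank two and odd degree.
-/

set_option autoImplicit false

namespace Cfsg.Agent.Cls

open Forms Forms.Form Subgroup Pres Monoid
open scoped commutatorElement

universe u

variable {F : Type*} [Field F] [Fintype F] {q : ℕ} {V : Type*} [AddCommGroup V] [Module F V]
  {I : Type*} [InvolutiveNeg I] {hF : Fintype.card F = q ^ 2} {f : Form (uP hF) V}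
  {fr : Frame f I} {S : Set I} {i j : I}

theorem Frame.conj_V0 (fr : Frame f I) {g w : f.Isom} (wM : w ∈ fr.Mon)
    (hg : ∀ v ∈ fr.V0, g.1 v = v) {v : V} (hv : v ∈ fr.V0) : (w * g * w⁻¹).1 v = v := by
  rw [Isom.mul_apply, Isom.mul_apply, hg _ (fr.mem_V0_of_mon (inv_mem wM) hv), Isom.apply_inv]

namespace HSet

variable {H : Type u} [Group H] {Φ : H →* f.Isom} {L : Subgroup H} {n w c η : H} {ζ : F}
  (h : HSet fr Φ S i j L n w) [Finite I]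
include h

section two

variable (hI : ∀ k, k = i ∨ k = -i ∨ k = j ∨ k = -j) (ηL : η ∈ L) (ηd : ∀ k, fr.Mv (Φ η) k k)
  (η1 : (Φ η).1 (fr.e i) = ζ • fr.e i) (hζ : ∀ t, t ≠ 0 → ∃ k : ℕ, t = ζ ^ k)
include ηL ηd η1

omit η1 in
theorem κ_spec : ⁅Φ η, Φ n⁆ ∈ fr.Mon ∧ (∀ k, fr.Mv ⁅Φ η, Φ n⁆ k k) ∧
    (∀ k, k ≠ i → k ≠ -i → ⁅Φ η, Φ n⁆.1 (fr.e k) = fr.e k) ∧ (∀ v ∈ fr.V0, ⁅Φ η, Φ n⁆.1 v = v) ∧
    (Φ w * ⁅Φ η, Φ n⁆ * (Φ w)⁻¹).1 (fr.e i) = fr.e i ∧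
    (Φ w * ⁅Φ η, Φ n⁆ * (Φ w)⁻¹).1 (fr.e (-i)) = fr.e (-i) := by
  have a : ∀ k, k ≠ i → k ≠ -i → ⁅Φ η, Φ n⁆.1 (fr.e k) = fr.e k := fun k k1 k2 => by
    have := fr.RC_sup_fix h.ng.mem k1 k2
    rw [commutatorElement_def, Isom.mul_apply, inv_apply_of_apply this]
    exact conj_fix (φ := .id _) (ηd k) this
  have b : ∀ k, fr.Mv ⁅Φ η, Φ n⁆ k k := fun k => by
    obtain ⟨l, hl⟩ := h.ng.M.2 k
    exact (((ηd k).mul hl).mul (ηd l).inv).mul hl.inv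
  have e2 := h.ne' h.hi h.hj
  refine ⟨fr.mem_Mon fun k => ⟨k, b k⟩, b, a, fun v hv => ?_, conj_fix (φ := .id _) h.w2 (a j h.ne e2),
    conj_fix (φ := .id _) (h.w2.neg' h.wM) (a _ (neg_ne_of e2) (neg_ne_neg_of h.ne))⟩
  exact comm_apply_of_apply (fr.Levi_V0 (h.box.mem η ηL) hv) (h.ng.V0 hv)

include hI hζ

theorem set2G : Set2 fr (MonoidHom.id _) S i j (L.map Φ) (Φ n) (Φ w) (Φ η) ζ :=
  let ⟨_, a, _, _, b, c⟩ := h.κ_spec ηL ηd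
  ⟨h.setG, hI, ⟨η, ηL, rfl⟩, ηd, η1, hζ, by
    simpa only [map_mul, map_inv] using (h.ng.commute h.m_mv.2.2.2.1 h.m_mv.2.2.2.2).symm,
    fr.diag_commute ηd a fun _ => fr.Levi_V0 (h.box.mem η ηL), (h.ng.commute b c).symm⟩

theorem rels_two : Rels Φ 14 fun _ _ ψ φ => Set2 fr φ S i j (L.map ψ) (ψ n) (ψ w) (ψ η) ζ ∧
    ∃ A Z, USys fr φ S i j (L.map ψ) (ψ n) (ψ w) A Z := by
  have e1 := h.ne
  have e2 := h.ne' h.hi h.hj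
  have e3 := neg_ne_of e2
  have e4 := neg_ne_neg_of e1
  have G := h.set2G hI ηL ηd η1 hζ
  obtain ⟨κM, κd, κ1, κ2, κ3, -⟩ := h.κ_spec ηL ηd
  have κ4 : ⁅Φ η, Φ n⁆.1 _ = _ := G.κ_apply
  obtain ⟨-, -, -, m3, -⟩ := h.m_mv
  obtain ⟨x, x1⟩ := fr.exists_RA e4 1
  obtain ⟨l, l0, hl⟩ := f.unit_exists_isLam_zero
  obtain ⟨z, z1⟩ := exists_isE (fr.Qe i) (f.B_zero_left _) hl
  have z0 : z ≠ 1 := fun e => l0 ((e ▸ z1).vec_eq (isE_one _) (fr.B_ne' i) (f.B_zero_left _)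
    (f.B_zero_left _)).2
  have z2 : z ∈ fr.RZ i := ⟨l, z1⟩
  obtain ⟨y, hy, rfl⟩ := fr.exists_comm_RZ e3 one_ne_zero x1 z2
  obtain ⟨y', hy'⟩ := fr.exists_RA e2 (frobq hF (f.B (fr.e (-j)) (fr.e (- -j))))⁻¹
  have B0 := fr.B_ne (-j)
  have B1 := (map_ne_zero (frobq hF)).2 B0
  have c1 := fr.comm_Z x1 (by rwa [neg_neg])
  rw [one_mul, inv_mul_cancel₀ B1, map_inv₀, frobq_frobq, inv_mul_cancel₀ B0, sub_self] at c1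
  have y0 : y' ≠ 1 := fun e => fr.e_ne_zero j ((smul_eq_zero.1 ((e ▸ hy').vec_eq (isE_one _)
    (fr.B_ne' i) (by rw [B_smul_left, fr.B_neg e1, mul_zero]) (f.B_zero_left _)).1).resolve_left
      (inv_ne_zero B1))
  obtain ⟨x, rfl, hx⟩ := h.exists_X ⟨_, x1⟩
  obtain ⟨x₀, rfl, hx₀⟩ := h.exists_Y (by rwa [neg_neg] at hy)
  obtain ⟨x₁, rfl, hx₁⟩ := h.exists_Y ⟨_, hy'⟩
  rw [← map_commutatorElement] at z0 z2
  obtain ⟨z, hz⟩ : ∃ z, z = ⁅x, w * n * w⁻¹ * x₀ * (w * n * w⁻¹)⁻¹⁆ := ⟨_, rfl⟩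
  rw [← hz] at z0 z2
  have ZG : fr.RZ i ≤ (ZK ⁅η, n⁆ z).map Φ := by
    rw [map_ZK, map_commutatorElement]
    exact (Box.id _).le_of_lineZ hζ κ4 z2 z0 fun k => ⟨conj_pow_mem
      (fun y => fr.conj_mem_RZ (κd i)) k _ z2, zpow_natCast ⁅Φ η, Φ n⁆ k ▸ mem_ZK _ (Φ z) k⟩
  have x2 : Φ x ∈ fr.RA i (-j) := ⟨_, x1⟩
  have x3 := h.w1.conj_RA (h.w2.neg' h.wM) x2
  obtain ⟨l', z3⟩ := fr.conj_mem_RZ h.w1 z2
  obtain ⟨r, r1, r2⟩ := fr.comm_AC e3 e4 (zero_mem _) x1 (by rwa [neg_neg])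
  obtain ⟨z', z4, z5⟩ := ZG ⟨_, r2.congr (smul_zero _) rfl⟩
  have r3 : r ∈ fr.RA i j := ⟨_, by rwa [neg_neg] at r1⟩
  obtain ⟨x', rfl, hx'⟩ := h.exists_Y r3
  have n6 : Φ (n * n) ∈ (zpowers ⁅η, n⁆).map Φ := by
    obtain ⟨k, hk⟩ := gen_norm (hF := hF) hζ (-1) (by simp) (by simp)
    rw [MonoidHom.map_zpowers, map_commutatorElement, map_mul, fr.ext_pos h.S2
      (mul_mem h.ng.M h.ng.M) (pow_mem κM k) (fun a ha => ?_) fun v hv => ?_]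
    · exact ⟨k, zpow_natCast _ _⟩
    · by_cases e : a = i
      · rw [e, h.ng.sq, apply_pow κ4, ← hk, neg_one_smul]
      have := fr.RC_sup_fix h.ng.mem e (h.ne' h.hi ha)
      rw [Isom.mul_apply, this, this, apply_pow (c := 1) (by rw [κ1 a e (h.ne' h.hi ha), one_smul])]
      simp
    · rw [Isom.mul_apply, h.ng.V0 hv, h.ng.V0 hv, apply_pow (c := 1) (by rw [κ2 v hv, one_smul])]
      simp
  refine ((((((((((((((Rels.comm (a := n) (b := w * n * w⁻¹) (by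
      simpa only [map_mul, map_inv] using G.r1)).and
    (Rels.comm (a := η) (b := ⁅η, n⁆) (by simpa only [map_commutatorElement] using G.r2))).and
    (Rels.comm (a := n) (b := w * ⁅η, n⁆ * w⁻¹) (by
      simpa only [map_mul, map_inv, map_commutatorElement] using G.r3))).and
    (h.box.rels (a := ⁅η, n⁆ * x * ⁅η, n⁆⁻¹) (by
      rw [map_conj, map_commutatorElement]
      exact fr.mem_Levi h.hi h.hj e1 ((κd _).conj_RA (κd _) x2)))).and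
    (h.box.rels (a := ⁅η, n⁆ * (w * x * w⁻¹) * ⁅η, n⁆⁻¹) (by
      rw [map_conj, map_commutatorElement, map_conj]
      exact fr.mem_Levi h.hj h.hi e1.symm ((κd _).conj_RA (κd _) x3)))).and
    (Rels.mem n6)).and
    (h.box.rels (a := n * (w * n * w⁻¹) * (w * x * w⁻¹) * (n * (w * n * w⁻¹))⁻¹) (by
      rw [map_conj, map_conj]
      exact h.nn_conj (by simp) (by simp) e1.symm x3))).and
    (Rels.mem (a := η * z * η⁻¹) (ZG (by rw [map_conj]; exact fr.conj_mem_RZ (ηd i) z2)))).and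
    (Rels.comm (a := w * ⁅η, n⁆ * w⁻¹) (fr.commute_RZ' (by
      rwa [map_conj, map_commutatorElement]) z2))).and
    (Rels.comm (fr.commute_RZ' m3 z2))).and
    (Rels.comm (fr.commute_RZ' (fr.RA_apply x2 (fr.ne i).symm (by rw [neg_neg]; exact e1.symm))
      z2))).and
    (Rels.comm (commutatorElement_eq_one_iff_commute.1 c1.eq_one))).and
    (Rels.eq (a := ⁅x, w * z * w⁻¹⁆) (b := w * n * w⁻¹ * x' * (w * n * w⁻¹)⁻¹ * z') (by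
      rw [map_mul _ _ z', (fr.commute_RZ' (fr.RA_apply r3 (fr.ne i).symm (ne_neg_swap e2))
        (z5 ▸ ⟨_, r2.congr (smul_zero _) rfl⟩)).eq, z5, map_commutatorElement, map_conj w z,
        inv_mul_cancel_right]))).and
    (Rels.comm (a := z) (b := w * z * w⁻¹) (by
      rw [map_conj]
      exact fr.commute_RZ' (fr.RC_apply (fr.RZ_le_RC _ z2) e2) ⟨_, z3⟩))).mono le_rfl
    fun J _ ψ φ e ⟨⟨⟨⟨⟨⟨⟨⟨⟨⟨⟨⟨⟨a1, a2⟩, a3⟩, a4⟩, a5⟩, a6⟩, a7⟩, s1⟩, s2⟩, s3⟩, s4⟩, s5⟩, s6⟩, s7⟩ => ?_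
  have z6 : ψ z' ∈ (ZK ⁅η, n⁆ z).map ψ := ⟨z', z4, rfl⟩
  replace hz := congrArg ψ hz
  simp only [map_mul, map_inv, map_commutatorElement, map_ZK, MonoidHom.map_zpowers]
    at a1 a2 a3 a4 a5 a6 a7 s1 s2 s3 s4 s5 s6 s7 z6 hz
  have hN := h.setN e fun l l1 l2 => by
    rw [(h.box.map e).inj l l1 (levi_eq_one h.S1 h.hi h.hj hI l2)]; exact .one_left _
  have h2 : Set2 fr φ S i j (L.map ψ) (ψ n) (ψ w) (ψ η) ζ :=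
    ⟨hN, hI, ⟨η, ηL, rfl⟩, e η ▸ ηd, e η ▸ η1, hζ, a1, a2, a3⟩
  obtain ⟨A, hA, eA⟩ := h2.aSys (hx J ψ φ e) (fun e' => z0 (by rw [← e, hz, e']; simp)) a4 a5 a6 a7
  obtain ⟨Z, hZ⟩ := h2.zSys hA eA a6 (hx J ψ φ e) (hx₀ J ψ φ e) (hx₁ J ψ φ e)
    (fun e' => y0 (by rw [map_conj, ← e x₁, e']; simp)) hz (by rwa [e]) s1 s2 s3 s4 s5
    ⟨_, hx' J ψ φ e, _, z6, s6⟩ s7
  exact ⟨h2, A, Z, hN, h2.comm, hA, eA, hZ⟩

end two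

variable (V1 : ∀ u ∈ fr.V0, u ≠ 0 → f.B u u ≠ 0 ∧ ∀ u' ∈ fr.V0, ∃ a : F, u' = a • u)
  {u : V} {l : F} (u1 : u ∈ fr.V0) (u0 : u ≠ 0) (hc : IsE (Φ c) (fr.e i) u l)
include u1 u0 hc

omit [Finite I] h in
theorem c_spec : Φ c ∈ fr.RC i ∧ Φ c ∉ fr.RZ i :=
  ⟨⟨u, u1, l, hc⟩, fun ⟨_, e⟩ => u0 (hc.vec_eq e (fr.B_ne' i) (fr.mem_V0.1 u1 _) (f.B_zero_left _)).1⟩

omit [Finite I] u0 in
theorem c_comm : Commute (Φ (w * n * w⁻¹)) (Φ c) ∧ ∀ x ∈ fr.RA i (-j), Commute x (Φ c) :=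
  ⟨fr.commute_RC ⟨u, u1, l, hc⟩ h.m_mv.2.2.2.1 fun _ hv => by
    rw [map_conj]; exact fr.conj_V0 h.wM (fun _ => h.ng.V0) hv, fun x hx =>
    fr.commute_RC ⟨u, u1, l, hc⟩ (fr.RA_apply hx (fr.ne i).symm (by rw [neg_neg]; exact h.ne.symm))
      fun _ => fr.RA_apply_V0 hx⟩

include V1

theorem rels_c3 (h3 : ∀ a b : I, ∃ k, k ≠ a ∧ k ≠ -a ∧ k ≠ b ∧ k ≠ -b) :
    Rels Φ 5 fun _ _ ψ φ => ∀ A Z, USys fr φ S i j (L.map ψ) (ψ n) (ψ w) A Z → ∃ C,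
      CSys fr φ A (MK fr φ S i (L.map ψ) (KN fr φ i (L.map ψ) (ψ n))) C fr.RC ∧ ψ c ∈ C i ∧
        ∀ a, Z a ≤ C a := by
  obtain ⟨c1, c0⟩ := c_spec u1 u0 hc
  obtain ⟨c2, c3⟩ := h.c_comm u1 hc
  obtain ⟨s, s0, hs⟩ := fr.exists_R5 V1 h.ne (h.ne' h.hi h.hj) h.wM h.w1 u1 u0 hc
  obtain ⟨x, x1⟩ := fr.exists_RA (neg_ne_neg_of h.ne) (s * 1)
  have x0 : x ≠ 1 := fun e => fr.e_ne_zero (-j) ((smul_eq_zero.1 ((e ▸ x1).vec_eq (isE_one _)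
    (fr.B_ne' i) (by rw [B_smul_left, fr.B_neg (neg_ne_of (h.ne' h.hi h.hj)), mul_zero])
      (f.B_zero_left _)).1).resolve_left (by simpa))
  obtain ⟨x, rfl, hx⟩ := h.exists_X ⟨_, x1⟩
  refine ((((h.rels_far fun l hl => fr.commute_RC c1 (h.far_fix hl).1 fun _ => fr.Levi_V0 hl).and
    (Rels.comm c2)).and (Rels.comm (c3 _ ⟨_, x1⟩))).and (h.rels_E (a := c⁻¹ * ⁅x, w * c * w⁻¹⁆) (by
      rw [map_mul, map_inv, map_commutatorElement, map_conj]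
      exact hs 1 _ _ l x1 (by rwa [one_smul])))).mono le_rfl
    fun J _ ψ φ e ⟨⟨⟨r0, r1⟩, r2⟩, r3⟩ A Z hU => ?_
  simp only [map_mul, map_inv, map_commutatorElement] at r1 r3
  exact hU.cSys_three V1 (e c ▸ c1) (e c ▸ c0) h3 r0 r1 (hU.conj_X (hx J ψ φ e)).2.1
    (fun e' => x0 (by rw [← e, e', map_one])) r2 (r3 A Z hU)

theorem rels_c2 (hI : ∀ k, k = i ∨ k = -i ∨ k = j ∨ k = -j) (ηL : η ∈ L) (ηd : ∀ k, fr.Mv (Φ η) k k)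
    (η1 : (Φ η).1 (fr.e i) = ζ • fr.e i) (hζ : ∀ t, t ≠ 0 → ∃ k : ℕ, t = ζ ^ k) :
    Rels Φ 9 fun _ _ ψ φ => Set2 fr φ S i j (L.map ψ) (ψ n) (ψ w) (ψ η) ζ →
      ∀ A Z, USys fr φ S i j (L.map ψ) (ψ n) (ψ w) A Z → ∃ C,
      CSys fr φ A (MK fr φ S i (L.map ψ) (KN fr φ i (L.map ψ) (ψ n))) C fr.RC ∧ ψ c ∈ C i ∧
        ∀ a, Z a ≤ C a := by
  have e1 := h.ne
  have e2 := h.ne' h.hi h.hj
  have e4 := neg_ne_neg_of e1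
  obtain ⟨c1, c0⟩ := c_spec u1 u0 hc
  obtain ⟨c2, c3⟩ := h.c_comm u1 hc
  obtain ⟨κM, κd, κ1, κ2, κ3, -⟩ := h.κ_spec ηL ηd
  have κ4 : ⁅Φ η, Φ n⁆.1 _ = _ := (h.set2G hI ηL ηd η1 hζ).κ_apply
  have κ5 : (Φ w * ⁅Φ η, Φ n⁆ * (Φ w)⁻¹).1 _ = _ := conj_apply_smul (φ := .id _) h.w1 κ4
  have κ6 := fun v => fr.conj_V0 (v := v) h.wM κ2
  obtain ⟨s, s0, hs⟩ := fr.exists_R5 V1 e1 e2 h.wM h.w1 u1 u0 hc
  obtain ⟨x₀, p0⟩ := fr.exists_RA e4 (s * 1)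
  obtain ⟨x₁, p1⟩ := fr.exists_RA e4 (s * (uP hF).σ ζ)
  obtain ⟨x₂, p2⟩ := fr.exists_RA e4 (s * ((uP hF).σ ζ * (uP hF).σ ζ))
  obtain ⟨x₀, rfl, hx₀⟩ := h.exists_X ⟨_, p0⟩
  obtain ⟨x₁, rfl, hx₁⟩ := h.exists_X ⟨_, p1⟩
  obtain ⟨x₂, rfl, hx₂⟩ := h.exists_X ⟨_, p2⟩
  obtain ⟨m, m0, hm⟩ := f.unit_exists_isLam_zero
  obtain ⟨z, z1⟩ := exists_isE (fr.Qe i) (f.B_zero_left _) hm
  have z0 : z ≠ 1 := fun e => m0 ((e ▸ z1).vec_eq (isE_one _) (fr.B_ne' i) (f.B_zero_left _)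
    (f.B_zero_left _)).2
  obtain ⟨z, rfl, hz⟩ := h.exists_Z ⟨_, z1⟩
  have ηu := fr.Levi_V0 (h.box.mem η ηL) u1
  have d1 := CE.isE_conj hc η1
  have d2 := CE.isE_conj d1 η1
  rw [ηu] at d1
  rw [ηu, map_smul, ηu, smul_smul] at d2
  refine (((((((((Rels.comm c2).and (Rels.comm (a := w * ⁅η, n⁆ * w⁻¹) (b := c) (by
      rw [map_conj, map_commutatorElement]; exact fr.commute_RC c1 κ3 κ6))).and
    (Rels.comm (c3 _ ⟨_, p0⟩))).and (Rels.comm (c3 _ ⟨_, p1⟩))).and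
    (Rels.comm (a := w * z * w⁻¹) (b := c) (by
      rw [map_conj]
      exact (fr.commute_RZ' (fr.RC_apply c1 e2) (fr.conj_mem_RZ h.w1 ⟨_, z1⟩)).symm))).and
    (h.box.rels (a := ⁅η, n⁆ * (w * ⁅η, n⁆ * w⁻¹)⁻¹) ?_)).and
    (h.rels_E (a := c⁻¹ * ⁅x₀, w * c * w⁻¹⁆) (by
      rw [map_mul, map_inv, map_commutatorElement, map_conj]
      exact hs 1 _ _ l p0 (by rwa [one_smul])))).and
    (h.rels_E (a := (η * c * η⁻¹)⁻¹ * ⁅x₁, w * c * w⁻¹⁆) (by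
      rw [map_mul, map_inv, map_commutatorElement, map_conj w]
      exact hs _ _ _ _ p1 d1))).and
    (h.rels_E (a := (η * (η * c * η⁻¹) * η⁻¹)⁻¹ * ⁅x₂, w * c * w⁻¹⁆) (by
      rw [map_mul, map_inv, map_commutatorElement, map_conj w]
      exact hs _ _ _ _ p2 d2))).mono le_rfl
    fun J _ ψ φ e ⟨⟨⟨⟨⟨⟨⟨⟨r1, r2⟩, r3⟩, r4⟩, r5⟩, r6⟩, r7⟩, r8⟩, r9⟩ h2 A Z hU => ?_
  · have N0 := fr.smul_ne_zero κ4
    obtain ⟨g, g1, g2, g3, g4, -, g5⟩ := fr.exists_torus_A e1 e2 N0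
    rw [map_mul, map_inv, map_conj, map_commutatorElement, ← fr.ext_pos h.S2
      (fr.mem_Mon fun k => ⟨k, g4 k⟩) (mul_mem κM (inv_mem (mul_mem (mul_mem h.wM κM) (inv_mem h.wM))))
      (fun a ha => ?_) fun v hv => by
        rw [g5 v hv, Isom.mul_apply, inv_apply_of_apply (κ6 v hv), κ2 v hv]]
    · exact g1 S h.hi h.hj
    rcases hI a with rfl | rfl | rfl | rfl
    · rw [g2, Isom.mul_apply, inv_apply_of_apply κ3, κ4]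
    · exact (h.S1 _ h.hi ha).elim
    · rw [g3, Isom.mul_apply, inv_apply_smul κ5 N0, map_smul, κ1 _ e1 e2]
    · exact (h.S1 _ h.hj ha).elim
  simp only [map_mul, map_inv, map_commutatorElement] at r1 r2 r5 r6 r7 r8 r9
  exact hU.cSys_two V1 (e c ▸ c1) (e c ▸ c0) h2 r1 r2 (hU.conj_X (hx₀ J ψ φ e)).2.1
    (hU.conj_X (hx₁ J ψ φ e)).2.1 (hU.conj_X (hx₂ J ψ φ e)).2.1 s0 (by rwa [e, ← mul_one s])
    (by rwa [e]) r3 r4 (hU.hZ.conj (mem_sup_right ⟨hU.wL, hU.wM⟩) hU.w1 (hz J ψ φ e A Z hU))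
    (by rw [map_conj, e z]; exact conj_ne_one z0 _) r5 r6 (r7 A Z hU) (r8 A Z hU) (r9 A Z hU)

end HSet

theorem unit_presN [Finite I] (fr : Frame f I) (S1 : ∀ i ∈ S, -i ∉ S) (S2 : ∀ i, i ∈ S ∨ -i ∈ S)
    (hi : i ∈ S) (hj : j ∈ S) (e1 : j ≠ i) {a b : ℕ}
    (hI : (∀ a b : I, ∃ k, k ≠ a ∧ k ≠ -a ∧ k ≠ b ∧ k ≠ -b) ∧ a = 7 ∧ b = 12 ∨
      (∀ k, k = i ∨ k = -i ∨ k = j ∨ k = -j) ∧ a = 15 ∧ b = 24) {g r : ℕ}
    (hL : PresN (fr.Levi S) g r) : ((∀ v ∈ fr.V0, v = 0) → PresN fr.EG (g + 1) (r + a)) ∧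
      ∀ v ∈ fr.V0, f.B v v ≠ 0 → (∀ u ∈ fr.V0, ∃ c : F, u = c • v) → PresN fr.EG (g + 2) (r + b) := by
  have e2 : j ≠ -i := fun e => S1 _ hi (e ▸ hj)
  obtain ⟨n, hn⟩ := fr.exists_NG i
  obtain ⟨w, w0, wM, w1, w2, w3⟩ := fr.exists_swap hi hj e2
  obtain ⟨ζ, ζ0, hζ⟩ := exists_pow_eq (F := F)
  obtain ⟨η, η0, η1, -, ηd, -⟩ := fr.exists_torus_A e1 e2 ζ0
  have LE : fr.Levi S ≤ fr.EG := fr.Levi_le fun a _ b _ _ g hg => fr.RS_le_EG _ _ hg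
  have nE : n ∈ fr.EG := sup_le (fr.RC_le_EG _) (fr.RC_le_EG _) hn.mem
  have gen := fun N (h1 : fr.Levi S ≤ N) (h2 : n ∈ N) => fr.EG_le_of_sign S1 S2 hi h1 h2 hn.M hn.n1
    fun k k1 k2 => .of_eq (fr.RC_sup_fix hn.mem k1 k2)
  have gZ : ∀ N : Subgroup f.Isom, (∀ a b, b ≠ a → b ≠ -a → fr.RS a b ≤ N) → fr.RZ i ≤ N := by
    intro N hN z hz
    obtain ⟨x, hx⟩ := fr.exists_RA e2 1
    obtain ⟨y, hy, rfl⟩ := fr.exists_comm_RZ e1 one_ne_zero hx hz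
    have a := hN i j e1 e2 ⟨_, hx⟩
    have b := hN i (-j) (neg_ne_of e2) (neg_ne_neg_of e1) hy
    exact mul_mem (mul_mem (mul_mem a b) (inv_mem a)) (inv_mem b)
  have set : ∀ {H : Type _} [Group H] {Φ : H →* f.Isom} {K : Subgroup H} {N : H},
      Box Φ K (fr.Levi S) → Φ N = n → ∃ W, HSet fr Φ S i j K N W ∧ ∃ E ∈ K, Φ E = η := by
    intro H _ Φ K N box e
    obtain ⟨W, a, rfl⟩ := box.surj w w0
    exact ⟨W, ⟨S1, S2, hi, hj, e1, box, e ▸ hn, a, wM, w1, w2, fun k a b c d => .of_eq (w3 k a b c d)⟩,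
      box.surj η (η0 S hi hj)⟩
  refine ⟨fun hV => presN_of_rels hL ![n] LE (by simpa) (fun N h1 h2 => ?_) fun H _ Φ K N box e => ?_,
    fun v v1 v2 v3 => ?_⟩
  · refine (gen N h1 (h2 0)).2 fun z ⟨u, hu, l, hz⟩ => gZ N (gen N h1 (h2 0)).1 ⟨l, hV u hu ▸ hz⟩
  · obtain ⟨W, h, E, E1, rfl⟩ := set box (e 0)
    have eZ : fr.RZ = fr.RC := funext fun a =>
      le_antisymm (fr.RZ_le_RC a) fun z ⟨u, hu, l, hz⟩ => ⟨l, hV u hu ▸ hz⟩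
    have fin : ∀ (J : Type _) [Group J] (ψ : H →* J) (φ : J →* f.Isom), (∃ A Z,
        USys fr φ S i j (K.map ψ) (ψ (N 0)) (ψ W) A Z) → (∀ A Z,
        USys fr φ S i j (K.map ψ) (ψ (N 0)) (ψ W) A Z → ψ (N 0) ∈ Z i ⊔ Z (-i)) →
        (∀ M : Subgroup J, K.map ψ ≤ M → (∀ x, ψ (N x) ∈ M) → M = ⊤) → Function.Injective φ :=
      fun J _ ψ φ ⟨A, Z, hU⟩ r top => hU.injective (eZ ▸ hU.hZ) (fun _ => le_rfl) (r A Z hU) (.inl hV)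
        fun M a b _ => top M a (Fin.forall_fin_one.2 b)
    rcases hI with ⟨h3, rfl, -⟩ | ⟨hI, rfl, -⟩
    · exact ((h.rels_three h3).and h.rels_W).mono le_rfl fun J _ ψ φ _ r => fin J ψ φ r.1 r.2
    · exact ((h.rels_two hI E1 ηd η1 hζ).and h.rels_W).mono le_rfl
        fun J _ ψ φ _ r => fin J ψ φ r.1.2 r.2
  have v0 : v ≠ 0 := fun e => v2 (by simp [e])
  have V1 : ∀ u ∈ fr.V0, u ≠ 0 → f.B u u ≠ 0 ∧ ∀ u' ∈ fr.V0, ∃ a : F, u' = a • u := fun u hu u0 => by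
    obtain ⟨a, rfl⟩ := v3 u hu
    have a0 := left_ne_zero_of_smul u0
    exact ⟨by simp [a0, v2], fun u' hu' => let ⟨b, hb⟩ := v3 u' hu'
      ⟨b / a, by rw [hb, smul_smul, div_mul_cancel₀ _ a0]⟩⟩
  obtain ⟨l, hl⟩ := f.exists_isLam v
  obtain ⟨c, hc⟩ := exists_isE (fr.Qe i) (fr.mem_V0.1 v1 i) hl
  refine presN_of_rels hL ![n, c] LE (by simpa using ⟨nE, fr.U_le_EG i ⟨_, _, hc⟩⟩)
    (fun N h1 h2 => (gen N h1 (h2 0)).2 fun z ⟨u, hu, m, hz⟩ => ?_) fun H _ Φ K N box e => ?_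
  · have Z := gZ N (gen N h1 (h2 0)).1
    obtain ⟨a, rfl⟩ := v3 u hu
    by_cases a0 : a = 0
    · exact Z ⟨m, by simpa [a0] using hz⟩
    obtain ⟨g, g1, g2, -, -, -, g3⟩ := fr.exists_torus_A e1 e2 ((uP hF).σ_ne_zero a0)
    have := hc.of_conj g2 ((uP hF).σ_ne_zero a0)
    rw [(uP hF).σσ, g3 v v1] at this
    have g4 := h1 (g1 S hi hj)
    exact (mul_mem_cancel_left (inv_mem (mul_mem (mul_mem g4 (h2 1)) (inv_mem g4)))).1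
      (Z (fr.inv_mul_mem_RZ this hz))
  obtain ⟨W, h, E, E1, rfl⟩ := set box (e 0)
  replace hc : IsE (Φ (N 1)) (fr.e i) v l := e 1 ▸ hc
  have fin : ∀ (J : Type _) [Group J] (ψ : H →* J) (φ : J →* f.Isom), (∃ A Z,
      USys fr φ S i j (K.map ψ) (ψ (N 0)) (ψ W) A Z) → (∀ A Z,
      USys fr φ S i j (K.map ψ) (ψ (N 0)) (ψ W) A Z → ψ (N 0) ∈ Z i ⊔ Z (-i)) → (∀ A Z,
      USys fr φ S i j (K.map ψ) (ψ (N 0)) (ψ W) A Z → ∃ C, CSys fr φ A (MK fr φ S i (K.map ψ)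
        (KN fr φ i (K.map ψ) (ψ (N 0)))) C fr.RC ∧ ψ (N 1) ∈ C i ∧ ∀ a, Z a ≤ C a) →
      (∀ M : Subgroup J, K.map ψ ≤ M → (∀ x, ψ (N x) ∈ M) → M = ⊤) → Function.Injective φ :=
    fun J _ ψ φ ⟨A, Z, hU⟩ r r' top => let ⟨_, a1, a2, a3⟩ := r' A Z hU
      hU.injective a1 a3 (r A Z hU) (.inr ⟨v, v1, v2, v3⟩)
        fun M a b c => top M a (Fin.forall_fin_two.2 ⟨b, c a2⟩)
  rcases hI with ⟨h3, -, rfl⟩ | ⟨hI, -, rfl⟩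
  · exact (((h.rels_three h3).and h.rels_W).and (h.rels_c3 V1 v1 v0 hc h3)).mono le_rfl
      fun J _ ψ φ _ r => fin J ψ φ r.1.1 r.1.2 r.2
  · exact (((h.rels_two hI E1 ηd η1 hζ).and h.rels_W).and (h.rels_c2 V1 v1 v0 hc hI E1 ηd η1 hζ)).mono
      le_rfl fun J _ ψ φ _ r => fin J ψ φ r.1.1.2 r.1.2 (r.2 r.1.1.1)

end Cfsg.Agent.Cls
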