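import Cfsg.Agent.Lib.Cls.UEven

/-!
Root subgroups of unitary groups of rank two from relations.
-/

set_option autoImplicit false

namespace Cfsg.Agent.Cls

open Forms Forms.Form Subgroup
open scoped commutatorElement

section general

variable {F : Type*} [Field F] {P : Param F} {V : Type*} [AddCommGroup V] [Module F V]
  {f : Form P V} {I : Type*} [InvolutiveNeg I] {J : Type*} [Group J]

/-- the group generated by the conjugates of `z` under the powers of `κ` -/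
def ZK {J : Type*} [Group J] (κ z : J) : Subgroup J :=
  closure (Set.range fun k : ℤ => κ ^ k * z * (κ ^ k)⁻¹)

theorem map_ZK {J' : Type*} [Group J'] (ψ : J →* J') (κ z : J) :
    (ZK κ z).map ψ = ZK (ψ κ) (ψ z) := by
  simp [ZK, MonoidHom.map_closure, ← Set.range_comp, Function.comp_def]

theorem mem_ZK (κ z : J) (k : ℤ) : κ ^ k * z * (κ ^ k)⁻¹ ∈ ZK κ z := subset_closure ⟨k, rfl⟩

theorem ZK_le {κ z : J} {N : Subgroup J} (h : ∀ k : ℤ, κ ^ k * z * (κ ^ k)⁻¹ ∈ N) : ZK κ z ≤ N :=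
  (closure_le _).2 (by rintro _ ⟨k, rfl⟩; exact h k)

theorem ZK_le' {κ z : J} {N : Subgroup J} (h : κ ∈ normalizer (N : Set J)) (hz : z ∈ N) :
    ZK κ z ≤ N := ZK_le fun k => (zpow_mem h k z).1 hz

theorem conj_mem_ZK {κ z g : J} (h : Commute g κ) (hz : g * z * g⁻¹ ∈ ZK κ z) {y : J}
    (hy : y ∈ ZK κ z) : g * y * g⁻¹ ∈ ZK κ z := by
  have : ∀ a : ℤ, ∀ y ∈ ZK κ z, κ ^ a * y * (κ ^ a)⁻¹ ∈ ZK κ z := fun a y =>
    conj_mem_of_closure (by rintro _ ⟨b, rfl⟩; convert mem_ZK κ z (a + b) using 1; group)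
  refine conj_mem_of_closure ?_ hy
  rintro _ ⟨k, rfl⟩
  convert this k _ hz using 1
  calc _ = g * κ ^ k * z * (g * κ ^ k)⁻¹ := by group
    _ = _ := by rw [(h.zpow_right k).eq]; group

theorem mem_normalizer_ZK (κ z : J) : κ ∈ normalizer (ZK κ z : Set J) :=
  mem_normalizer_iff.2 fun x => ⟨conj_mem_ZK (.refl κ) (by simpa using mem_ZK κ z 1), fun hx => by
    simpa [mul_assoc] using conj_mem_ZK (Commute.refl κ).inv_left (by simpa using mem_ZK κ z (-1)) hx⟩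

theorem commute_ZK {κ z g : J} (h : Commute g κ) (hz : Commute g z) {y : J} (hy : y ∈ ZK κ z) :
    Commute g y := ZK_le (N := centralizer {g}) (fun k => mem_centralizer_singleton_iff.2
      (((h.zpow_right k).mul_right hz).mul_right (h.zpow_right k).inv_right).symm) hy g rfl

/-- the parameters of the root elements in a subgroup -/
def PA (fr : Frame f I) (φ : J →* f.Isom) (a b : I) (N : Subgroup J) : AddSubgroup F where
  carrier := {u | ∃ y ∈ N, IsE (φ y) (fr.e a) (u • fr.e b) 0}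
  zero_mem' := ⟨1, one_mem _, by simpa using isE_one _⟩
  add_mem' := fun ⟨y, hy, e⟩ ⟨y', hy', e'⟩ => ⟨y * y', mul_mem hy hy', by
    rw [map_mul]
    exact (e.mul (fr.Qe a) e').congr (add_smul _ _ _).symm (by simp [f.B_self_of_Q (fr.Qe b)])⟩
  neg_mem' := fun ⟨y, hy, e⟩ => ⟨y⁻¹, inv_mem hy, by
    rw [map_inv]
    exact (e.inv (fr.Qe a)).congr (neg_smul _ _).symm (by simp)⟩

theorem Box.mem_of_PA {fr : Frame f I} {φ : J →* f.Isom} {a b : I} {X N : Subgroup J}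
    (hX : Box φ X (fr.RS a b)) {y : J} (hy : y ∈ X) {u : F} (h : IsE (φ y) (fr.e a) (u • fr.e b) 0)
    (hu : u ∈ PA fr φ a b (X ⊓ N)) : y ∈ N :=
  let ⟨_, h1, h2⟩ := hu; hX.eq h1.1 hy (h2.eq h) ▸ h1.2

theorem isE_conj_A {fr : Frame f I} {φ : J →* f.Isom} {a b : I} {g x : J} {u c d : F}
    (hx : IsE (φ x) (fr.e a) (u • fr.e b) 0) (h1 : (φ g).1 (fr.e a) = c • fr.e a)
    (h2 : (φ g).1 (fr.e b) = d • fr.e b) :
    IsE (φ (g * x * g⁻¹)) (fr.e a) ((u * (P.σ c * d)) • fr.e b) 0 :=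
  (CE.isE_conj hx h1).congr (by rw [map_smul, h2, smul_smul, smul_smul]; congr 1; ring) (mul_zero _)

theorem span_fixed [Finite F] {ζ : F} (hζ : ∀ t, P.σ t = t → t ≠ 0 → ∃ k : ℕ, t = ζ ^ k)
    (A : AddSubgroup F) {d : F} (h : ∀ k : ℕ, d * (ζ ^ k) ^ 2 ∈ A) {s : F} (hs : P.σ s = s) :
    d * s ∈ A := by
  have := SLn.addSubgroup_eq_top_of_sq (F := P.σ.eqLocusField (RingHom.id F))
    (A.comap ((AddMonoidHom.mulLeft d).comp (Subfield.subtype _).toAddMonoidHom)) one_ne_zero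
    (fun t => by
      by_cases e : t.1 = 0
      · simp [e]
      obtain ⟨k, hk⟩ := hζ t.1 t.2 e
      simpa [hk] using h k) ⟨s, hs⟩
  simpa using this

theorem exists_fixed_coords {α β : F} (h1 : P.σ α ≠ α) (h2 : P.σ β = β) (h3 : β ≠ 0) (u : F) :
    ∃ a b, P.σ a = a ∧ P.σ b = b ∧ u = α * a + β * b := by
  have := sub_ne_zero.2 h1
  have := sub_ne_zero.2 h1.symm
  refine ⟨(u - P.σ u) / (α - P.σ α), (u - α * ((u - P.σ u) / (α - P.σ α))) / β, ?_, ?_, by field_simp; ring⟩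
  · simp only [map_div₀, map_sub, P.σσ]; field_simp; ring
  · simp only [map_div₀, map_sub, map_mul, P.σσ, h2]; field_simp; ring

/-- The data in rank two. -/
structure Set2 (fr : Frame f I) (φ : J →* f.Isom) (S : Set I) (i j : I) (L : Subgroup J)
    (n w η : J) (ζ : F) : Prop extends SetN fr φ S i j L n w where
  hI : ∀ k, k = i ∨ k = -i ∨ k = j ∨ k = -j
  ηL : η ∈ L
  ηd : ∀ k, fr.Mv (φ η) k k
  η1 : (φ η).1 (fr.e i) = ζ • fr.e i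
  hζ : ∀ t, t ≠ 0 → ∃ k : ℕ, t = ζ ^ k
  r1 : Commute n (w * n * w⁻¹)
  r2 : Commute η ⁅η, n⁆
  r3 : Commute n (w * ⁅η, n⁆ * w⁻¹)

variable {fr : Frame f I} {φ : J →* f.Isom} {S : Set I} {i j : I} {L : Subgroup J} {n w η : J}
  {ζ : F}

theorem levi_eq_one (S1 : ∀ i ∈ S, -i ∉ S) (hi : i ∈ S) (hj : j ∈ S)
    (hI : ∀ k, k = i ∨ k = -i ∨ k = j ∨ k = -j) {g : f.Isom} (hg : g ∈ fr.Levi (S \ {i})) : g = 1 := by
  have : ∀ a ∈ S \ {i}, a = j := fun a ha => by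
    rcases hI a with rfl | rfl | rfl | rfl
    exacts [(ha.2 rfl).elim, (S1 _ hi ha.1).elim, rfl, (S1 _ hj ha.1).elim]
  exact fr.Levi_le (N := ⊥) (fun a ha b hb e => (e ((this b hb).trans (this a ha).symm)).elim) hg

namespace Set2

variable [Finite I] (h : Set2 fr φ S i j L n w η ζ)
include h

theorem ηN : η ∈ NL fr φ L := ⟨h.ηL, fr.mem_Mon fun k => ⟨k, h.ηd k⟩⟩

theorem conj_n (k : ℕ) : η ^ k * n * (η ^ k)⁻¹ = ⁅η, n⁆ ^ k * n := by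
  induction k with
  | zero => simp
  | succ k ih =>
    calc _ = η * (η ^ k * n * (η ^ k)⁻¹) * η⁻¹ := by group
      _ = _ := by rw [ih, ← mul_assoc, (h.r2.pow_right k).eq, pow_succ, commutatorElement_def]; group

theorem κK : ⁅η, n⁆ ∈ KN fr φ i L n :=
  mul_mem (conj_mem_KN h.ηN (h.ηd i) mem_KN) (inv_mem mem_KN)

theorem κ_apply : (φ ⁅η, n⁆).1 (fr.e i) = (ζ * P.σ ζ) • fr.e i := by
  obtain ⟨c, hc⟩ := h.n1.inv
  have z0 := fr.smul_ne_zero h.η1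
  have : (φ η)⁻¹.1 (fr.e (-i)) = P.σ ζ • fr.e (-i) := by
    rw [← inv_smul_eq_iff₀ (P.σ_ne_zero z0), ← map_smul, ← fr.apply_neg h.η1 (h.ηd _), Isom.inv_apply]
  simp only [commutatorElement_def, map_mul, map_inv, Isom.mul_apply]
  rw [hc, map_smul, this, smul_comm, ← hc, map_smul, Isom.apply_inv, map_smul, h.η1, smul_smul,
    mul_comm]

variable [Finite F]

theorem exists_pow {l : J} (hl : l ∈ NL fr φ L) (e : fr.Mv (φ l) i i) : ∃ k : ℕ, l = η ^ k := by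
  obtain ⟨t, ht⟩ := e
  obtain ⟨k, rfl⟩ := h.hζ t (fr.smul_ne_zero ht)
  have a1 := mul_mem (inv_mem (pow_mem h.ηN k)) hl
  refine ⟨k, (inv_mul_eq_one.1 (h.box.inj _ a1.1 (levi_eq_one h.S1 h.hi h.hj h.hI
    (fr.Levi_stab h.S1 h.S2 (by simpa using h.hi) (h.box.mem _ a1.1) a1.2 ?_)))).symm⟩
  rintro _ rfl
  rw [map_mul, map_inv, Isom.mul_apply, ht, map_pow, ← apply_pow h.η1, Isom.inv_apply]

theorem commute_N {g l : J} (hg : Commute η g) (hl : l ∈ NL fr φ L) (e : fr.Mv (φ l) i i) :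
    Commute l g := let ⟨k, hk⟩ := h.exists_pow hl e; hk ▸ hg.pow_left k

theorem KN_le {N : Subgroup J} (h1 : n ∈ N) (h2 : ⁅η, n⁆ ∈ N) : KN fr φ i L n ≤ N :=
  (closure_le _).2 (by
    rintro _ ⟨l, l1, l2, rfl⟩
    obtain ⟨k, rfl⟩ := h.exists_pow l1 l2
    exact h.conj_n k ▸ mul_mem (pow_mem h2 k) h1)

theorem wN : w ∈ NL fr φ L := ⟨h.wL, h.wM⟩

theorem η_κ2 : Commute η (w * ⁅η, n⁆ * w⁻¹) := by
  simpa [mul_assoc] using (h.commute_N h.r2 (mul_mem (mul_mem (inv_mem h.wN) h.ηN) h.wN)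
    (Base.mv_mul (Base.mv_mul (Base.mv_inv h.w1) (h.ηd j)) h.w1)).conj w

/-- conjugating twice by `w` -/
theorem conj_w {a b : J} (ha : Commute η a) (e : Commute b (w * a * w⁻¹)) :
    Commute a (w * b * w⁻¹) := by
  have := (e.conj w).symm
  rwa [show w * (w * a * w⁻¹) * w⁻¹ = w * w * a * (w * w)⁻¹ by group, (h.commute_N ha
    (mul_mem h.wN h.wN) (Base.mv_mul h.w2 h.w1)).eq, mul_inv_cancel_right] at this

theorem comm : ∀ k ∈ KN fr φ i L n, ∀ k' ∈ KN fr φ i L n, Commute k (w * k' * w⁻¹) := by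
  have c : ∀ {g}, Commute g (w * n * w⁻¹) → Commute g (w * ⁅η, n⁆ * w⁻¹) →
      ∀ k ∈ KN fr φ i L n, Commute g (w * k * w⁻¹) := fun {g} a b k hk =>
    h.KN_le (N := (centralizer {g}).comap (MulAut.conj w).toMonoidHom)
      (mem_centralizer_singleton_iff.2 a.symm) (mem_centralizer_singleton_iff.2 b.symm) hk g rfl
  exact fun k hk k' hk' => (h.KN_le (N := centralizer {_}) (mem_centralizer_singleton_iff.2
    (c h.r1 h.r3 k' hk')) (mem_centralizer_singleton_iff.2 (c (h.conj_w h.r2 h.r3)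
      (commute_comm h.η_κ2.symm h.r3.symm).symm k' hk')) hk _ rfl).symm

theorem κd (a : I) : fr.Mv (φ ⁅η, n⁆) a a := by
  by_cases e1 : a = i
  · exact e1 ▸ ⟨_, h.κ_apply⟩
  by_cases e2 : a = -i
  · exact e2 ▸ Frame.Mv.neg' (h.KN_mon h.κK) ⟨_, h.κ_apply⟩
  exact .of_eq ((h.setK h.comm).fix _ h.κK a e1 e2)

theorem XL_le {a b : I} (ha : a ∈ S) (hb : b ∈ S) (e : b ≠ a) {x : J} (hx : x ∈ XL fr φ L a b)
    (x0 : x ≠ 1) {N : Subgroup J} (hN : ∀ k : ℕ, η ^ k * x * (η ^ k)⁻¹ ∈ N) : XL fr φ L a b ≤ N := by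
  refine (h.boxX ha hb e).le_of_span hx x0 span_sq ?_
  rintro _ ⟨t, ht, rfl⟩
  obtain ⟨l, l1, -, l2, l3, l4, -⟩ := h.exists_tor ha hb e (P.σ_ne_zero ht)
  obtain ⟨k, rfl⟩ := h.exists_pow l1 (l4 i)
  exact ⟨_, _, _, l2, fr.apply_neg l3 (l4 _), by simp [P.σσ, sq],
    SetN.conj_XL l1 (l4 _) (l4 _) hx, hN k⟩

theorem norm_η {X : Subgroup J} (h1 : ⁅η, n⁆ ∈ normalizer (X : Set J))
    (h2 : η ∈ normalizer (X : Set J)) (r6 : n * n ∈ zpowers ⁅η, n⁆) (k : ℕ) :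
    n⁻¹ * η ^ k * n ∈ normalizer (X : Set J) := by
  have a := (zpowers_le.2 h1) r6
  have := pow_mem (mul_mem (mul_mem (inv_mem a) (mul_mem (inv_mem h1) h2)) a) k
  rwa [show (n * n)⁻¹ * (⁅η, n⁆⁻¹ * η) * (n * n) = n⁻¹ * η * n⁻¹⁻¹ by
    rw [commutatorElement_def]; group, conj_pow, inv_inv] at this

theorem aSys {x : J} (hx : x ∈ XL fr φ L i j) (x0 : x ≠ 1) (r4 : ⁅η, n⁆ * x * ⁅η, n⁆⁻¹ ∈ L)
    (r5 : ⁅η, n⁆ * (w * x * w⁻¹) * ⁅η, n⁆⁻¹ ∈ L) (r6 : n * n ∈ zpowers ⁅η, n⁆)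
    (sym : n * (w * n * w⁻¹) * (w * x * w⁻¹) * (n * (w * n * w⁻¹))⁻¹ ∈ L) :
    ∃ A, ASys fr φ A (MK fr φ S i L (KN fr φ i L n)) ∧
      ∀ a ∈ S, ∀ b ∈ S, b ≠ a → A a (-b) = XL fr φ L a b := by
  have k : ∀ {a b}, a ∈ S → b ∈ S → b ≠ a → ∀ {x}, x ∈ XL fr φ L a b → x ≠ 1 →
      ⁅η, n⁆ * x * ⁅η, n⁆⁻¹ ∈ L → ⁅η, n⁆ ∈ normalizer (XL fr φ L a b : Set J) :=
    fun ha hb e x hx x0 r => h.norm_XL' ha hb e (h.κd _) (h.κd _) (h.XL_le ha hb e hx x0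
      (N := L.comap (MulAut.conj ⁅η, n⁆).toMonoidHom) fun k => by
        change ⁅η, n⁆ * _ * ⁅η, n⁆⁻¹ ∈ L
        convert L.mul_mem (L.mul_mem (pow_mem h.ηL k) r) (L.inv_mem (pow_mem h.ηL k)) using 1
        calc _ = ⁅η, n⁆ * η ^ k * x * (⁅η, n⁆ * η ^ k)⁻¹ := by group
          _ = _ := by rw [← (h.r2.pow_left k).eq]; group)
  have k1 := k h.hi h.hj h.ne hx x0 r4
  have k2 := k h.hj h.hi h.ne.symm (SetN.conj_XL h.wN h.w1 h.w2 hx) (conj_ne_one x0 _) r5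
  refine h.toSetN.aSys h.comm (zpowers_le.2 k1 r6) (zpowers_le.2 k2 r6) (fun t ht => ?_) hx x0 sym
  obtain ⟨l, l1, -, l2, -, l4, -⟩ := h.exists_tor h.hi h.hj h.ne ht
  obtain ⟨k, rfl⟩ := h.exists_pow l1 (l4 i)
  exact ⟨_, l1, l2, l4 j, h.norm_η k1 (SetN.norm_XL h.ηN (h.ηd _) (h.ηd _)) r6 k,
    h.norm_η k2 (SetN.norm_XL h.ηN (h.ηd _) (h.ηd _)) r6 k⟩

end Set2

end general

variable {F : Type*} [Field F] [Fintype F] {q : ℕ} {V : Type*} [AddCommGroup V] [Module F V]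
  {I : Type*} [InvolutiveNeg I] {J : Type*} [Group J] {hF : Fintype.card F = q ^ 2}
  {f : Form (uP hF) V} {fr : Frame f I} {φ : J →* f.Isom} {S : Set I} {i j : I} {L : Subgroup J}
  {n w η : J} {ζ : F} {A : I → I → Subgroup J}

theorem gen_norm (hζ : ∀ t : F, t ≠ 0 → ∃ k : ℕ, t = ζ ^ k) (t : F) (h1 : (uP hF).σ t = t)
    (h2 : t ≠ 0) : ∃ k : ℕ, t = (ζ * (uP hF).σ ζ) ^ k := by
  obtain ⟨s, rfl⟩ := exists_norm_eq hF h1
  obtain ⟨k, rfl⟩ := hζ s (left_ne_zero_of_mul h2)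
  exact ⟨k, by rw [mul_pow, map_pow]; rfl⟩

theorem Set2.zSys [Finite I] (h : Set2 fr φ S i j L n w η ζ)
    (hA : ASys fr φ A (MK fr φ S i L (KN fr φ i L n)))
    (eA : ∀ a ∈ S, ∀ b ∈ S, b ≠ a → A a (-b) = XL fr φ L a b) (r6 : n * n ∈ zpowers ⁅η, n⁆)
    {x x₀ x₁ z : J} (hx : x ∈ XL fr φ L i j) (hx₀ : x₀ ∈ XL fr φ L i j) (hx₁ : x₁ ∈ XL fr φ L i j)
    (x1 : x₁ ≠ 1) (hz : z = ⁅x, w * n * w⁻¹ * x₀ * (w * n * w⁻¹)⁻¹⁆) (z0 : φ z ≠ 1)
    (s1 : η * z * η⁻¹ ∈ ZK ⁅η, n⁆ z) (s2 : Commute (w * ⁅η, n⁆ * w⁻¹) z)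
    (s3 : Commute (w * n * w⁻¹) z) (s4 : Commute x z)
    (s5 : Commute x (w * n * w⁻¹ * x₁ * (w * n * w⁻¹)⁻¹))
    (s6 : ∃ x' ∈ XL fr φ L i j, ∃ z' ∈ ZK ⁅η, n⁆ z,
      ⁅x, w * z * w⁻¹⁆ = w * n * w⁻¹ * x' * (w * n * w⁻¹)⁻¹ * z')
    (s7 : Commute z (w * z * w⁻¹)) :
    ∃ Z, CSys fr φ A (MK fr φ S i L (KN fr φ i L n)) Z fr.RZ := by
  have hK := h.setK h.comm
  have e1 := h.ne
  have e2 := h.ne' h.hi h.hj
  have e3 := neg_ne_of e2
  have e4 := neg_ne_neg_of e1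
  rw [← eA i h.hi j h.hj e1] at hx hx₀ hx₁ s6
  have x0 : x ≠ 1 := by rintro rfl; simp [hz] at z0
  have XN := fun {N} => eA i h.hi j h.hj e1 ▸ h.XL_le h.hi h.hj e1 (eA i h.hi j h.hj e1 ▸ hx) x0 (N := N)
  obtain ⟨m0, m1, m2, m3⟩ := h.m_mv
  have κ1 := h.κ_apply
  have κ2 := h.κK
  have κ3 := h.κd
  have κ4 := h.r2
  have κ5 := h.η_κ2
  have κ6 := h.comm _ κ2 _ κ2
  have κ7 := h.comm _ κ2 _ mem_KN
  have κ8 : Commute ⁅η, n⁆ (w * z * w⁻¹) := h.conj_w κ4 s2.symm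
  have KL := fun {N} => h.KN_le (N := N)
  have nη := fun {X} a b => h.norm_η (X := X) a b r6
  generalize ⁅η, n⁆ = κ at *
  set M := MK fr φ S i L (KN fr φ i L n)
  have wM : w ∈ M := mem_sup_right h.wN
  have ηM : η ∈ M := mem_sup_right h.ηN
  have κM : κ ∈ M := mem_MK_of_K h.hi (hK.mem_K.2 κ2) (h.KN_mon κ2)
  have mM : w * n * w⁻¹ ∈ M :=
    mul_mem (mul_mem wM (mem_MK_of_K h.hi (hK.mem_K.2 mem_KN) h.nM)) (inv_mem wM)
  have τM : κ * (w * κ * w⁻¹) ∈ M := mul_mem κM (mul_mem (mul_mem wM κM) (inv_mem wM))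
  have τ1 : (φ (κ * (w * κ * w⁻¹))).1 (fr.e i) = (ζ * (uP hF).σ ζ) • fr.e i := by
    rw [map_mul, Isom.mul_apply, hK.K_fix h.hj (hK.conj_mem_K κ2) e1.symm (ne_neg_swap e2), κ1]
  have τ2 : (φ (κ * (w * κ * w⁻¹))).1 (fr.e j) = (ζ * (uP hF).σ ζ) • fr.e j := by
    obtain ⟨c, hc⟩ := h.w1.inv
    rw [map_mul, map_mul, map_mul, map_inv, Isom.mul_apply, Isom.mul_apply, Isom.mul_apply, hc,
      map_smul, κ1, smul_comm, ← hc, map_smul, Isom.apply_inv, map_smul, hK.fix κ κ2 j e1 e2]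
  have N0 := fr.smul_ne_zero τ1
  have τz : ∀ k : ℤ, (κ * (w * κ * w⁻¹)) ^ k * z * ((κ * (w * κ * w⁻¹)) ^ k)⁻¹ =
      κ ^ k * z * (κ ^ k)⁻¹ := fun k => by
    rw [κ6.mul_zpow, mul_assoc (κ ^ k), (s2.zpow_left k).eq]; group
  have τz' : ∀ k : ℤ, (κ * (w * κ * w⁻¹)) ^ k * (w * z * w⁻¹) * ((κ * (w * κ * w⁻¹)) ^ k)⁻¹ =
      w * (κ ^ k * z * (κ ^ k)⁻¹) * w⁻¹ := fun k => by
    rw [κ6.eq, κ6.symm.mul_zpow, mul_assoc _ (κ ^ k), (κ8.zpow_left k).eq, conj_zpow]; group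
  have cK : ∀ k ∈ KN fr φ i L n, ∀ y ∈ ZK κ z, Commute (w * k * w⁻¹) y := fun k hk y hy =>
    KL (N := (centralizer {y}).comap (MulAut.conj w).toMonoidHom) (mem_centralizer_singleton_iff.2
      (commute_ZK κ7.symm s3 hy)) (mem_centralizer_singleton_iff.2 (commute_ZK κ6.symm s2 hy))
      hk y rfl |>.symm
  generalize κ * (w * κ * w⁻¹) = τ at *
  have τd : ∀ k : ℤ, fr.Mv (φ (τ ^ k)) i i ∧ fr.Mv (φ (τ ^ k)) j j := fun k =>
    (by simpa [FixP, ← or_iff_not_imp_left] using (zpow_mem (show τ ∈ FixP fr φ {i, j}ᶜ by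
      simpa [FixP, ← or_iff_not_imp_left] using ⟨⟨_, τ1⟩, _, τ2⟩) k))
  have τk : ∀ k : ℤ, τ ^ k ∈ M := zpow_mem τM
  have ηk : ∀ k : ℕ, η ^ k ∈ M ∧ ∀ a, fr.Mv (φ (η ^ k)) a a := fun k =>
    ⟨pow_mem ηM k, fun a => let ⟨c, hc⟩ := h.ηd a; ⟨_, by rw [map_pow]; exact apply_pow hc k⟩⟩
  have nL : ∀ l ∈ NL fr φ L, fr.Mv (φ l) i i → ∀ y ∈ ZK κ z, l * y * l⁻¹ ∈ ZK κ z := fun l l1 l2 => by
    obtain ⟨k, rfl⟩ := h.exists_pow l1 l2
    exact conj_pow_mem (fun y => conj_mem_ZK κ4 s1) k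
  have nL' : η ∈ normalizer (ZK κ z : Set J) := mem_normalizer_iff.2 fun y =>
    ⟨nL η h.ηN (h.ηd i) y, fun hy => by
      simpa [mul_assoc] using nL _ (inv_mem h.ηN) (Base.mv_inv (h.ηd i)) _ hy⟩
  have sC := hK.conj_mem_one' nL (fun k hk k1 y => (h.K_norm (zpowers_le.2 (mem_normalizer_ZK κ z) r6)
    (fun t ht => by
      obtain ⟨k, rfl⟩ := h.hζ t ht
      exact ⟨_, pow_mem h.ηN k, by rw [map_pow]; exact apply_pow h.η1 k, pow_mem nL' k,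
        nη (mem_normalizer_ZK κ z) nL' k⟩) hk.1 k1 y).1)
    fun k hk y hy => conj_mem_of_commute (cK k hk.1 y hy) hy
  obtain ⟨s, s0, hs⟩ := hA.exists_ne e3 e4 hx x0
  have τx : ∀ k : ℤ, τ ^ k * x * (τ ^ k)⁻¹ = x := fun k => by
    refine mul_inv_eq_iff_eq_mul.2 (Commute.zpow_left (mul_inv_eq_iff_eq_mul.1 ((hA.box e3 e4).eq
      (hA.conj τM ⟨_, τ1⟩ (hA.mv_neg τM ⟨_, τ2⟩) hx) hx ?_)) k)
    refine ((isE_conj_A hs τ1 (fr.apply_neg τ2 (hA.mv_neg τM ⟨_, τ2⟩))).congr ?_ rfl).eq hs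
    rw [mul_inv_cancel₀ ((uP hF).σ_ne_zero N0), mul_one]
  have R4 : ∀ y ∈ A i (-j), ∀ c ∈ ZK κ z, Commute y c := by
    have : ZK κ z ≤ centralizer {x} := ZK_le fun k => mem_centralizer_singleton_iff.2 (by
      simpa [τx, τz] using (s4.conj (τ ^ k)).symm.eq)
    intro y hy c hc
    refine (XN (N := centralizer (ZK κ z)) (fun k c hc => ?_) hy c hc).symm
    have := this (sC _ (inv_mem (ηk k).1) (Base.mv_inv ((ηk k).2 i)) c hc) x rfl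
    simpa [mul_assoc] using (Commute.conj this (η ^ k)).eq.symm
  have cY : ∀ {y}, y ∈ A i (-j) → w * n * w⁻¹ * y * (w * n * w⁻¹)⁻¹ ∈ A i j :=
    hA.conj mM (.of_eq m3) m1
  have R4' : ∀ y ∈ A i j, ∀ c ∈ ZK κ z, Commute y c := fun y hy c hc =>
    commute_of_conj (w * n * w⁻¹) (by
      rw [(cK n mem_KN c hc).eq, mul_inv_cancel_right]; exact R4 _ (hA.conj mM (.of_eq m3) m2 hy) c hc)
  have BY := hA.box e1 e2
  have line : ∀ {N : Subgroup J} {y : J} {t : F}, y ∈ A i j → IsE (φ y) (fr.e i) (t • fr.e j) 0 →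
      (∀ k : ℤ, τ ^ k * y * (τ ^ k)⁻¹ ∈ N) → ∀ {a}, frobq hF a = a → t * a ∈ PA fr φ i j (A i j ⊓ N) :=
    fun {N _ _} hy ht hN a => span_fixed (P := uP hF) (gen_norm h.hζ) (PA fr φ i j (A i j ⊓ N)) fun k =>
      ⟨_, ⟨hA.conj (τk k) (τd k).1 (τd k).2 hy, hN k⟩, (isE_conj_A ht
        (by rw [zpow_natCast, map_pow]; exact apply_pow τ1 k)
        (by rw [zpow_natCast, map_pow]; exact apply_pow τ2 k)).congr (by
          rw [map_pow, map_mul, (uP hF).σσ, mul_comm _ ζ, sq]) rfl⟩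
  obtain ⟨t₀, ht₀⟩ := BY.mem _ (cY hx₀)
  obtain ⟨t₁, t1, ht₁⟩ := hA.exists_ne e1 e2 (cY hx₁) (conj_ne_one x1 _)
  set β := frobq hF (s * f.B (fr.e (-j)) (fr.e (- -j)))
  have β0 : β ≠ 0 := (map_ne_zero _).2 (mul_ne_zero s0 (fr.B_ne _))
  have cz : ∀ {y u}, IsE (φ y) (fr.e i) (u • fr.e j) 0 →
      (φ ⁅x, y⁆ = 1 ↔ frobq hF (u * β) = u * β) := fun {y u} hy => by
    have := fr.comm_Z (t := u) hs (by rwa [neg_neg])
    rw [← map_commutatorElement] at this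
    rw [map_mul, frobq_frobq, eq_comm (b := u * β), ← sub_eq_zero (a := u * β)]
    exact ⟨fun e => ((e ▸ this).vec_eq (isE_one _) (fr.B_ne' i) (f.B_zero_left _)
      (f.B_zero_left _)).2, fun e => (this.congr rfl e).eq_one⟩
  have f1 := (cz ht₁).1 (by rw [commutatorElement_eq_one_iff_commute.2 s5, map_one])
  have l1 : ∀ {N : Subgroup J}, (∀ y ∈ A i j, Commute x y → y ∈ N) → ∀ {a}, frobq hF a = a →
      t₁ * a ∈ PA fr φ i j (A i j ⊓ N) := fun hN a => line (cY hx₁) ht₁ fun k =>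
    hN _ (hA.conj (τk k) (τd k).1 (τd k).2 (cY hx₁)) (by simpa only [τx] using s5.conj (τ ^ k))
  have R2 : ∀ y ∈ A i j, ⁅y, x⁆ ∈ ZK κ z := fun y hy => by
    obtain ⟨u, hu⟩ := BY.mem y hy
    obtain ⟨a, b, ha, hb, e⟩ := exists_fixed_coords (P := uP hF) (fun e => z0 (hz ▸ (cz ht₀).2 e)) f1
      (mul_ne_zero t1 β0) (u * β)
    refine (BY.mem_of_PA (N := commSub (A i j) {x} (ZK κ z) fun y hy c hc =>
      conj_mem_of_commute (R4' y hy c hc) hc) hy hu ?_).2 x rfl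
    rw [show u = t₀ * a + t₁ * b from mul_right_cancel₀ β0 (by linear_combination e)]
    refine add_mem (line (cY hx₀) ht₀ (fun k => ?_) ha) (l1 (fun y hy e => ?_) hb)
    · refine ⟨hA.conj (τk k) (τd k).1 (τd k).2 (cY hx₀), ?_⟩
      rintro _ rfl
      rw [conj_comm_fix (τx k)]
      exact sC _ (τk k) (τd k).1 _ (comm_swap_mem (by rw [← hz]; simpa using mem_ZK κ z 0))
    · refine ⟨hy, ?_⟩
      rintro _ rfl
      rw [commutatorElement_eq_one_iff_commute.2 e.symm]; exact one_mem _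
  have mul : ∀ {e e'}, e ∈ A i j → e' ∈ A i j → ⁅x, e * e'⁆ = ⁅x, e⁆ * ⁅x, e'⁆ := fun he he' => by
    rw [comm_mul_right, (R4' _ he _ (comm_swap_mem (R2 _ he'))).eq, mul_inv_cancel_right]
  have box : Box φ (ZK κ z) (fr.RZ i) := by
    let T : Subgroup J :=
      { carrier := {z | ∃ e ∈ A i j, z = ⁅x, e⁆}
        one_mem' := ⟨1, one_mem _, by simp⟩
        mul_mem' := by
          rintro _ _ ⟨e, he, rfl⟩ ⟨e', he', rfl⟩; exact ⟨_, mul_mem he he', (mul he he').symm⟩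
        inv_mem' := by
          rintro _ ⟨e, he, rfl⟩
          exact ⟨_, inv_mem he, inv_eq_of_mul_eq_one_right (by rw [← mul he (inv_mem he)]; simp)⟩ }
    have hT : ZK κ z ≤ T := ZK_le fun k => ⟨_, hA.conj (τk k) (τd k).1 (τd k).2 (cY hx₀), by
      rw [← τz, hz, conj_comm, τx]⟩
    refine ⟨fun c hc e => ?_, fun c hc => ?_, fun g hg => ?_⟩
    · obtain ⟨y, hy, rfl⟩ := hT hc
      obtain ⟨u, hu⟩ := BY.mem y hy
      refine commutatorElement_eq_one_iff_commute.2 (BY.mem_of_PA (N := centralizer {x}) hy hu ?_ x rfl)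
      rw [show u = t₁ * (u * β / (t₁ * β)) by field_simp]
      exact l1 (fun y _ e => mem_centralizer_singleton_iff.2 e.symm)
        (by rw [map_div₀, f1, (cz hu).1 e])
    · obtain ⟨y, hy, rfl⟩ := hT hc
      rw [map_commutatorElement]
      exact fr.comm_mem_RZ ⟨_, _, hs⟩ (fr.RA_subset_U (BY.mem y hy))
    · obtain ⟨y, hy, rfl⟩ := fr.exists_comm_RZ e3 s0 hs hg
      obtain ⟨y, y1, rfl⟩ := BY.surj y (by rwa [neg_neg] at hy)
      exact ⟨_, comm_swap_mem (R2 y y1), map_commutatorElement _ _ _⟩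
  have cW : ∀ {y}, y ∈ CF fr φ i M (ZK κ z) j ↔ w⁻¹ * y * w⁻¹⁻¹ ∈ ZK κ z :=
    ⟨fun hy => hy _ (inv_mem wM) (Base.mv_inv h.w1), fun hy =>
      Base.of_conj_C (inv_mem wM) (Base.mv_inv h.w1) (sC · · · _ hy)⟩
  have R6 : ∀ c ∈ ZK κ z, ∀ y ∈ CF fr φ i M (ZK κ z) j, Commute c y := fun c hc y hy => by
    have := commute_ZK (g := w⁻¹ * c * w⁻¹⁻¹) (commute_of_conj w (by
      simpa [mul_assoc] using (cK κ κ2 c hc).symm)) (commute_of_conj w (by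
        simpa [mul_assoc] using (commute_ZK κ8.symm s7.symm hc).symm)) (cW.1 hy)
    exact commute_of_conj _ this
  have D : ∀ g ∈ M, fr.Mv (φ g) i i → fr.Mv (φ g) j j → ∀ d ∈ A i j ⊔ ZK κ z,
      g * d * g⁻¹ ∈ A i j ⊔ ZK κ z := fun g g1 g2 g3 =>
    (sup_le (fun y hy => mem_sup_left (hA.conj g1 g2 g3 hy))
      (fun y hy => mem_sup_right (sC g g1 g2 y hy)) :
      _ ≤ (A i j ⊔ ZK κ z).comap (MulAut.conj g).toMonoidHom)
  have R2' : ∀ x ∈ A i (-j), ∀ y ∈ A i j, ⁅x, y⁆ ∈ ZK κ z := fun y hy =>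
    (XN (N := commSub (A i (-j)) (A i j) (ZK κ z) fun y hy c hc =>
      conj_mem_of_commute (R4 y hy c hc) hc) (fun k => ⟨hA.conj (ηk k).1 ((ηk k).2 _) ((ηk k).2 _) hx,
        fun y hy => by
          rw [conj_comm_left]
          exact sC _ (ηk k).1 ((ηk k).2 _) _ (comm_swap_mem (R2 _ (hA.conj (inv_mem (ηk k).1)
            (Base.mv_inv ((ηk k).2 _)) (Base.mv_inv ((ηk k).2 _)) hy)))⟩) hy).2
  refine ⟨_, hA.cSys e3 e4 (fun g _ a b e x => fr.conj_mem_RZ e) box sC (by rwa [neg_neg]) ?_ ?_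
    fun c hc y hy => ?_⟩
  · intro a b a1 a2 a3 a4 y hy
    have : a = i ∨ b = i := by
      clear * - h a1 a2 a3 a4
      rcases h.hI a with rfl | rfl | rfl | rfl <;> rcases h.hI b with rfl | rfl | rfl | rfl <;>
        simp_all
    have k : ∀ {b}, b ≠ i → b ≠ -i → ∀ y ∈ A i b, ∀ c ∈ ZK κ z, Commute y c := fun {b} b1 b2 => by
      rcases h.hI b with rfl | rfl | rfl | rfl
      exacts [absurd rfl b1, absurd rfl b2, R4', R4]
    rcases this with rfl | rfl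
    exacts [k a1 a2 y hy, k a1.symm (ne_neg_swap a2) y (hA.sym a1 a2 hy)]
  · rw [neg_neg]
    have zC : w * z * w⁻¹ ∈ CF fr φ i M (ZK κ z) j := cW.2 (by simpa [mul_assoc] using mem_ZK κ z 0)
    have c1 : ∀ c ∈ CF fr φ i M (ZK κ z) j, ∀ d ∈ A i j ⊔ ZK κ z, c * d * c⁻¹ ∈ A i j ⊔ ZK κ z :=
      fun c hc => (sup_le (fun y hy => conj_mem_of_commute (commute_of_conj w⁻¹ (R4' _
        (hA.conj (inv_mem wM) (Base.mv_inv h.w1) (Base.mv_inv h.w2) (hA.sym e1 e2 hy)) _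
        (cW.1 hc)).symm) (mem_sup_left hy)) (fun y hy => conj_mem_of_commute (R6 y hy c hc).symm
          (mem_sup_right hy)) : A i j ⊔ ZK κ z ≤ (A i j ⊔ ZK κ z).comap (MulAut.conj c).toMonoidHom)
    have : CF fr φ i M (ZK κ z) j ≤ commSub (CF fr φ i M (ZK κ z) j) {x} (A i j ⊔ ZK κ z) c1 := by
      intro y hy
      have := ZK_le (N := (commSub _ {x} _ c1).comap (MulAut.conj w).toMonoidHom) (fun k => ?_) (cW.1 hy)
      · simpa [mul_assoc] using this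
      change w * _ * w⁻¹ ∈ commSub _ _ _ c1
      rw [← τz']
      refine ⟨Base.conj_C (τk k) (τd k).2 zC, ?_⟩
      rintro _ rfl
      rw [conj_comm_fix (τx k)]
      obtain ⟨x', a1, c, a3, a5⟩ := s6
      exact D _ (τk k) (τd k).1 (τd k).2 _ (comm_swap_mem
        (a5 ▸ mul_mem (mem_sup_left (cY a1)) (mem_sup_right a3)))
    intro y hy
    refine (XN (N := commSub (A i (-j)) (CF fr φ i M (ZK κ z) j) (A i j ⊔ ZK κ z) fun y hy =>
      (sup_le (fun c hc => conj_mem_of_comm (mem_sup_right (R2' y hy c hc)) (mem_sup_left hc))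
        (fun c hc => conj_mem_of_commute (R4 y hy c hc) (mem_sup_right hc)) :
          _ ≤ (A i j ⊔ ZK κ z).comap (MulAut.conj y).toMonoidHom)) (fun k => ?_) hy).2
    refine ⟨hA.conj (ηk k).1 ((ηk k).2 _) ((ηk k).2 _) hx, fun y hy => ?_⟩
    rw [conj_comm_left]
    exact D _ (ηk k).1 ((ηk k).2 _) ((ηk k).2 _) _ (comm_swap_mem ((this (Base.conj_C
      (inv_mem (ηk k).1) (Base.mv_inv ((ηk k).2 _)) hy)).2 x rfl))
  · rw [commutatorElement_eq_one_iff_commute.2 (R6 c hc y (by rwa [neg_neg] at hy))]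
    exact one_mem _

end Cfsg.Agent.Cls
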