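import Cfsg.Agent.Lib.Cls.UA

/-!
The long root subgroups of unitary groups of rank at least three.
-/

set_option autoImplicit false

namespace Cfsg.Agent.Cls

open Forms Forms.Form Subgroup
open scoped commutatorElement

section general

variable {F : Type*} [Field F] {P : Param F} {V : Type*} [AddCommGroup V] [Module F V]
  {f : Form P V} {I : Type*} [InvolutiveNeg I] {J : Type*} [Group J]

theorem comm_mul_right (x a b : J) : ⁅x, a * b⁆ = ⁅x, a⁆ * (a * ⁅x, b⁆ * a⁻¹) := by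
  simp only [commutatorElement_def]; group

theorem comm_mul_left (a b x : J) : ⁅a * b, x⁆ = a * ⁅b, x⁆ * a⁻¹ * ⁅a, x⁆ := by
  simp only [commutatorElement_def]; group

theorem conj_eq_comm_mul (x y : J) : x * y * x⁻¹ = ⁅x, y⁆ * y := by
  simp only [commutatorElement_def]; group

theorem commute_comm {x a b : J} (ha : Commute x a) (hb : Commute x b) : Commute x ⁅a, b⁆ :=
  ((ha.mul_right hb).mul_right ha.inv_right).mul_right hb.inv_right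

theorem Frame.comm_A (fr : Frame f I) {a b l : I} (h1 : l ≠ a) (h4 : l ≠ -b) (h5 : b ≠ -a)
    {x y : f.Isom} {s u : F} (hx : IsE x (fr.e a) (s • fr.e l) 0)
    (hy : IsE y (fr.e (-l)) (u • fr.e b) 0) :
    IsE ⁅x, y⁆ (fr.e a) (-(s * f.B (fr.e l) (fr.e (-l)) * u) • fr.e b) 0 := by
  have e1 : y.1 (fr.e a) = fr.e a :=
    fr.RA_apply ⟨_, hy⟩ (by rw [neg_neg]; exact h1.symm) (ne_neg_swap h5)
  have e2 : y.1 (fr.e l) = fr.e l + (f.B (fr.e l) (fr.e (-l)) * u) • fr.e b := by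
    rw [hy.app, B_smul_right, fr.B_eq' h4, smul_smul]; simp
  have := (hx.inv (fr.Qe a)).conj y
  rw [e1] at this
  replace this := hx.mul (fr.Qe a) this
  rw [commutatorElement_def, mul_assoc, mul_assoc, ← mul_assoc y]
  refine this.congr ?_ ?_
  · simp only [map_neg, map_smul, e2]; module
  · simp [e2, f.B_self_of_Q (fr.Qe l), fr.B_eq' (ne_neg_swap h4)]

variable {fr : Frame f I} {φ : J →* f.Isom} {A : I → I → Subgroup J} {M : Subgroup J}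

namespace ASys

variable (h : ASys fr φ A M)
include h

theorem exists_isE {a b : I} (h1 : b ≠ a) (h2 : b ≠ -a) (s : F) :
    ∃ x ∈ A a b, IsE (φ x) (fr.e a) (s • fr.e b) 0 := by
  obtain ⟨g, hg⟩ := fr.exists_RA h2 s
  obtain ⟨x, hx, rfl⟩ := (h.box h1 h2).surj g ⟨s, hg⟩
  exact ⟨x, hx, hg⟩

theorem exists_ne {a b : I} (h1 : b ≠ a) (h2 : b ≠ -a) {x : J} (hx : x ∈ A a b) (h0 : x ≠ 1) :
    ∃ s : F, s ≠ 0 ∧ IsE (φ x) (fr.e a) (s • fr.e b) 0 := by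
  obtain ⟨s, hs⟩ := (h.box h1 h2).mem x hx
  exact ⟨s, fun e => h0 ((h.box h1 h2).inj x hx (IsE.eq_one (by simpa [e] using hs))), hs⟩

theorem exists_ne_one {a b : I} (h1 : b ≠ a) (h2 : b ≠ -a) : ∃ x ∈ A a b, x ≠ 1 := by
  obtain ⟨g, hg, g0⟩ := fr.exists_RX_ne_one (.inl h1) h2
  obtain ⟨x, hx, rfl⟩ := (h.box h1 h2).surj g (fr.RX_of_ne h1 ▸ hg)
  exact ⟨x, hx, fun e => g0 (by rw [e, map_one])⟩

theorem R1' {a b c : I} (h1 : b ≠ a) (h2 : b ≠ -a) (h3 : c ≠ a) (h4 : c ≠ -a) (h5 : c ≠ -b) {x y : J}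
    (hx : x ∈ A a b) (hy : y ∈ A a c) : Commute x y :=
  h.R1 h1 h2 h3 h4 (fr.ne a).symm (ne_neg_swap h2) h4 h5 hx hy

theorem hw {a b k : I} (b1 : b ≠ a) (b2 : b ≠ -a) (k1 : k ≠ a) (k2 : k ≠ -a) (k3 : k ≠ b)
    (k4 : k ≠ -b) {p r x : J} (hp : p ∈ A a k) (hr : r ∈ A (-k) (-b)) (hx : x ∈ A a b) :
    ⁅x, r⁆ ∈ A a (-k) ∧ ⁅p, r⁆ ∈ A a (-b) ∧ ⁅x, ⁅p, r⁆⁆ = ⁅p, ⁅x, r⁆⁆ := by
  have a1 := h.R3 b1 b2 (neg_ne_of k2) (neg_ne_neg_of k1) (neg_ne_of k4) (neg_ne_neg_of k3) hx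
    (h.sym (neg_ne_neg_of k3.symm) (neg_ne_neg_of (ne_neg_swap k4)) hr)
  have a2 := h.R3 k1 k2 (neg_ne_of b2) (neg_ne_neg_of b1) k4.symm (neg_ne_neg_of k3.symm) hp hr
  refine ⟨a1, a2, ?_⟩
  have a3 := h.R1' (neg_ne_of k2) (neg_ne_neg_of k1) (neg_ne_of b2) (neg_ne_neg_of b1)
    (by rw [neg_neg]; exact k4.symm) a1 a2
  rw [commutatorElement_def x, conj_comm, (h.R1' b1 b2 k1 k2 k4 hx hp).eq, mul_inv_cancel_right,
    conj_eq_comm_mul x r, comm_mul_right, a3.eq, mul_inv_cancel_right, mul_inv_cancel_right]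

theorem exists_hw {a b k : I} (b1 : b ≠ a) (b2 : b ≠ -a) (k1 : k ≠ a) (k2 : k ≠ -a) (k3 : k ≠ b)
    (k4 : k ≠ -b) {p x y : J} (hp : p ∈ A a k) (p0 : p ≠ 1) (hx : x ∈ A a b) (hy : y ∈ A a (-b)) :
    ∃ e ∈ A a (-k), ⁅x, y⁆ = ⁅p, e⁆ := by
  obtain ⟨d, d0, hd⟩ := h.exists_ne k1 k2 hp p0
  have B := h.box (neg_ne_of b2) (neg_ne_neg_of b1)
  obtain ⟨t, ht⟩ := B.mem y hy
  obtain ⟨r, hr, r1⟩ := h.exists_isE (neg_ne_neg_of k3.symm) (neg_ne_neg_of (ne_neg_swap k4))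
    (-t / (d * f.B (fr.e k) (fr.e (-k))))
  obtain ⟨a1, a2, a3⟩ := h.hw b1 b2 k1 k2 k3 k4 hp hr hx
  refine ⟨_, a1, B.eq a2 hy ?_ ▸ a3⟩
  rw [map_commutatorElement]
  refine ((fr.comm_A k1 (by rwa [neg_neg]) (neg_ne_neg_of b1) hd r1).congr ?_ rfl).eq ht
  rw [mul_div_cancel₀ _ (mul_ne_zero d0 (fr.B_ne k)), neg_neg]

end ASys

end general

variable {F : Type*} [Field F] [Fintype F] {q : ℕ} {V : Type*} [AddCommGroup V] [Module F V]
  {I : Type*} [InvolutiveNeg I] {J : Type*} [Group J] {hF : Fintype.card F = q ^ 2}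
  {f : Form (uP hF) V} {fr : Frame f I} {φ : J →* f.Isom} {A : I → I → Subgroup J} {M : Subgroup J}

theorem Frame.comm_Z (fr : Frame f I) {a b : I} {x y : f.Isom} {s t : F}
    (hx : IsE x (fr.e a) (s • fr.e b) 0) (hy : IsE y (fr.e a) (t • fr.e (-b)) 0) :
    IsE ⁅x, y⁆ (fr.e a) 0 (t * frobq hF (s * f.B (fr.e b) (fr.e (-b))) -
      frobq hF t * (s * f.B (fr.e b) (fr.e (-b)))) :=
  (hx.comm (fr.Qe a) hy).congr rfl (by
    simp only [B_smul_left, unit_B_smul_right, map_mul, f.unit_symm (fr.e b) (fr.e (-b))]; ring)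

theorem Frame.exists_comm_RZ (fr : Frame f I) {a b : I} (h1 : b ≠ a) {x r : f.Isom} {s : F}
    (s0 : s ≠ 0) (hx : IsE x (fr.e a) (s • fr.e b) 0) (hr : r ∈ fr.RZ a) :
    ∃ y ∈ fr.RA a (-b), r = ⁅x, y⁆ := by
  obtain ⟨l, hl⟩ := hr
  obtain ⟨c, rfl⟩ := unit_hZ f (frobq_ne hF) l hl.lam
  have := mul_ne_zero s0 (fr.B_ne b)
  obtain ⟨y, hy⟩ := fr.exists_RA (neg_ne_neg_of h1) (c / frobq hF (s * f.B (fr.e b) (fr.e (-b))))
  refine ⟨y, ⟨_, hy⟩, hl.eq ((fr.comm_Z hx hy).congr rfl ?_)⟩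
  rw [div_mul_cancel₀ _ ((map_ne_zero _).2 this), map_div₀, frobq_frobq, div_mul_cancel₀ _ this]
  simp

theorem CSys.Z_le {Z : I → Subgroup J} (hZ : CSys fr φ A M Z fr.RZ) (h : ASys fr φ A M) {a b : I}
    (h1 : b ≠ a) (h2 : b ≠ -a) {N : Subgroup J} (n1 : A a b ≤ N) (n2 : A a (-b) ≤ N) : Z a ≤ N := by
  intro z hz
  obtain ⟨x, hx, x1⟩ := h.exists_isE h1 h2 1
  obtain ⟨y, hy, e⟩ := fr.exists_comm_RZ h1 one_ne_zero x1 ((hZ.box a).mem z hz)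
  obtain ⟨y, y1, rfl⟩ := (h.box (neg_ne_of h2) (neg_ne_neg_of h1)).surj y hy
  rw [(hZ.box a).eq hz (hZ.R2 h1 h2 hx y1) (by rw [e, map_commutatorElement])]
  exact mul_mem (mul_mem (mul_mem (n1 hx) (n2 y1)) (inv_mem (n1 hx))) (inv_mem (n2 y1))

theorem ASys.zSys (h : ASys fr φ A M) (h3 : ∀ a b : I, ∃ k, k ≠ a ∧ k ≠ -a ∧ k ≠ b ∧ k ≠ -b) :
    ∃ Z, CSys fr φ A M Z fr.RZ := by
  let Z : I → Subgroup J := fun a =>
    closure {z | ∃ b, b ≠ a ∧ b ≠ -a ∧ ∃ x ∈ A a b, ∃ y ∈ A a (-b), z = ⁅x, y⁆}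
  have mZ : ∀ {a b}, b ≠ a → b ≠ -a → ∀ {x}, x ∈ A a b → ∀ {y}, y ∈ A a (-b) → ⁅x, y⁆ ∈ Z a :=
    fun h1 h2 x hx y hy => subset_closure ⟨_, h1, h2, x, hx, y, hy, rfl⟩
  have gen : ∀ {a k p}, k ≠ a → k ≠ -a → p ∈ A a k → p ≠ 1 → ∀ {N : Subgroup J},
      (∀ e ∈ A a (-k), ⁅p, e⁆ ∈ N) → Z a ≤ N := by
    intro a k p k1 k2 hp p0 N hN
    refine (closure_le _).2 ?_
    rintro _ ⟨b, b1, b2, x, hx, y, hy, rfl⟩
    by_cases e : k ≠ b ∧ k ≠ -b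
    · obtain ⟨e, he, e'⟩ := h.exists_hw b1 b2 k1 k2 e.1 e.2 hp p0 hx hy
      exact e' ▸ hN e he
    obtain ⟨l, l1, l2, l3, l4⟩ := h3 a b
    obtain ⟨p', hp', p1⟩ := h.exists_ne_one l1 l2
    obtain ⟨e', he', e1⟩ := h.exists_hw b1 b2 l1 l2 l3 l4 hp' p1 hx hy
    obtain ⟨e, he, e2⟩ := h.exists_hw l1 l2 k1 k2 (fun e' => e (e' ▸ ⟨l3, l4⟩))
      (fun e' => e (e' ▸ ⟨neg_ne_of l4, neg_ne_neg_of l3⟩)) hp p0 hp' he'
    exact e1 ▸ e2 ▸ hN e he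
  have gen' : ∀ {a k}, k ≠ a → k ≠ -a → ∀ {N : Subgroup J},
      (∀ p ∈ A a k, ∀ e ∈ A a (-k), ⁅p, e⁆ ∈ N) → Z a ≤ N := fun k1 k2 N hN =>
    let ⟨p, hp, p0⟩ := h.exists_ne_one k1 k2; gen k1 k2 hp p0 (hN p hp)
  have c1 : ∀ {a b}, b ≠ a → b ≠ -a → ∀ {x}, x ∈ A a b → ∀ {z}, z ∈ Z a → Commute x z := by
    intro a b b1 b2 x hx z hz
    obtain ⟨l, l1, l2, l3, l4⟩ := h3 a b
    exact gen' l1 l2 (N := centralizer {x}) (fun p hp e he => mem_centralizer_singleton_iff.2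
      (commute_comm (h.R1' b1 b2 l1 l2 l4 hx hp) (h.R1' b1 b2 (neg_ne_of l2) (neg_ne_neg_of l1)
        (neg_ne_neg_of l3) hx he)).symm) hz x rfl
  have R4 : ∀ {a b k}, b ≠ a → b ≠ -a → k ≠ -a → k ≠ -b → ∀ {x}, x ∈ A a b → ∀ {z}, z ∈ Z k →
      Commute x z := by
    intro a b k b1 b2 k2 k4 x hx z hz
    by_cases k1 : k = a
    · exact c1 b1 b2 hx (k1 ▸ hz)
    by_cases k3 : k = b
    · exact c1 b1.symm (ne_neg_swap b2) (h.sym b1 b2 hx) (k3 ▸ hz)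
    refine gen' k2.symm (neg_ne_neg_of (Ne.symm k1))
      (N := centralizer {x}) (fun p hp e he => mem_centralizer_singleton_iff.2 ?_) hz x rfl
    rw [neg_neg] at he
    have a1 := h.R3 k2.symm (neg_ne_neg_of (Ne.symm k1)) (Ne.symm k3) (ne_neg_swap k4) b2
      (by rwa [neg_neg]) hp (by rwa [neg_neg])
    have a2 := (h.R1' (Ne.symm k3) (ne_neg_swap k4) (Ne.symm k1) (ne_neg_swap k2) (ne_neg_swap b2)
      (inv_mem a1) he)
    have a3 := c1 (Ne.symm k3) (ne_neg_swap k4) (inv_mem a1)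
      (mZ k2.symm (neg_ne_neg_of (Ne.symm k1)) hp (by rwa [neg_neg]))
    refine (mul_inv_eq_iff_eq_mul.1 ?_).symm
    rw [conj_comm, conj_eq_comm_mul x p, (h.R1 b1 b2 (Ne.symm k1) (ne_neg_swap k2) k2 k4
      (fr.ne a).symm (ne_neg_swap b2) hx he).eq, mul_inv_cancel_right, comm_mul_left,
      ← commutatorElement_inv p, a3.eq, mul_inv_cancel_right,
      commutatorElement_eq_one_iff_commute.2 a2, mul_one]
  have R6 : ∀ {a b}, b ≠ -a → ∀ {x}, x ∈ Z a → ∀ {y}, y ∈ Z b → Commute x y := by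
    intro a b b2 x hx y hy
    obtain ⟨l, l1, l2, l3, l4⟩ := h3 a b
    exact gen' l3 l4 (N := centralizer {x}) (fun p hp e he => mem_centralizer_singleton_iff.2
      (commute_comm (R4 l3 l4 (ne_neg_swap b2) (ne_neg_swap l2) hp hx).symm (R4 (neg_ne_of l4)
        (neg_ne_neg_of l3) (ne_neg_swap b2) (by rw [neg_neg]; exact l1.symm) he hx).symm).symm) hy x rfl
  refine ⟨Z, fun a => ⟨?_, ?_, ?_⟩, fun {m} hm a a' e x hx => conj_mem_of_closure ?_ hx, mZ, R4, ?_,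
    fun _ h2 x hx y hy => ?_⟩
  · obtain ⟨k, k1, k2⟩ := h.two a
    obtain ⟨b, b1, b2, b3, b4⟩ := h3 a k
    obtain ⟨p, hp, p1⟩ := h.exists_isE k1 k2 1
    have B := h.box (neg_ne_of k2) (neg_ne_neg_of k1)
    have mul : ∀ {e e'}, e ∈ A a (-k) → e' ∈ A a (-k) → ⁅p, e * e'⁆ = ⁅p, e⁆ * ⁅p, e'⁆ :=
      fun he he' => by rw [comm_mul_right,
        (c1 (neg_ne_of k2) (neg_ne_neg_of k1) he (mZ k1 k2 hp he')).eq, mul_inv_cancel_right]
    let T : Subgroup J :=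
      { carrier := {z | ∃ e ∈ A a (-k), z = ⁅p, e⁆}
        one_mem' := ⟨1, one_mem _, by simp⟩
        mul_mem' := by rintro _ _ ⟨e, he, rfl⟩ ⟨e', he', rfl⟩; exact ⟨_, mul_mem he he', (mul he he').symm⟩
        inv_mem' := by
          rintro _ ⟨e, he, rfl⟩
          exact ⟨_, inv_mem he, inv_eq_of_mul_eq_one_right (by rw [← mul he (inv_mem he)]; simp)⟩ }
    intro z hz z1
    obtain ⟨e, he, rfl⟩ := gen k1 k2 hp (fun e => by
      have := p1.app (fr.e (-a))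
      simp [e, fr.B_neg k1.symm, fr.B_eq' (neg_ne_neg_of k1.symm), fr.B_ne', fr.e_ne_zero] at this)
      (N := T) (fun e he => ⟨e, he, rfl⟩) hz
    obtain ⟨t, ht⟩ := B.mem e he
    have t1 := fr.comm_Z p1 ht
    rw [← map_commutatorElement, z1] at t1
    replace t1 := (t1.vec_eq (isE_one _) (fr.B_ne' a) (f.B_zero_left _) (f.B_zero_left _)).2
    have n1 := fr.B_ne k
    have n2 := fr.B_ne b
    have n3 := (map_ne_zero (frobq hF)).2 n1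
    obtain ⟨u, hu⟩ := exists_trace_eq (frobq hF) (frobq_frobq hF) (frobq_ne hF)
      (c := -t / f.B (fr.e k) (fr.e (-k))) (by
        rw [map_div₀, map_neg, div_eq_div_iff n3 n1]; simp only [one_mul] at t1; linear_combination t1)
    have v1 := neg_ne_neg_of b3
    have v2 := neg_ne_neg_of b4
    obtain ⟨r, hr, r1⟩ := h.exists_isE v1.symm (neg_ne_neg_of (ne_neg_swap b4))
      (u / f.B (fr.e b) (fr.e (-b)))
    obtain ⟨r', hr', r2⟩ := h.exists_isE (a := - -b) (b := -k) (by rw [neg_neg]; exact b4.symm)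
      (by rw [neg_neg]; exact v1.symm) 1
    have s1 := h.sym v1.symm (neg_ne_neg_of (ne_neg_swap b4)) hr
    have s2 := h.sym (by rw [neg_neg]; exact b4.symm) (by rw [neg_neg]; exact v1.symm) hr'
    have c2 := fun {x} => h.hw b1 b2 k1 k2 b3.symm (ne_neg_swap b4) (x := x) hp s1
    have c3 := fun {x} => h.hw (neg_ne_of b2) (neg_ne_neg_of b1) k1 k2 (ne_neg_swap b4)
      (by rw [neg_neg]; exact b3.symm) (x := x) hp s2
    have x1 := (c2 (one_mem _)).2.1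
    have x2 := (c3 (one_mem _)).2.1
    obtain ⟨d1, -, d2⟩ := c2 (neg_neg b ▸ x2)
    obtain ⟨d3, -, d4⟩ := c3 x1
    rw [B.eq he (mul_mem d1 d3) ?_, mul d1 d3, ← d2, ← d4]
    · rw [← commutatorElement_inv ⁅p, r'⁆, mul_inv_cancel]
    have y1 := fr.comm_A k1 (by rw [neg_neg]; exact b3.symm) (neg_ne_neg_of b1) p1
      (r1.swap (fr.Qe _) (fr.B_neg (neg_ne_of b4)))
    have y2 := fr.comm_A k1 (by rw [neg_neg]; exact ne_neg_swap b4) (by rwa [neg_neg]) p1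
      (r2.swap (fr.Qe _) (fr.B_neg (by rwa [neg_neg])))
    have y3 := fr.comm_A b1 (by rwa [neg_neg]) (neg_ne_neg_of k1) (neg_neg b ▸ y2) r1
    have y4 := fr.comm_A (neg_ne_of b2) v2 (neg_ne_neg_of k1) y1 r2
    simp only [map_mul, map_commutatorElement]
    refine ht.eq ((y3.mul (fr.Qe a) y4).congr ?_ (by simp [f.B_self_of_Q (fr.Qe _)]))
    rw [← add_smul, neg_neg b, f.unit_symm (fr.e b)]
    have := (map_ne_zero (frobq hF)).2 n2
    simp only [Param.unit_σ, Param.unit_ε, map_div₀, map_one]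
    congr 1
    field_simp
    field_simp at hu
    linear_combination -hu
  · exact fun z hz => (closure_le (fr.RZ a |>.comap φ)).2 (by
      rintro _ ⟨b, b1, b2, x, hx, y, hy, rfl⟩
      change φ _ ∈ fr.RZ a
      rw [map_commutatorElement]
      exact fr.comm_mem_RZ (fr.RA_subset_U ((h.box b1 b2).mem x hx))
        (fr.RA_subset_U ((h.box (neg_ne_of b2) (neg_ne_neg_of b1)).mem y hy))) hz
  · intro g hg
    obtain ⟨k, k1, k2⟩ := h.two a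
    obtain ⟨x, hx, x1⟩ := h.exists_isE k1 k2 1
    obtain ⟨y, hy, rfl⟩ := fr.exists_comm_RZ k1 one_ne_zero x1 hg
    obtain ⟨y, y1, rfl⟩ := (h.box (neg_ne_of k2) (neg_ne_neg_of k1)).surj y hy
    exact ⟨_, mZ k1 k2 hx y1, map_commutatorElement _ _ _⟩
  · rintro _ ⟨b, b1, b2, x, hx, y, hy, rfl⟩
    obtain ⟨b', hb⟩ := (h.mon m hm).1 b
    have v := Frame.Mv.valid e hb (h.mv_neg hm e) b1 b2
    rw [conj_comm]
    exact mZ v.1 v.2 (h.conj hm e hb hx) (h.conj hm e (h.mv_neg hm hb) hy)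
  · intro a b b1 b2 x hx z hz
    obtain ⟨k, k1, k2, k3, k4⟩ := h3 a b
    have n1 := neg_ne_of b2
    have n2 := neg_ne_neg_of b1
    have cN : ∀ {g}, (∀ y ∈ A a (-b), Commute g y) → (∀ y ∈ Z a, Commute g y) →
        ∀ d ∈ A a (-b) ⊔ Z a, g * d * g⁻¹ = d := fun {g} g1 g2 d hd =>
      mul_inv_eq_iff_eq_mul.2 ((sup_le (fun y hy => mem_centralizer_singleton_iff.2 (g1 y hy).symm)
        (fun y hy => mem_centralizer_singleton_iff.2 (g2 y hy).symm) : _ ≤ centralizer {g}) hd g rfl)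
    have cZ : ∀ z ∈ Z (-b), ∀ d ∈ A a (-b) ⊔ Z a, z * d * z⁻¹ = d := fun z hz => cN
      (fun y hy => (R4 n1 n2 n2 (fr.ne _).symm hy hz).symm) fun y hy => R6 (by rw [neg_neg]; exact b1.symm) hz hy
    refine comm_swap_mem ((gen' k4 (by rwa [neg_neg]) (N := commSub (Z (-b)) {x} (A a (-b) ⊔ Z a)
      fun z hz d hd => (cZ z hz d hd).symm ▸ hd) (fun p hp e he => ?_) hz).2 x rfl)
    have z0 := mZ k4 (by rwa [neg_neg]) hp he
    refine ⟨z0, fun y hy => comm_swap_mem ?_⟩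
    obtain rfl : y = x := hy
    have p1 := h.R3 b1 b2 k1 k2 k3 k4 hx hp
    have k5 := neg_ne_of k2
    have k6 := neg_ne_neg_of k1
    have e1 := h.R3 b1 b2 k5 k6 (neg_ne_of k4) (neg_ne_neg_of k3) hx he
    have a1 : ⁅p, ⁅y, e⁆⁆ ∈ A a (-b) := comm_swap_mem (h.R3 k5 k6 n1 n2 (neg_ne_neg_of k3.symm)
      (by rw [neg_neg]; exact k4.symm) e1 (by rw [neg_neg]; exact h.sym k4 (by rwa [neg_neg]) hp))
    have a2 := h.R3 k1 k2 n1 n2 k4.symm (neg_ne_neg_of k3.symm) p1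
      (h.sym (neg_ne_neg_of k3) (neg_ne_neg_of k4) he)
    have a3 := cN (fun y hy => h.R1' k1 k2 n1 n2 (neg_ne_neg_of k3.symm) p1 hy) fun y hy => c1 k1 k2 p1 hy
    have a4 := (R4 k1 k2 n2 (neg_ne_neg_of k3.symm) p1 z0).eq
    have a5 := (R4 k5 k6 n2 (by rw [neg_neg]; exact k4.symm) e1 z0).eq
    have a6 := (h.R1' k5 k6 n1 n2 (by rw [neg_neg]; exact k4.symm) e1 a2).eq
    rw [commutatorElement_def y, conj_comm, conj_eq_comm_mul y p, conj_eq_comm_mul y e,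
      comm_mul_left, comm_mul_right, comm_mul_right, a5, a6, mul_inv_cancel_right,
      mul_inv_cancel_right, conj_mul.symm, a3 _ (mem_sup_left a1), a4, mul_inv_cancel_right,
      mul_assoc, mul_assoc, ← mul_assoc ⁅p, e⁆]
    have a7 := mul_mem (mem_sup_right (mZ k1 k2 p1 e1) : _ ∈ A a (-b) ⊔ Z a) (mem_sup_left a2)
    rw [cZ _ z0 _ a7]
    exact mul_mem (mem_sup_left a1) a7
  · rw [commutatorElement_eq_one_iff_commute.2 (R6 h2 hx hy)]; exact one_mem _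

end Cfsg.Agent.Cls
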